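import Mathlib
import Cfsg.Agent.Bld.Tri
import Cfsg.Agent.FS.Defs

/-! Finite Moufang hexagons: the long root groups consist of central elations and form a triangle. -/

set_option autoImplicit false

namespace Cfsg.Agent.Bld

open scoped commutatorElement

universe u

section Gen

variable {Γ : Type*} [Group Γ] {U : ℤ → Subgroup Γ} {n : ℕ} {k : ℤ} {a b m x y : Γ}

theorem hx_snoc (r : ℕ) : ∀ (k : ℤ) {g u : Γ}, g ∈ UP U k r → u ∈ U (k + r) → g * u ∈ UP U k (r + 1) := by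
  induction r with
  | zero => exact fun k g u hg hu => mem_UP_one.2 (by simpa [mem_UP_zero.1 hg] using hu)
  | succ r ih =>
    intro k g u hg hu
    obtain ⟨x, hx, y, hy, rfl⟩ := mem_UP_succ.1 hg
    exact mem_UP_succ.2 ⟨x, hx, _, ih _ hy (mem_U_congr (by push_cast; ring) hu), (mul_assoc ..).symm⟩

theorem hx_inv (c : ℤ) (r : ℕ) :
    ∀ (k : ℤ) {g : Γ}, g ∈ UP U k r → g⁻¹ ∈ UP (fun n => U (c - n)) (c - k - r + 1) r := by
  induction r with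
  | zero => exact fun k g hg => inv_eq_one.2 hg
  | succ r ih =>
    intro k g hg
    obtain ⟨x, hx, y, hy, rfl⟩ := mem_UP_succ.1 hg
    rw [mul_inv_rev, show c - k - (r + 1 : ℕ) + 1 = c - (k + 1) - r + 1 by push_cast; ring]
    exact hx_snoc r _ (ih _ hy) (mem_U_congr (U := U) (by ring) (inv_mem hx))

theorem IsPoly.hx_last (h : IsPoly n U) (r : ℕ) (hr : r < n) :
    ∀ (k : ℤ) {g : Γ}, g ∈ UP U k r → a ∈ U (k + r) → g * a = 1 → a = 1 := by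
  induction r with
  | zero => exact fun k g hg _ e => by rwa [mem_UP_zero.1 hg, one_mul] at e
  | succ r ih =>
    intro k g hg ha e
    obtain ⟨x, hx, y, hy, rfl⟩ := mem_UP_succ.1 hg
    replace ha : a ∈ U (k + 1 + r) := mem_U_congr (by push_cast; ring) ha
    have := h.uniq k x hx _ (UP_mono U (by omega) _ (hx_snoc r _ hy ha)) (by rwa [← mul_assoc])
    rw [this, one_mul] at e
    exact ih (by omega) _ hy ha e

theorem IsPoly.hx_isMu_rev (h : IsPoly n U) (c : ℤ) :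
    IsMu (fun l => U (c - l)) n k a m ↔ IsMu U n (c - k) a m := by
  have e1 : U (c - (k + n)) = U (c - k + n) := by
    rw [← h.per (c - (k + n))]; congr 1; ring
  have e2 : ∀ l, U (c - (2 * k + n - l)) = U (2 * (c - k) + n - (c - l)) := fun l => by
    rw [← h.per (c - (2 * k + n - l))]; congr 1; ring
  simp only [IsMu, e1, e2]
  refine and_congr_right fun _ => ⟨fun H l b => ?_, fun H l b => H _ b⟩
  simpa using H (c - l) b

theorem IsPoly.hx_rev (h : IsPoly n U) (c : ℤ) : IsPoly n (fun l => U (c - l)) where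
  per k := by rw [← h.per (c - (k + 2 * n))]; congr 1; ring
  nt k := h.nt _
  comm k r hr a ha b hb := by
    have := hx_inv c r _ (h.comm (c - (k + r + 1)) r hr b hb a (mem_U_congr (by ring) ha))
    rwa [commutatorElement_inv, show c - (c - (k + r + 1) + 1) - r + 1 = k + 1 by ring] at this
  uniq k a ha b hb e := by
    rcases n with _ | n
    · rwa [mem_UP_zero.1 hb, mul_one] at e
    have h1 := hx_inv c _ _ hb
    simp only [sub_sub_cancel, Nat.add_sub_cancel] at h1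
    exact inv_eq_one.1 (h.hx_last n (by omega) _ h1 (mem_U_congr (by ring) (inv_mem ha))
      (by rw [← mul_inv_rev, e, inv_one]))
  mu k a ha h1 := (h.mu _ a ha h1).imp fun _ hm => (h.hx_isMu_rev c).2 hm

/-- The product of consecutive root groups as a subgroup. -/
theorem IsPoly.hx_sub (h : IsPoly n U) (k : ℤ) (r : ℕ) (hr : r ≤ n) : ∃ H : Subgroup Γ, (∀ g, g ∈ H ↔ g ∈ UP U k r) ∧
    (∀ l, k ≤ l → l < k + r → U l ≤ H) ∧
    ∀ i j, k ≤ i + 1 → i < j → j ≤ k + r → j < i + n → ∀ a ∈ U i, ∀ b ∈ U j, ⁅a, b⁆ ∈ H := by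
  obtain ⟨H, hH⟩ := exists_subgroup_UP U k r fun l s h1 h2 => h.comm l s (by omega)
  have h1 : ∀ l, k ≤ l → l < k + r → U l ≤ H := fun l h1 h2 g hg => by
    obtain ⟨s, rfl⟩ := Int.le.dest h1
    exact hH.ge (mem_UP_of_mem U (by omega) k g hg)
  have h2 : ∀ (s : ℕ) (i : ℤ), k ≤ i → i + s ≤ k + r → ∀ g ∈ UP U i s, g ∈ H := fun s => by
    induction s with
    | zero => exact fun i _ _ g hg => mem_UP_zero.1 hg ▸ one_mem _
    | succ s ih =>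
      intro i h3 h4 g hg
      obtain ⟨x, hx, y, hy, rfl⟩ := mem_UP_succ.1 hg
      exact mul_mem (h1 i h3 (by omega) hx) (ih _ (by omega) (by omega) y hy)
  refine ⟨H, fun g => by rw [← hH]; rfl, h1, fun i j h3 h4 h5 h6 a ha b hb => ?_⟩
  obtain ⟨s, rfl⟩ := Int.le.dest h4
  exact h2 s _ h3 (by omega) _ (h.comm i s (by omega) a ha b (mem_U_congr (by ring) hb))

theorem hx_conj (h : Commute y b) (e : m = x * a * y) : a * b * a⁻¹ = x⁻¹ * (m * b * m⁻¹) * x := by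
  calc _ = a * (y * b * y⁻¹) * a⁻¹ := by rw [h.eq, mul_inv_cancel_right]
    _ = _ := by rw [e]; group

theorem hx_cm (g : Γ) (h : Commute a b) : Commute (g * a * g⁻¹) (g * b * g⁻¹) := by
  change _ * _ = _ * _
  rw [conj_mul, conj_mul, h.eq]

theorem IsMu.hx_comm (h : IsMu U n k a m) (h1 : Commute a b) (h2 : ∀ x ∈ U (k + n), Commute x b) : Commute m b := by
  obtain ⟨x, hx, y, hy, rfl⟩ := h.1
  exact ((h2 x hx).mul_left h1).mul_left (h2 y hy)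

end Gen

variable {Γ : Type u} [Group Γ] {U : ℤ → Subgroup Γ} {k : ℤ} {a b m : Γ}

/-- The central elations in `U k`. -/
def HxV (U : ℤ → Subgroup Γ) (k : ℤ) : Subgroup Γ where
  carrier := {v | v ∈ U k ∧ ∀ l, k - 3 ≤ l → l ≤ k + 3 → ∀ u ∈ U l, Commute v u}
  one_mem' := ⟨one_mem _, fun _ _ _ u _ => Commute.one_left u⟩
  mul_mem' := fun h h' => ⟨mul_mem h.1 h'.1, fun l a b u hu => (h.2 l a b u hu).mul_left (h'.2 l a b u hu)⟩
  inv_mem' := fun h => ⟨inv_mem h.1, fun l a b u hu => (h.2 l a b u hu).inv_left⟩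

theorem IsMu.hx_V {j l : ℤ} (h : IsMu U 6 j a m) (e : 2 * j + 6 - k = l) (hb : b ∈ HxV U k) : m * b * m⁻¹ ∈ HxV U l :=
  ⟨h.conj_mem e hb.1, fun i h1 h2 u hu => by
    simpa [mul_assoc] using hx_cm m (hb.2 (2 * j + 6 - i) (by omega) (by omega) _ (h.conj_mem' (by push_cast; ring) hu))⟩

theorem IsPoly.hx_first {n r : ℕ} (h : IsPoly n U) (hr : r < n) {a' g g' : Γ} (ha : a ∈ U k) (ha' : a' ∈ U k)
    (hg : g ∈ UP U (k + 1) r) (hg' : g' ∈ UP U (k + 1) r) (e : a * g = a' * g') : a = a' ∧ g = g' := by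
  obtain ⟨H, hH, -⟩ := h.hx_sub (k + 1) r hr.le
  have := h.uniq k _ (mul_mem (inv_mem ha') ha) _ (UP_mono U (by omega) _ ((hH _).1 (mul_mem ((hH _).2 hg)
    (inv_mem ((hH _).2 hg'))))) (by rw [mul_assoc, ← mul_assoc a, e]; group)
  obtain rfl := inv_mul_eq_one.1 this
  exact ⟨rfl, mul_left_cancel e⟩

theorem IsPoly.hx_six (h : IsPoly 6 U) {a0 a1 a2 a3 a4 a5 b0 b1 b2 b3 b4 b5 : Γ} (h0 : a0 ∈ U k) (h1 : a1 ∈ U (k + 1))
    (h2 : a2 ∈ U (k + 2)) (h3 : a3 ∈ U (k + 3)) (h4 : a4 ∈ U (k + 4)) (h5 : a5 ∈ U (k + 5))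
    (k0 : b0 ∈ U k) (k1 : b1 ∈ U (k + 1)) (k2 : b2 ∈ U (k + 2)) (k3 : b3 ∈ U (k + 3)) (k4 : b4 ∈ U (k + 4))
    (k5 : b5 ∈ U (k + 5)) (e : a0 * a1 * a2 * a3 * a4 * a5 = b0 * b1 * b2 * b3 * b4 * b5) :
    a0 = b0 ∧ a1 = b1 ∧ a2 = b2 ∧ a3 = b3 ∧ a4 = b4 ∧ a5 = b5 := by
  have c : ∀ {j : ℤ} {r : ℕ} {x y : Γ}, x ∈ U j → ∀ {l : ℤ}, y ∈ UP U l r → j + 1 = l → x * y ∈ UP U j (r + 1) :=
    fun hx _ hy e => mem_UP_succ.2 ⟨_, hx, _, e ▸ hy, rfl⟩
  have f : ∀ {j : ℤ} {r : ℕ} {x y x' y' : Γ}, r < 6 → x ∈ U j → x' ∈ U j → ∀ {l : ℤ}, y ∈ UP U l r → y' ∈ UP U l r →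
      j + 1 = l → x * y = x' * y' → x = x' ∧ y = y' := fun hr hx hx' _ hy hy' e =>
    h.hx_first hr hx hx' (e ▸ hy) (e ▸ hy')
  have p5 := mem_UP_one.2 h5
  have p4 := c h4 p5 (by ring)
  have p3 := c h3 p4 (by ring)
  have p2 := c h2 p3 (by ring)
  have q5 := mem_UP_one.2 k5
  have q4 := c k4 q5 (by ring)
  have q3 := c k3 q4 (by ring)
  have q2 := c k2 q3 (by ring)
  simp only [mul_assoc] at e
  obtain ⟨e0, e⟩ := f (by omega) h0 k0 (c h1 p2 (by ring)) (c k1 q2 (by ring)) rfl e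
  obtain ⟨e1, e⟩ := f (by omega) h1 k1 p2 q2 (by ring) e
  obtain ⟨e2, e⟩ := f (by omega) h2 k2 p3 q3 (by ring) e
  obtain ⟨e3, e⟩ := f (by omega) h3 k3 p4 q4 (by ring) e
  obtain ⟨e4, e⟩ := f (by omega) h4 k4 p5 q5 (by ring) e
  exact ⟨e0, e1, e2, e3, e4, e⟩

theorem hx_three {r : ℤ} {g : Γ} (h : g ∈ UP U r 3) :
    ∃ c ∈ U r, ∃ d ∈ U (r + 1), ∃ e ∈ U (r + 2), g = c * d * e := by
  obtain ⟨c, hc, x, hx, rfl⟩ := mem_UP_succ.1 h
  obtain ⟨d, hd, e, he, rfl⟩ := mem_UP_two.1 hx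
  exact ⟨c, hc, d, hd, e, mem_U_congr (by ring) he, (mul_assoc ..).symm⟩

/-- Conjugating a central elation by an element at distance four. -/
theorem IsPoly.hx_T (h : IsPoly 6 U) (ha : a ∈ HxV U k) (hb : b ∈ U (k + 4)) (hm : IsMu U 6 (k + 4) b m) :
    ∃ c ∈ U (k + 1), b * a * b⁻¹ = a * c * (m * a * m⁻¹) := by
  obtain ⟨x, hx, y, hy, e⟩ := hm.1
  replace hx : x ∈ U (k - 2) := (h.per_mem (by push_cast; ring)).1 hx
  replace hy : y ∈ U (k - 2) := (h.per_mem (by push_cast; ring)).1 hy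
  have h1 := hx_conj (ha.2 _ (by omega) (by omega) y hy).symm e
  have h2 : m * a * m⁻¹ ∈ U (k + 2) := (h.per_mem (l := k + 2) rfl).1 (hm.conj_mem (by push_cast; ring) ha.1)
  generalize m * a * m⁻¹ = a' at h1 h2
  obtain ⟨c3, k3, c4, k4, c5, k5, e1⟩ := hx_three (h.comm k 3 (by omega) _ (inv_mem ha.1) b (mem_U_congr (by ring) hb))
  obtain ⟨d1, l1, d2, l2, d3, l3, e2⟩ := hx_three (h.comm (k - 2) 3 (by omega) _ (inv_mem hx) a' (mem_U_congr (by ring) h2))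
  have e4 : b * a * b⁻¹ = a * (c3 * c4 * c5) := by rw [← e1]; simp only [commutatorElement_def]; group
  have e5 : x⁻¹ * a' * x = d1 * d2 * d3 * a' := by rw [← e2]; simp only [commutatorElement_def]; group
  obtain ⟨-, -, -, e6, e7, -⟩ := h.hx_six (k := k - 1) (one_mem _) (mem_U_congr (by ring) ha.1) (mem_U_congr (by ring) k3)
    (mem_U_congr (by ring) k4) (mem_U_congr (by ring) k5) (one_mem _) (mem_U_congr (by ring) l1) (mem_U_congr (by ring) l2)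
    (mem_U_congr (by ring) l3) (mem_U_congr (by ring) h2) (one_mem _) (one_mem _)
    (by rw [mul_one, mul_one, mul_one, one_mul, ← e5, ← h1, e4]; group)
  exact ⟨c3, k3, by rw [e4, e6, e7]; group⟩

theorem IsPoly.hx_all [Finite Γ] (h : IsPoly 6 U) (ha : a ∈ HxV U k) (h1 : a ≠ 1) (hb : b ∈ U (k + 4)) :
    b ∈ HxV U (k + 4) := by
  have ex : ∀ b ∈ U (k + 4), ∃ c ∈ U (k + 1), ∃ d ∈ HxV U (k + 2), b * a * b⁻¹ = a * c * d ∧ (d = 1 → b = 1) :=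
    fun b hb => by
      by_cases hb1 : b = 1
      · exact ⟨1, one_mem _, 1, one_mem _, by simp [hb1], fun _ => hb1⟩
      obtain ⟨m, hm⟩ := h.mu _ b hb hb1
      obtain ⟨c, hc, e⟩ := h.hx_T ha hb hm
      have h2 := hm.hx_V (l := k + 2 + 12) (by ring) ha
      refine ⟨c, hc, _, ⟨(h.per_mem rfl).1 h2.1, fun l h3 h4 u hu => h2.2 (l + 12) (by omega) (by omega) u
        ((h.per_mem rfl).2 hu)⟩, e, fun e1 => absurd (conj_eq_one_iff.1 e1) h1⟩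
  choose! c hc d hd e1 e2 using ex
  have mul : ∀ v ∈ HxV U (k + 4), ∀ b ∈ U (k + 4), d (v * b) = d v * d b := fun v hv b hb => by
    have h2 := e1 _ (mul_mem hv.1 hb)
    have h3 : v * b * a * (v * b)⁻¹ = v * a * v⁻¹ * (v * (c b * d b) * v⁻¹) := by
      rw [conj_mul, ← mul_assoc a, ← e1 b hb]; group
    rw [h3, ((hv.2 _ (by omega) (by omega) _ (hc b hb)).mul_right (hv.2 _ (by omega) (by omega) _ (hd b hb).1)).eq,
      mul_inv_cancel_right, e1 v hv.1] at h2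
    have h4 := ((hd v hv.1).2 _ (by omega) (by omega) _ (hc b hb)).eq
    exact (h.hx_six (k := k) (a3 := 1) (b3 := 1) (a4 := 1) (b4 := 1) (a5 := 1) (b5 := 1) ha.1 (hc _ (mul_mem hv.1 hb))
      (hd _ (mul_mem hv.1 hb)).1 (one_mem _) (one_mem _) (one_mem _) ha.1 (mul_mem (hc v hv.1) (hc b hb))
      (mul_mem (hd v hv.1).1 (hd b hb).1) (one_mem _) (one_mem _) (one_mem _) (by
        simp only [mul_one]
        rw [← h2, mul_assoc _ (d v), ← mul_assoc (d v), h4]; group)).2.2.1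
  obtain ⟨z, hz, z1⟩ := h.exists_ne k
  obtain ⟨m, hm⟩ := h.mu _ z hz z1
  let f : HxV U (k + 4) → HxV U (k + 4) := fun v => ⟨m * d v * m⁻¹, hm.hx_V (by ring) (hd v v.2.1)⟩
  have hf : Function.Injective f := fun v w e => by
    have h2 : d v = d w := by simpa [f] using e
    have h3 := mul _ (inv_mem v.2) _ w.2.1
    have h4 := mul _ (inv_mem v.2) _ v.2.1
    have h5 := mul 1 (one_mem _) 1 (one_mem _)
    rw [← h2, ← h4, inv_mul_cancel, show d 1 = 1 by simpa using h5] at h3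
    exact Subtype.ext (inv_mul_eq_one.1 (e2 _ (mul_mem (inv_mem v.2.1) w.2.1) h3))
  obtain ⟨v, hv⟩ := Finite.surjective_of_injective hf ⟨_, hm.hx_V (by ring) (inv_mem (hd b hb))⟩
  have h2 : d v = (d b)⁻¹ := by simpa [f] using hv
  have h3 := mul _ v.2 b hb
  rw [h2, inv_mul_cancel] at h3
  rw [eq_inv_of_mul_eq_one_right (e2 _ (mul_mem v.2.1 hb) h3)]
  exact inv_mem v.2

/-- All long root elements are central elations. -/
def HxE (U : ℤ → Subgroup Γ) : Prop := ∀ k l : ℤ, 2 * k - 3 ≤ l → l ≤ 2 * k + 3 → ∀ a ∈ U (2 * k), ∀ b ∈ U l, Commute a b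

theorem IsPoly.hxE [Finite Γ] (h : IsPoly 6 U) (hc : Cen 3 U 0) : HxE U := fun k l h1 h2 a ha => by
  obtain ⟨w, hw, w1, h3⟩ := hc
  obtain ⟨z, hz, z1⟩ := h.exists_ne (k - 5)
  obtain ⟨m, hm⟩ := h.mu _ z hz z1
  have h4 := h.hx_all (hm.hx_V (k := 0) (l := 2 * k - 4) (by ring) ⟨hw, h3⟩) (fun e => w1 (conj_eq_one_iff.1 e))
    (mem_U_congr (by ring) ha)
  exact h4.2 l (by omega) (by omega)

theorem IsMu.hx_tri (h : IsMu U 6 (2 * k) a m) : IsMu (fun l => U (2 * l)) 3 k a m := by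
  obtain ⟨⟨x, hx, y, hy, e⟩, h2⟩ := h
  refine ⟨⟨x, mem_U_congr (by push_cast; ring) hx, y, mem_U_congr (by push_cast; ring) hy, e⟩, fun l b => ?_⟩
  rw [h2, show 2 * (2 * k) + (6 : ℕ) - 2 * l = 2 * (2 * k + (3 : ℕ) - l) by push_cast; ring]

theorem IsPoly.hx_tri (h : IsPoly 6 U) (hE : HxE U) : IsPoly 3 fun l => U (2 * l) where
  per k := by rw [← h.per (2 * k)]; congr 1; push_cast; ring
  nt k := h.nt _
  comm k r hr a ha b hb := by
    obtain rfl | rfl : r = 0 ∨ r = 1 := by omega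
    · exact commutatorElement_eq_one_iff_commute.2 (hE k _ (by push_cast; omega) (by push_cast; omega) a ha b hb)
    rw [mem_UP_one]
    by_cases b1 : b = 1
    · simp [b1]
    by_cases a1 : a = 1
    · simp [a1]
    replace hb : b ∈ U (2 * k + 4) := mem_U_congr (by push_cast; ring) hb
    obtain ⟨m, hm⟩ := h.mu _ b hb b1
    obtain ⟨m', hm'⟩ := h.mu _ a ha a1
    have v : ∀ j, ∀ g ∈ U (2 * j), g ∈ HxV U (2 * j) := fun j g hg => ⟨hg, fun l h1 h2 => hE j l h1 h2 g hg⟩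
    obtain ⟨c, hc, e⟩ := h.hx_T (v k _ (inv_mem ha)) hb hm
    have h1 : m * a⁻¹ * m⁻¹ ∈ U (2 * k + 2) :=
      (h.per_mem (l := 2 * k + 2) rfl).1 (hm.conj_mem (by push_cast; ring) (inv_mem ha))
    have e1 : ⁅a, b⁆ = c * (m * a⁻¹ * m⁻¹) := by
      rw [← mul_right_inj a⁻¹, ← mul_assoc, ← e]; simp only [commutatorElement_def]; group
    obtain ⟨x, hx, y, hy, e2⟩ := hm'.1
    have e3 := hx_conj (hE (k + 2) _ (by push_cast; omega) (by push_cast; omega) b (mem_U_congr (by ring) hb) y hy).symm e2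
    have h2 : m' * b * m'⁻¹ ∈ U (2 * k + 2) := hm'.conj_mem (by push_cast; ring) hb
    obtain ⟨H, hH, h3, h4⟩ := h.hx_sub (2 * k + 1 + 1) 5 (by omega)
    have h5 := h.uniq _ c hc (m * a⁻¹ * m⁻¹ * b * ((m' * b * m'⁻¹) * ⁅(m' * b * m'⁻¹)⁻¹, x⁻¹⁆)⁻¹) ((hH _).1 (mul_mem
      (mul_mem (h3 _ (by omega) (by omega) h1) (h3 _ (by omega) (by omega) hb)) (inv_mem (mul_mem
        (h3 _ (by omega) (by omega) h2) (h4 _ _ (by omega) (by omega) (by omega) (by omega) _ (inv_mem h2) _ (inv_mem hx))))))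
      (by rw [← mul_assoc, ← mul_assoc, ← e1, mul_inv_eq_one]
          calc _ = a * b * a⁻¹ := by simp only [commutatorElement_def]; group
            _ = _ := by rw [e3]; simp only [commutatorElement_def]; group)
    rw [e1, h5, one_mul]
    exact mem_U_congr (by ring) h1
  uniq k a ha b hb e := by
    obtain ⟨c, hc, d, hd, rfl⟩ := mem_UP_two.1 hb
    exact (h.hx_six ha (one_mem _) (mem_U_congr (by ring) hc) (one_mem _) (mem_U_congr (by ring) hd) (one_mem _)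
      (one_mem _) (one_mem _) (one_mem _) (one_mem _) (one_mem _) (one_mem _) (by simpa [mul_assoc] using e)).1
  mu k a ha h1 := (h.mu _ a ha h1).imp fun _ hm => hm.hx_tri

/-- Coordinates for the long root groups, and the homotheties. -/
structure Hx0 (U : ℤ → Subgroup Γ) {F : Type*} [Field F] (x0 x2 x4 g : F → Γ) : Prop where
  poly : IsPoly 6 U
  ev : HxE U
  p0 : IsPar (U 0) x0
  p2 : IsPar (U 2) x2
  p4 : IsPar (U 4) x4
  c04 : ∀ t s, ⁅x0 t, x4 s⁆ = x2 (t * s)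
  mu0 : ∀ t m, t ≠ 0 → IsMu U 6 0 (x0 t) m →
    (∀ b, m * x4 b * m⁻¹ = x2 (t * b)) ∧ ∀ c, m * x2 c * m⁻¹ = x4 (-t⁻¹ * c)
  mu4 : ∀ t m, t ≠ 0 → IsMu U 6 4 (x4 t) m →
    (∀ a, m * x0 a * m⁻¹ = x2 (-t * a)) ∧ ∀ c, m * x2 c * m⁻¹ = x0 (t⁻¹ * c)
  gN : ∀ t, t ≠ 0 → ∀ l, ∀ b ∈ U l, g t * b * (g t)⁻¹ ∈ U l
  g0 : ∀ t, t ≠ 0 → ∀ s, g t * x0 s * (g t)⁻¹ = x0 (t * s)
  g2 : ∀ t, t ≠ 0 → ∀ s, g t * x2 s * (g t)⁻¹ = x2 (t * t * s)
  g4 : ∀ t, t ≠ 0 → ∀ s, g t * x4 s * (g t)⁻¹ = x4 (t * s)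
  g5 : ∀ t, t ≠ 0 → ∀ a, a ∈ U 5 ∨ a ∈ U (-1) → Commute (g t) a

theorem Hx0.rev {F : Type*} [Field F] {x0 x2 x4 g : F → Γ} (h : Hx0 U x0 x2 x4 g) :
    Hx0 (fun l => U (4 - l)) x4 (fun c => x2 (-c)) x0 g where
  poly := h.poly.hx_rev 4
  ev k l h1 h2 a ha b hb := h.ev (2 - k) (4 - l) (by omega) (by omega) a (mem_U_congr (by ring) ha) b hb
  p0 := h.p4
  p2 := ⟨fun a b => by rw [neg_add, h.p2.add], fun a b e => neg_injective (h.p2.inj e), fun g =>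
    (h.p2.mem g).trans ⟨fun ⟨a, e⟩ => ⟨-a, by rwa [neg_neg]⟩, fun ⟨a, e⟩ => ⟨-a, e⟩⟩⟩
  p4 := h.p0
  c04 t s := by rw [← commutatorElement_inv, h.c04, h.p2.neg, mul_comm]
  mu0 t m ht hm := by
    obtain ⟨h1, h2⟩ := h.mu4 t m ht ((h.poly.hx_isMu_rev 4).1 hm)
    exact ⟨fun b => by rw [h1, neg_mul], fun c => by rw [h2, mul_neg, neg_mul]⟩
  mu4 t m ht hm := by
    obtain ⟨h1, h2⟩ := h.mu0 t m ht ((h.poly.hx_isMu_rev 4).1 hm)
    exact ⟨fun b => by rw [h1, neg_mul, neg_neg], fun c => by rw [h2, neg_mul_neg]⟩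
  gN t ht l := h.gN t ht _
  g0 := h.g4
  g2 t ht s := by rw [h.g2 t ht, mul_neg]
  g4 := h.g0
  g5 t ht a ha := h.g5 t ht a ha.symm

theorem IsPoly.hx0 [Finite Γ] (h : IsPoly 6 U) (hc : Cen 3 U 0) :
    ∃ (F : Type u) (_ : Field F) (_ : Finite F) (x0 x2 x4 g : F → Γ), Hx0 U x0 x2 x4 g := by
  have hE := h.hxE hc
  have h3 := h.hx_tri hE
  obtain ⟨z, hz, z1⟩ := h3.exists_ne 0
  obtain ⟨F, _, _, x0, x2, x4, c, -⟩ := h3.tri_coord hz z1
  obtain ⟨n, hn⟩ := h.mu 0 _ (c.p0.apply_mem 1) (c.p0.eq_one.not.2 one_ne_zero)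
  choose! M hM using fun (t : F) (ht : t ≠ 0) => h.mu 4 _ (c.p2.apply_mem t) (c.p2.eq_one.not.2 ht)
  obtain ⟨n1, n2⟩ := c.mu0 1 n one_ne_zero (hn.hx_tri (k := 0))
  have M1 := fun t ht => c.mu2 t _ ht ((hM t ht).hx_tri (k := 2))
  have cc : ∀ g a b : Γ, g * ⁅a, b⁆ * g⁻¹ = ⁅g * a * g⁻¹, g * b * g⁻¹⁆ := fun g a b => by
    simp only [commutatorElement_def]; group
  have kN : ∀ t, t ≠ 0 → ∀ l, ∀ b ∈ U l, M t * (M 1)⁻¹ * b * (M t * (M 1)⁻¹)⁻¹ ∈ U l := fun t ht l b hb => by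
    simpa [mul_assoc] using (hM t ht).conj_mem (l' := l) (sub_sub_cancel _ _)
      ((hM 1 one_ne_zero).conj_mem' (sub_sub_cancel _ _) hb)
  have k2 : ∀ t, t ≠ 0 → ∀ s, M t * (M 1)⁻¹ * x2 s * (M t * (M 1)⁻¹)⁻¹ = x2 (t * s) := fun t ht s => by
    have e1 := (M1 1 one_ne_zero).1 (-s)
    have e2 := (M1 t ht).1 (-s)
    rw [neg_mul_neg, one_mul] at e1
    rw [neg_mul_neg] at e2
    rw [← e1, ← e2]; group
  have k0 : ∀ t, t ≠ 0 → ∀ s, M t * (M 1)⁻¹ * x0 s * (M t * (M 1)⁻¹)⁻¹ = x0 (t⁻¹ * s) := fun t ht s => by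
    have e1 := (M1 1 one_ne_zero).2 s
    rw [inv_one, one_mul] at e1
    rw [← (M1 t ht).2 s, ← e1]; group
  have k4 : ∀ t, t ≠ 0 → ∀ s, M t * (M 1)⁻¹ * x4 s * (M t * (M 1)⁻¹)⁻¹ = x4 (t * t * s) := fun t ht s => by
    obtain ⟨b, hb⟩ := (c.p2.mem _).1 (kN t ht 4 _ (c.p2.apply_mem s))
    have := cc (M t * (M 1)⁻¹) (x0 1) (x4 s)
    rw [← hb, k0 t ht, c.comm, c.comm, k2 t ht] at this
    rw [← hb, ← mul_inv_cancel_left₀ ht b, ← mul_one t⁻¹, ← c.p1.inj this, one_mul, mul_assoc]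
  have gN : ∀ t, t ≠ 0 → ∀ l, ∀ b ∈ U l, n * (M t * (M 1)⁻¹) * n⁻¹ * b * (n * (M t * (M 1)⁻¹) * n⁻¹)⁻¹ ∈ U l :=
    fun t ht l b hb => by
      simpa [mul_assoc] using hn.conj_mem (l' := l) (sub_sub_cancel _ _) (kN t ht _ _ (hn.conj_mem' (sub_sub_cancel _ _) hb))
  have g2 : ∀ t, t ≠ 0 → ∀ s, n * (M t * (M 1)⁻¹) * n⁻¹ * x2 s * (n * (M t * (M 1)⁻¹) * n⁻¹)⁻¹ = x2 (t * t * s) :=
    fun t ht s => by
      rw [← one_mul (t * t * s), ← n1, ← k4 t ht, ← one_mul s, ← n1, one_mul]; group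
  have g4 : ∀ t, t ≠ 0 → ∀ s, n * (M t * (M 1)⁻¹) * n⁻¹ * x4 s * (n * (M t * (M 1)⁻¹) * n⁻¹)⁻¹ = x4 (t * s) :=
    fun t ht s => by
      have e1 := n2 (-s)
      have e2 := n2 (t * -s)
      rw [inv_one, neg_mul_neg, one_mul] at e1
      rw [inv_one, mul_neg, neg_mul_neg, one_mul, ← mul_neg] at e2
      rw [← e2, ← k2 t ht, ← e1]; group
  have cM : ∀ t, t ≠ 0 → ∀ b, b ∈ U 1 ∨ b ∈ U 7 → Commute (M t) b := fun t ht b hb =>
    (hM t ht).hx_comm (hb.elim (hE 2 1 (by omega) (by omega) _ (c.p2.apply_mem t) b)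
      (hE 2 7 (by omega) (by omega) _ (c.p2.apply_mem t) b)) fun x hx => hb.elim
        (fun hb => hE 5 13 (by omega) (by omega) x hx b ((h.per_mem (l := 1) rfl).2 hb)) (hE 5 7 (by omega) (by omega) x hx b)
  refine ⟨F, inferInstance, inferInstance, x0, x2, x4, fun t => n * (M t * (M 1)⁻¹) * n⁻¹, h, hE, c.p0, c.p1, c.p2, c.comm,
    fun t m ht hm => c.mu0 t m ht (hm.hx_tri (k := 0)), fun t m ht hm => c.mu2 t m ht (hm.hx_tri (k := 2)), gN,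
    fun t ht s => ?_, g2, g4, fun t ht a ha => ?_⟩
  · obtain ⟨b, hb⟩ := (c.p0.mem _).1 (gN t ht 0 _ (c.p0.apply_mem s))
    have := cc (n * (M t * (M 1)⁻¹) * n⁻¹) (x0 s) (x4 1)
    rw [← hb, g4 t ht, c.comm, c.comm, g2 t ht] at this
    rw [← hb, mul_right_cancel₀ ht (show b * t = t * s * t by linear_combination -c.p1.inj this)]
  · have h1 : n⁻¹ * a * n ∈ U 1 ∨ n⁻¹ * a * n ∈ U 7 := ha.imp (hn.conj_mem' rfl) (hn.conj_mem' rfl)
    simpa [mul_assoc] using hx_cm n ((cM t ht _ h1).mul_left (cM 1 one_ne_zero _ h1).inv_left)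

end Cfsg.Agent.Bld
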