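import Mathlib
import Cfsg.Agent.FS.HexA

/-! Finite Moufang hexagons: the short root groups are vector spaces; the normal form in `U₀ U₁ U₂ U₃ U₄`. -/

set_option autoImplicit false

namespace Cfsg.Agent.Bld

open scoped commutatorElement

universe u

variable {Γ : Type u} [Group Γ] {U : ℤ → Subgroup Γ} {F : Type*} [Field F] {x0 x2 x4 g : F → Γ}

/-- `x` is an isomorphism from the additive group `A` onto `P`. -/
structure HxP {A : Type*} [AddCommGroup A] (P : Subgroup Γ) (x : A → Γ) : Prop where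
  add : ∀ a b, x (a + b) = x a * x b
  inj : Function.Injective x
  mem : ∀ g, g ∈ P ↔ ∃ a, x a = g

namespace HxP

variable {A : Type*} [AddCommGroup A] {P : Subgroup Γ} {x : A → Γ} (h : HxP P x)
include h

theorem zero : x 0 = 1 := by simpa using h.add 0 0

theorem neg (a : A) : x (-a) = (x a)⁻¹ := eq_inv_of_mul_eq_one_left (by rw [← h.add, neg_add_cancel, h.zero])

theorem ap (a : A) : x a ∈ P := (h.mem _).2 ⟨a, rfl⟩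

theorem card : Nat.card P = Nat.card A :=
  (Nat.card_congr (Equiv.ofBijective (fun a => (⟨x a, h.ap a⟩ : P))
    ⟨fun _ _ e => h.inj (congrArg Subtype.val e), fun g => ((h.mem g).1 g.2).imp fun _ e => Subtype.ext e⟩)).symm

end HxP

theorem IsPar.hxP {P : Subgroup Γ} {x : F → Γ} (h : IsPar P x) : HxP P x := ⟨h.add, h.inj, h.mem⟩

theorem hx_mod (P : Subgroup Γ) (sm : F → Γ → Γ) (h1 : ∀ t, ∀ u ∈ P, sm t u ∈ P)
    (h2 : ∀ t, ∀ u ∈ P, ∀ v ∈ P, sm t (u * v) = sm t u * sm t v)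
    (h3 : ∀ s t, ∀ u ∈ P, sm (s + t) u = sm s u * sm t u) (h4 : ∀ s t, ∀ u ∈ P, sm (s * t) u = sm s (sm t u))
    (h5 : ∀ u ∈ P, sm 1 u = u) : ∃ (A : Type u) (_ : AddCommGroup A) (_ : Module F A) (x : A → Γ),
      HxP P x ∧ ∀ (t : F) a, x (t • a) = sm t (x a) := by
  have hc : ∀ u v : P, u * v = v * u := fun u v => Subtype.ext (by
    have e := h2 (1 + 1) u u.2 v v.2
    rw [h3 _ _ _ (mul_mem u.2 v.2), h3 _ _ _ u.2, h3 _ _ _ v.2, h5 _ (mul_mem u.2 v.2), h5 _ u.2, h5 _ v.2] at e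
    simp only [mul_assoc, mul_right_inj] at e
    rw [← mul_assoc, ← mul_assoc, mul_left_inj] at e
    exact e.symm)
  let _i : CommGroup P := { (inferInstance : Group P) with mul_comm := hc }
  let _j : SMul F (Additive P) := ⟨fun t a => Additive.ofMul ⟨sm t a.toMul, h1 t _ a.toMul.2⟩⟩
  exact ⟨Additive P, inferInstance, Module.ofMinimalAxioms
    (fun t a b => Subtype.ext (h2 t _ a.toMul.2 _ b.toMul.2)) (fun s t a => Subtype.ext (h3 s t _ a.toMul.2))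
    (fun s t a => Subtype.ext (h4 s t _ a.toMul.2)) (fun a => Subtype.ext (h5 _ a.toMul.2)), fun a => a.toMul,
    ⟨fun _ _ => rfl, fun _ _ e => Subtype.ext e, fun g => ⟨fun hg => ⟨Additive.ofMul ⟨g, hg⟩, rfl⟩,
      fun ⟨a, e⟩ => e ▸ a.toMul.2⟩⟩, fun _ _ => rfl⟩

theorem hx_cj (g a b : Γ) : g * (a * b) * g⁻¹ = g * a * g⁻¹ * (g * b * g⁻¹) := conj_mul.symm

theorem hx_cc (g a b : Γ) : g * ⁅a, b⁆ * g⁻¹ = ⁅g * a * g⁻¹, g * b * g⁻¹⁆ := by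
  simp only [commutatorElement_def]; group

namespace Hx0

variable (h : Hx0 U x0 x2 x4 g)
include h

theorem e0 {a b : Γ} (l : ℤ) (ha : a ∈ U 0) (hb : b ∈ U l) (h1 : -3 ≤ l := by omega) (h2 : l ≤ 3 := by omega) :
    Commute a b := h.ev 0 l h1 h2 a ha b hb

theorem e2 {a b : Γ} (l : ℤ) (ha : a ∈ U 2) (hb : b ∈ U l) (h1 : -1 ≤ l := by omega) (h2 : l ≤ 5 := by omega) :
    Commute a b := h.ev 1 l h1 h2 a ha b hb

theorem e4 {a b : Γ} (l : ℤ) (ha : a ∈ U 4) (hb : b ∈ U l) (h1 : 1 ≤ l := by omega) (h2 : l ≤ 7 := by omega) :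
    Commute a b := h.ev 2 l h1 h2 a ha b hb

theorem e6 {a b : Γ} (l : ℤ) (ha : a ∈ U 6) (hb : b ∈ U l) (h1 : 3 ≤ l := by omega) (h2 : l ≤ 9 := by omega) :
    Commute a b := h.ev 3 l h1 h2 a ha b hb

theorem m13 {a b : Γ} (ha : a ∈ U 1) (hb : b ∈ U 3) : ⁅a, b⁆ ∈ U 2 := h.poly.comm1 (by omega) rfl rfl ha hb

theorem raw {a0 a1 a2 a3 a4 b0 b1 b2 b3 : Γ} (b4 : Γ) (h1 : a1 ∈ U 1) (h2 : a2 ∈ U 2) (h3 : a3 ∈ U 3) (h4 : a4 ∈ U 4)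
    (k0 : b0 ∈ U 0) (k1 : b1 ∈ U 1) (k2 : b2 ∈ U 2) (k3 : b3 ∈ U 3) :
    ⁅b1, a3⁆⁻¹ * ⁅b0, a4⁆⁻¹ ∈ U 2 ∧ a0 * a1 * a2 * a3 * a4 * (b0 * b1 * b2 * b3 * b4) =
      a0 * b0 * (a1 * b1) * (a2 * b2 * (⁅b1, a3⁆⁻¹ * ⁅b0, a4⁆⁻¹)) * (a3 * b3) * (a4 * b4) := by
  have m1 := inv_mem (h.m13 k1 h3)
  have m2 : ⁅b0, a4⁆⁻¹ ∈ U 2 := by
    obtain ⟨t, rfl⟩ := (h.p0.mem _).1 k0
    obtain ⟨s, rfl⟩ := (h.p4.mem _).1 h4
    rw [h.c04]; exact inv_mem (h.p2.apply_mem _)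
  have r1 : ∀ c, a3 * (b1 * c) = b1 * (⁅b1, a3⁆⁻¹ * (a3 * c)) := fun c => by
    rw [← (h.e2 1 m1 k1).left_comm]; simp only [commutatorElement_def]; group
  have r2 : ∀ c, a4 * (b0 * c) = b0 * (⁅b0, a4⁆⁻¹ * (a4 * c)) := fun c => by
    rw [← (h.e2 0 m2 k0).left_comm]; simp only [commutatorElement_def]; group
  refine ⟨mul_mem m1 m2, ?_⟩
  generalize ⁅b1, a3⁆⁻¹ = z1 at m1 r1
  generalize ⁅b0, a4⁆⁻¹ = z2 at m2 r2
  simp only [mul_assoc, r2]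
  rw [(h.e0 3 k0 h3).symm.left_comm, (h.e0 2 k0 h2).symm.left_comm, (h.e0 1 k0 h1).symm.left_comm,
    (h.e4 1 h4 k1).left_comm, (h.e4 2 h4 k2).left_comm, (h.e4 3 h4 k3).left_comm, (h.e2 3 m2 h3).symm.left_comm, r1,
    (h.e2 1 m2 k1).left_comm, (h.e2 1 h2 k1).left_comm, (h.e2 3 k2 h3).symm.left_comm, (h.e2 2 m1 k2).left_comm,
    (h.e2 2 m2 k2).left_comm, (h.e2 2 m2 m1).left_comm]

theorem dec (t : F) {a : Γ} (ha : a ∈ U 5) : ∃ c1 ∈ U 1, ∃ c2 ∈ U 2, ∃ c3 ∈ U 3, ∃ c4 ∈ U 4,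
    a * x0 t * a⁻¹ = x0 t * c1 * c2 * c3 * c4 := by
  obtain ⟨c1, k1, x, hx, e⟩ := mem_UP_succ.1 (h.poly.comm 0 4 (by omega) _ (inv_mem (h.p0.apply_mem t)) a ha)
  obtain ⟨c2, k2, c3, k3, c4, k4, rfl⟩ := hx_three hx
  refine ⟨c1, k1, c2, k2, c3, k3, c4, k4, ?_⟩
  calc _ = x0 t * ⁅(x0 t)⁻¹, a⁆ := by simp only [commutatorElement_def]; group
    _ = _ := by rw [← e]; group

theorem m4 {t : F} {a m c1 c2 c3 c4 : Γ} (ha : a ∈ U 5) (hm : IsMu U 6 0 (x0 (-t)) m) (k1 : c1 ∈ U 1) (k2 : c2 ∈ U 2)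
    (k3 : c3 ∈ U 3) (k4 : c4 ∈ U 4) (e : a * x0 t * a⁻¹ = x0 t * c1 * c2 * c3 * c4) : c1 = m * a * m⁻¹ := by
  obtain ⟨x, hx, y, hy, e1⟩ := hm.1
  have e2 := hx_conj (h.e6 5 hy ha) e1
  have h1 : m * a * m⁻¹ ∈ U 1 := hm.conj_mem rfl ha
  obtain ⟨H, hH, h3, h4⟩ := h.poly.hx_sub 2 4 (by omega)
  refine (h.poly.hx_first (r := 4) (g := c2 * c3 * c4 * a) (by omega) k1 h1 ((hH _).1 (mul_mem (mul_mem (mul_mem
    (h3 _ (by omega) (by omega) k2) (h3 _ (by omega) (by omega) k3)) (h3 _ (by omega) (by omega) k4))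
    (h3 _ (by omega) (by omega) ha))) ((hH _).1 (h4 1 6 (by omega) (by omega) (by omega) (by omega) _ (inv_mem h1) _
      (inv_mem hx))) ?_).1
  calc _ = (x0 t)⁻¹ * (x0 t * c1 * c2 * c3 * c4) * a := by group
    _ = x⁻¹ * (m * a * m⁻¹) * x := by rw [← e, ← e2, h.p0.neg]; group
    _ = _ := by simp only [commutatorElement_def]; group

theorem scal {t : F} (ht : t ≠ 0) {a c1 c2 c3 c4 : Γ} (ha : a ∈ U 5) {s : F}
    (e : a * x0 s * a⁻¹ = x0 s * c1 * c2 * c3 * c4) : a * x0 (t * s) * a⁻¹ = x0 (t * s) * (g t * c1 * (g t)⁻¹) *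
      (g t * c2 * (g t)⁻¹) * (g t * c3 * (g t)⁻¹) * (g t * c4 * (g t)⁻¹) := by
  rw [← h.g0 t ht, conj_mul, conj_mul, conj_mul, conj_mul, ← e]
  calc _ = a * g t * x0 s * (a * g t)⁻¹ := by group
    _ = _ := by rw [← (h.g5 t ht a (.inl ha)).eq]; group

theorem exn : ∃ n, IsMu U 6 0 (x0 (-1)) n := h.poly.mu 0 _ (h.p0.apply_mem _) (h.p0.eq_one.not.2 (by simp))

theorem mod1 : ∃ (A : Type u) (_ : AddCommGroup A) (_ : Module F A) (x : A → Γ),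
    HxP (U 1) x ∧ ∀ t : F, t ≠ 0 → ∀ a, g t * x a * (g t)⁻¹ = x (t • a) := by
  classical
  obtain ⟨n, hn⟩ := h.exn
  obtain ⟨sm, s0, s1⟩ : ∃ sm : F → Γ → Γ, (∀ u, sm 0 u = 1) ∧ ∀ t, t ≠ 0 → ∀ u, sm t u = g t * u * (g t)⁻¹ :=
    ⟨fun t u => if t = 0 then 1 else g t * u * (g t)⁻¹, fun u => if_pos rfl, fun t ht u => if_neg ht⟩
  have h1 : ∀ t, ∀ u ∈ U 1, sm t u ∈ U 1 := fun t u hu => by
    by_cases ht : t = 0
    · rw [ht, s0]; exact one_mem _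
    · rw [s1 t ht]; exact h.gN t ht 1 u hu
  have key : ∀ u ∈ U 1, ∃ a ∈ U 5, ∀ t, ∃ c2 ∈ U 2, ∃ c3 ∈ U 3, ∃ c4 ∈ U 4,
      a * x0 t * a⁻¹ = x0 t * sm t u * c2 * c3 * c4 := fun u hu => by
    have ha : n⁻¹ * u * n ∈ U 5 := hn.conj_mem' rfl hu
    refine ⟨_, ha, fun t => ?_⟩
    by_cases ht : t = 0
    · exact ⟨1, one_mem _, 1, one_mem _, 1, one_mem _, by simp [ht, s0, h.p0.zero]⟩
    obtain ⟨c1, k1, c2, k2, c3, k3, c4, k4, e⟩ := h.dec 1 ha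
    have e1 := h.scal ht ha e
    rw [h.m4 ha hn k1 k2 k3 k4 e, show n * (n⁻¹ * u * n) * n⁻¹ = u by group, mul_one, ← s1 t ht u] at e1
    exact ⟨_, h.gN t ht _ _ k2, _, h.gN t ht _ _ k3, _, h.gN t ht _ _ k4, e1⟩
  have uq : ∀ {t : F} {c1 c2 c3 c4 d1 d2 d3 d4 : Γ}, c1 ∈ U 1 → c2 ∈ U 2 → c3 ∈ U 3 → c4 ∈ U 4 → d1 ∈ U 1 → d2 ∈ U 2 →
      d3 ∈ U 3 → d4 ∈ U 4 → x0 t * c1 * c2 * c3 * c4 = x0 t * d1 * d2 * d3 * d4 → c1 = d1 :=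
    fun a1 a2 a3 a4 b1 b2 b3 b4 e => (h.poly.hx_six (k := 0) (h.p0.apply_mem _) a1 a2 a3 a4 (one_mem _)
      (h.p0.apply_mem _) b1 b2 b3 b4 (one_mem _) (by rw [e])).2.1
  refine (hx_mod (U 1) sm h1 (fun t u _ v _ => ?_) (fun s t u hu => ?_) (fun s t u hu => ?_) fun u hu => ?_).imp
    fun A ⟨_, _, x, p, e⟩ => ⟨_, _, x, p, fun t ht a => by rw [e, s1 t ht]⟩
  · by_cases ht : t = 0
    · simp [ht, s0]
    · rw [s1 t ht, s1 t ht, s1 t ht, conj_mul]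
  · obtain ⟨a, -, k⟩ := key u hu
    obtain ⟨c2, k2, c3, k3, c4, k4, e1⟩ := k s
    obtain ⟨d2, l2, d3, l3, d4, l4, e2⟩ := k t
    obtain ⟨f2, m2, f3, m3, f4, m4, e3⟩ := k (s + t)
    obtain ⟨m, e4⟩ := h.raw (a0 := x0 s) d4 (h1 s u hu) k2 k3 k4 (h.p0.apply_mem t) (h1 t u hu) l2 l3
    rw [← e1, ← e2, conj_mul, ← h.p0.add, e3] at e4
    exact uq (h1 _ u hu) m2 m3 m4 (mul_mem (h1 s u hu) (h1 t u hu)) (mul_mem (mul_mem k2 l2) m) (mul_mem k3 l3)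
      (mul_mem k4 l4) e4
  · by_cases hs : s = 0
    · rw [hs, zero_mul, s0, s0]
    obtain ⟨a, ha, k⟩ := key u hu
    obtain ⟨c2, k2, c3, k3, c4, k4, e1⟩ := k t
    obtain ⟨d2, l2, d3, l3, d4, l4, e2⟩ := k (s * t)
    rw [h.scal hs ha e1] at e2
    rw [s1 s hs]
    exact (uq (h.gN s hs _ _ (h1 t u hu)) (h.gN s hs _ _ k2) (h.gN s hs _ _ k3) (h.gN s hs _ _ k4) (h1 _ u hu) l2 l3 l4
      e2).symm
  · have ha : n⁻¹ * u * n ∈ U 5 := hn.conj_mem' rfl hu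
    obtain ⟨c1, k1, c2, k2, c3, k3, c4, k4, e⟩ := h.dec 1 ha
    have e1 := h.scal one_ne_zero ha e
    rw [mul_one, e] at e1
    have := uq k1 k2 k3 k4 (h.gN 1 one_ne_zero _ _ k1) (h.gN 1 one_ne_zero _ _ k2) (h.gN 1 one_ne_zero _ _ k3)
      (h.gN 1 one_ne_zero _ _ k4) e1
    rw [h.m4 ha hn k1 k2 k3 k4 e, show n * (n⁻¹ * u * n) * n⁻¹ = u by group] at this
    rw [s1 1 one_ne_zero, ← this]

theorem mu3 {t : F} {m b : Γ} (hm : IsMu U 6 0 (x0 t) m) (hb : b ∈ U 3) : m * b * m⁻¹ = b := by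
  rw [(hm.hx_comm (h.e0 3 (h.p0.apply_mem t) hb) fun x hx => h.e6 3 hx hb).eq, mul_inv_cancel_right]

/-- The torus element attached to `U₀`. -/
theorem tor {t : F} (ht : t ≠ 0) : ∃ k : Γ, (∀ u ∈ U 1, k * u * k⁻¹ = g t * u * (g t)⁻¹) ∧ (∀ b ∈ U 3, k * b * k⁻¹ = b) ∧
    (∀ s, k * x0 s * k⁻¹ = x0 (t * t * s)) ∧ (∀ s, k * x2 s * k⁻¹ = x2 (t * s)) ∧ (∀ s, k * x4 s * k⁻¹ = x4 (t⁻¹ * s)) ∧
    ∀ a ∈ U 5, k * a * k⁻¹ ∈ U 5 := by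
  obtain ⟨n, hn⟩ := h.exn
  obtain ⟨m, hm⟩ := h.poly.mu 0 _ (h.p0.apply_mem (-t)) (h.p0.eq_one.not.2 (neg_ne_zero.2 ht))
  obtain ⟨n1, n2⟩ := h.mu0 _ n (by simp) hn
  obtain ⟨m1, m2⟩ := h.mu0 _ m (neg_ne_zero.2 ht) hm
  have kN : ∀ l, ∀ b ∈ U l, m * n⁻¹ * b * (m * n⁻¹)⁻¹ ∈ U l := fun l b hb => by
    simpa [mul_assoc] using hm.conj_mem (l' := l) (sub_sub_cancel _ _) (hn.conj_mem' (sub_sub_cancel _ _) hb)
  have k2 : ∀ s, m * n⁻¹ * x2 s * (m * n⁻¹)⁻¹ = x2 (t * s) := fun s => by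
    have e1 := n1 (-s)
    rw [neg_mul_neg, one_mul] at e1
    rw [← neg_mul_neg t, ← m1, ← e1]; group
  have k4 : ∀ s, m * n⁻¹ * x4 s * (m * n⁻¹)⁻¹ = x4 (t⁻¹ * s) := fun s => by
    have e1 := n2 s
    have e2 := m2 s
    rw [inv_neg, neg_neg] at e1 e2
    rw [inv_one, one_mul] at e1
    rw [← e2, ← e1]; group
  refine ⟨m * n⁻¹, fun u hu => ?_, fun b hb => ?_, fun s => ?_, k2, k4, kN 5⟩
  · have ha : n⁻¹ * u * n ∈ U 5 := hn.conj_mem' rfl hu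
    obtain ⟨c1, k1, c2, k2, c3, k3, c4, k4, e⟩ := h.dec 1 ha
    have e1 := h.scal ht ha e
    rw [mul_one] at e1
    have := h.m4 ha hm (h.gN t ht _ _ k1) (h.gN t ht _ _ k2) (h.gN t ht _ _ k3) (h.gN t ht _ _ k4) e1
    rw [h.m4 ha hn k1 k2 k3 k4 e, show n * (n⁻¹ * u * n) * n⁻¹ = u by group] at this
    rw [this]; group
  · calc _ = m * (n⁻¹ * (n * b * n⁻¹) * n) * m⁻¹ := by rw [h.mu3 hn hb]; group
      _ = b := by rw [show n⁻¹ * (n * b * n⁻¹) * n = b by group, h.mu3 hm hb]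
  · obtain ⟨b, hb⟩ := (h.p0.mem _).1 (kN 0 _ (h.p0.apply_mem s))
    have := hx_cc (m * n⁻¹) (x0 s) (x4 t)
    rw [← hb, k4, h.c04, h.c04, k2, inv_mul_cancel₀ ht, mul_one] at this
    rw [← hb, ← h.p2.inj this]; congr 1; ring

end Hx0

/-- Coordinates for `U₀, …, U₄`. -/
structure Hx1 (U : ℤ → Subgroup Γ) (x0 x2 x4 g : F → Γ) {A B : Type*} [AddCommGroup A] [Module F A] [AddCommGroup B]
    [Module F B] (x1 : A → Γ) (x3 : B → Γ) (T : A →ₗ[F] B →ₗ[F] F) : Prop extends Hx0 U x0 x2 x4 g where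
  p1 : HxP (U 1) x1
  p3 : HxP (U 3) x3
  g1 : ∀ t : F, t ≠ 0 → ∀ a, g t * x1 a * (g t)⁻¹ = x1 (t • a)
  g3 : ∀ t : F, t ≠ 0 → ∀ a, g t * x3 a * (g t)⁻¹ = x3 (t • a)
  c13 : ∀ u b, ⁅x1 u, x3 b⁆ = x2 (T u b)

theorem Hx0.hx1 (h : Hx0 U x0 x2 x4 g) : ∃ (A B : Type u) (_ : AddCommGroup A) (_ : Module F A) (_ : AddCommGroup B)
    (_ : Module F B) (x1 : A → Γ) (x3 : B → Γ) (T : A →ₗ[F] B →ₗ[F] F), Hx1 U x0 x2 x4 g x1 x3 T := by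
  obtain ⟨A, _, _, x1, p1, g1⟩ := h.mod1
  obtain ⟨B, _, _, x3, p3, g3⟩ := h.rev.mod1
  replace p3 : HxP (U 3) x3 := p3
  choose T hT using fun u b => (h.p2.mem _).1 (h.m13 (p1.ap u) (p3.ap b))
  have l1 : ∀ (t : F) u b, T (t • u) b = t * T u b := fun t u b => h.p2.inj (by
    by_cases ht : t = 0
    · rw [ht, zero_smul, zero_mul, hT, p1.zero, h.p2.zero, commutatorElement_one_left]
    obtain ⟨k, k1, k3, -, k2, -⟩ := h.tor ht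
    rw [← k2, hT, hT, hx_cc, k1 _ (p1.ap u), k3 _ (p3.ap b), g1 t ht])
  refine ⟨A, B, _, _, _, _, x1, x3, LinearMap.mk₂ F T (fun u v b => h.p2.inj ?_) l1 (fun u b c => h.p2.inj ?_)
    fun t u b => ?_, h, p1, p3, g1, g3, fun u b => (hT u b).symm⟩
  · have := (h.e2 1 (h.p2.apply_mem (T v b)) (p1.ap u)).eq
    rw [add_comm (T u b), h.p2.add, hT (u + v), p1.add, hT u, ← mul_inv_cancel_right (x2 (T v b)) (x1 u), this, hT]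
    simp only [commutatorElement_def]; group
  · have := (h.e2 3 (h.p2.apply_mem (T u c)) (p3.ap b)).eq
    rw [h.p2.add, hT u (b + c), p3.add, hT u b, ← mul_inv_cancel_right (x2 (T u c)) (x3 b), this, hT]
    simp only [commutatorElement_def]; group
  · by_cases ht : t = 0
    · exact h.p2.inj (by rw [ht, zero_smul, zero_smul, hT, p3.zero, h.p2.zero, commutatorElement_one_right])
    refine mul_left_cancel₀ ht (h.p2.inj ?_)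
    rw [← l1, smul_eq_mul, ← mul_assoc, ← h.g2 t ht, hT, hT, hx_cc, g1 t ht, g3 t ht]

variable {A B : Type*} [AddCommGroup A] [Module F A] [AddCommGroup B] [Module F B] {x1 : A → Γ} {x3 : B → Γ}
  {T : A →ₗ[F] B →ₗ[F] F}

/-- The normal form. -/
def hxw (x0 x2 x4 : F → Γ) (x1 : A → Γ) (x3 : B → Γ) (t : F) (u : A) (c : F) (b : B) (s : F) : Γ :=
  x0 t * x1 u * x2 c * x3 b * x4 s

namespace Hx1

variable (h : Hx1 U x0 x2 x4 g x1 x3 T)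
include h

theorem rev : Hx1 (fun l => U (4 - l)) x4 (fun c => x2 (-c)) x0 g x3 x1 T.flip :=
  ⟨h.toHx0.rev, h.p3, h.p1, h.g3, h.g1, fun b u => by rw [← commutatorElement_inv, h.c13, h.p2.neg]; rfl⟩

theorem w_mul (t t' : F) (u u' : A) (c c' : F) (b b' : B) (s s' : F) :
    hxw x0 x2 x4 x1 x3 t u c b s * hxw x0 x2 x4 x1 x3 t' u' c' b' s' =
      hxw x0 x2 x4 x1 x3 (t + t') (u + u') (c + c' + (-T u' b + -(t' * s))) (b + b') (s + s') := by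
  simp only [hxw]
  rw [(h.raw _ (h.p1.ap u) (h.p2.apply_mem c) (h.p3.ap b) (h.p4.apply_mem s) (h.p0.apply_mem t') (h.p1.ap u')
    (h.p2.apply_mem c') (h.p3.ap b')).2, h.c13, h.c04]
  simp only [h.p0.add, h.p1.add, h.p2.add, h.p3.add, h.p4.add, h.p2.neg]

theorem w_inj5 {t t' : F} {u u' : A} {c c' : F} {b b' : B} {s s' : F} {a a' : Γ} (ha : a ∈ U 5) (ha' : a' ∈ U 5)
    (e : hxw x0 x2 x4 x1 x3 t u c b s * a = hxw x0 x2 x4 x1 x3 t' u' c' b' s' * a') :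
    t = t' ∧ u = u' ∧ c = c' ∧ b = b' ∧ s = s' ∧ a = a' := by
  obtain ⟨e0, e1, e2, e3, e4, e5⟩ := h.poly.hx_six (k := 0) (h.p0.apply_mem _) (h.p1.ap _) (h.p2.apply_mem _) (h.p3.ap _)
    (h.p4.apply_mem _) ha (h.p0.apply_mem _) (h.p1.ap _) (h.p2.apply_mem _) (h.p3.ap _) (h.p4.apply_mem _) ha' e
  exact ⟨h.p0.inj e0, h.p1.inj e1, h.p2.inj e2, h.p3.inj e3, h.p4.inj e4, e5⟩

theorem w_inj {t t' : F} {u u' : A} {c c' : F} {b b' : B} {s s' : F}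
    (e : hxw x0 x2 x4 x1 x3 t u c b s = hxw x0 x2 x4 x1 x3 t' u' c' b' s') :
    t = t' ∧ u = u' ∧ c = c' ∧ b = b' ∧ s = s' := by
  obtain ⟨e0, e1, e2, e3, e4, -⟩ := h.w_inj5 (one_mem _) (one_mem _) (congrArg (· * 1) e)
  exact ⟨e0, e1, e2, e3, e4⟩

theorem w0 (t : F) : x0 t = hxw x0 x2 x4 x1 x3 t 0 0 0 0 := by
  simp only [hxw, h.p1.zero, h.p2.zero, h.p3.zero, h.p4.zero, mul_one]

theorem w1 (u : A) : x1 u = hxw x0 x2 x4 x1 x3 0 u 0 0 0 := by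
  simp only [hxw, h.p0.zero, h.p2.zero, h.p3.zero, h.p4.zero, mul_one, one_mul]

theorem w2 (c : F) : x2 c = hxw x0 x2 x4 x1 x3 0 0 c 0 0 := by
  simp only [hxw, h.p0.zero, h.p1.zero, h.p3.zero, h.p4.zero, mul_one, one_mul]

theorem w3 (b : B) : x3 b = hxw x0 x2 x4 x1 x3 0 0 0 b 0 := by
  simp only [hxw, h.p0.zero, h.p1.zero, h.p2.zero, h.p4.zero, mul_one, one_mul]

theorem w4 (s : F) : x4 s = hxw x0 x2 x4 x1 x3 0 0 0 0 s := by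
  simp only [hxw, h.p0.zero, h.p1.zero, h.p2.zero, h.p3.zero, mul_one, one_mul]

theorem w_g {t : F} (ht : t ≠ 0) (r : F) (u : A) (c : F) (b : B) (s : F) :
    g t * hxw x0 x2 x4 x1 x3 r u c b s * (g t)⁻¹ = hxw x0 x2 x4 x1 x3 (t * r) (t • u) (t * t * c) (t • b) (t * s) := by
  simp only [hxw, hx_cj, h.g0 t ht, h.g1 t ht, h.g2 t ht, h.g3 t ht, h.g4 t ht]

theorem w_rev (t : F) (u : A) (c : F) (b : B) (s : F) :
    hxw x4 (fun c => x2 (-c)) x0 x3 x1 s b c u t = hxw x0 x2 x4 x1 x3 t u (-c - T u b - t * s) b s := by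
  conv_lhs => rw [hxw, h.w4, h.w3, h.w2, h.w1, h.w0]
  simp only [h.w_mul, map_zero, LinearMap.zero_apply, zero_add, add_zero, zero_mul, neg_zero]
  congr 1; ring

end Hx1

end Cfsg.Agent.Bld
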