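import Mathlib
import Cfsg.Agent.FS.HexB

/-! Finite Moufang hexagons: the action of `U₅` and `U₋₁` on `U₀ U₁ U₂ U₃ U₄`, and the cubic identities. -/

set_option autoImplicit false

namespace Cfsg.Agent.Bld

open scoped commutatorElement

universe u

variable {Γ : Type u} [Group Γ] {U : ℤ → Subgroup Γ} {F : Type*} [Field F] {x0 x2 x4 g : F → Γ}
  {A B : Type*} [AddCommGroup A] [Module F A] [AddCommGroup B] [Module F B] {x1 : A → Γ} {x3 : B → Γ}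
  {T : A →ₗ[F] B →ₗ[F] F}

/-- A cubic form with its adjoint. -/
structure HxQ (T : A →ₗ[F] B →ₗ[F] F) (κ : A → B) (N : A → F) (cr : A →ₗ[F] A →ₗ[F] B) : Prop where
  κ_smul : ∀ (t : F) a, κ (t • a) = (t * t) • κ a
  κ_add : ∀ a b, κ (a + b) = κ a + cr a b + κ b
  N_smul : ∀ (t : F) a, N (t • a) = t * t * t * N a
  N_add : ∀ a b, N (a + b) = N a + N b + T b (κ a) + T a (κ b)
  T_κ : ∀ a, T a (κ a) = 3 * N a
  T_cr : ∀ a u v, T v (cr a u) = T u (cr a v)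

/-- The action of `U₅`. -/
structure HxS (U : ℤ → Subgroup Γ) (x0 x2 x4 : F → Γ) (x1 : A → Γ) (x3 : B → Γ) (T : A →ₗ[F] B →ₗ[F] F)
    (x5 : A → Γ) (κ : A → B) (N : A → F) (cr : A →ₗ[F] A →ₗ[F] B) : Prop extends HxQ T κ N cr where
  p5 : HxP (U 5) x5
  C0 : ∀ a (t : F), x5 a * x0 t * (x5 a)⁻¹ = hxw x0 x2 x4 x1 x3 t (t • a) (-(t * t * N a)) (t • κ a) (-(t * N a))
  C1 : ∀ a u, x5 a * x1 u * (x5 a)⁻¹ = hxw x0 x2 x4 x1 x3 0 u (-T a (κ u)) (cr a u) (-T u (κ a))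
  C3 : ∀ a b, x5 a * x3 b * (x5 a)⁻¹ = hxw x0 x2 x4 x1 x3 0 0 0 b (-T a b)

theorem Hx1.act (h : Hx1 U x0 x2 x4 g x1 x3 T) {z : Γ} (hz : z ∈ U 5) {t c s c0 s0 c1 s1 s3 : F} {u u0 : A} {b b0 b1 : B}
    (h0 : z * x0 t * z⁻¹ = hxw x0 x2 x4 x1 x3 t u0 c0 b0 s0) (h1 : z * x1 u * z⁻¹ = hxw x0 x2 x4 x1 x3 0 u c1 b1 s1)
    (h3 : z * x3 b * z⁻¹ = hxw x0 x2 x4 x1 x3 0 0 0 b s3) : z * hxw x0 x2 x4 x1 x3 t u c b s * z⁻¹ =
      hxw x0 x2 x4 x1 x3 t (u0 + u) (c0 + c1 - T u b0 + c) (b0 + b1 + b) (s0 + s1 + s3 + s) := by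
  conv_lhs => rw [hxw, hx_cj, hx_cj, hx_cj, hx_cj, h0, h1, h3, (h.e2 5 (h.p2.apply_mem c) hz).symm.eq,
    (h.e4 5 (h.p4.apply_mem s) hz).symm.eq, mul_inv_cancel_right, mul_inv_cancel_right, h.w2, h.w4]
  simp only [h.w_mul, map_zero, LinearMap.zero_apply, add_zero, zero_mul, neg_zero, sub_eq_add_neg]

theorem Hx1.side (h : Hx1 U x0 x2 x4 g x1 x3 T) : ∃ x5 κ N cr, HxS U x0 x2 x4 x1 x3 T x5 κ N cr := by
  obtain ⟨n, hn⟩ := h.exn
  obtain ⟨n4, n2⟩ := h.mu0 _ n (by simp) hn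
  simp only [inv_neg, inv_one, neg_neg, one_mul, neg_mul] at n4 n2
  obtain ⟨x5, h5⟩ : ∃ x5 : A → Γ, ∀ a, x5 a = n⁻¹ * x1 a * n := ⟨_, fun _ => rfl⟩
  have n5 : ∀ a, n * x5 a * n⁻¹ = x1 a := fun a => by rw [h5]; group
  have p5 : HxP (U 5) x5 := ⟨fun a b => by rw [h5, h5, h5, h.p1.add]; group,
    fun a b e => h.p1.inj (by rw [← n5, ← n5, e]), fun z => ⟨fun hz => by
      obtain ⟨a, ha⟩ := (h.p1.mem _).1 (hn.conj_mem rfl hz)
      exact ⟨a, by rw [h5, ha]; group⟩, fun ⟨a, e⟩ => by rw [← e, h5]; exact hn.conj_mem' rfl (h.p1.ap a)⟩⟩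
  have n3 : ∀ b, n * x3 b * n⁻¹ = x3 b := fun b => h.mu3 hn (h.p3.ap b)
  choose ν κ M h0 using fun a => show ∃ c b s, x5 a * x0 1 * (x5 a)⁻¹ = hxw x0 x2 x4 x1 x3 1 a c b s by
    obtain ⟨c1, k1, c2, k2, c3, k3, c4, k4, e⟩ := h.dec 1 (p5.ap a)
    obtain ⟨c, rfl⟩ := (h.p2.mem _).1 k2
    obtain ⟨b, rfl⟩ := (h.p3.mem _).1 k3
    obtain ⟨s, rfl⟩ := (h.p4.mem _).1 k4
    exact ⟨c, b, s, by rw [e, h.m4 (p5.ap a) hn k1 k2 k3 k4 e, n5, hxw]⟩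
  have g5 : ∀ t, t ≠ 0 → ∀ a z, x5 a * (g t * z * (g t)⁻¹) * (x5 a)⁻¹ = g t * (x5 a * z * (x5 a)⁻¹) * (g t)⁻¹ :=
    fun t ht a z => by
      calc _ = x5 a * g t * z * (x5 a * g t)⁻¹ := by group
        _ = _ := by rw [← (h.g5 t ht _ (.inl (p5.ap a))).eq]; group
  have C0 : ∀ a (t : F), x5 a * x0 t * (x5 a)⁻¹ = hxw x0 x2 x4 x1 x3 t (t • a) (t * t * ν a) (t • κ a) (t * M a) :=
    fun a t => by
      by_cases ht : t = 0
      · simp only [ht, zero_smul, zero_mul, ← h.w0, h.p0.zero, mul_one, mul_inv_cancel]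
      · rw [← mul_one t, ← h.g0 t ht, g5 t ht, h0, h.w_g ht, mul_one]
  choose d cr Q C1 using fun a u => show ∃ c b s, x5 a * x1 u * (x5 a)⁻¹ = hxw x0 x2 x4 x1 x3 0 u c b s by
    obtain ⟨c2, k2, c3, k3, c4, k4, e⟩ := hx_three (h.poly.comm 1 3 (by omega) _ (inv_mem (h.p1.ap u)) _ (p5.ap a))
    obtain ⟨c, rfl⟩ := (h.p2.mem _).1 k2
    obtain ⟨b, rfl⟩ := (h.p3.mem _).1 k3
    obtain ⟨s, rfl⟩ := (h.p4.mem _).1 k4
    refine ⟨c, b, s, ?_⟩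
    rw [hxw, h.p0.zero, one_mul, mul_assoc (x1 u), mul_assoc (x1 u), ← e]
    simp only [commutatorElement_def]; group
  have C3 : ∀ a b, x5 a * x3 b * (x5 a)⁻¹ = hxw x0 x2 x4 x1 x3 0 0 0 b (-T a b) := fun a b => by
    have e1 := hx_cc n (x5 a) (x3 b)
    rw [n5, n3, h.c13, ← neg_neg (T a b), ← n4, mul_left_inj, mul_right_inj] at e1
    rw [hxw, h.p0.zero, h.p1.zero, h.p2.zero, one_mul, one_mul, one_mul, ← (h.e4 3 (h.p4.apply_mem _) (h.p3.ap b)).eq, ← e1]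
    simp only [commutatorElement_def]; group
  have act := fun a t u c b s => h.act (c := c) (s := s) (p5.ap a) (C0 a t) (C1 a u) (C3 a b)
  have n1 : ∀ u, n * x1 u * n⁻¹ = x5 (-u) := fun u => by
    have e1 := h.m4 (t := -1) (p5.ap (-u)) (h.p0.neg (-1) ▸ hn.inv) (h.p1.ap _) (h.p2.apply_mem _) (h.p3.ap _)
      (h.p4.apply_mem _) (C0 (-u) (-1))
    rw [neg_smul_neg, one_smul] at e1
    rw [e1]; group
  have add : ∀ a b, κ (a + b) = κ a + cr a b + κ b ∧ M (a + b) = M a + Q a b + -T a (κ b) + M b := fun a b => by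
    have e1 := act a 1 b (ν b) (κ b) (M b)
    rw [← h0, show x5 a * (x5 b * x0 1 * (x5 b)⁻¹) * (x5 a)⁻¹ = x5 a * x5 b * x0 1 * (x5 a * x5 b)⁻¹ by group, ← p5.add,
      h0] at e1
    simpa only [one_smul, one_mul] using (h.w_inj e1).2.2.2
  have cs : ∀ a b, cr a b = cr b a := fun a b => by
    have e1 := (add a b).1
    rw [add_comm a b, (add b a).1] at e1
    linear_combination (norm := abel) -e1
  have ca : ∀ a u v, cr a (u + v) = cr a u + cr a v := fun a u v => by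
    have e1 := C1 a (u + v)
    rw [h.p1.add, hx_cj, C1, C1, h.w_mul] at e1
    exact (h.w_inj e1).2.2.2.1.symm
  have cm : ∀ (t : F) a u, cr a (t • u) = t • cr a u := fun t a u => by
    by_cases ht : t = 0
    · simpa [ht] using ca a 0 0
    have e1 := g5 t ht a (x1 u)
    rw [h.g1 t ht, C1, C1, h.w_g ht] at e1
    exact (h.w_inj e1).2.2.2.1
  have hom : ∀ (t : F) a, κ (t • a) = (t * t) • κ a ∧ M (t • a) = t * t * t * M a := fun t a => by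
    by_cases ht : t = 0
    · have e1 := h0 0
      rw [p5.zero, one_mul, inv_one, mul_one, h.w0] at e1
      simpa [ht, eq_comm] using (h.w_inj e1).2.2.2
    obtain ⟨k, k1, k3, k0, k2, k4, k5⟩ := h.tor ht
    obtain ⟨a', ha'⟩ := (p5.mem _).1 (k5 _ (p5.ap (t • a)))
    have e1 := congrArg (k * · * k⁻¹) (h0 (t • a))
    simp only [hxw, hx_cj, k0, k2, k4, k1 _ (h.p1.ap _), k3 _ (h.p3.ap _), h.g1 t ht, ← conj_inv, ← ha'] at e1
    obtain ⟨-, e2, -, e3, e4⟩ := h.w_inj ((C0 _ _).symm.trans e1)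
    rw [mul_one, smul_smul] at e2
    obtain rfl := smul_right_injective A (mul_ne_zero ht ht) e2
    exact ⟨by rw [← e3, mul_one], by rw [← mul_inv_cancel_left₀ ht (M _), ← e4]; ring⟩
  have tc : ∀ a u v, T v (cr a u) = T u (cr a v) := fun a u v => by
    have e1 := congrArg (x5 a * · * (x5 a)⁻¹) ((h.p1.add u v).symm.trans ((congrArg x1 (add_comm u v)).trans (h.p1.add v u)))
    simp only [hx_cj, C1, h.w_mul] at e1
    linear_combination -(h.w_inj e1).2.2.1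
  have caa : ∀ a, cr a a = κ a + κ a := fun a => by
    have e1 := (hom (1 + 1) a).1
    rw [add_smul, one_smul, (add a a).1] at e1
    linear_combination (norm := module) e1
  have hQ : ∀ a u, Q a u = -T u (κ a) := fun a u => by
    have e1 := congrArg (x5 a * · * (x5 a)⁻¹) (h.e0 1 (h.p0.apply_mem 1) (h.p1.ap u)).eq
    simp only [hx_cj, C1, h0, h.w_mul] at e1
    have e2 := tc a u a
    rw [caa, map_add] at e2
    linear_combination (h.w_inj e1).2.2.1 - e2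
  have hd : ∀ a u, d a u = Q u a := fun a u => by
    have e1 := congrArg (n * · * n⁻¹) (C1 a u)
    simp only [hxw, hx_cj, h.p0.zero, one_mul, n1, n2, n3, n4, n5, ← conj_inv] at e1
    have e2 : x5 u * x1 a * (x5 u)⁻¹ = x4 (d a u) * x3 (cr a u) * x2 (-Q a u) * x1 a := by
      calc _ = x5 u * (x1 a * (x5 u)⁻¹ * (x1 a)⁻¹) * x1 a := by group
        _ = _ := by rw [← p5.neg, e1, p5.neg]; group
    rw [C1, h.w4, h.w3, h.w2, h.w1] at e2
    simp only [h.w_mul, add_zero] at e2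
    exact (h.w_inj e2).2.2.2.2.symm
  have hν : ∀ a, ν a = M a := fun a => by
    by_cases ha : a = 0
    · have e1 := h0 0
      rw [p5.zero, one_mul, inv_one, mul_one, h.w0] at e1
      rw [ha, ← (h.w_inj e1).2.2.1, ← (h.w_inj e1).2.2.2.2]
    obtain ⟨x, hx, y, hy, e⟩ := hn.1
    have e1 := hx_conj (h.e6 5 hy (p5.ap a)) e
    obtain ⟨s, hs⟩ := (h.p0.mem _).1 (hn.conj_mem' (l' := 0) rfl hx)
    have k : ∀ t, (x0 t)⁻¹ * x5 a * x0 t = x1 (t • a) * x2 (t * t * ν a) * x3 (t • κ a) * x4 (t * M a) * x5 a := fun t => by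
      calc _ = (x0 t)⁻¹ * (x5 a * x0 t * (x5 a)⁻¹) * x5 a := by group
        _ = _ := by rw [C0, hxw]; group
    have e2 : x⁻¹ * (n * x5 a * n⁻¹) * x = n * ((x0 s)⁻¹ * x5 a * x0 s) * n⁻¹ := by rw [hs]; group
    rw [e2, h.p0.neg, inv_inv, k, k] at e1
    simp only [hx_cj, n1, n2, n3, n4, n5, one_smul, one_mul] at e1
    have e3 : hxw x0 x2 x4 x1 x3 0 a (ν a) (κ a) (M a) * x5 a = x5 (-(s • a)) * (x4 (s * s * ν a) * x3 (s • κ a) *
        x2 (-(s * M a)) * x1 a) * (x5 (-(s • a)))⁻¹ * x5 (-(s • a)) := by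
      rw [hxw, h.p0.zero, one_mul, e1]; group
    rw [h.w4, h.w3, h.w2, h.w1] at e3
    simp only [h.w_mul, act, add_zero, zero_add, zero_mul] at e3
    obtain ⟨-, -, -, -, e4, e5⟩ := h.w_inj5 (p5.ap _) (p5.ap _) e3
    obtain rfl : s = -1 := smul_left_injective F ha (by
      simp only [neg_smul, one_smul]; exact (neg_eq_iff_eq_neg.1 (p5.inj e5).symm))
    simp only [neg_smul, one_smul, neg_neg, hQ, map_neg] at e4
    linear_combination -e4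
  refine ⟨x5, κ, fun a => -M a, LinearMap.mk₂ F cr (fun a b u => by rw [cs, ca, cs u, cs u])
    (fun t a u => by rw [cs, cm, cs u]) ca cm, ⟨fun t a => (hom t a).1, fun a b => (add a b).1,
    fun t a => by rw [(hom t a).2, mul_neg], fun a b => by rw [(add a b).2, hQ]; ring, fun a => ?_, tc⟩, p5,
    fun a t => by rw [C0, hν, mul_neg, mul_neg, neg_neg, neg_neg], fun a u => by rw [C1, hd, hQ, hQ]; rfl, C3⟩
  have e1 := C0 a (1 + 1)
  rw [h.p0.add, hx_cj, h0, h.w_mul, hν] at e1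
  linear_combination -(h.w_inj e1).2.2.1

/-- The identities linking the two cubic forms. -/
structure HxL (T : A →ₗ[F] B →ₗ[F] F) (κ : A → B) (N : A → F) (cr : A →ₗ[F] A →ₗ[F] B) (κ' : B → A) (N' : B → F)
    (cr' : B →ₗ[F] B →ₗ[F] A) : Prop where
  aniso : ∀ a, N a = 0 → a = 0
  kk : ∀ a, κ' (κ a) = -(N a • a)
  Nk : ∀ a, N' (κ a) = -(N a * N a)
  kc : ∀ a u, cr' (κ a) (cr a u) = -(N a • u) - T u (κ a) • a

variable {x5 : A → Γ} {κ : A → B} {N : A → F} {cr : A →ₗ[F] A →ₗ[F] B} {y : B → Γ} {κ' : B → A} {N' : B → F}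
  {cr' : B →ₗ[F] B →ₗ[F] A}

theorem HxQ.κ0 (h : HxQ T κ N cr) : κ 0 = 0 := by simpa using h.κ_smul 0 0

theorem HxQ.N0 (h : HxQ T κ N cr) : N 0 = 0 := by simpa using h.N_smul 0 0

theorem HxQ.caa (h : HxQ T κ N cr) (a : A) : cr a a = κ a + κ a := by
  have e1 := h.κ_smul (1 + 1) a
  rw [add_smul, one_smul, h.κ_add] at e1
  linear_combination (norm := module) e1

theorem HxQ.cs (h : HxQ T κ N cr) (a b : A) : cr a b = cr b a := by
  have e1 := h.κ_add a b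
  rw [add_comm a b, h.κ_add] at e1
  linear_combination (norm := abel) -e1

namespace Hx1

variable (h : Hx1 U x0 x2 x4 g x1 x3 T) (S : HxS U x0 x2 x4 x1 x3 T x5 κ N cr)
  (S' : HxS (fun l => U (4 - l)) x4 (fun c => x2 (-c)) x0 x3 x1 T.flip y κ' N' cr')
include h S S'

theorem j0 {a : A} {m : Γ} (hm : IsMu U 6 5 (x5 a) m) {σ : F} (hσ : m * x0 1 * m⁻¹ = x4 σ) :
    ∃ ξ η, m = (y ξ)⁻¹ * x5 a * y η ∧ 1 = -(σ * N' ξ) ∧ a = σ • κ' ξ ∧ κ a = σ • ξ ∧ -N a = σ := by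
  obtain ⟨x, hx, z, hz, e⟩ := hm.1
  replace hx : x ∈ U (-1) := (h.poly.per_mem rfl).1 hx
  replace hz : z ∈ U (-1) := (h.poly.per_mem rfl).1 hz
  obtain ⟨ξ, hξ⟩ := (S'.p5.mem _).1 (inv_mem hx)
  obtain ⟨η, rfl⟩ := (S'.p5.mem _).1 hz
  obtain rfl : x = (y ξ)⁻¹ := by rw [hξ, inv_inv]
  have e1 := hx_conj (h.e0 (-1) (h.p0.apply_mem 1) hz).symm e
  rw [hσ, inv_inv, S.C0, S'.C0, h.w_rev] at e1
  obtain ⟨e2, e3, -, e4, e5⟩ := h.w_inj e1
  exact ⟨ξ, η, e, e2, by rwa [one_smul] at e3, by rwa [one_smul] at e4, by rwa [one_mul] at e5⟩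

theorem joint : HxL T κ N cr κ' N' cr' := by
  have key : ∀ a, a ≠ 0 → N a ≠ 0 ∧ κ' (κ a) = -(N a • a) ∧ N' (κ a) = -(N a * N a) ∧
      ∀ u, cr' (κ a) (cr a u) = -(N a • u) - T u (κ a) • a := fun a ha => by
    obtain ⟨m, hm⟩ := h.poly.mu 5 _ (S.p5.ap a) fun e => ha (S.p5.inj (e.trans S.p5.zero.symm))
    obtain ⟨σ, hσ⟩ := (h.p4.mem _).1 ((h.poly.per_mem (l := 4) rfl).1 (hm.conj_mem rfl (h.p0.apply_mem 1)))
    obtain ⟨ξ, η, e, e2, e3, e4, rfl⟩ := h.j0 S S' hm hσ.symm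
    have kk : κ' (κ a) = -(N a • a) := by
      rw [e4, S'.κ_smul, mul_smul, ← e3, neg_smul]
    refine ⟨fun e => by simp [e] at e2, kk, by rw [e4, S'.N_smul]; linear_combination N a * N a * e2, fun u => ?_⟩
    obtain ⟨v, hv⟩ := (h.p3.mem _).1 ((h.poly.per_mem (l := 3) rfl).1 (hm.conj_mem rfl (h.p1.ap u)))
    have e5 : x5 a * (y η * x1 u * (y η)⁻¹) * (x5 a)⁻¹ = y ξ * x3 v * (y ξ)⁻¹ := by rw [hv, e]; group
    rw [S'.C3, S'.C1, h.w_rev, h.w_rev, h.act (S.p5.ap a) (S.C0 _ _) (S.C1 _ _) (S.C3 _ _)] at e5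
    obtain ⟨-, e6, -, e7, e8⟩ := h.w_inj e5
    generalize -T.flip η u = τ at e6 e7 e8
    have e9 : cr' (κ a) v = -N a • (τ • a + u) := by rw [e6, e4, map_smul, LinearMap.smul_apply]
    have e10 : T u (κ a) = -(τ * N a) := by
      rw [map_zero] at e8
      linear_combination -e8
    rw [← e7, add_zero, map_add, map_smul, S'.caa, kk] at e9
    rw [e10]
    linear_combination (norm := module) e9
  refine ⟨fun a e => by_contra fun ha => (key a ha).1 e, fun a => ?_, fun a => ?_, fun a u => ?_⟩ <;> by_cases ha : a = 0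
  exacts [by simp [ha, S.κ0, S'.κ0], (key a ha).2.1, by simp [ha, S.κ0, S.N0, S'.N0], (key a ha).2.2.1,
    by simp [ha, S.κ0, S.N0], (key a ha).2.2.2 u]

end Hx1

theorem Hx0.scale (h : Hx0 U x0 x2 x4 g) {ν : F} (hν : ν ≠ 0) : Hx0 U x0 (fun c => x2 (ν * c)) (fun c => x4 (ν * c)) g := by
  have p : ∀ {P : Subgroup Γ} {x : F → Γ}, IsPar P x → IsPar P fun c => x (ν * c) := fun p =>
    ⟨fun a b => by rw [mul_add, p.add], fun a b e => mul_left_cancel₀ hν (p.inj e), fun z => (p.mem z).trans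
      ⟨fun ⟨a, e⟩ => ⟨ν⁻¹ * a, by rwa [mul_inv_cancel_left₀ hν]⟩, fun ⟨_, e⟩ => ⟨_, e⟩⟩⟩
  refine ⟨h.poly, h.ev, h.p0, p h.p2, p h.p4, fun t s => by rw [h.c04, mul_left_comm], fun t m ht hm => ?_,
    fun t m ht hm => ?_, h.gN, h.g0, fun t ht s => by rw [h.g2 t ht, mul_left_comm],
    fun t ht s => by rw [h.g4 t ht, mul_left_comm], h.g5⟩
  · obtain ⟨h1, h2⟩ := h.mu0 t m ht hm
    exact ⟨fun b => by rw [h1, mul_left_comm], fun c => by rw [h2, mul_left_comm]⟩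
  · obtain ⟨h1, h2⟩ := h.mu4 _ m (mul_ne_zero hν ht) hm
    exact ⟨fun b => by rw [h1]; congr 1; ring, fun c => by rw [h2]; congr 1; field_simp⟩

/-- All the data attached to a finite Moufang hexagon. -/
theorem IsPoly.hx_data [Finite Γ] (h : IsPoly 6 U) (hc : Cen 3 U 0) :
    ∃ (F A B : Type u) (_ : Field F) (_ : Finite F) (_ : AddCommGroup A) (_ : Module F A) (_ : AddCommGroup B)
      (_ : Module F B) (x0 x2 x4 g : F → Γ) (x1 x5 : A → Γ) (x3 : B → Γ) (T : A →ₗ[F] B →ₗ[F] F) (κ : A → B) (N : A → F)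
      (cr : A →ₗ[F] A →ₗ[F] B) (κ' : B → A) (N' : B → F) (cr' : B →ₗ[F] B →ₗ[F] A) (e : A),
      Hx1 U x0 x2 x4 g x1 x3 T ∧ HxS U x0 x2 x4 x1 x3 T x5 κ N cr ∧ HxQ T.flip κ' N' cr' ∧ HxL T κ N cr κ' N' cr' ∧
        HxL T.flip κ' N' cr' κ N cr ∧ N e = 1 := by
  obtain ⟨F, _, _, x0, x2, x4, g, h0⟩ := h.hx0 hc
  obtain ⟨z, hz, z1⟩ := h.exists_ne 5
  obtain ⟨m, hm⟩ := h.mu 5 z hz z1
  obtain ⟨σ, hσ⟩ := (h0.p4.mem _).1 ((h.per_mem (l := 4) rfl).1 (hm.conj_mem rfl (h0.p0.apply_mem 1)))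
  have h1 : -σ ≠ 0 := fun e => by
    rw [neg_eq_zero.1 e, h0.p4.zero, eq_comm, conj_eq_one_iff, h0.p0.eq_one] at hσ
    exact one_ne_zero hσ
  obtain ⟨A, B, _, _, _, _, x1, x3, T, h2⟩ := (h0.scale h1).hx1
  obtain ⟨x5, κ, N, cr, S⟩ := h2.side
  obtain ⟨y, κ', N', cr', S'⟩ := h2.rev.side
  obtain ⟨e, rfl⟩ := (S.p5.mem _).1 hz
  obtain ⟨-, -, -, -, -, -, h3⟩ := h2.j0 S S' hm (σ := -1) (by rw [← hσ, neg_mul_neg, mul_one])
  exact ⟨F, A, B, _, ‹_›, _, _, _, _, _, _, _, _, _, _, _, _, _, _, _, _, _, _, e, h2, S, S'.toHxQ, h2.joint S S',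
    h2.rev.joint S' (by simpa using S), neg_injective h3⟩

end Cfsg.Agent.Bld
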