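import Mathlib
import Cfsg.Agent.FS.HexC

/-! Finite hexagonal systems. -/

set_option autoImplicit false

namespace Cfsg.Agent.Bld

universe u

/-- A hexagonal system. -/
structure HxH (k J : Type*) [Field k] [AddCommGroup J] [Module k J] where
  sh : J → J
  cr : J →ₗ[k] J →ₗ[k] J
  T : J →ₗ[k] J →ₗ[k] k
  N : J → k
  one : J
  q : HxQ T sh N cr
  T_symm : ∀ a b, T a b = T b a
  sh_sh : ∀ a, sh (sh a) = N a • a
  cr_cr : ∀ a b, cr (sh a) (cr a b) = N a • b + T b (sh a) • a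
  sh_one : sh one = one
  N_one : N one = 1
  cr_one : ∀ b, cr one b = T one b • one - b
  aniso : ∀ a, N a = 0 → a = 0

section Pair

variable {F A B : Type*} [Field F] [AddCommGroup A] [Module F A] [AddCommGroup B] [Module F B]
  {T : A →ₗ[F] B →ₗ[F] F} {κ : A → B} {N : A → F} {cr : A →ₗ[F] A →ₗ[F] B} {κ' : B → A} {N' : B → F}
  {cr' : B →ₗ[F] B →ₗ[F] A} {e : A}

theorem HxQ.unital (Q : HxQ T κ N cr) (Q' : HxQ T.flip κ' N' cr') (L : HxL T κ N cr κ' N' cr')
    (L' : HxL T.flip κ' N' cr' κ N cr) (he : N e = 1) : ∃ (S : HxH F A) (ψ : A ≃ₗ[F] B),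
      (∀ a, κ a = ψ (S.sh a)) ∧ (∀ a b, cr a b = ψ (S.cr a b)) ∧ (∀ a b, T a (ψ b) = S.T a b) ∧ ∀ a, N a = S.N a := by
  obtain ⟨f, hf⟩ : ∃ f, f = κ e := ⟨_, rfl⟩
  have h1 : κ' f = -e := by rw [hf, L.kk, he, one_smul]
  have h2 : N' f = -1 := by rw [hf, L.Nk, he, one_mul]
  have h3 : T e f = 3 := by rw [hf, Q.T_κ, he, mul_one]
  have h4 : cr e e = f + f := hf ▸ Q.caa e
  have h5 : cr' f f = -e + -e := h1 ▸ Q'.caa f
  have h6 : ∀ u, cr' f (cr e u) = -u - T u f • e := fun u => by rw [hf, L.kc, he, one_smul]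
  have h7 : ∀ b, cr e (cr' f b) = -b - T e b • f := fun b => by
    have := L'.kc f b
    simp only [h1, h2, map_neg, LinearMap.neg_apply, LinearMap.flip_apply] at this
    linear_combination (norm := module) -this
  let ψ : A →ₗ[F] B := (T.flip f).smulRight f - cr e
  let χ : B →ₗ[F] A := (T e).smulRight e + cr' f
  have e1 : ∀ u, ψ u = T u f • f - cr e u := fun _ => rfl
  have e2 : ∀ b, χ b = T e b • e + cr' f b := fun _ => rfl
  have i1 : ∀ u, χ (ψ u) = u := fun u => by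
    have := Q.T_cr e u e
    rw [h4, map_add] at this
    simp only [e1, e2, map_sub, map_smul, h3, h5, h6, this, smul_eq_mul]
    module
  have i2 : ∀ b, ψ (χ b) = b := fun b => by
    have : T (cr' f b) f = T (cr' f f) b := Q'.T_cr f b f
    simp only [h5, map_add, map_neg, LinearMap.add_apply, LinearMap.neg_apply] at this
    simp only [e1, e2, map_add, map_smul, LinearMap.add_apply, LinearMap.smul_apply, h3, h4, h7, this, smul_eq_mul]
    module
  have k1 : ∀ b, κ (χ b) = -ψ (κ' b) := fun b => by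
    have h8 := L'.kk (f + b)
    have h9 := L'.kc b f
    rw [Q'.cs b f, Q.cs] at h9
    rw [Q'.κ_add, Q.κ_add, Q.κ_add, L'.kk, L'.kk, Q'.N_add, map_add, LinearMap.add_apply, h9, L'.kc] at h8
    simp only [h1, h2, map_neg, LinearMap.neg_apply, LinearMap.flip_apply] at h8
    rw [e1, e2, Q.κ_add, Q.κ_smul, map_smul, LinearMap.smul_apply, h7, ← hf]
    linear_combination (norm := module) h8
  have k2 : ∀ b c, cr (χ b) (χ c) = -ψ (cr' b c) := fun b c => by
    have := Q.κ_add (χ b) (χ c)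
    rw [← map_add, k1, k1, k1, Q'.κ_add, map_add, map_add] at this
    linear_combination (norm := module) -this
  have k3 : ψ e = f := by rw [e1, h3, h4]; module
  refine ⟨⟨fun a => χ (κ a), cr.compr₂ χ, T.compl₂ ψ, N, e, ⟨fun t a => by rw [Q.κ_smul, map_smul],
    fun a b => by rw [Q.κ_add, map_add, map_add]; rfl, Q.N_smul, fun a b => ?_, fun a => ?_, fun a u v => ?_⟩,
    fun a b => ?_, fun a => ?_, fun a b => ?_, by rw [← hf, ← k3, i1], he, fun b => ?_, L.aniso⟩,
    LinearEquiv.ofLinearMap ψ χ (LinearMap.ext i2) (LinearMap.ext i1), fun a => (i2 _).symm, fun a b => (i2 _).symm,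
    fun _ _ => rfl, fun _ => rfl⟩ <;> try simp only [LinearMap.compr₂_apply, LinearMap.compl₂_apply, i2]
  · exact Q.N_add a b
  · exact Q.T_κ a
  · exact Q.T_cr a u v
  · simp only [e1, map_sub, map_smul, smul_eq_mul, Q.T_cr e b a, mul_comm]
  · rw [k1, L.kk, map_neg, i1, neg_neg]
  · rw [k2, L.kc, map_neg, i1]; module
  · have := Q.T_cr e b e
    rw [h4, map_add] at this
    rw [show cr e b = T b f • f - ψ b by rw [e1, sub_sub_cancel], map_sub, map_smul, i1, ← k3, i1, k3, e1, map_sub,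
      map_smul, h3, this, smul_eq_mul]
    congr 2; ring

end Pair

variable {k : Type u} {J : Type*} [Field k] [AddCommGroup J] [Module k J]

/-- The system is a field `K` with an automorphism `σ`, `σ³ = 1`, over its fixed field. -/
structure HxH.Iso (S : HxH k J) {K : Type*} [Field K] (ι : k →+* K) (σ : K ≃+* K) (φ : J ≃+ K) : Prop where
  cube : ∀ a, σ (σ (σ a)) = a
  fix : ∀ a, σ a = a ↔ ∃ u, ι u = a
  smul : ∀ u a, φ (u • a) = ι u * φ a
  sh : ∀ a, φ (S.sh a) = σ (φ a) * σ (σ (φ a))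
  T : ∀ a b, ι (S.T a b) = φ a * φ b + σ (φ a * φ b) + σ (σ (φ a * φ b))

namespace HxH

variable (S : HxH k J)

theorem T_one : S.T S.one S.one = 3 := by simpa [S.sh_one, S.N_one] using S.q.T_κ S.one

theorem T_self (a : J) : S.T a a = S.T S.one a * S.T S.one a - 2 * S.T S.one (S.sh a) := by
  have h := S.q.T_cr a a S.one
  rw [S.q.caa, S.q.cs a S.one, S.cr_one, map_add, map_sub, map_smul, S.T_symm a S.one, smul_eq_mul] at h
  linear_combination h

theorem cr_sh (a : J) : S.cr a (S.sh a) = (S.T S.one a * S.T S.one (S.sh a) - S.N a) • S.one -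
    S.T S.one (S.sh a) • a - S.T S.one a • S.sh a := by
  have h := S.cr_cr a S.one
  rw [S.q.cs a S.one, S.cr_one, map_sub, map_smul, S.q.cs _ S.one, S.cr_one, S.q.cs _ a] at h
  linear_combination (norm := module) -h

include S in
/-- The norm has a nontrivial zero on four vectors. -/
theorem dep [Finite k] (b : Fin 4 → J) : ∃ x : Fin 4 → k, x ≠ 0 ∧ ∑ i, x i • b i = 0 := by
  classical
  have := Fintype.ofFinite k
  let c : Fin 4 → Fin 4 → Fin 4 → k := fun l i j => if i = j then (if l = i then S.N (b l) else S.T (b l) (S.sh (b i)))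
    else if i < j ∧ j < l then S.T (b l) (S.cr (b i) (b j)) else 0
  let f : MvPolynomial (Fin 4) k := ∑ l, ∑ i, ∑ j, c l i j • (MvPolynomial.X l * MvPolynomial.X i * MvPolynomial.X j)
  have h1 : f.totalDegree ≤ 3 :=
    MvPolynomial.totalDegree_finsetSum_le fun l _ => MvPolynomial.totalDegree_finsetSum_le fun i _ =>
      MvPolynomial.totalDegree_finsetSum_le fun j _ => (MvPolynomial.totalDegree_smul_le _ _).trans
        ((MvPolynomial.totalDegree_mul _ _).trans (by
          have := MvPolynomial.totalDegree_mul (MvPolynomial.X l : MvPolynomial (Fin 4) k) (MvPolynomial.X i)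
          simp only [MvPolynomial.totalDegree_X] at this ⊢
          omega))
  have h3 : ∀ x : Fin 4 → k, MvPolynomial.eval x f = S.N (∑ i, x i • b i) := fun x => by
    simp only [f, map_sum, MvPolynomial.smul_eval, map_mul, MvPolynomial.eval_X]
    simp only [Fin.sum_univ_four, S.q.N_add, S.q.κ_add, S.q.N_smul, S.q.κ_smul, map_add, map_smul, LinearMap.add_apply,
      LinearMap.smul_apply, smul_eq_mul, c]
    simp only [Fin.reduceEq, Fin.reduceLT, if_true, if_false, and_true, and_false, zero_mul]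
    ring
  have h4 := char_dvd_card_solutions (ringChar k) (f := f) (by rw [Fintype.card_fin]; omega)
  by_contra! h
  have : Unique {x : Fin 4 → k // MvPolynomial.eval x f = 0} :=
    ⟨⟨⟨0, by rw [h3]; simp [S.q.N0]⟩⟩, fun x => Subtype.ext (by
      by_contra h5
      exact h _ h5 (S.aniso _ (h3 _ ▸ x.2)))⟩
  rw [Fintype.card_unique, Nat.dvd_one] at h4
  exact CharP.ringChar_ne_one h4

theorem main [Finite k] {K : Type*} [Field K] [Finite K] [Algebra k K] {a : J}
    (σ : K ≃ₐ[k] K) (hσ : ∀ x, σ (σ (σ x)) = x) {θ : K} (hθ : σ θ ≠ θ) (hK : Nat.card K = Nat.card k ^ 3)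
    (hp : θ ^ 3 - algebraMap k K (S.T S.one a) * θ ^ 2 + algebraMap k K (S.T S.one (S.sh a)) * θ -
      algebraMap k K (S.N a) = 0) : ∃ φ : J ≃+ K, S.Iso (algebraMap k K) σ.toRingEquiv φ := by
  set ι := algebraMap k K with hι
  have hc : ∀ u, σ (ι u) = ι u := σ.commutes
  obtain ⟨θ₂, e2⟩ : ∃ y, σ θ = y := ⟨_, rfl⟩
  obtain ⟨θ₃, e3⟩ : ∃ y, σ θ₂ = y := ⟨_, rfl⟩
  have e1 : σ θ₃ = θ := by rw [← e3, ← e2, hσ]
  have n1 : θ₂ ≠ θ := e2 ▸ hθ
  have n2 : θ₃ ≠ θ₂ := fun e => n1 (σ.injective (by rw [e3, e2, e]))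
  have n3 : θ ≠ θ₃ := fun e => n2 (σ.injective (by rw [e1, e3, e]))
  have p2 := congrArg σ hp
  simp only [map_add, map_sub, map_mul, map_pow, hc, map_zero, e2] at p2
  have p3 := congrArg σ p2
  simp only [map_add, map_sub, map_mul, map_pow, hc, map_zero, e3] at p3
  have ht : ι (S.T S.one a) = θ + θ₂ + θ₃ := by grind
  have hr : ι (S.T S.one (S.sh a)) = θ * θ₂ + θ * θ₃ + θ₂ * θ₃ := by grind
  have hn : ι (S.N a) = θ * θ₂ * θ₃ := by grind
  let φ : k × k × k →+ K := AddMonoidHom.mk' (fun v => ι v.1 + ι v.2.1 * θ + ι v.2.2 * (θ₂ * θ₃))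
    fun v w => by simp only [Prod.fst_add, Prod.snd_add, map_add]; ring
  let ψ : k × k × k →+ J := AddMonoidHom.mk' (fun v => v.1 • S.one + v.2.1 • a + v.2.2 • S.sh a)
    fun v w => by simp only [Prod.fst_add, Prod.snd_add]; module
  have f1 : ∀ v, φ v = ι v.1 + ι v.2.1 * θ + ι v.2.2 * (θ₂ * θ₃) := fun _ => rfl
  have f2 : ∀ v, σ (φ v) = ι v.1 + ι v.2.1 * θ₂ + ι v.2.2 * (θ₃ * θ) := fun v => by
    simp only [f1, map_add, map_mul, hc, e1, e2, e3]
  have f3 : ∀ v, σ (σ (φ v)) = ι v.1 + ι v.2.1 * θ₃ + ι v.2.2 * (θ * θ₂) := fun v => by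
    simp only [f2, map_add, map_mul, hc, e1, e2, e3]
  have g1 : ∀ v, ψ v = v.1 • S.one + v.2.1 • a + v.2.2 • S.sh a := fun _ => rfl
  have fx : ∀ v, σ (φ v) = φ v → ι v.2.1 = 0 ∧ ι v.2.2 = 0 := fun v h1 => by
    have h2 := congrArg σ h1
    rw [f3, f2] at h2
    rw [f2, f1] at h1
    have h3 : ι v.2.1 = ι v.2.2 * θ₃ := mul_left_cancel₀ (sub_ne_zero.2 n1) (by linear_combination h1)
    have h4 : ι v.2.1 = ι v.2.2 * θ := mul_left_cancel₀ (sub_ne_zero.2 n2) (by linear_combination h2)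
    have h5 : ι v.2.2 = 0 := mul_left_cancel₀ (sub_ne_zero.2 n3) (by linear_combination h3 - h4)
    exact ⟨by rw [h3, h5, zero_mul], h5⟩
  have φi : Function.Injective φ := (injective_iff_map_eq_zero φ).2 fun v h1 => by
    obtain ⟨h2, h3⟩ := fx v (by rw [h1, map_zero])
    rw [f1, h2, h3, zero_mul, zero_mul, add_zero, add_zero] at h1
    rw [map_eq_zero] at h1 h2 h3
    exact Prod.ext h1 (Prod.ext h2 h3)
  have φb : Function.Bijective φ :=
    φi.bijective_of_nat_card_le (by rw [hK, Nat.card_prod, Nat.card_prod]; exact le_of_eq (by ring))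
  have hT : ∀ v w, ι (S.T (ψ v) (ψ w)) = φ v * φ w + σ (φ v * φ w) + σ (σ (φ v * φ w)) := fun v w => by
    simp only [map_mul σ, f3]
    simp only [f2]
    simp only [f1, g1, map_add, map_smul, LinearMap.add_apply, LinearMap.smul_apply, smul_eq_mul, S.T_one, S.T_self a,
      S.T_self (S.sh a), S.T_symm a S.one, S.T_symm (S.sh a) S.one, S.T_symm (S.sh a) a, S.q.T_κ, S.sh_sh, map_mul,
      map_sub, map_ofNat, ht, hr, hn]
    ring
  have hs : ∀ v, ∃ w, S.sh (ψ v) = ψ w ∧ φ w = σ (φ v) * σ (σ (φ v)) := fun v => by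
    refine ⟨(v.1 * v.1 + v.1 * v.2.1 * S.T S.one a + v.1 * v.2.2 * S.T S.one (S.sh a) +
      v.2.1 * v.2.2 * (S.T S.one a * S.T S.one (S.sh a) - S.N a),
      v.2.2 * v.2.2 * S.N a - v.1 * v.2.1 - v.2.1 * v.2.2 * S.T S.one (S.sh a),
      v.2.1 * v.2.1 - v.1 * v.2.2 - v.2.1 * v.2.2 * S.T S.one a), ?_, ?_⟩
    · simp only [g1, S.q.κ_add, S.q.κ_smul, map_add, map_smul, LinearMap.add_apply,
        LinearMap.smul_apply, S.sh_one, S.sh_sh, S.cr_one, S.cr_sh a]
      module
    · rw [f3, f2, f1]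
      simp only [map_add, map_sub, map_mul, ht, hr, hn]
      ring
  have ψi : Function.Injective ψ := (injective_iff_map_eq_zero ψ).2 fun v h1 => by
    have h3 : ∀ y, φ v * y + σ (φ v) * σ y + σ (σ (φ v)) * σ (σ y) = 0 := fun y => by
      obtain ⟨w, rfl⟩ := φb.2 y
      have := hT v w
      rw [h1, map_zero, LinearMap.zero_apply, map_zero] at this
      simpa only [map_mul] using this.symm
    have h4 := h3 1
    have h5 := h3 θ
    have h6 := h3 (θ₂ * θ₃)
    simp only [map_one, map_mul, e1, e2, e3] at h4 h5 h6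
    have h7 : φ v * ((θ - θ₂) * (θ - θ₃)) = 0 := by linear_combination h6 + θ * h5 - θ * (θ₂ + θ₃) * h4
    exact φi (by rw [map_zero, (mul_eq_zero.1 h7).resolve_right (mul_ne_zero (sub_ne_zero.2 n1.symm) (sub_ne_zero.2 n3))])
  have ψs : Function.Surjective ψ := fun b => by
    obtain ⟨x, h0, hx⟩ := S.dep ![S.one, a, S.sh a, b]
    simp only [Fin.sum_univ_four, Matrix.cons_val] at hx
    by_cases h3 : x 3 = 0
    · rw [h3, zero_smul, add_zero] at hx
      have h4 := ψi (a₁ := (x 0, x 1, x 2)) (a₂ := 0) (hx.trans (map_zero ψ).symm)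
      simp only [Prod.mk_eq_zero] at h4
      exact absurd (funext fun i => by fin_cases i <;> simp [h3, h4]) h0
    · refine ⟨(-(x 0 / x 3), -(x 1 / x 3), -(x 2 / x 3)), smul_right_injective J h3 ?_⟩
      simp only [g1, smul_add, smul_smul, mul_neg, mul_div_cancel₀ _ h3]
      rw [eq_neg_of_add_eq_zero_right hx]
      module
  let Ψ := AddEquiv.ofBijective ψ ⟨ψi, ψs⟩
  have key : ∀ v, (Ψ.symm.trans (AddEquiv.ofBijective φ φb)) (ψ v) = φ v := fun v =>
    congrArg φ (Ψ.symm_apply_apply v)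
  refine ⟨Ψ.symm.trans (AddEquiv.ofBijective φ φb), hσ, fun x => ⟨fun h => ?_, ?_⟩,
    fun u b => ?_, fun b => ?_, fun b d => ?_⟩
  · obtain ⟨v, rfl⟩ := φb.2 x
    obtain ⟨h2, h3⟩ := fx v h
    exact ⟨v.1, by rw [f1, h2, h3, zero_mul, zero_mul, add_zero, add_zero]⟩
  · rintro ⟨u, rfl⟩
    exact hc u
  · obtain ⟨v, rfl⟩ := ψs b
    rw [show u • ψ v = ψ (u • v) by simp only [g1, Prod.smul_fst, Prod.smul_snd, smul_eq_mul]; module, key, key]
    simp only [f1, Prod.smul_fst, Prod.smul_snd, smul_eq_mul, map_mul]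
    ring
  · obtain ⟨v, rfl⟩ := ψs b
    obtain ⟨w, h1, h2⟩ := hs v
    rw [h1, key, key]
    exact h2
  · obtain ⟨v, rfl⟩ := ψs b
    obtain ⟨w, rfl⟩ := ψs d
    rw [key, key]
    exact hT v w

open Polynomial in
theorem classify [Finite k] : ∃ (K : Type u) (_ : Field K) (_ : Finite K) (ι : k →+* K) (σ : K ≃+* K) (φ : J ≃+ K),
    S.Iso ι σ φ ∧ (∀ a, σ a = a ^ Nat.card k) ∧ (Nat.card K = Nat.card k ∨ Nat.card K = Nat.card k ^ 3) := by
  have := Fintype.ofFinite k
  by_cases h : ∀ a, ∃ u : k, u • S.one = a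
  · let ψ : k →+ J := AddMonoidHom.mk' (fun u => u • S.one) fun u v => add_smul u v _
    have h0 : S.one ≠ 0 := fun e => one_ne_zero (S.N_one.symm.trans (by rw [e, S.q.N0]))
    let Ψ := AddEquiv.ofBijective ψ ⟨smul_left_injective k h0, h⟩
    have key : ∀ u : k, Ψ.symm (u • S.one) = u := Ψ.symm_apply_apply
    refine ⟨k, inferInstance, inferInstance, RingHom.id k, RingEquiv.refl k, Ψ.symm, ⟨fun _ => rfl, fun a =>
      ⟨fun _ => ⟨a, rfl⟩, fun _ => rfl⟩, fun u b => ?_, fun b => ?_, fun b d => ?_⟩,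
      fun a => by rw [Nat.card_eq_fintype_card, FiniteField.pow_card]; rfl, Or.inl rfl⟩
    · obtain ⟨v, rfl⟩ := h b
      rw [smul_smul, key, key]; rfl
    · obtain ⟨v, rfl⟩ := h b
      rw [S.q.κ_smul, S.sh_one, key, key]; rfl
    · obtain ⟨u, rfl⟩ := h b
      obtain ⟨v, rfl⟩ := h d
      rw [key, key]
      simp [S.T_one]
      ring
  push Not at h
  obtain ⟨a, ha⟩ := h
  let p : k[X] := X ^ 3 - C (S.T S.one a) * X ^ 2 + C (S.T S.one (S.sh a)) * X - C (S.N a)
  have hd : p.natDegree = 3 := by unfold p; compute_degree!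
  have hi : Irreducible p := irreducible_of_degree_le_three_of_not_isRoot (by simp [hd]) fun u hu => by
    have h1 := S.aniso ((-u) • S.one + a) (by
      rw [← neg_eq_zero, ← hu, S.q.N_add, S.q.N_smul, S.q.κ_smul, S.sh_one, S.N_one]
      simp only [p, map_smul, LinearMap.smul_apply, smul_eq_mul, S.T_symm a S.one, eval_add, eval_sub, eval_mul,
        eval_pow, eval_X, eval_C]
      ring)
    exact ha u (by rw [← neg_neg u, neg_smul, neg_eq_of_add_eq_zero_right h1])
  have := Fact.mk hi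
  have hf : Module.finrank k (AdjoinRoot p) = 3 := by
    rw [(AdjoinRoot.powerBasis hi.ne_zero).finrank, AdjoinRoot.powerBasis_dim, hd]
  have : Module.Finite k (AdjoinRoot p) := (AdjoinRoot.powerBasis hi.ne_zero).finite
  have : Finite (AdjoinRoot p) := Module.finite_of_finite k
  have hK : Nat.card (AdjoinRoot p) = Nat.card k ^ 3 := by rw [Module.natCard_eq_pow_finrank (K := k), hf]
  let σ := FiniteField.frobeniusAlgEquivOfAlgebraic k (AdjoinRoot p)
  have ho : orderOf σ = 3 := (FiniteField.orderOf_frobeniusAlgEquivOfAlgebraic _ _).trans hf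
  obtain ⟨φ, hφ⟩ := S.main (a := a) σ (fun x => by
      have h1 := pow_orderOf_eq_one σ
      rw [ho, pow_three] at h1
      exact DFunLike.congr_fun h1 x) (θ := AdjoinRoot.root p) (fun e => by
      have h1 : σ = 1 := AlgEquiv.coe_toAlgHom_injective (AdjoinRoot.algHom_ext e)
      rw [h1, orderOf_one] at ho
      omega) hK (by
      have h1 := (AdjoinRoot.aeval_eq p).trans (AdjoinRoot.mk_self (f := p))
      generalize AdjoinRoot.root p = θ at h1 ⊢
      rwa [show aeval θ p = _ by simp only [p, map_add, map_sub, map_mul, map_pow, aeval_X, aeval_C]; rfl] at h1)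
  exact ⟨AdjoinRoot p, inferInstance, this, _, _, φ, hφ, fun x => by rw [Nat.card_eq_fintype_card]; rfl, Or.inr hK⟩

theorem Iso.N {S : HxH k J} {K : Type*} [Field K] {ι : k →+* K} {σ : K ≃+* K} {φ : J ≃+ K} (h : S.Iso ι σ φ) (a : J) :
    ι (S.N a) = φ a * σ (φ a) * σ (σ (φ a)) := by
  by_cases ha : a = 0
  · simp [ha, S.q.N0]
  have h1 := h.sh (S.sh a)
  rw [S.sh_sh, h.smul, h.sh] at h1
  simp only [map_mul, h.cube] at h1
  exact mul_right_cancel₀ (φ.map_ne_zero_iff.2 ha) (by rw [h1]; ring)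

/-- Finite hexagonal systems with the same orders are isomorphic. -/
theorem iso {k' J' : Type*} [Field k'] [AddCommGroup J'] [Module k' J'] [Finite k] [Finite k'] (S' : HxH k' J')
    (h1 : Nat.card k = Nat.card k') (h2 : Nat.card J = Nat.card J') : ∃ (β : k ≃+ k') (φ : J ≃+ J'),
    (∀ s t, β (s * t) = β s * β t) ∧ (∀ t a, φ (t • a) = β t • φ a) ∧ (∀ a, φ (S.sh a) = S'.sh (φ a)) ∧
      (∀ a b, φ (S.cr a b) = S'.cr (φ a) (φ b)) ∧ (∀ a b, β (S.T a b) = S'.T (φ a) (φ b)) ∧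
      ∀ a, β (S.N a) = S'.N (φ a) := by
  obtain ⟨K, _, _, ι, σ, φ, h, hσ, -⟩ := S.classify
  obtain ⟨K', _, _, ι', σ', φ', h', hσ', -⟩ := S'.classify
  have := Fintype.ofFinite K
  have := Fintype.ofFinite K'
  let γ : K ≃+* K' := FiniteField.ringEquivOfCardEq (by
    rw [← Nat.card_eq_fintype_card, ← Nat.card_eq_fintype_card, ← Nat.card_congr φ.toEquiv, ← Nat.card_congr φ'.toEquiv, h2])
  have hγ : ∀ x, γ (σ x) = σ' (γ x) := fun x => by rw [hσ, hσ', map_pow, h1]
  choose f hf using fun u => (h'.fix (γ (ι u))).1 (by rw [← hγ, (h.fix _).2 ⟨u, rfl⟩])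
  have hi : Function.Injective f := fun u v e => ι.injective (γ.injective (by rw [← hf, ← hf, e]))
  let β : k ≃+ k' := { Equiv.ofBijective f (hi.bijective_of_nat_card_le h1.ge) with
    map_add' := fun u v => ι'.injective (by simp [hf]) }
  have hβ : ∀ u, ι' (β u) = γ (ι u) := hf
  let Φ : J ≃+ J' := φ.trans (γ.toAddEquiv.trans φ'.symm)
  have hΦ : ∀ a, φ' (Φ a) = γ (φ a) := fun a => φ'.apply_symm_apply _
  have hs : ∀ a, Φ (S.sh a) = S'.sh (Φ a) := fun a => φ'.injective (by rw [h'.sh, hΦ, hΦ, h.sh, map_mul, hγ, hγ, hγ])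
  refine ⟨β, Φ, fun s t => ι'.injective (by simp only [hβ, map_mul]),
    fun t a => φ'.injective (by rw [h'.smul, hΦ, hΦ, h.smul, map_mul, hβ]), hs, fun a b => ?_,
    fun a b => ι'.injective (by simp only [hβ, h.T, h'.T, hΦ, map_add, map_mul γ, hγ]),
    fun a => ι'.injective (by simp only [hβ, h.N, h'.N, hΦ, map_mul γ, hγ])⟩
  have := hs (a + b)
  rw [S.q.κ_add, map_add, map_add, map_add, S'.q.κ_add, hs, hs] at this
  exact add_left_cancel (add_right_cancel this)

end HxH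

end Cfsg.Agent.Bld
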