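import Mathlib
import Cfsg.Agent.FS.Defs
import Cfsg.Agent.FS.HexD

/-! Finite Moufang hexagons are determined by the orders of their root groups. -/

set_option autoImplicit false

namespace Cfsg.Agent.Bld

open scoped commutatorElement

universe u

section

variable {Γ : Type u} [Group Γ] {U : ℤ → Subgroup Γ}

/-- The commutator relations of a hexagon. -/
structure HxF (U : ℤ → Subgroup Γ) {F J : Type*} [Field F] [AddCommGroup J] [Module F J] (S : HxH F J)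
    (x0 x2 x4 : F → Γ) (x1 x3 x5 : J → Γ) : Prop where
  ev : HxE U
  p0 : HxP (U 0) x0
  p1 : HxP (U 1) x1
  p2 : HxP (U 2) x2
  p3 : HxP (U 3) x3
  p4 : HxP (U 4) x4
  p5 : HxP (U 5) x5
  c04 : ∀ t s, ⁅x0 t, x4 s⁆ = x2 (t * s)
  c13 : ∀ u b, ⁅x1 u, x3 b⁆ = x2 (S.T u b)
  c35 : ∀ b a, ⁅x3 b, x5 a⁆ = x4 (S.T a b)
  c15 : ∀ u a, ⁅x1 u, x5 a⁆ = x2 (-S.T a (S.sh u)) * (x3 (-S.cr a u) * x4 (S.T u (S.sh a)))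
  c05 : ∀ (t : F) a, ⁅x0 t, x5 a⁆ = x1 (-(t • a)) * (x2 (-(t * t * S.N a)) * (x3 (-(t • S.sh a)) * x4 (t * S.N a)))

theorem IsPoly.hxF [Finite Γ] (h : IsPoly 6 U) (hc : Cen 3 U 0) : ∃ (F J : Type u) (_ : Field F) (_ : Finite F)
    (_ : AddCommGroup J) (_ : Module F J) (S : HxH F J) (x0 x2 x4 : F → Γ) (x1 x3 x5 : J → Γ),
    HxF U S x0 x2 x4 x1 x3 x5 := by
  obtain ⟨F, A, B, _, _, _, _, _, _, x0, x2, x4, g, x1, x5, x3, T, κ, N, cr, κ', N', cr', e, h1, D, Q', L, L', he⟩ :=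
    h.hx_data hc
  obtain ⟨S, ψ, k1, k2, k3, k4⟩ := D.toHxQ.unital Q' L L' he
  have c : ∀ a b : Γ, ⁅a, b⁆ = a * (b * a⁻¹ * b⁻¹) := fun a b => by simp only [commutatorElement_def]; group
  refine ⟨F, A, _, ‹_›, _, _, S, x0, x2, x4, x1, fun b => x3 (ψ b), x5, h1.ev, h1.p0.hxP, h1.p1, h1.p2.hxP,
    ⟨fun a b => by rw [map_add, h1.p3.add], fun a b e => ψ.injective (h1.p3.inj e), fun z => (h1.p3.mem z).trans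
      ⟨fun ⟨b, e⟩ => ⟨ψ.symm b, by rwa [ψ.apply_symm_apply]⟩, fun ⟨_, e⟩ => ⟨_, e⟩⟩⟩, h1.p4.hxP, D.p5, h1.c04,
    fun u b => by rw [h1.c13, k3], fun b a => ?_, fun u a => ?_, fun t a => ?_⟩
  · rw [c, ← h1.p3.neg, D.C3, h1.w3, h1.w_mul, h1.w4]
    simp [k3]
  · rw [c, ← h1.p1.neg, D.C1, h1.w1, h1.w2, h1.w3, h1.w4, h1.w_mul, h1.w_mul, h1.w_mul, ← neg_one_smul F u, D.κ_smul]
    simp [k1, k2, k3]
  · rw [c, ← h1.p0.neg, D.C0, h1.w0, h1.w1, h1.w2, h1.w3, h1.w4, h1.w_mul, h1.w_mul, h1.w_mul, h1.w_mul]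
    simp [k1, k4]

theorem HxP.gr {Γ' A A' : Type*} [Group Γ'] [AddCommGroup A] [AddCommGroup A'] {P : Subgroup Γ} {P' : Subgroup Γ'}
    {x : A → Γ} {x' : A' → Γ'} (p : HxP P x) (p' : HxP P' x') (τ : A ≃+ A') :
    ∃ D, IsGr P P' D ∧ ∀ y, y ∈ D ↔ ∃ a, y = (x a, x' (τ a)) := by
  refine ⟨⟨⟨⟨{y | ∃ a, y = (x a, x' (τ a))}, ?_⟩, 0, ?_⟩, ?_⟩, ⟨?_, fun g hg => ?_, fun g hg => ?_, ?_⟩, fun _ => Iff.rfl⟩
  · rintro _ _ ⟨a, rfl⟩ ⟨b, rfl⟩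
    exact ⟨a + b, by rw [map_add, p.add, p'.add]; rfl⟩
  · rw [map_zero, p.zero, p'.zero]; rfl
  · rintro _ ⟨a, rfl⟩
    exact ⟨-a, by rw [map_neg, p.neg, p'.neg]; rfl⟩
  · rintro _ ⟨a, rfl⟩
    exact ⟨p.ap a, p'.ap _⟩
  · obtain ⟨a, rfl⟩ := (p.mem g).1 hg
    exact ⟨_, a, rfl⟩
  · obtain ⟨a, rfl⟩ := (p'.mem g).1 hg
    exact ⟨x (τ.symm a), τ.symm a, by rw [τ.apply_symm_apply]⟩
  · rintro _ ⟨a, rfl⟩
    rw [← p.zero, ← p'.zero, p.inj.eq_iff, p'.inj.eq_iff, map_eq_zero_iff _ τ.injective]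

theorem HxE.cm (h : HxE U) {k l : ℤ} (h1 : k < l) (h2 : l ≤ k + 3) (h3 : k % 2 = 0 ∨ l % 2 = 0) {a b : Γ} (ha : a ∈ U k)
    (hb : b ∈ U l) : ⁅a, b⁆ = 1 := commutatorElement_eq_one_iff_commute.2 (h3.elim
  (fun _ => h (k / 2) l (by omega) (by omega) a (mem_U_congr (by omega) ha) b hb)
  fun _ => (h (l / 2) k (by omega) (by omega) b (mem_U_congr (by omega) hb) a ha).symm)

end

variable {Γ Γ' : Type*} [Group Γ] [Group Γ'] [Finite Γ] [Finite Γ'] {U : ℤ → Subgroup Γ}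
  {U' : ℤ → Subgroup Γ'} {p p' : ℕ}

set_option linter.unusedVariables false in
theorem hex_par (hp : p.Prime) (h : IsPoly 6 U) (hP : PG p U) (hc : Cen 3 U 0) :
    IsPrimePow (Nat.card (U 0)) ∧
      (Nat.card (U 1) = Nat.card (U 0) ∨ Nat.card (U 1) = Nat.card (U 0) ^ 3) := by
  obtain ⟨F, J, _, _, _, _, S, x0, x2, x4, x1, x3, x5, c⟩ := h.hxF hc
  obtain ⟨K, _, _, ι, σ, φ, -, -, hK⟩ := S.classify
  have := Fintype.ofFinite F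
  rw [c.p0.card, c.p1.card, Nat.card_congr φ.toEquiv]
  exact ⟨Nat.card_eq_fintype_card (α := F) ▸ FiniteField.isPrimePow_card F, hK⟩

set_option linter.unusedVariables false in
theorem hex_graph (hp : p.Prime) (hp' : p'.Prime) (h : IsPoly 6 U) (h' : IsPoly 6 U') (hP : PG p U)
    (hP' : PG p' U') (hc : Cen 3 U 0) (hc' : Cen 3 U' 0) (h0 : Nat.card (U 0) = Nat.card (U' 0))
    (h1 : Nat.card (U 1) = Nat.card (U' 1)) : ∃ D, Graph 6 U U' D := by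
  obtain ⟨F, J, _, _, _, _, S, x0, x2, x4, x1, x3, x5, c⟩ := h.hxF hc
  obtain ⟨F', J', _, _, _, _, S', y0, y2, y4, y1, y3, y5, c'⟩ := h'.hxF hc'
  obtain ⟨β, φ, k1, k2, k3, k4, k5, k6⟩ := S.iso S' (by rwa [← c.p0.card, ← c'.p0.card]) (by rwa [← c.p1.card, ← c'.p1.card])
  obtain ⟨D0, g0, m0⟩ := c.p0.gr c'.p0 β
  obtain ⟨D1, g1, m1⟩ := c.p1.gr c'.p1 φ
  obtain ⟨D2, g2, m2⟩ := c.p2.gr c'.p2 β
  obtain ⟨D3, g3, m3⟩ := c.p3.gr c'.p3 φ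
  obtain ⟨D4, g4, m4⟩ := c.p4.gr c'.p4 β
  obtain ⟨D5, g5, m5⟩ := c.p5.gr c'.p5 φ
  let D : ℤ → Subgroup (Γ × Γ') := fun k => if k = 0 then D0 else if k = 1 then D1 else if k = 2 then D2 else
    if k = 3 then D3 else if k = 4 then D4 else D5
  have gr : ∀ k : ℤ, 0 ≤ k → k < (6 : ℕ) → IsGr (U k) (U' k) (D k) := fun k k0 k6 => by
    obtain rfl | rfl | rfl | rfl | rfl | rfl : k = 0 ∨ k = 1 ∨ k = 2 ∨ k = 3 ∨ k = 4 ∨ k = 5 := by omega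
    exacts [g0, g1, g2, g3, g4, g5]
  refine ⟨D, gr, fun k r k0 k6' x hx y hy => ?_⟩
  by_cases hr : r ≤ 2 ∧ (k % 2 = 0 ∨ (k + r + 1) % 2 = 0)
  · have e1 := (gr k k0 (by omega)).le x hx
    have e2 := (gr _ (by omega) k6').le y hy
    rw [show ⁅x, y⁆ = 1 from Prod.ext (c.ev.cm (by omega) (by omega) hr.2 e1.1 e2.1)
      (c'.ev.cm (by omega) (by omega) hr.2 e1.2 e2.2)]
    exact one_mem_UP _ _ _
  obtain ⟨rfl, rfl⟩ | ⟨rfl, rfl⟩ | ⟨rfl, rfl⟩ | ⟨rfl, rfl⟩ | ⟨rfl, rfl⟩ : (k = 1 ∧ r = 1) ∨ (k = 3 ∧ r = 1) ∨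
    (k = 0 ∧ r = 3) ∨ (k = 1 ∧ r = 3) ∨ (k = 0 ∧ r = 4) := by omega
  · obtain ⟨a, rfl⟩ := (m1 x).1 hx
    obtain ⟨b, rfl⟩ := (m3 y).1 hy
    exact mem_UP_one.2 ((m2 _).2 ⟨_, Prod.ext (c.c13 a b) (by rw [k5]; exact c'.c13 _ _)⟩)
  · obtain ⟨a, rfl⟩ := (m3 x).1 hx
    obtain ⟨b, rfl⟩ := (m5 y).1 hy
    exact mem_UP_one.2 ((m4 _).2 ⟨_, Prod.ext (c.c35 a b) (by rw [k5]; exact c'.c35 _ _)⟩)
  · obtain ⟨a, rfl⟩ := (m0 x).1 hx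
    obtain ⟨b, rfl⟩ := (m4 y).1 hy
    exact mem_UP_of_mem D (s := 1) (by omega) _ _ ((m2 _).2 ⟨_, Prod.ext (c.c04 a b) (by rw [k1]; exact c'.c04 _ _)⟩)
  · obtain ⟨u, rfl⟩ := (m1 x).1 hx
    obtain ⟨a, rfl⟩ := (m5 y).1 hy
    exact mem_UP_succ.2 ⟨_, (m2 _).2 ⟨_, rfl⟩, _, mem_UP_two.2 ⟨_, (m3 _).2 ⟨_, rfl⟩, _, (m4 _).2 ⟨_, rfl⟩, rfl⟩,
      Prod.ext (c.c15 u a).symm (by simp only [map_neg, k3, k4, k5]; exact (c'.c15 _ _).symm)⟩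
  · obtain ⟨t, rfl⟩ := (m0 x).1 hx
    obtain ⟨a, rfl⟩ := (m5 y).1 hy
    exact mem_UP_succ.2 ⟨_, (m1 _).2 ⟨_, rfl⟩, _, mem_UP_succ.2 ⟨_, (m2 _).2 ⟨_, rfl⟩, _, mem_UP_two.2
      ⟨_, (m3 _).2 ⟨_, rfl⟩, _, (m4 _).2 ⟨_, rfl⟩, rfl⟩, rfl⟩,
      Prod.ext (c.c05 t a).symm (by simp only [map_neg, k1, k2, k3, k6]; exact (c'.c05 _ _).symm)⟩

end Cfsg.Agent.Bld
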