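import Mathlib
import Cfsg.Agent.Loc.JordanField

/-! A finite special Jordan division ring is a field. -/

set_option autoImplicit false

namespace Cfsg.Agent.Bld

open Polynomial Cfsg.Agent.Loc.BH

section Generic

variable {p : ℕ} [Fact p.Prime] {n m : ℕ}

/-- The generic linear combination of the matrices `a i`. -/
noncomputable def fqGen (a : Fin n → Matrix (Fin m) (Fin m) (ZMod p)) :
    Matrix (Fin m) (Fin m) (MvPolynomial (Fin n) (ZMod p)) :=
  ∑ i, (MvPolynomial.X i : MvPolynomial (Fin n) (ZMod p)) • (a i).map MvPolynomial.C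

theorem fqGen_eval (a : Fin n → Matrix (Fin m) (Fin m) (ZMod p)) (ξ : Fin n → ZMod p) :
    (fqGen a).map (MvPolynomial.eval ξ) = ∑ i, ξ i • a i := by
  ext r c
  simp [fqGen, Matrix.sum_apply]

theorem fq_deg_det {σ : Type*} (A : Matrix (Fin m) (Fin m) (MvPolynomial σ (ZMod p)))
    (h : ∀ r c, (A r c).totalDegree ≤ 1) : A.det.totalDegree ≤ m := by
  rw [Matrix.det_apply']
  refine (MvPolynomial.totalDegree_finsetSum _ _).trans (Finset.sup_le fun s _ => ?_)
  refine (MvPolynomial.totalDegree_mul _ _).trans ?_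
  have h1 : (((Equiv.Perm.sign s : ℤ) : MvPolynomial σ (ZMod p))).totalDegree = 0 := by
    rw [← map_intCast (MvPolynomial.C : ZMod p →+* MvPolynomial σ (ZMod p)), MvPolynomial.totalDegree_C]
  rw [h1, zero_add]
  refine (MvPolynomial.totalDegree_finsetProd _ _).trans ?_
  calc ∑ i, (A (s i) i).totalDegree ≤ ∑ _i : Fin m, 1 := Finset.sum_le_sum fun i _ => h _ _
    _ = m := by simp

theorem fq_deg_charpoly (a : Fin n → Matrix (Fin m) (Fin m) (ZMod p)) :
    ((MvPolynomial.finSuccEquiv (ZMod p) n).symm (fqGen a).charpoly).totalDegree ≤ m := by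
  classical
  let e := (MvPolynomial.finSuccEquiv (ZMod p) n).symm
  have h0 : e X = MvPolynomial.X 0 := by rw [AlgEquiv.symm_apply_eq, MvPolynomial.finSuccEquiv_X_zero]
  have h1 : ∀ j, e (C (MvPolynomial.X j)) = MvPolynomial.X j.succ := fun j => by
    rw [AlgEquiv.symm_apply_eq, MvPolynomial.finSuccEquiv_X_succ]
  have h2 : ∀ x, e (C (MvPolynomial.C x)) = MvPolynomial.C x := fun x =>
    RingHom.congr_fun (MvPolynomial.finSuccEquiv_comp_C_eq_C n) x
  have h3 : ∀ r c, (e (C (fqGen a r c))).totalDegree ≤ 1 := fun r c => by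
    simp only [fqGen, Matrix.sum_apply, Matrix.smul_apply, Matrix.map_apply, smul_eq_mul, map_sum, map_mul, h1, h2]
    refine (MvPolynomial.totalDegree_finsetSum _ _).trans (Finset.sup_le fun i _ => ?_)
    refine (MvPolynomial.totalDegree_mul _ _).trans ?_
    simp [MvPolynomial.totalDegree_X]
  have h4 : e (fqGen a).charpoly = ((fqGen a).charmatrix.map e).det := (e.toRingEquiv.toRingHom.map_det _)
  rw [show (MvPolynomial.finSuccEquiv (ZMod p) n).symm = e from rfl, h4]
  refine fq_deg_det _ fun r c => ?_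
  rw [Matrix.map_apply]
  by_cases k : r = c
  · subst k
    rw [Matrix.charmatrix_apply_eq, map_sub, h0]
    exact (MvPolynomial.totalDegree_sub _ _).trans (max_le (by simp [MvPolynomial.totalDegree_X]) (h3 _ _))
  · rw [Matrix.charmatrix_apply_ne _ _ _ k, map_neg, MvPolynomial.totalDegree_neg]
    exact h3 _ _

theorem fq_factor (hn : n ≠ 0) (a : Fin n → Matrix (Fin m) (Fin m) (ZMod p))
    (ha : ∀ ξ : Fin n → ZMod p, ξ ≠ 0 → (∑ i, ξ i • a i).det ≠ 0)
    {f : (MvPolynomial (Fin n) (ZMod p))[X]} (hf : f.Monic) (hd : f ∣ (fqGen a).charpoly) (h0 : f.natDegree ≠ 0) :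
    n ≤ f.natDegree := by
  classical
  obtain ⟨g, hfg⟩ := hd
  have hg : g.Monic := hf.of_mul_monic_left (hfg ▸ (fqGen a).charpoly_monic)
  have hdet : (fqGen a).det = (-1) ^ m * (f.coeff 0 * g.coeff 0) := by
    rw [Matrix.det_eq_sign_charpoly_coeff, hfg, mul_coeff_zero, Fintype.card_fin]
  have hev : ∀ ξ : Fin n → ZMod p, MvPolynomial.eval ξ (fqGen a).det = (∑ i, ξ i • a i).det := fun ξ => by
    rw [RingHom.map_det, RingHom.mapMatrix_apply, fqGen_eval]
  have hne : (fqGen a).det ≠ 0 := fun k => by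
    have i0 : Fin n := ⟨0, Nat.pos_of_ne_zero hn⟩
    refine ha (Pi.single i0 1) (by simp) ?_
    rw [← hev, k, map_zero]
  have h1 : (f.map (MvPolynomial.eval 0)) * (g.map (MvPolynomial.eval 0)) = (X : (ZMod p)[X]) ^ m := by
    rw [← Polynomial.map_mul, ← hfg, ← Matrix.charpoly_map, fqGen_eval]
    simp [Matrix.charpoly_zero]
  have hf0 : MvPolynomial.eval 0 (f.coeff 0) = 0 := by
    rw [← coeff_map]
    exact coeff_zero_eq_zero_of_dvd_X_pow (by rw [hf.natDegree_map]; exact h0) ⟨_, h1.symm⟩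
  have hfne : f.coeff 0 ≠ 0 := fun h => hne (by rw [hdet, h]; simp)
  let e := MvPolynomial.finSuccEquiv (ZMod p) n
  have d1 : ∀ q : (MvPolynomial (Fin n) (ZMod p))[X], q.natDegree ≤ (e.symm q).totalDegree := fun q => by
    conv_lhs => rw [← e.apply_symm_apply q]
    exact (MvPolynomial.natDegree_finSuccEquiv _).trans_le (MvPolynomial.degreeOf_le_totalDegree _ _)
  have d2 : (f.coeff 0).totalDegree + 0 ≤ (e.symm f).totalDegree := by
    have := MvPolynomial.totalDegree_coeff_finSuccEquiv_add_le (e.symm f) 0 (by rwa [e.apply_symm_apply])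
    rwa [e.apply_symm_apply] at this
  have d3 := fq_deg_charpoly a
  rw [hfg, map_mul, MvPolynomial.totalDegree_mul_of_isDomain ((map_ne_zero_iff _ e.symm.injective).2 hf.ne_zero)
    ((map_ne_zero_iff _ e.symm.injective).2 hg.ne_zero)] at d3
  have d4 : f.natDegree + g.natDegree = m := by
    rw [← hf.natDegree_mul hg, ← hfg, Matrix.charpoly_natDegree_eq_dim, Fintype.card_fin]
  have d5 := d1 g
  by_contra k
  have hdeg : (f.coeff 0).totalDegree < Fintype.card (Fin n) := by
    rw [Fintype.card_fin]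
    change (e.symm f).totalDegree + (e.symm g).totalDegree ≤ m at d3
    omega
  have hcw := char_dvd_card_solutions p hdeg
  have hone : Fintype.card {x : Fin n → ZMod p // MvPolynomial.eval x (f.coeff 0) = 0} = 1 := by
    rw [Fintype.card_eq_one_iff]
    refine ⟨⟨0, hf0⟩, fun ⟨ξ, hξ⟩ => Subtype.ext ?_⟩
    by_contra hξ0
    refine ha ξ hξ0 ?_
    rw [← hev, hdet, map_mul, map_mul, hξ]
    simp
  rw [hone, Nat.dvd_one] at hcw
  exact (Fact.out : p.Prime).one_lt.ne' hcw

theorem fq_matrix_comm (J : Submodule (ZMod p) (Matrix (Fin m) (Fin m) (ZMod p)))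
    (h1 : (1 : Matrix (Fin m) (Fin m) (ZMod p)) ∈ J)
    (hu : ∀ a ∈ J, a ≠ 0 → a.det ≠ 0) (hJ : ∀ a ∈ J, ∀ b ∈ J, a * b * a ∈ J)
    {x y : Matrix (Fin m) (Fin m) (ZMod p)} (hx : x ∈ J) (hy : y ∈ J) : x * y = y * x := by
  classical
  rcases eq_or_ne m 0 with rfl | hm
  · exact Subsingleton.elim _ _
  have : Nonempty (Fin m) := ⟨⟨0, Nat.pos_of_ne_zero hm⟩⟩
  obtain ⟨n, hdim⟩ : ∃ n, Module.finrank (ZMod p) J = n := ⟨_, rfl⟩
  have hn : n ≠ 0 := fun k => by
    rw [k, Submodule.finrank_eq_zero] at hdim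
    rw [hdim, Submodule.mem_bot] at h1
    exact one_ne_zero h1
  let b := Module.finBasisOfFinrankEq (ZMod p) J hdim
  let a : Fin n → Matrix (Fin m) (Fin m) (ZMod p) := fun i => b i
  have ha : ∀ ξ : Fin n → ZMod p, ξ ≠ 0 → (∑ i, ξ i • a i).det ≠ 0 := by
    intro ξ hξ
    have e : ∑ i, ξ i • a i = ((∑ i, ξ i • b i : J) : Matrix (Fin m) (Fin m) (ZMod p)) := by simp [a]
    rw [e]
    refine hu _ (Subtype.prop _) fun h0 => hξ ?_
    have h0' : (∑ i, ξ i • b i : J) = 0 := Subtype.ext h0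
    exact funext (Fintype.linearIndependent_iff.1 b.linearIndependent ξ h0')
  let R := MvPolynomial (Fin n) (ZMod p)
  let L := FractionRing R
  let ι : ZMod p →+* L := (algebraMap R L).comp MvPolynomial.C
  let φ : Matrix (Fin m) (Fin m) (ZMod p) →+* Matrix (Fin m) (Fin m) L := ι.mapMatrix
  have hφ : Function.Injective φ := Matrix.map_injective ι.injective
  let xL : Matrix (Fin m) (Fin m) L := (fqGen a).map (algebraMap R L)
  have hdeg : n ≤ (minpoly L xL).natDegree := by
    have i1 : IsIntegral L xL := Matrix.isIntegral xL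
    have k1 : minpoly L xL ∣ (fqGen a).charpoly.map (algebraMap R L) := by
      rw [← Matrix.charpoly_map]; exact Matrix.minpoly_dvd_charpoly xL
    obtain ⟨f, hf⟩ := IsIntegrallyClosed.eq_map_mul_C_of_dvd L (fqGen a).charpoly_monic k1
    rw [(minpoly.monic i1).leadingCoeff, C_1, mul_one] at hf
    have inj : Function.Injective (algebraMap R L) := IsFractionRing.injective R L
    have fm : f.Monic := monic_of_injective inj (hf ▸ minpoly.monic i1)
    have fd : f.natDegree = (minpoly L xL).natDegree := by rw [← hf, fm.natDegree_map]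
    rw [← fd]
    exact fq_factor hn a ha fm ((map_dvd_map _ inj fm).1 (hf ▸ k1)) (fd ▸ (minpoly.natDegree_pos i1).ne')
  let s : Set (Matrix (Fin m) (Fin m) L) := Set.range fun i => φ (a i)
  have hmem : ∀ z ∈ J, φ z ∈ Submodule.span L s := by
    intro z hz
    have e : z = ∑ i, b.repr ⟨z, hz⟩ i • a i := by
      have := congrArg Subtype.val (b.sum_repr ⟨z, hz⟩)
      rw [Submodule.coe_sum] at this
      exact this.symm
    rw [e, map_sum]
    refine Submodule.sum_mem _ fun i _ => ?_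
    have : φ (b.repr ⟨z, hz⟩ i • a i) = ι (b.repr ⟨z, hz⟩ i) • φ (a i) := by
      ext r c
      simp [φ]
    rw [this]
    exact Submodule.smul_mem _ _ (Submodule.subset_span ⟨i, rfl⟩)
  have haJ : ∀ i, a i ∈ J := fun i => (b i).2
  have hcl : ∀ u ∈ Submodule.span L s, ∀ v ∈ Submodule.span L s, u * v * u ∈ Submodule.span L s := by
    intro u hu' v hv'
    refine mul_mul_mem_span_of_gens ?_ ?_ hu' hv'
    · rintro _ ⟨i, rfl⟩ _ ⟨j, rfl⟩
      simp only [← map_mul]
      exact hmem _ (hJ _ (haJ i) _ (haJ j))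
    · rintro _ ⟨i, rfl⟩ _ ⟨j, rfl⟩ _ ⟨k, rfl⟩
      simp only [← map_mul, ← map_add]
      refine hmem _ ?_
      have := J.sub_mem (J.sub_mem (hJ _ (J.add_mem (haJ i) (haJ k)) _ (haJ j))
        (hJ _ (haJ i) _ (haJ j))) (hJ _ (haJ k) _ (haJ j))
      convert this using 1
      noncomm_ring
  have hxL : xL ∈ Submodule.span L s := by
    have e : xL = ∑ i, algebraMap R L (MvPolynomial.X i) • φ (a i) := by
      ext r c
      simp only [xL, fqGen, Matrix.sum_apply, φ, ι, Matrix.map_apply, Matrix.smul_apply,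
        smul_eq_mul, map_sum, map_mul, RingHom.mapMatrix_apply, RingHom.comp_apply]
    rw [e]
    exact Submodule.sum_mem _ fun i _ => Submodule.smul_mem _ _ (Submodule.subset_span ⟨i, rfl⟩)
  have hpow : ∀ k : ℕ, xL ^ k ∈ Submodule.span L s := by
    intro k
    induction k using Nat.twoStepInduction with
    | zero => simpa using hmem 1 h1
    | one => simpa using hxL
    | more k ih _ =>
      have := hcl _ hxL _ ih
      rwa [← pow_succ', ← pow_succ] at this
  have hli := linearIndependent_pow (K := L) xL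
  let W := Submodule.span L (Set.range fun i : Fin (minpoly L xL).natDegree => xL ^ (i : ℕ))
  have hW : W = Submodule.span L s := by
    refine Submodule.eq_of_le_of_finrank_le (Submodule.span_le.2 ?_) ?_
    · rintro _ ⟨i, rfl⟩
      exact hpow _
    · rw [finrank_span_eq_card hli, Fintype.card_fin]
      exact ((finrank_range_le_card _).trans (by simp)).trans hdeg
  have hc : ∀ u ∈ W, ∀ v ∈ W, Commute u v := fun u hu' v hv' =>
    Commute.span_left (by
      rintro _ ⟨i, rfl⟩
      exact Commute.span_right (by rintro _ ⟨j, rfl⟩; exact Commute.pow_pow_self xL _ _) _ hv') _ hu'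
  apply hφ
  rw [map_mul, map_mul]
  exact hc _ (hW ▸ hmem x hx) _ (hW ▸ hmem y hy)

end Generic

/-- A finite special Jordan division ring is commutative. -/
theorem fq_jordan_comm {R : Type*} [Ring R] [Finite R] (J : AddSubgroup R) (h1 : (1 : R) ∈ J)
    (hu : ∀ a ∈ J, a ≠ 0 → IsUnit a) (hJ : ∀ a ∈ J, ∀ b ∈ J, a * b * a ∈ J) {x y : R} (hx : x ∈ J) (hy : y ∈ J) :
    x * y = y * x := by
  classical
  cases subsingleton_or_nontrivial R
  · exact Subsingleton.elim _ _
  obtain ⟨p, hp⟩ := CharP.exists R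
  have hJn : ∀ k : ℕ, (k : R) ∈ J := fun k => by simpa using J.nsmul_mem h1 k
  have : Fact p.Prime := ⟨by
    have p0 : p ≠ 0 := CharP.char_ne_zero_of_finite R p
    refine Nat.prime_def_lt.2 ⟨?_, fun d hd ⟨k, hk⟩ => ?_⟩
    · have := CharP.ringChar_ne_one (R := R)
      rw [ringChar.eq R p] at this
      omega
    · have e : (d : R) * k = 0 := by rw [← Nat.cast_mul, ← hk, CharP.cast_eq_zero]
      have d0 : d ≠ 0 := by rintro rfl; exact p0 (by simpa using hk)
      have := (CharP.cast_eq_zero_iff R p k).1 ((hu _ (hJn d) fun z =>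
        absurd (Nat.le_of_dvd (Nat.pos_of_ne_zero d0) ((CharP.cast_eq_zero_iff R p d).1 z)) (by omega)).mul_right_eq_zero.1 e)
      have k0 : k ≠ 0 := by rintro rfl; exact p0 (by simpa using hk)
      have := Nat.le_of_dvd (Nat.pos_of_ne_zero k0) this
      nlinarith [Nat.pos_of_ne_zero d0, Nat.pos_of_ne_zero k0]⟩
  letI : Algebra (ZMod p) R := ZMod.algebra R p
  have : Module.Finite (ZMod p) R := Module.Finite.of_finite
  let e := Algebra.leftMulMatrix (Module.finBasis (ZMod p) R)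
  have he : Function.Injective e := Algebra.leftMulMatrix_injective _
  let J' := (AddSubgroup.toZModSubmodule p J).map e.toLinearMap
  have hJ' : ∀ {z}, z ∈ J' ↔ ∃ w ∈ J, e w = z := Iff.rfl
  apply he
  rw [map_mul, map_mul]
  refine fq_matrix_comm J' (hJ'.2 ⟨1, h1, map_one e⟩) (fun z hz hz0 => ?_) (fun z hz z' hz' => ?_)
    (hJ'.2 ⟨x, hx, rfl⟩) (hJ'.2 ⟨y, hy, rfl⟩)
  · obtain ⟨w, hw, rfl⟩ := hJ'.1 hz
    exact ((Matrix.isUnit_iff_isUnit_det _).1 ((hu w hw fun h => hz0 (by rw [h, map_zero])).map e)).ne_zero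
  · obtain ⟨w, hw, rfl⟩ := hJ'.1 hz
    obtain ⟨w', hw', rfl⟩ := hJ'.1 hz'
    exact hJ'.2 ⟨_, hJ w hw w' hw', by rw [map_mul, map_mul]⟩

universe u

/-- A group `A` which is represented additively as a Jordan division ring is the additive group of a field. -/
theorem fq_field {Γ : Type*} [Group Γ] (A : Subgroup Γ) {R : Type u} [Ring R] [Finite R] [Nontrivial R] (T : Γ → R)
    (add : ∀ a ∈ A, ∀ b ∈ A, T (a * b) = T a + T b) (hu : ∀ a ∈ A, a ≠ 1 → IsUnit (T a)) {a0 : Γ} (h0 : a0 ∈ A)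
    (h1 : T a0 = 1) (cl : ∀ a ∈ A, ∀ b ∈ A, ∃ c ∈ A, T c = T a * T b * T a) :
    ∃ (K : Type u) (_ : Field K) (_ : Finite K) (x : K → Γ), (∀ s t, x (s + t) = x s * x t) ∧ Function.Injective x ∧
      (∀ g, g ∈ A ↔ ∃ a, x a = g) ∧ x 1 = a0 ∧ ∀ s t, T (x (s * t)) = T (x s) * T (x t) := by
  classical
  have t1 : T 1 = 0 := by simpa using add 1 (one_mem _) 1 (one_mem _)
  have ti : ∀ a ∈ A, T a⁻¹ = -T a := fun a ha =>
    eq_neg_of_add_eq_zero_left (by rw [← add _ (inv_mem ha) _ ha, inv_mul_cancel, t1])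
  have inj : ∀ a ∈ A, ∀ b ∈ A, T a = T b → a = b := fun a ha b hb k => by
    by_contra ne
    refine (hu _ (mul_mem ha (inv_mem hb)) (mt mul_inv_eq_one.1 ne)).ne_zero ?_
    rw [add _ ha _ (inv_mem hb), ti b hb, k, add_neg_cancel]
  let J : AddSubgroup R :=
    { carrier := {r | ∃ a ∈ A, T a = r}
      add_mem' := by rintro _ _ ⟨a, ha, rfl⟩ ⟨b, hb, rfl⟩; exact ⟨_, mul_mem ha hb, add a ha b hb⟩
      zero_mem' := ⟨1, one_mem _, t1⟩
      neg_mem' := by rintro _ ⟨a, ha, rfl⟩; exact ⟨_, inv_mem ha, ti a ha⟩ }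
  have j1 : (1 : R) ∈ J := ⟨a0, h0, h1⟩
  have ju : ∀ r ∈ J, r ≠ 0 → IsUnit r := by
    rintro _ ⟨a, ha, rfl⟩ k
    exact hu a ha fun z => k (z ▸ t1)
  have hJ : ∀ r ∈ J, ∀ s ∈ J, r * s * r ∈ J := by
    rintro _ ⟨a, ha, rfl⟩ _ ⟨b, hb, rfl⟩
    exact cl a ha b hb
  have hc : ∀ x ∈ J, ∀ y ∈ J, x * y = y * x := fun x hx y hy => fq_jordan_comm J j1 ju hJ hx hy
  have hsq : ∀ x ∈ J, x * x ∈ J := fun x hx => by simpa using hJ x hx 1 j1
  have hmul : ∀ x ∈ J, ∀ y ∈ J, x * y ∈ J := by
    intro x hx y hy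
    by_cases h2 : (1 + 1 : R) = 0
    · let f : J → J := fun z => ⟨z * z, hsq _ z.2⟩
      have hinj : Function.Injective f := fun u v huv => by
        have e : (u : R) * u = v * v := congrArg Subtype.val huv
        by_contra hne
        have hne' : (u : R) - v ≠ 0 := fun h => hne (Subtype.ext (sub_eq_zero.1 h))
        refine hne' ((ju _ (J.sub_mem u.2 v.2) hne').mul_right_eq_zero.1 ?_)
        have e3 : ((u : R) - v) * (u - v) = (1 + 1) * ((v : R) * v - u * v) := by
          rw [add_mul, one_mul, sub_mul, mul_sub, mul_sub, e, hc _ v.2 _ u.2]; abel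
        rw [e3, h2, zero_mul]
      obtain ⟨c, hcx⟩ := Finite.surjective_of_injective hinj ⟨x, hx⟩
      have e : (c : R) * c = x := congrArg Subtype.val hcx
      rw [← e, mul_assoc, hc _ c.2 _ hy, ← mul_assoc]
      exact hJ _ c.2 _ hy
    · let f : J → J := fun z => z + z
      have hU := ju _ (add_mem j1 j1) h2
      have hinj : Function.Injective f := fun u v huv => Subtype.ext (hU.mul_left_cancel (by
        rw [add_mul, add_mul, one_mul, one_mul]; exact congrArg Subtype.val huv))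
      obtain ⟨c, hcx⟩ := Finite.surjective_of_injective hinj
        ⟨_, J.sub_mem (J.sub_mem (hsq _ (J.add_mem hx hy)) (hsq _ hx)) (hsq _ hy)⟩
      have e : (c : R) + c = (x + y) * (x + y) - x * x - y * y := congrArg Subtype.val hcx
      have : (c : R) = x * y := hU.mul_left_cancel (by
        rw [add_mul, one_mul, e, add_mul, mul_add, mul_add, hc y hy x hx, add_mul, one_mul]; abel)
      exact this ▸ c.2
  let S : Subring R :=
    { carrier := J
      mul_mem' := fun {a b} ha hb => hmul a ha b hb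
      one_mem' := j1
      add_mem' := J.add_mem
      zero_mem' := J.zero_mem
      neg_mem' := J.neg_mem }
  letI : CommRing S := { (inferInstance : Ring S) with mul_comm := fun a b => Subtype.ext (hc _ a.2 _ b.2) }
  have : NoZeroDivisors S := ⟨fun {a b} h => by
    by_cases ha : a = 0
    · exact Or.inl ha
    · exact Or.inr (Subtype.ext ((ju _ a.2 fun h => ha (Subtype.ext h)).mul_right_eq_zero.1 (congrArg Subtype.val h)))⟩
  have : IsDomain S := NoZeroDivisors.to_isDomain S
  choose x hx hx' using fun s : S => (s.2 : ∃ a ∈ A, T a = s)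
  refine ⟨S, (Finite.isField_of_domain S).toField, inferInstance, x, fun s t => inj _ (hx _) _ (mul_mem (hx _) (hx _)) ?_,
    fun s t k => Subtype.ext (by rw [← hx', k, hx']), fun g => ⟨fun hg => ⟨⟨T g, g, hg, rfl⟩, inj _ (hx _) _ hg (hx' _)⟩, ?_⟩,
    inj _ (hx _) _ h0 ((hx' _).trans h1.symm), fun s t => ?_⟩
  · rw [add _ (hx _) _ (hx _), hx', hx', hx']; rfl
  · rintro ⟨a, rfl⟩; exact hx a
  · rw [hx', hx', hx']; rfl

end Cfsg.Agent.Bld
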