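import Mathlib
import Cfsg.Agent.Bld.Tri
import Cfsg.Agent.Bld.Quad2A

/-! Moufang quadrangles: first commutator identities. -/

set_option autoImplicit false

namespace Cfsg.Agent.Bld

open scoped commutatorElement

section Alg

variable {K : Type*} [Field K]

/-- `f` is a multiple of a multiplicative map. -/
def FqSM (f : K → K) : Prop := ∀ a b, f a * f b = f 1 * f (a * b)

theorem FqSM.hom {f : K → K} (h : FqSM f) : ∃ τ : K →* K, ∀ a, f a = f 1 * τ a := by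
  by_cases k : f 1 = 0
  · exact ⟨MonoidHom.id K, fun a => by rw [k, zero_mul]; exact mul_self_eq_zero.1 (by rw [h, k, zero_mul])⟩
  · exact ⟨⟨⟨fun a => f a / f 1, div_self k⟩, fun a b => by
      rw [div_mul_div_comm, h]; field_simp⟩, fun a => by simp [mul_div_cancel₀ _ k]⟩

theorem FqSM.lin {f g : K → K} (h : FqSM f) (hg : FqSM g) (e : ∀ a, g a = a + f a) (a : K) : f a = f 1 * a := by
  have h1 := h a a
  have h2 := hg a a
  rw [e, e, e] at h2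
  by_cases k : f 1 = 0
  · rw [k, zero_mul] at h1 ⊢; exact mul_self_eq_zero.1 h1
  · exact sub_eq_zero.1 (mul_self_eq_zero.1 (by linear_combination (1 + f 1) * h1 - f 1 * h2))

theorem fq_ded {τ₁ τ₂ σ τ : K →* K} (hne : σ ≠ τ) {p₁ p₂ α β : K} (hα : α ≠ 0) (hβ : β ≠ 0)
    (h : ∀ x, p₁ * τ₁ x - p₂ * τ₂ x = α * σ x + β * τ x) : (τ₂ = σ ∧ -p₂ = α) ∨ (τ₂ = τ ∧ -p₂ = β) := by
  classical
  have := linearIndependent_iff.1 (linearIndependent_monoidHom K K)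
    (Finsupp.single τ₁ p₁ - Finsupp.single τ₂ p₂ - Finsupp.single σ α - Finsupp.single τ β) (by
      simp only [map_sub, Finsupp.linearCombination_single]
      ext x
      simp only [Pi.sub_apply, Pi.smul_apply, smul_eq_mul, Pi.zero_apply]
      linear_combination h x)
  have h1 := DFunLike.congr_fun this σ
  have h2 := DFunLike.congr_fun this τ
  simp only [Finsupp.coe_sub, Pi.sub_apply, Finsupp.single_apply, if_neg hne, if_neg hne.symm, if_true,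
    Finsupp.coe_zero, Pi.zero_apply] at h1 h2
  by_cases a : τ₂ = σ
  · subst a
    rw [if_neg hne] at h2
    have b : τ₁ = τ := by by_contra b; rw [if_neg b] at h2; exact hβ (by linear_combination -h2)
    rw [if_neg (b ▸ hne.symm), if_pos rfl] at h1
    exact Or.inl ⟨rfl, by linear_combination h1⟩
  · rw [if_neg a] at h1
    have b : τ₁ = σ := by by_contra b; rw [if_neg b] at h1; exact hα (by linear_combination -h1)
    rw [if_neg (b ▸ hne)] at h2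
    have c : τ₂ = τ := by by_contra c; rw [if_neg c] at h2; exact hβ (by linear_combination -h2)
    rw [if_pos c] at h2
    exact Or.inr ⟨c, by linear_combination h2⟩

theorem FqSM.four {f g : K → K} (h : FqSM f) (hg : FqSM g) (add : ∀ a b, f (a + b) = f a + f b) (h1 : f 1 ≠ 0)
    (e : ∀ t, ∃ g', FqSM g' ∧ ∀ a, g' a - g (t * a) = a - t * a + f (t ^ 2 * a) - f (t * a)) (a : K) :
    f a = f 1 * a := by
  obtain ⟨τ, hτ⟩ := h.hom
  obtain ⟨τ₂, hτ₂⟩ := hg.hom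
  by_contra k
  let φ : K →+* K := RingHom.mk' τ fun a b => mul_left_cancel₀ h1 (by rw [← hτ, add, hτ a, hτ b, mul_add])
  have inj : Function.Injective τ := φ.injective
  have t0 : τ 0 = 0 := φ.map_zero
  have k' : τ a ≠ a := fun z => k (by rw [hτ, z])
  have ne : MonoidHom.id K ≠ τ := fun z => k' (by rw [← z]; rfl)
  have key : ∀ t, t ≠ 0 → t ≠ 1 → (τ₂ = MonoidHom.id K ∧ -(g 1 * t) = 1 - t) ∨ (τ₂ = τ ∧ -g 1 = f 1 * (τ t - 1)) :=
    fun t t0' t1 => by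
      obtain ⟨g', hg', e'⟩ := e t
      obtain ⟨τ₁, hτ₁⟩ := hg'.hom
      have n0 : τ t ≠ 0 := fun z => t0' (inj (z.trans t0.symm))
      have n1 : τ t - 1 ≠ 0 := fun z => t1 (inj ((sub_eq_zero.1 z).trans τ.map_one.symm))
      rcases fq_ded (τ₁ := τ₁) (τ₂ := τ₂) (p₁ := g' 1) (p₂ := g 1 * τ₂ t) ne (sub_ne_zero.2 t1.symm)
        (mul_ne_zero (mul_ne_zero h1 n1) n0) (fun x => by
          have := e' x
          rw [hτ₁, hτ₂, hτ (t ^ 2 * x), hτ (t * x), map_mul, map_mul, map_mul, map_pow] at this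
          simp only [MonoidHom.id_apply]
          linear_combination this) with ⟨c, d⟩ | ⟨c, d⟩
      · exact Or.inl ⟨c, by rw [c] at d; exact d⟩
      · exact Or.inr ⟨c, mul_right_cancel₀ n0 (by rw [c] at d; linear_combination d)⟩
  have a0 : a ≠ 0 := fun z => k' (by rw [z, t0])
  have a1 : a ≠ 1 := fun z => k' (by rw [z, map_one])
  rcases key a a0 a1 with ⟨c, d⟩ | ⟨c, d⟩ <;>
    rcases key (τ a) (fun z => a0 (inj (z.trans t0.symm))) (fun z => a1 (inj (z.trans τ.map_one.symm))) with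
      ⟨c', d'⟩ | ⟨c', d'⟩
  · exact k' (by linear_combination a * d' - τ a * d)
  · exact ne (c.symm.trans c')
  · exact ne (c'.symm.trans c)
  · exact k' (inj (mul_left_cancel₀ h1 (by linear_combination d - d')))

theorem fq_sm {R : Type*} [Ring R] {P S A B : R} (hP : IsUnit P) (hS : IsUnit S)
    (h : P * A * S * (P * S) = P * S * (P * A * S)) : P * A * S * (P * B * S) = P * S * (P * (A * B) * S) := by
  have : A * S * P = S * P * A := hP.mul_left_cancel (hS.mul_right_cancel (by simpa only [mul_assoc] using h))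
  calc _ = P * (A * S * P) * (B * S) := by simp only [mul_assoc]
    _ = _ := by rw [this]; simp only [mul_assoc]

end Alg

variable {Γ : Type*} [Group Γ] {U : ℤ → Subgroup Γ} {k : ℤ} {a a' b b' b'' c c' c'' u v m m' g : Γ}

theorem fq_cc (h1 : Commute ⁅b, u⁆ u) (h2 : Commute ⁅b, u⁆ v) (h3 : Commute ⁅b, v⁆ u) (h4 : Commute ⁅b, v⁆ v)
    (h5 : Commute ⁅b, u⁆ ⁅b, v⁆) : Commute ⁅u, v⁆ b := by
  have e : b * ⁅u, v⁆ * b⁻¹ = ⁅⁅b, u⁆ * u, ⁅b, v⁆ * v⁆ := by simp only [commutatorElement_def]; group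
  generalize ⁅b, u⁆ = x at *
  generalize ⁅b, v⁆ = y at *
  have : ⁅x * u, y * v⁆ = ⁅u, v⁆ := by
    have e1 : y * v * (x * u)⁻¹ * (y * v)⁻¹ = y * (v * u⁻¹ * v⁻¹) * y⁻¹ * x⁻¹ := by
      rw [mul_inv_rev x, ← mul_assoc, mul_assoc _ x⁻¹, (h5.mul_right h2).inv_inv.eq]; group
    calc _ = x * u * (y * v * (x * u)⁻¹ * (y * v)⁻¹) := by simp only [commutatorElement_def]; group
      _ = x * ⁅u, v⁆ * x⁻¹ := by
        rw [e1, ((h4.mul_right h3.inv_right).mul_right h4.inv_right).eq]; simp only [commutatorElement_def]; group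
      _ = _ := by
        rw [commutatorElement_def, (((h1.mul_right h2).mul_right h1.inv_right).mul_right h2.inv_right).eq]; group
  rw [this] at e
  exact (mul_inv_eq_iff_eq_mul.1 e).symm

theorem fq_comm_comm (h1 : Commute c a) (h2 : Commute c b) : Commute c ⁅a, b⁆ :=
  ((h1.mul_right h2).mul_right h1.inv_right).mul_right h2.inv_right

/-- The elements normalising all root groups. -/
def fqT (U : ℤ → Subgroup Γ) : Subgroup Γ where
  carrier := {g | ∀ l b, b ∈ U l ↔ g * b * g⁻¹ ∈ U l}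
  one_mem' := fun l b => by simp
  mul_mem' := fun {g h} hg hh l b => by rw [hh, hg]; simp [mul_assoc]
  inv_mem' := fun {g} hg l b => by rw [hg l (g⁻¹ * b * g⁻¹⁻¹)]; simp [mul_assoc]

theorem IsMu.fq_mul {n : ℕ} (h : IsMu U n k a m) (h' : IsMu U n k a' m') : m * m' ∈ fqT U := fun l b => by
  rw [h'.2, h.2, sub_sub_cancel]; simp [mul_assoc]

theorem IsMu.fq_conj {n : ℕ} (h : IsMu U n k a m) (hg : g ∈ fqT U) : m⁻¹ * g * m ∈ fqT U := fun l b => by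
  rw [h.2, hg, h.inv.2, sub_sub_cancel]; simp [mul_assoc]

namespace IsPoly

theorem isMu_rev4 (h : IsPoly 4 U) (c : ℤ) : IsMu (fun l => U (c - l)) 4 k a m ↔ IsMu U 4 (c - k) a m := by
  have e1 : U (c - (k + (4 : ℕ))) = U (c - k + (4 : ℕ)) := by
    rw [← h.per (c - (k + (4 : ℕ)))]; congr 1; push_cast; ring
  have e2 : ∀ l, U (c - (2 * k + (4 : ℕ) - l)) = U (2 * (c - k) + (4 : ℕ) - (c - l)) := fun l => by
    rw [← h.per (c - (2 * k + (4 : ℕ) - l))]; congr 1; push_cast; ring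
  simp only [IsMu, e1, e2]
  refine and_congr_right fun _ => ⟨fun H l b => ?_, fun H l b => H _ b⟩
  simpa using H (c - l) b

theorem rev4 (h : IsPoly 4 U) (c : ℤ) : IsPoly 4 (fun l => U (c - l)) where
  per k := by rw [← h.per (c - (k + 2 * (4 : ℕ)))]; congr 1; ring
  nt k := h.nt _
  comm k r hr a ha b hb := by
    obtain rfl | rfl | rfl : r = 0 ∨ r = 1 ∨ r = 2 := by omega
    · exact commutatorElement_eq_one_iff_mul_comm.2 (h.comm0 (by omega) (by push_cast; ring) hb ha).symm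
    · rw [mem_UP_one, ← commutatorElement_inv]
      exact inv_mem (h.comm1 (by omega) (by push_cast; ring) (by push_cast; ring) hb ha)
    · obtain ⟨x, hx, y, hy, e⟩ := h.comm2 (i := c - (k + 1 + 1)) (j := c - (k + 1)) (by omega) (by push_cast; ring)
        (by push_cast; ring) (by push_cast; ring) hb ha
      exact mem_UP_two.2 ⟨y⁻¹, inv_mem hy, x⁻¹, inv_mem hx, by rw [← mul_inv_rev, e, commutatorElement_inv]⟩
  uniq k a ha b hb e := by
    obtain ⟨b1, h1, b', hb', rfl⟩ := mem_UP_succ.1 hb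
    obtain ⟨b2, h2, b3, h3, rfl⟩ := mem_UP_two.1 hb'
    have e1 : b3⁻¹ * (b2⁻¹ * (b1⁻¹ * a⁻¹)) = 1 := by rw [← inv_eq_one.2 e]; group
    have e0 := h.uniq _ _ (inv_mem h3) _ (mem_UP_succ.2 ⟨_, mem_U_congr (by ring) (inv_mem h2), _,
      mem_UP_two.2 ⟨_, mem_U_congr (by ring) (inv_mem h1), _, mem_U_congr (by ring) (inv_mem ha), rfl⟩, rfl⟩) e1
    rw [e0, one_mul, ← mul_assoc] at e1
    have e2 := h.uniq3 (by omega) (by ring) (by ring) (inv_mem h2) (inv_mem h1) (inv_mem ha) e1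
    rw [e2, one_mul] at e1
    have e3 := h.uniq2 (by omega) (by ring) (inv_mem h1) (inv_mem ha) e1
    rw [e3, one_mul] at e1
    exact inv_eq_one.1 e1
  mu k a ha h1 := (h.mu _ a ha h1).imp fun _ hm => (h.isMu_rev4 c).2 hm

variable (h : IsPoly 4 U)
include h

theorem fq_e1 (ha : a ∈ U 0) (hb : b ∈ U 1) (hb' : b' ∈ U 1) (hb'' : b'' ∈ U 1) (hc : c ∈ U 2) (hc' : c' ∈ U 2)
    (hc'' : c'' ∈ U 2) (e : ⁅a, u⁆ = b * c) (e' : ⁅a', u⁆ = b' * c') (e'' : ⁅a * a', u⁆ = b'' * c'') :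
    b'' = b' * ⁅a, c'⁆ * b ∧ c'' = c' * c := by
  refine h.q2_uniq hb'' hc'' (mul_mem (mul_mem hb' (h.q2_two 0 ha hc')) hb) (mul_mem hc' hc) ?_
  calc _ = a * ⁅a', u⁆ * a⁻¹ * ⁅a, u⁆ := by rw [← e'']; simp only [commutatorElement_def]; group
    _ = (a * b' * a⁻¹) * ⁅a, c'⁆ * (c' * b) * c := by rw [e, e']; simp only [commutatorElement_def]; group
    _ = _ := by rw [(h.q2_adj 0 ha hb').eq, ← (h.q2_adj 1 hb hc').eq]; group

theorem fq_e2 (hu : u ∈ U 3) (hb : b ∈ U 1) (hb' : b' ∈ U 1) (hb'' : b'' ∈ U 1) (hc : c ∈ U 2) (hc' : c' ∈ U 2)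
    (hc'' : c'' ∈ U 2) (e : ⁅a, u⁆ = b * c) (e' : ⁅a, v⁆ = b' * c') (e'' : ⁅a, u * v⁆ = b'' * c'') :
    b'' = b * b' ∧ c'' = c * ⁅u, b'⁆ * c' := by
  have hx : ⁅u, b'⁆ ∈ U 2 := commutatorElement_inv b' u ▸ inv_mem (h.q2_two 1 hb' hu)
  refine h.q2_uniq hb'' hc'' (mul_mem hb hb') (mul_mem (mul_mem hc hx) hc') ?_
  calc _ = ⁅a, u⁆ * (u * ⁅a, v⁆ * u⁻¹) := by rw [← e'']; simp only [commutatorElement_def]; group
    _ = b * (c * ⁅u, b'⁆ * b') * (u * c' * u⁻¹) := by rw [e, e']; simp only [commutatorElement_def]; group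
    _ = _ := by rw [← (h.q2_adj 2 hc' hu).eq, ← (h.q2_adj 1 hb' (mul_mem hc hx)).eq]; group

theorem fq_dec (ha : a ∈ U 0) (hu : u ∈ U 3) : ∃ b ∈ U 1, ∃ c ∈ U 2, ⁅a, u⁆ = b * c := by
  obtain ⟨b, hb, c, hc, e⟩ := h.comm2 (by omega) rfl rfl rfl ha hu
  exact ⟨b, hb, c, hc, e.symm⟩

theorem fq_star (ha : a ∈ U 0) (hb : b ∈ U 1) (hu : u ∈ U 3) (hb' : b' ∈ U 1) (hc : c ∈ U 2) (e : ⁅a, u⁆ = b' * c) :
    ⁅a, ⁅b, u⁆⁆ = ⁅b, b'⁆ := by
  have hx := h.q2_two 1 hb hu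
  have e1 : a * ⁅b, u⁆ * a⁻¹ = ⁅b, b'⁆ * ⁅b, u⁆ := by
    calc _ = ⁅a * b * a⁻¹, ⁅a, u⁆ * u⁆ := by simp only [commutatorElement_def]; group
      _ = ⁅b, b'⁆ * (b' * ((b * c * b⁻¹) * ⁅b, u⁆ * c⁻¹) * b'⁻¹) := by
        rw [(h.q2_adj 0 ha hb).eq, e]; simp only [commutatorElement_def]; group
      _ = _ := by
        rw [(h.q2_adj 1 hb hc).eq, mul_inv_cancel_right,
          (fq_comm_comm (h.q2_adj 1 hb hc).symm (h.q2_adj 2 hc hu)).eq, mul_inv_cancel_right, (h.q2_adj 1 hb' hx).eq,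
          mul_inv_cancel_right]
  rw [commutatorElement_def a, e1, mul_inv_cancel_right]

theorem fq_der (hb : b ∈ U 1) (hu : u ∈ U 3) (hv : v ∈ U 3) : Commute ⁅u, v⁆ b :=
  fq_cc (h.q2_adj 2 (h.q2_two 1 hb hu) hu) (h.q2_adj 2 (h.q2_two 1 hb hu) hv) (h.q2_adj 2 (h.q2_two 1 hb hv) hu)
    (h.q2_adj 2 (h.q2_two 1 hb hv) hv)
    (fq_comm_comm (h.q2_adj 1 hb (h.q2_two 1 hb hu)).symm (h.q2_adj 2 (h.q2_two 1 hb hu) hv))

theorem fq_abel3 (hc : Cm (U 0) (U 2)) (hu : u ∈ U 3) (hv : v ∈ U 3) : Commute u v := by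
  obtain ⟨a, ha, a1⟩ := h.exists_ne 0
  obtain ⟨m, hm⟩ := h.mu 0 a ha a1
  obtain ⟨b, hb, c, hc', e⟩ := h.fq_dec ha hv
  have hu' : m * u * m⁻¹ ∈ U 1 := hm.conj_mem (by norm_num) hu
  have := h.fq_star ha hu' hv hb hc' e
  rw [(hc a ha _ (h.q2_two 1 hu' hv)).commutator_eq, h.m4_four_left ha hv hm hb hc' e.symm] at this
  exact Commute.of_map (f := MulAut.conj m) (MulAut.conj m).injective (commutatorElement_eq_one_iff_commute.1 this.symm)

theorem fq_abel2 {z : Γ} (hz : z ∈ U 3) (z1 : z ≠ 1) (zc : ∀ b ∈ U 1, Commute z b) (hc : c ∈ U 2) (hc' : c' ∈ U 2) :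
    Commute c c' := by
  obtain ⟨m, hm⟩ := h.mu 3 z hz z1
  have k : ∀ c ∈ U 2, ∃ a ∈ U 0, ∃ b ∈ U 1, ⁅a, z⁆ = b * c := fun c hc => by
    have ha : m⁻¹ * c⁻¹ * m ∈ U 0 := (h.per_mem (by norm_num)).1 (hm.conj_mem' (l' := 8) (by norm_num) (inv_mem hc))
    obtain ⟨b, hb, d, hd, e⟩ := h.fq_dec ha hz
    refine ⟨_, ha, b, hb, ?_⟩
    rw [e, h.m4_four_right (k := 0) ha hz hm hb hd e.symm]; group
  obtain ⟨a, ha, b, hb, e⟩ := k c hc
  obtain ⟨a', ha', b', hb', e'⟩ := k c' hc'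
  obtain ⟨b1, hb1, c1, hc1, e1⟩ := h.fq_dec (mul_mem ha ha') hz
  obtain ⟨b2, hb2, c2, hc2, e2⟩ := h.fq_dec ha (mul_mem hz hz)
  obtain ⟨b3, hb3, c3, hc3, e3⟩ := h.fq_dec ha' (mul_mem hz hz)
  obtain ⟨b4, hb4, c4, hc4, e4⟩ := h.fq_dec (mul_mem ha ha') (mul_mem hz hz)
  have k1 := (h.fq_e1 ha hb hb' hb1 hc hc' hc1 e e' e1).2
  have k2 := (h.fq_e2 hz hb hb hb2 hc hc hc2 e e e2).2
  have k3 := (h.fq_e2 hz hb' hb' hb3 hc' hc' hc3 e' e' e3).2
  have k4 := (h.fq_e2 hz hb1 hb1 hb4 hc1 hc1 hc4 e1 e1 e4).2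
  have k5 := (h.fq_e1 ha hb2 hb3 hb4 hc2 hc3 hc4 e2 e3 e4).2
  rw [k4, k3, k2, k1, (zc _ hb).commutator_eq, (zc _ hb').commutator_eq, (zc _ hb1).commutator_eq] at k5
  exact mul_left_cancel (a := c') (mul_right_cancel (b := c) (by simpa only [mul_one, mul_assoc] using k5))

theorem fq_exists : (∃ z ∈ U 3, z ≠ 1 ∧ ∀ b ∈ U 1, Commute z b) ∨ ∃ z ∈ U 0, z ≠ 1 ∧ ∀ b ∈ U 2, Commute z b := by
  by_contra! k
  obtain ⟨k1, k2⟩ := k
  have ab : ∀ u ∈ U 3, ∀ v ∈ U 3, Commute u v := fun u hu v hv => by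
    by_contra ne
    obtain ⟨b, hb, e⟩ := k1 ⁅u, v⁆ (mul_mem (mul_mem (mul_mem hu hv) (inv_mem hu)) (inv_mem hv))
      (mt commutatorElement_eq_one_iff_commute.1 ne)
    exact e (h.fq_der hb hu hv)
  obtain ⟨u, hu, u1⟩ := h.exists_ne 3
  obtain ⟨b, hb, ne⟩ := k1 u hu u1
  obtain ⟨m, hm⟩ := h.mu 3 u hu u1
  obtain ⟨a0, ha0, a1⟩ := h.exists_ne 0
  obtain ⟨n, hn⟩ := h.mu 0 a0 ha0 a1
  obtain ⟨c, hc, ne'⟩ := k2 (m⁻¹ * ⁅b, u⁆ * m)
    ((h.per_mem (by norm_num)).1 (hm.conj_mem' (l' := 8) (by norm_num) (h.q2_two 1 hb hu)))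
    (fun z => ne (commutatorElement_eq_one_iff_commute.1 (by
      simpa [mul_assoc] using congrArg (fun x => m * x * m⁻¹) z)).symm)
  have ha : m * c * m⁻¹ ∈ U 0 := (h.per_mem (by norm_num)).1 (hm.conj_mem (l' := 8) (by norm_num) hc)
  obtain ⟨b', hb', c', hc', e⟩ := h.fq_dec ha hu
  have := h.fq_star ha hb hu hb' hc' e
  have k : Commute b b' := Commute.of_map (f := MulAut.conj n) (MulAut.conj n).injective
    (ab _ (hn.conj_mem (by norm_num) hb) _ (hn.conj_mem (by norm_num) hb'))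
  rw [k.commutator_eq, commutatorElement_eq_one_iff_commute] at this
  exact ne' (Commute.of_map (f := MulAut.conj m) (MulAut.conj m).injective (by simpa [mul_assoc] using this.symm))

end IsPoly

end Cfsg.Agent.Bld
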