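import Mathlib
import Cfsg.Agent.FS.Quad0
import Cfsg.Agent.FS.Defs

/-! Finite Moufang octagons: intervals of root groups, central elations, the maps `μ`. -/

set_option autoImplicit false

namespace Cfsg.Agent.Bld

open scoped commutatorElement

variable {Γ : Type*} [Group Γ]

/-- The subgroup generated by the root groups `U i, …, U j`. -/
def ocI (U : ℤ → Subgroup Γ) (i j : ℤ) : Subgroup Γ := ⨆ (l : ℤ) (_ : i ≤ l ∧ l ≤ j), U l

/-- An octagon with its central elations `V`, intervals `I` and maps `μ`. -/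
structure Oc (U V : ℤ → Subgroup Γ) (I : ℤ → ℤ → Subgroup Γ) (M : ℤ → Γ → Γ → Prop) : Prop where
  poly : IsPoly 8 U
  memV : ∀ i g, g ∈ V i ↔ g ∈ U i ∧ ∀ l, i - 4 ≤ l → l ≤ i + 4 → ∀ u ∈ U l, Commute g u
  eqI : ∀ i j, I i j = ocI U i j
  eqM : ∀ k a m, M k a m ↔ IsMu U 8 k a m
  cen : ∀ k, Even k → ∃ w ∈ V k, w ≠ 1

variable {U V : ℤ → Subgroup Γ} {I : ℤ → ℤ → Subgroup Γ} {M : ℤ → Γ → Γ → Prop}
  {i j k l i' j' : ℤ} {a a' b b' c g u w m m' x y z : Γ}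

theorem ocI_le {H : Subgroup Γ} : ocI U i j ≤ H ↔ ∀ l, i ≤ l → l ≤ j → U l ≤ H := by
  simp [ocI]

theorem le_ocI (h1 : i ≤ l) (h2 : l ≤ j) : U l ≤ ocI U i j := ocI_le.1 le_rfl l h1 h2

theorem oc_UP_le {H : Subgroup Γ} (r : ℕ) :
    ∀ (k : ℤ), (∀ l, k ≤ l → l < k + r → U l ≤ H) → ∀ g ∈ UP U k r, g ∈ H := by
  induction r with
  | zero => exact fun k _ g hg => mem_UP_zero.1 hg ▸ one_mem _
  | succ r ih =>
    intro k h g hg
    obtain ⟨x, hx, y, hy, rfl⟩ := mem_UP_succ.1 hg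
    exact mul_mem (h k le_rfl (by push_cast; omega) hx)
      (ih _ (fun l h1 h2 => h l (by omega) (by push_cast; omega)) y hy)

theorem IsPoly.mem_ocI {n : ℕ} (h : IsPoly n U) {r : ℕ} (hr : r ≤ n) (e : j = i + r - 1) :
    g ∈ ocI U i j ↔ g ∈ UP U i r := by
  refine ⟨fun hg => ?_, oc_UP_le r i (fun l h1 h2 => le_ocI h1 (by omega)) g⟩
  obtain ⟨H, hH⟩ := exists_subgroup_UP U i r fun l s _ _ => h.comm l s (by omega)
  rw [← hH]
  refine ocI_le.2 (fun l h1 h2 u hu => ?_) hg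
  rw [← SetLike.mem_coe, hH]
  exact mem_UP_of_mem U (s := (l - i).toNat) (by omega) _ _ (mem_U_congr (by omega) hu)

theorem IsPoly.per' {n : ℕ} (h : IsPoly n U) (t : ℤ) (e : l = k + 2 * n * t) : U l = U k := by
  subst e
  induction t using Int.induction_on with
  | zero => simp
  | succ t ih => rw [← ih, ← h.per (k + 2 * n * t)]; congr 1; ring
  | pred t ih => rw [← ih, ← h.per]; congr 1; ring

theorem oc_UP_split (r s : ℕ) : ∀ k, ∀ g ∈ UP U k (r + s), ∃ a ∈ UP U k r, ∃ b ∈ UP U (k + r) s, g = a * b := by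
  induction r with
  | zero => exact fun k g hg => ⟨1, rfl, g, by simpa using hg, (one_mul g).symm⟩
  | succ r ih =>
    intro k g hg
    rw [show r + 1 + s = r + s + 1 by ring] at hg
    obtain ⟨x, hx, y, hy, rfl⟩ := mem_UP_succ.1 hg
    obtain ⟨a, ha, b, hb, rfl⟩ := ih _ y hy
    exact ⟨x * a, mem_UP_succ.2 ⟨x, hx, a, ha, rfl⟩, b, by
      rwa [show k + ((r + 1 : ℕ) : ℤ) = k + 1 + r by push_cast; ring], (mul_assoc ..).symm⟩

namespace Oc

variable (h : Oc U V I M)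
include h

theorem Uper (e : (l - k) % 16 = 0) : U l = U k := h.poly.per' ((l - k) / 16) (by push_cast; omega)

theorem mU (hg : g ∈ U k) (e : (l - k) % 16 = 0 := by omega) : g ∈ U l := h.Uper e ▸ hg

theorem I_le {H : Subgroup Γ} : I i j ≤ H ↔ ∀ l, i ≤ l → l ≤ j → U l ≤ H := by rw [h.eqI, ocI_le]

theorem uI (hg : g ∈ U l) (e : i ≤ l ∧ l ≤ j := by omega) : g ∈ I i j := h.I_le.1 le_rfl l e.1 e.2 hg

theorem II (hg : g ∈ I k l) (e : i ≤ k ∧ l ≤ j := by omega) : g ∈ I i j :=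
  h.I_le.2 (fun _ _ _ _ hu => h.uI hu) hg

theorem Iu (hg : g ∈ I i i) : g ∈ U i := h.I_le.2 (fun l _ _ u hu => mem_U_congr (by omega) hu) hg

theorem I_one (hg : g ∈ I i j) (e : j < i := by omega) : g = 1 :=
  Subgroup.mem_bot.1 (h.I_le.2 (fun l _ _ => by omega) hg)

theorem vU (hg : g ∈ V k) : g ∈ U k := ((h.memV _ _).1 hg).1

theorem vI (hg : g ∈ V l) (e : i ≤ l ∧ l ≤ j := by omega) : g ∈ I i j := h.uI (h.vU hg) e

theorem vc (hg : g ∈ V k) (hu : u ∈ U l) (e : k - 4 ≤ l ∧ l ≤ k + 4 := by omega) : Commute g u :=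
  ((h.memV _ _).1 hg).2 l e.1 e.2 u hu

theorem vv (hg : g ∈ V k) (hu : u ∈ V l) (e : k - 4 ≤ l ∧ l ≤ k + 4 := by omega) : Commute g u :=
  h.vc hg (h.vU hu) e

theorem cI (hu : u ∈ I i j) (H : ∀ l, i ≤ l → l ≤ j → ∀ u ∈ U l, Commute g u) : Commute g u :=
  (Subgroup.mem_centralizer_singleton_iff.1 (h.I_le.2 (fun l h1 h2 u hu =>
    Subgroup.mem_centralizer_singleton_iff.2 (H l h1 h2 u hu).symm) hu) : Commute u g).symm

theorem vcI (hg : g ∈ V k) (hu : u ∈ I i j) (e : k - 4 ≤ i ∧ j ≤ k + 4 := by omega) : Commute g u :=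
  h.cI hu fun _ _ _ _ hu => h.vc hg hu

theorem split (hg : g ∈ I i j) (k l : ℤ) (e : l = k + 1 ∧ i ≤ l ∧ k ≤ j ∧ j - i < 8 := by omega) :
    ∃ a ∈ I i k, ∃ b ∈ I l j, g = a * b := by
  rw [h.eqI, h.poly.mem_ocI (r := (l - i).toNat + (j - k).toNat) (by omega) (by omega)] at hg
  obtain ⟨a, ha, b, hb, rfl⟩ := oc_UP_split _ _ _ _ hg
  refine ⟨a, ?_, b, ?_, rfl⟩
  · rwa [h.eqI, h.poly.mem_ocI (r := (l - i).toNat) (by omega) (by omega)]
  · rw [h.eqI, h.poly.mem_ocI (r := (j - k).toNat) (by omega) (by omega)]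
    rwa [show i + ((l - i).toNat : ℤ) = l by omega] at hb

theorem cons (hg : g ∈ I i j) (l : ℤ) (e : l = i + 1 ∧ i ≤ j ∧ j - i < 8 := by omega) :
    ∃ a ∈ U i, ∃ b ∈ I l j, g = a * b := by
  obtain ⟨a, ha, b, hb, e⟩ := h.split hg i l
  exact ⟨a, h.Iu ha, b, hb, e⟩

theorem snoc (hg : g ∈ I i j) (k : ℤ) (e : j = k + 1 ∧ i ≤ j ∧ j - i < 8 := by omega) :
    ∃ a ∈ I i k, ∃ b ∈ U j, g = a * b := by
  obtain ⟨a, ha, b, hb, e⟩ := h.split hg k j
  exact ⟨a, ha, b, h.Iu hb, e⟩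

theorem two (hg : g ∈ I i j) (e : j = i + 1 := by omega) : ∃ a ∈ U i, ∃ b ∈ U j, g = a * b := by
  obtain ⟨a, ha, b, hb, e⟩ := h.split hg i j
  exact ⟨a, h.Iu ha, b, h.Iu hb, e⟩

theorem disj0 (ha : a ∈ U i) (hb : a ∈ I k j) (e : i < k ∧ j - i < 8 := by omega) : a = 1 := by
  have : a⁻¹ ∈ I (i + 1) (i + 7) := h.II (inv_mem hb)
  rw [h.eqI, h.poly.mem_ocI (r := 7) (by omega) (by omega)] at this
  exact h.poly.uniq i a ha _ this (mul_inv_cancel a)

theorem disj (ha : a ∈ I i k) (hb : a ∈ I l j) (e : k < l ∧ j - i < 8 := by omega) : a = 1 := by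
  obtain ⟨r, hr⟩ : ∃ r : ℕ, k - i < r := ⟨(k - i).toNat + 1, by omega⟩
  induction r generalizing i a with
  | zero => exact h.I_one ha
  | succ r ih =>
    by_cases hik : k < i
    · exact h.I_one ha
    by_cases hjl : j < l
    · exact h.I_one hb
    obtain ⟨c, hc, d, hd, rfl⟩ := h.cons ha (i + 1)
    have : c = 1 := h.disj0 hc (k := i + 1) (j := j) (by
      simpa using mul_mem (h.II hb) (inv_mem (h.II hd)))
    subst this
    rw [one_mul] at hb ⊢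
    exact ih hd hb (by omega) (by omega)

theorem inter (ha : a ∈ I i j) (hb : a ∈ I k l) (e : i ≤ k ∧ j ≤ l ∧ l - i < 8 := by omega) : a ∈ I k j := by
  by_cases hjk : j < k
  · rw [h.disj ha hb]; exact one_mem _
  obtain ⟨c, hc, d, hd, rfl⟩ := h.split ha (k - 1) k
  have : c = 1 := h.disj hc (l := k) (j := l) (by simpa using mul_mem hb (inv_mem (h.II hd)))
  rwa [this, one_mul]

/-- Uniqueness of decompositions. -/
theorem uq (ha : a ∈ I i k) (ha' : a' ∈ I i k) (hb : b ∈ I l j) (hb' : b' ∈ I l j) (H : a * b = a' * b')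
    (e : k < l ∧ j - i < 8 := by omega) : a = a' ∧ b = b' := by
  have : a'⁻¹ * a = 1 := h.disj (mul_mem (inv_mem ha') ha) (l := l) (j := j) (by
    rw [show a'⁻¹ * a = b' * b⁻¹ by rw [inv_mul_eq_iff_eq_mul, ← mul_assoc, ← H]; group]
    exact mul_mem hb' (inv_mem hb))
  obtain rfl := inv_mul_eq_one.1 this
  exact ⟨rfl, mul_left_cancel H⟩

theorem uq1 (ha : a ∈ I i k) (hb : b ∈ I l j) (H : a * b = 1) (e : k < l ∧ j - i < 8 := by omega) :
    a = 1 ∧ b = 1 := h.uq ha (one_mem _) hb (one_mem _) (by rw [H, one_mul])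

theorem cmU (ha : a ∈ U i) (hb : b ∈ U j) (e : i < j ∧ j - i < 8 ∧ i' ≤ i + 1 ∧ j - 1 ≤ j' := by omega) :
    ⁅a, b⁆ ∈ I i' j' := by
  have := h.poly.comm i (j - i - 1).toNat (by omega) a ha b (mem_U_congr (by omega) hb)
  rw [← h.poly.mem_ocI (j := j - 1) (by omega) (by omega), ← h.eqI] at this
  exact h.II this

theorem adj (ha : a ∈ U i) (hb : b ∈ U j) (e : j = i + 1 := by omega) : Commute a b :=
  commutatorElement_eq_one_iff_commute.1 (h.I_one (h.cmU ha hb (i' := i + 1) (j' := i)))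

theorem conjI (ha : a ∈ I i j) (hb : b ∈ I k l) (e : i ≤ k ∧ k ≤ i + 1 ∧ l ≤ j ∧ j - 1 ≤ l ∧ j - i < 8 := by omega) :
    a * b * a⁻¹ ∈ I k l := by
  have key : ∀ r, i ≤ r → r ≤ j → ∀ a ∈ U r, ∀ b ∈ I k l, a * b * a⁻¹ ∈ I k l := fun r h1 h2 a ha b hb => by
    refine h.I_le (H := (I k l).comap (MulAut.conj a).toMonoidHom).2 (fun s h3 h4 b hb => ?_) hb
    change a * b * a⁻¹ ∈ I k l
    rcases lt_trichotomy r s with H | rfl | H
    · rw [show a * b * a⁻¹ = ⁅a, b⁆ * b by simp [commutatorElement_def]]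
      exact mul_mem (h.cmU ha hb) (h.uI hb)
    · exact h.uI (mul_mem (mul_mem ha hb) (inv_mem ha))
    · rw [show a * b * a⁻¹ = ⁅b, a⁆⁻¹ * b by simp only [commutatorElement_def]; group]
      exact mul_mem (inv_mem (h.cmU hb ha)) (h.uI hb)
  refine (Subgroup.mem_normalizer_iff.1 (h.I_le (H := Subgroup.normalizer (I k l : Set Γ)).2
    (fun r h1 h2 a ha => Subgroup.mem_normalizer_iff.2 fun b => ⟨key r h1 h2 a ha b, fun hb => ?_⟩) ha) b).1 hb
  simpa [mul_assoc] using key r h1 h2 a⁻¹ (inv_mem ha) _ hb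

/-- Commutators of intervals. -/
theorem cm (ha : a ∈ I i k) (hb : b ∈ I l j)
    (e : i < l ∧ k < j ∧ j - i < 8 ∧ i' ≤ i + 1 ∧ j - 1 ≤ j' := by omega) : ⁅a, b⁆ ∈ I i' j' := by
  by_cases hik : k < i
  · rw [h.I_one ha]; simp
  by_cases hjl : j < l
  · rw [h.I_one hb]; simp
  refine h.II (k := i + 1) (l := j - 1) ?_
  obtain ⟨a1, ha1, a2, ha2, rfl⟩ := h.cons ha (i + 1)
  obtain ⟨b1, hb1, b2, hb2, rfl⟩ := h.snoc hb (j - 1)
  have n1 : ∀ g ∈ I i j, ∀ c ∈ I (i + 1) (j - 1), g * c * g⁻¹ ∈ I (i + 1) (j - 1) := fun g hg c hc => h.conjI hg hc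
  have A2 : a2 ∈ I (i + 1) (j - 1) := h.II ha2
  have B1 : b1 ∈ I (i + 1) (j - 1) := h.II hb1
  rw [show ⁅a1 * a2, b1 * b2⁆ = a1 * (a2 * b1) * a1⁻¹ * ⁅a1, b2⁆ * (b2 * a1 * a2⁻¹ * (b2 * a1)⁻¹) *
    ⁅b2, a1⁆ * (a1 * b2 * a1⁻¹ * b2⁻¹) * b1⁻¹ by simp only [commutatorElement_def]; group]
  refine mul_mem (mul_mem (mul_mem (mul_mem (mul_mem (n1 _ (h.uI ha1) _ (mul_mem A2 B1)) (h.cmU ha1 hb2))
    (n1 _ (mul_mem (h.uI hb2) (h.uI ha1)) _ (inv_mem A2))) ?_) (h.cmU ha1 hb2)) (inv_mem B1)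
  rw [← commutatorElement_inv]
  exact inv_mem (h.cmU ha1 hb2)

theorem cm' (ha : a ∈ I i k) (hb : b ∈ I l j)
    (e : i < l ∧ k < j ∧ j - i < 8 ∧ i' ≤ i + 1 ∧ j - 1 ≤ j' := by omega) : ⁅b, a⁆ ∈ I i' j' := by
  rw [← commutatorElement_inv]
  exact inv_mem (h.cm ha hb e)

/-! ### Reflections and the torus -/

omit h in
/-- `g` acts on the root groups as the reflection `l ↦ c - l`. -/
def Rf (U : ℤ → Subgroup Γ) (c : ℤ) (g : Γ) : Prop := ∀ l b, b ∈ U l ↔ g * b * g⁻¹ ∈ U (c - l)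

theorem rf (hm : M k a m) (c : ℤ) (e : (2 * k + 8 - c) % 16 = 0 := by omega) : Rf U c m := fun l b => by
  rw [((h.eqM _ _ _).1 hm).2, h.Uper (k := c - l) (by push_cast; omega)]

omit h in
theorem Rf.inv {c : ℤ} (hg : Rf U c g) : Rf U c g⁻¹ := fun l b => by
  rw [hg (c - l), sub_sub_cancel]; simp [mul_assoc]

omit h in
theorem Rf.mul {c : ℤ} (hg : Rf U c g) (hg' : Rf U c u) : g * u ∈ fqT U := fun l b => by
  rw [hg', hg, sub_sub_cancel]; simp [mul_assoc]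

omit h in
theorem Rf.conj {c : ℤ} (hg : Rf U c g) (hu : u ∈ fqT U) : g * u * g⁻¹ ∈ fqT U := fun l b => by
  rw [hg.inv, hu, hg, sub_sub_cancel]; simp [mul_assoc]

theorem rU {c : ℤ} (hg : Rf U c g) (hb : b ∈ U l) (e : (c - l - k) % 16 = 0 := by omega) : g * b * g⁻¹ ∈ U k :=
  h.mU ((hg l b).1 hb)

theorem mV (hg : g ∈ V k) (e : (l - k) % 16 = 0 := by omega) : g ∈ V l :=
  (h.memV _ _).2 ⟨h.mU (h.vU hg), fun r _ _ _ hu => h.vc hg (l := r - l + k) (h.mU hu)⟩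

theorem rV {c : ℤ} (hg : Rf U c g) (hb : b ∈ V l) (e : (c - l - k) % 16 = 0 := by omega) : g * b * g⁻¹ ∈ V k := by
  refine h.mV (k := c - l) ((h.memV _ _).2 ⟨h.rU hg (h.vU hb), fun r _ _ u hu => ?_⟩)
  have := (h.vc hb (h.rU (k := c - r) hg.inv hu)).conj g
  rwa [show g * (g⁻¹ * u * g⁻¹⁻¹) * g⁻¹ = u by group] at this

theorem rI {c : ℤ} (hg : Rf U c g) (hb : b ∈ I i j) (e : k ≤ c - j ∧ c - i ≤ l := by omega) :
    g * b * g⁻¹ ∈ I k l :=
  h.I_le (H := (I k l).comap (MulAut.conj g).toMonoidHom).2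
    (fun r _ _ _ hb => h.uI (h.rU (k := c - r) hg hb)) hb

omit h in
theorem tU (hg : g ∈ fqT U) (hb : b ∈ U l) : g * b * g⁻¹ ∈ U l := (hg l b).1 hb

theorem tV (hg : g ∈ fqT U) (hb : b ∈ V l) : g * b * g⁻¹ ∈ V l := by
  refine (h.memV _ _).2 ⟨tU hg (h.vU hb), fun r _ _ u hu => ?_⟩
  have := (h.vc hb (tU (inv_mem hg) hu)).conj g
  rwa [show g * (g⁻¹ * u * g⁻¹⁻¹) * g⁻¹ = u by group] at this

theorem tI (hg : g ∈ fqT U) (hb : b ∈ I i j) : g * b * g⁻¹ ∈ I i j :=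
  h.I_le (H := (I i j).comap (MulAut.conj g).toMonoidHom).2 (fun _ _ _ _ hb => h.uI (tU hg hb)) hb

theorem exM (ha : a ∈ U k) (h1 : a ≠ 1) : ∃ m, M k a m := (h.poly.mu k a ha h1).imp fun _ => (h.eqM _ _ _).2

theorem dec (hm : M k a m) (l : ℤ) (e : (l - k - 8) % 16 = 0 := by omega) :
    ∃ x ∈ U l, ∃ y ∈ U l, m = x * a * y := by
  obtain ⟨x, hx, y, hy, e⟩ := ((h.eqM _ _ _).1 hm).1
  exact ⟨x, h.mU hx (by push_cast; omega), y, h.mU hy (by push_cast; omega), e⟩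

theorem Minv (hm : M k a m) : M k a⁻¹ m⁻¹ := (h.eqM _ _ _).2 ((h.eqM _ _ _).1 hm).inv

theorem Mconj (hm : M k a m) (hg : g ∈ fqT U) : M k (g * a * g⁻¹) (g * m * g⁻¹) :=
  (h.eqM _ _ _).2 (((h.eqM _ _ _).1 hm).conj hg)

theorem exU (k : ℤ) : ∃ a ∈ U k, a ≠ 1 := h.poly.exists_ne k

/-! ### Changes of frame -/

theorem sh (c : ℤ) (hc : Even c := by decide) :
    Oc (fun l => U (c + l)) (fun l => V (c + l)) (fun i j => I (c + i) (c + j)) (fun k => M (c + k)) := by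
  have eM : ∀ k a m, IsMu U 8 (c + k) a m ↔ IsMu (fun l => U (c + l)) 8 k a m := fun k a m => by
    simp only [IsMu, add_assoc]
    refine and_congr_right fun _ => ⟨fun H l b => ?_, fun H l b => ?_⟩
    · rw [H]; congr! 2; ring
    · have := H (l - c) b
      rw [add_sub_cancel] at this
      rw [this]; congr! 2; ring
  have eI : ∀ i j, ocI U (c + i) (c + j) = ocI (fun l => U (c + l)) i j := fun i j => le_antisymm
    (ocI_le.2 fun l h1 h2 => le_trans (by simp) (le_ocI (l := l - c) (by omega) (by omega)))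
    (ocI_le.2 fun l h1 h2 => le_ocI (by omega) (by omega))
  have eP : ∀ r k g, g ∈ UP U (c + k) r ↔ g ∈ UP (fun l => U (c + l)) k r := fun r => by
    induction r with
    | zero => exact fun _ _ => Iff.rfl
    | succ r ih => intro k g; simp only [mem_UP_succ, add_assoc, ih]
  refine ⟨⟨fun k => by rw [← add_assoc, h.poly.per], fun k => h.poly.nt _, fun k r hr a ha b hb => ?_,
    fun k a ha b hb => h.poly.uniq _ a ha b (by rwa [add_assoc, eP]),
    fun k a ha h1 => (h.poly.mu _ a ha h1).imp fun _ => (eM _ _ _).1⟩, fun i g => ?_,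
    fun i j => (h.eqI _ _).trans (eI i j), fun k a m => (h.eqM _ _ _).trans (eM _ _ _),
    fun k hk => h.cen _ (hc.add hk)⟩
  · rw [← eP, ← add_assoc]
    exact h.poly.comm _ r hr a ha b (mem_U_congr (U := U) (by ring) hb)
  · rw [h.memV]
    refine and_congr_right fun _ => ⟨fun H l _ _ => H _ (by omega) (by omega), fun H l _ _ => ?_⟩
    simpa using H (l - c) (by omega) (by omega)

theorem rv (c : ℤ) (hc : Even c := by decide) :
    Oc (fun l => U (c - l)) (fun l => V (c - l)) (fun i j => I (c - j) (c - i)) (fun k => M (c - k)) := by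
  have eM : ∀ k a m, IsMu U 8 (c - k) a m ↔ IsMu (fun l => U (c - l)) 8 k a m := fun k a m => by
    have e1 : U (c - (k + (8 : ℕ))) = U (c - k + (8 : ℕ)) := h.Uper (by push_cast; omega)
    have e2 : ∀ l, U (c - (2 * k + (8 : ℕ) - l)) = U (2 * (c - k) + (8 : ℕ) - (c - l)) := fun l =>
      h.Uper (by push_cast; omega)
    simp only [IsMu, e1, e2]
    refine and_congr_right fun _ => ⟨fun H l b => H _ b, fun H l b => ?_⟩
    simpa using H (c - l) b
  have eI : ∀ i j, ocI U (c - j) (c - i) = ocI (fun l => U (c - l)) i j := fun i j => le_antisymm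
    (ocI_le.2 fun l h1 h2 => le_trans (by simp) (le_ocI (l := c - l) (by omega) (by omega)))
    (ocI_le.2 fun l h1 h2 => le_ocI (by omega) (by omega))
  have eP : ∀ (r : ℕ) k, r ≤ 8 → ∀ g ∈ I (c - k - r + 1) (c - k), g ∈ UP (fun l => U (c - l)) k r := fun r => by
    induction r with
    | zero => exact fun _ _ g hg => h.I_one hg
    | succ r ih =>
      intro k hr g hg
      obtain ⟨a, ha, b, hb, e⟩ := h.snoc (inv_mem hg) (c - (k + 1))
      exact mem_UP_succ.2 ⟨b⁻¹, inv_mem hb, a⁻¹, ih _ (by omega) _ (inv_mem (h.II ha)), by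
        rw [← mul_inv_rev, ← e, inv_inv]⟩
  refine ⟨⟨fun k => h.Uper (by push_cast; omega), fun k => h.poly.nt _, fun k r hr a ha b hb => ?_,
    fun k a ha b hb e => ?_, fun k a ha h1 => (h.poly.mu _ a ha h1).imp fun _ => (eM _ _ _).1⟩, fun i g => ?_,
    fun i j => (h.eqI _ _).trans (eI i j), fun k a m => (h.eqM _ _ _).trans (eM _ _ _),
    fun k hk => h.cen _ (hc.sub hk)⟩
  · exact eP r _ (by omega) _ (h.cm' (h.uI hb (i := c - (k + r + 1)) (j := c - (k + r + 1)))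
      (h.uI ha (i := c - k) (j := c - k)))
  · have hb' : b ∈ I (c - k - 7) (c - k - 1) :=
      oc_UP_le _ _ (fun l h1 h2 u hu => h.uI hu (by push_cast at h2; omega)) b hb
    exact h.disj (i := c - k - 7) (k := c - k - 1) (l := c - k) (j := c - k)
      (by rw [eq_inv_of_mul_eq_one_left e]; exact inv_mem hb') (h.uI ha)
  · rw [h.memV]
    refine and_congr_right fun _ => ⟨fun H l _ _ => H _ (by omega) (by omega), fun H l _ _ => ?_⟩
    simpa using H (c - l) (by omega) (by omega)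

end Oc

theorem IsPoly.exists_oc (h : IsPoly 8 U) (hc : Cen 4 U 0) : ∃ V I M, Oc U V I M := by
  let V : ℤ → Subgroup Γ := fun i => U i ⊓ ⨅ (l : ℤ) (_ : i - 4 ≤ l ∧ l ≤ i + 4), Subgroup.centralizer (U l : Set Γ)
  have hV : ∀ i g, g ∈ V i ↔ g ∈ U i ∧ ∀ l, i - 4 ≤ l → l ≤ i + 4 → ∀ u ∈ U l, Commute g u := fun i g => by
    simp only [V, Subgroup.mem_inf, Subgroup.mem_iInf, Subgroup.mem_centralizer_iff, and_imp]
    exact and_congr_right fun _ => ⟨fun H l h1 h2 u hu => (H l h1 h2 u hu).symm,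
      fun H l h1 h2 u hu => (H l h1 h2 u hu).symm⟩
  refine ⟨V, ocI U, IsMu U 8, h, hV, fun _ _ => rfl, fun _ _ _ => Iff.rfl, ?_⟩
  rintro _ ⟨k, rfl⟩
  obtain ⟨w, hw, h1, H⟩ := hc
  obtain ⟨a, ha, a1⟩ := h.exists_ne (k - 4)
  obtain ⟨m, hm⟩ := h.mu _ a ha a1
  refine ⟨m * w * m⁻¹, (hV _ _).2 ⟨hm.conj_mem (by push_cast; ring) hw, fun r _ _ u hu => ?_⟩, by simpa using h1⟩
  have := (H (k + k - r) (by push_cast; omega) (by push_cast; omega) _ (hm.conj_mem' (by push_cast; ring) hu)).conj m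
  rwa [show m * (m⁻¹ * u * m) * m⁻¹ = u by group] at this

end Cfsg.Agent.Bld
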