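import Mathlib
import Cfsg.Agent.FS.Defs

/-! Finite Moufang octagons: coordinates (definitions). -/

set_option autoImplicit false

namespace Cfsg.Agent.Bld

open scoped commutatorElement

variable {Γ K : Type*} [Group Γ] [Field K]

/-- The weights of the torus. -/
def ocW (σ : K →+* K) (r : K) (i : ℤ) : K :=
  if i = 1 then r ^ 2 else if i = 2 then r else if i = 3 then σ r else if i = 4 then σ r / r else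
  if i = 5 then 1 else if i = 6 then r / σ r else if i = 7 then (σ r)⁻¹ else r⁻¹

/-- Relations between the letters of an octagon; `v i` is trivial for odd `i`. -/
structure OE (σ : K →+* K) (x v : ℤ → K → Γ) (m n : Γ) : Prop where
  xm : ∀ i, 2 ≤ i → i ≤ 8 → ∀ t, m * x i t * m⁻¹ = x (10 - i) t
  xn : ∀ i, 1 ≤ i → i ≤ 7 → ∀ t, n * x i t * n⁻¹ = x (8 - i) t
  add : ∀ i, 1 ≤ i → i ≤ 8 → ∀ a b, x i a * x i b = x i (a + b) * v i (a * σ b)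
  vadd : ∀ i, 1 ≤ i → i ≤ 8 → ∀ a b, v i (a + b) = v i a * v i b
  xv : ∀ i, 1 ≤ i → i ≤ 8 → ∀ a b, Commute (x i a) (v i b)
  c12 : ∀ a b, Commute (x 1 a) (x 2 b)
  c13 : ∀ a b, Commute (x 1 a) (x 3 b)
  c15 : ∀ a b, Commute (x 1 a) (x 5 b)
  c26 : ∀ a b, Commute (x 2 a) (x 6 b)
  c24 : ∀ a b, ⁅x 2 a, x 4 b⁆ = x 3 (a * b)
  c14 : ∀ a b, ⁅x 1 a, x 4 b⁆ = v 2 (a * b)
  c16 : ∀ b, ⁅x 1 1, x 6 b⁆ = v 2 b * x 3 (σ b)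
  c17 : ∀ a b, ⁅x 1 a, x 7 b⁆ = x 3 (σ a * b) * x 5 (a * σ b)
  cf : ∀ t, ⁅x 1 1, v 8 t⁆ = v 2 t * x 3 (σ t) * (x 4 t)⁻¹ * x 5 (t ^ 2) * x 6 t * x 7 (σ t)
  c18 : ∀ s, (x 8 1)⁻¹ * x 1 s * x 8 1 = n * (v 8 1 * x 1 s * (v 8 1)⁻¹) * n⁻¹
  c28 : ∀ a, m * (x 1 1 * x 8 a * (x 1 1)⁻¹) * m⁻¹ = x 1 1 * x 8 a * (x 1 1)⁻¹
  tor : ∀ r, r ≠ 0 → ∃ h : Γ, ∀ i, 1 ≤ i → i ≤ 8 → ∀ t, h * x i t * h⁻¹ = x i (ocW σ r i * t)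

/-- Coordinates for the root groups `U 1, …, U 8` of an octagon. -/
structure OC (U : ℤ → Subgroup Γ) (σ : K →+* K) (x v : ℤ → K → Γ) (m n : Γ) : Prop
    extends OE σ x v m n where
  sq : ∀ a, σ (σ a) = a ^ 2
  mem : ∀ i, 1 ≤ i → i ≤ 8 → ∀ g, g ∈ U i ↔ ∃ a u, x i a * v i u = g
  inj : ∀ i, 1 ≤ i → i ≤ 8 → ∀ a u, x i a * v i u = 1 → a = 0
  vinj : ∀ i, 1 ≤ i → i ≤ 8 → Even i → ∀ u, v i u = 1 → u = 0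
  vodd : ∀ i, 1 ≤ i → i ≤ 8 → Odd i → ∀ u, v i u = 1

end Cfsg.Agent.Bld
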