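import Mathlib
import Cfsg.Agent.FS.Oct0
import Cfsg.Agent.FS.OctD

/-! Finite Moufang octagons: coordinates for the odd root groups and the central elations (definition). -/

set_option autoImplicit false

namespace Cfsg.Agent.Bld

open scoped commutatorElement

variable {Γ K : Type*} [Group Γ] [Field K]

/-- Coordinates `x i` for `U i` (`i = 1, 3, 5, 7`) and `v i` for `V i` (`i = 2, 4, 6, 8`). -/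
structure OB (U V : ℤ → Subgroup Γ) (M : ℤ → Γ → Γ → Prop) (σ : K →+* K) (κ : K) (x v : ℤ → K → Γ)
    (m n : Γ) : Prop where
  sq : ∀ a, σ (σ a) = a ^ 2
  p1 : IsPar (U 1) (x 1)
  p3 : IsPar (U 3) (x 3)
  p5 : IsPar (U 5) (x 5)
  p7 : IsPar (U 7) (x 7)
  p2 : IsPar (V 2) (v 2)
  p4 : IsPar (V 4) (v 4)
  p6 : IsPar (V 6) (v 6)
  p8 : IsPar (V 8) (v 8)
  Mm : M 1 (x 1 1) m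
  Mn : M 8 (v 8 1) n
  mm : m * m = 1
  nn : n * n = 1
  m3 : ∀ t, m * x 3 t * m⁻¹ = x 7 t
  m5 : ∀ t, m * x 5 t * m⁻¹ = x 5 t
  m7 : ∀ t, m * x 7 t * m⁻¹ = x 3 t
  m2 : ∀ t, m * v 2 t * m⁻¹ = v 8 t
  m4 : ∀ t, m * v 4 t * m⁻¹ = v 6 t
  m6 : ∀ t, m * v 6 t * m⁻¹ = v 4 t
  m8 : ∀ t, m * v 8 t * m⁻¹ = v 2 t
  n1 : ∀ t, n * x 1 t * n⁻¹ = x 7 t
  n3 : ∀ t, n * x 3 t * n⁻¹ = x 5 t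
  n5 : ∀ t, n * x 5 t * n⁻¹ = x 3 t
  n7 : ∀ t, n * x 7 t * n⁻¹ = x 1 t
  n2 : ∀ t, n * v 2 t * n⁻¹ = v 6 t
  n4 : ∀ t, n * v 4 t * n⁻¹ = v 4 t
  n6 : ∀ t, n * v 6 t * n⁻¹ = v 2 t
  c16 : ∀ s t, ⁅x 1 s, v 6 t⁆ = v 4 (s * t)
  c17 : ∀ a b, ⁅x 1 a, x 7 b⁆ = x 3 (σ a * b) * x 5 (a * σ b)
  κ0 : κ ≠ 0
  c28 : ∀ s t, ⁅v 2 s, v 8 t⁆ = v 4 (σ s * t) * x 5 (κ * s * t) * v 6 (s * σ t)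
  mu8 : ∀ t n', t ≠ 0 → M 8 (v 8 t) n' → ∀ s, n' * x 1 s * n'⁻¹ = x 7 (σ t * s)
  tor : ∀ r, r ≠ 0 → ∃ h ∈ fqT U, (∀ t, h * x 1 t * h⁻¹ = x 1 (r ^ 2 * t)) ∧ (∀ t, h * x 3 t * h⁻¹ = x 3 (σ r * t)) ∧
    (∀ t, h * x 5 t * h⁻¹ = x 5 t) ∧ (∀ t, h * x 7 t * h⁻¹ = x 7 ((σ r)⁻¹ * t)) ∧
    (∀ t, h * v 4 t * h⁻¹ = v 4 (r * t)) ∧ ∀ t, h * v 6 t * h⁻¹ = v 6 (r⁻¹ * t)

end Cfsg.Agent.Bld
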