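import Mathlib
import Cfsg.Agent.FS.Oct0

/-! Finite Moufang octagons: the maps `μ`, and commutators with central elations. -/

set_option autoImplicit false
set_option linter.unusedSectionVars false

namespace Cfsg.Agent.Bld

open scoped commutatorElement

section

variable {Γ : Type*} [Group Γ] {a b g m w x y z : Γ}

theorem oc_cl (a b c : Γ) : ⁅a * b, c⁆ = a * ⁅b, c⁆ * a⁻¹ * ⁅a, c⁆ := by simp only [commutatorElement_def]; group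

theorem oc_cr (a b c : Γ) : ⁅a, b * c⁆ = ⁅a, b⁆ * (b * ⁅a, c⁆ * b⁻¹) := by simp only [commutatorElement_def]; group

theorem oc_cj (g a : Γ) : g * a * g⁻¹ = ⁅g, a⁆ * a := by simp only [commutatorElement_def]; group

theorem oc_cj' (g a : Γ) : g * a * g⁻¹ = a * ⁅a⁻¹, g⁆ := by simp only [commutatorElement_def]; group

theorem oc_fix (h : Commute g a) : g * a * g⁻¹ = a := by rw [h.eq]; group

theorem oc_c1 (h : Commute g a) : ⁅g, a⁆ = 1 := commutatorElement_eq_one_iff_commute.2 h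

theorem oc_one (h : (m * b * m⁻¹)⁻¹ = 1) : b = 1 := conj_eq_one_iff.1 (inv_eq_one.1 h)

theorem oc_ml {H : Subgroup Γ} (h1 : a * b ∈ H) (h2 : b ∈ H) : a ∈ H := (H.mul_mem_cancel_right h2).1 h1

theorem oc_mr {H : Subgroup Γ} (h1 : a * b ∈ H) (h2 : a ∈ H) : b ∈ H := (H.mul_mem_cancel_left h2).1 h1

theorem oc_T (hz : Commute z y) (e : m = x * a * y) : a * z * a⁻¹ = x⁻¹ * (m * z * m⁻¹) * x := by
  rw [e, show x * a * y * z * (x * a * y)⁻¹ = x * a * (y * z * y⁻¹) * a⁻¹ * x⁻¹ by group, oc_fix hz.symm]; group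

theorem oc_card_le [Finite Γ] {A B : Subgroup Γ} (f : Γ → Γ) (hf : ∀ a ∈ A, f a ∈ B)
    (inj : ∀ a ∈ A, ∀ a' ∈ A, f a = f a' → a = a') : Nat.card A ≤ Nat.card B :=
  Nat.card_le_card_of_injective (fun a : A => (⟨f a, hf a a.2⟩ : B))
    fun a a' e => Subtype.ext (inj a a.2 a' a'.2 (congrArg Subtype.val e))

theorem oc_surj [Finite Γ] {A B : Subgroup Γ} (f : Γ → Γ) (hf : ∀ a ∈ A, f a ∈ B)
    (inj : ∀ a ∈ A, ∀ a' ∈ A, f a = f a' → a = a') (hc : Nat.card B ≤ Nat.card A) (hw : w ∈ B) :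
    ∃ a ∈ A, f a = w := by
  obtain ⟨a, e⟩ := (Function.Injective.bijective_of_nat_card_le (f := fun a : A => (⟨f a, hf a a.2⟩ : B))
    (fun a a' e => Subtype.ext (inj a a.2 a' a'.2 (congrArg Subtype.val e))) hc).2 ⟨w, hw⟩
  exact ⟨a, a.2, congrArg Subtype.val e⟩

end

namespace Oc

variable {Γ : Type*} [Group Γ] [Finite Γ] {U V : ℤ → Subgroup Γ} {I : ℤ → ℤ → Subgroup Γ}
  {M : ℤ → Γ → Γ → Prop} {i j k l : ℤ} {a a' b b' c d e e' g g' p p' q q' u v v' w m m' n x x' y y' z : Γ}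
  (h : Oc U V I M)
include h

theorem T (hm : M k a m) (l : ℤ) (hz : ∀ u ∈ U l, Commute z u) (e : (l - k - 8) % 16 = 0 := by omega) :
    ∃ x ∈ U l, (m * z * m⁻¹)⁻¹ * ⁅a, z⁆ = ⁅(m * z * m⁻¹)⁻¹, x⁻¹⁆ * z⁻¹ := by
  obtain ⟨x, hx, y, hy, e⟩ := h.dec hm l
  exact ⟨x, hx, by rw [commutatorElement_def a, oc_T (hz y hy) e]; simp only [commutatorElement_def]; group⟩

theorem m4 (ha : a ∈ U k) (hb : b ∈ U l) (hm : M k a m) (e : l = k + 7 ∧ i = k + 2 ∧ j = k + 6 := by omega) :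
    (m * b * m⁻¹)⁻¹ * ⁅a, b⁆ ∈ I i j := by
  have hw : (m * b * m⁻¹)⁻¹ ∈ U (k + 1) := inv_mem (h.rU (h.rf hm (2 * k + 8)) hb)
  obtain ⟨x, hx, e⟩ := h.T hm (k + 8) fun u hu => h.adj hb hu
  refine h.inter (i := k + 1) (l := k + 7) (mul_mem (h.uI hw) (h.cmU ha hb)) ?_
  rw [e]
  exact mul_mem (h.cmU hw (inv_mem hx)) (h.uI (inv_mem hb))

theorem m4ne (ha : a ∈ U k) (hb : b ∈ U l) (hm : M k a m) (H : Commute a b) (e : l = k + 7 := by omega) : b = 1 := by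
  have := h.m4 ha hb hm (i := k + 2) (j := k + 6)
  rw [oc_c1 H, mul_one] at this
  exact oc_one (h.disj0 (inv_mem (h.rU (k := k + 1) (h.rf hm (2 * k + 8)) hb)) this)

theorem Mne (hm : M k a m) : a ≠ 1 := by
  rintro rfl
  obtain ⟨b, hb, h1⟩ := h.exU (k + 7)
  exact h1 (h.m4ne (one_mem _) hb hm (Commute.one_left _))

theorem Mleft (ha : a ∈ U k) (hm : M k a m) (hm' : M k a m') (hx : x ∈ U l) (hy : y ∈ U l) (hx' : x' ∈ U l)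
    (hy' : y' ∈ U l) (e1 : m = x * a * y) (e2 : m' = x' * a * y') (e : (l - k - 8) % 16 = 0 := by omega) :
    x = x' := by
  obtain ⟨b, hb, h1⟩ := h.exU (k + 7)
  have hw : m * b * m⁻¹ ∈ U (k + 1) := h.rU (h.rf hm (2 * k + 8)) hb
  have hw' : m' * b * m'⁻¹ ∈ U (k + 1) := h.rU (h.rf hm' (2 * k + 8)) hb
  have k1 : (m' * b * m'⁻¹)⁻¹ * (m * b * m⁻¹) = 1 := h.disj0 (mul_mem (inv_mem hw') hw) (k := k + 2) (j := k + 6)
    (by convert mul_mem (h.m4 ha hb hm' (i := k + 2) (j := k + 6)) (inv_mem (h.m4 ha hb hm)) using 1; group)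
  have k2 := oc_T (h.adj hb (h.mU hy (l := k + 8))) e1
  rw [oc_T (h.adj hb (h.mU hy' (l := k + 8))) e2, inv_mul_eq_one.1 k1] at k2
  obtain ⟨n, hn⟩ := h.exM hw (by simpa using h1)
  refine (mul_inv_eq_one.1 (h.m4ne hw (h.mU (mul_mem hx' (inv_mem hx)) (l := k + 8)) hn ?_)).symm
  change _ * _ = _ * _
  calc m * b * m⁻¹ * (x' * x⁻¹) = x' * (x'⁻¹ * (m * b * m⁻¹) * x') * x⁻¹ := by group
    _ = _ := by rw [k2]; group

theorem Muniq (ha : a ∈ U k) (hm : M k a m) (hm' : M k a m') : m = m' := by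
  obtain ⟨x, hx, y, hy, e⟩ := h.dec hm (k + 8)
  obtain ⟨x', hx', y', hy', e'⟩ := h.dec hm' (k + 8)
  have e1 := h.Mleft ha hm hm' hx hy hx' hy' e e'
  have e2 := h.Mleft (inv_mem ha) (h.Minv hm) (h.Minv hm') (inv_mem hy) (inv_mem hx) (inv_mem hy') (inv_mem hx')
    (by rw [e]; group) (by rw [e']; group)
  rw [e, e', e1, inv_injective e2]

theorem f1a (ha : a ∈ U 1) (hb : b ∈ V 6) (hm : M 1 a m) : (m * b * m⁻¹)⁻¹ * ⁅a, b⁆ ∈ U 5 := by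
  have hw : (m * b * m⁻¹)⁻¹ ∈ V 4 := inv_mem (h.rV (h.rf hm 10) hb)
  obtain ⟨x, hx, e⟩ := h.T hm 9 fun u hu => h.vc hb hu
  refine h.Iu (h.inter (i := 2) (l := 8) (mul_mem (h.vI hw) (h.cmU ha (h.vU hb))) ?_)
  rw [e]
  exact mul_mem (h.cmU (h.vU hw) (inv_mem hx)) (h.vI (inv_mem hb))

theorem f1I (ha : a ∈ U 1) (hb : b ∈ V 6) : ⁅a, b⁆ ∈ I 4 5 := by
  by_cases h1 : a = 1
  · simp [h1]
  obtain ⟨m, hm⟩ := h.exM ha h1
  exact oc_mr (h.uI (h.f1a ha hb hm)) (inv_mem (h.vI (h.rV (k := 4) (h.rf hm 10) hb)))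

theorem n1 (hd : d ∈ U 5) (H : ∀ g ∈ U 2, Commute g d) : d = 1 := by
  obtain ⟨b, hb, h1⟩ := h.cen 10 (by decide)
  obtain ⟨m, hm⟩ := h.exM (h.vU hb) h1
  have hw : (m * d * m⁻¹)⁻¹ ∈ U 7 := inv_mem (h.rU (h.rf hm 12) hd)
  obtain ⟨x, hx, e⟩ := h.T hm 2 fun u hu => (H u hu).symm
  have k1 : ⁅b, d⁆ ∈ I 8 9 := by
    rw [← commutatorElement_inv]
    exact inv_mem ((h.sh 4).f1I hd hb)
  have k2 : (m * d * m⁻¹)⁻¹ * ⁅b, d⁆ ∈ I 3 6 := by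
    rw [e]
    exact mul_mem (h.cm' (h.uI (inv_mem hx) (i := 2) (j := 2)) (h.uI hw (i := 7) (j := 7))) (h.uI (inv_mem hd))
  have k3 := h.disj k2 (l := 7) (j := 9) (mul_mem (h.uI hw) (h.II k1))
  exact oc_one (h.uq1 (h.uI hw (i := 7) (j := 7)) k1 k3).1

theorem f1 (ha : a ∈ U 1) (hb : b ∈ V 6) (hm : M 1 a m) : ⁅a, b⁆ = m * b * m⁻¹ :=
  (inv_mul_eq_one.1 (h.n1 (h.f1a ha hb hm) fun _ hg =>
    (h.vc (h.rV (k := 4) (h.rf hm 10) hb) hg).symm.inv_right.mul_right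
      (fq_comm_comm (h.adj ha hg).symm (h.vc hb hg).symm))).symm

theorem f1V (ha : a ∈ U 1) (hb : b ∈ V 6) : ⁅a, b⁆ ∈ V 4 := by
  by_cases h1 : a = 1
  · simp [h1]
  obtain ⟨m, hm⟩ := h.exM ha h1
  rw [h.f1 ha hb hm]
  exact h.rV (h.rf hm 10) hb

theorem f1_one (ha : a ∈ U 1) (hb : b ∈ V 6) (e : ⁅a, b⁆ = 1) : a = 1 ∨ b = 1 := by
  refine or_iff_not_imp_left.2 fun h1 => ?_
  obtain ⟨m, hm⟩ := h.exM ha h1
  simpa [h.f1 ha hb hm] using e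

theorem f1_mul (ha : a ∈ U 1) (ha' : a' ∈ U 1) (hb : b ∈ V 6) : ⁅a * a', b⁆ = ⁅a', b⁆ * ⁅a, b⁆ := by
  rw [oc_cl, oc_fix (h.vc (h.f1V ha' hb) ha).symm]

theorem f1_inj (ha : a ∈ U 1) (ha' : a' ∈ U 1) (hb : b ∈ V 6) (h1 : b ≠ 1) (e : ⁅a, b⁆ = ⁅a', b⁆) : a = a' := by
  have := h.f1_mul ha' (mul_mem (inv_mem ha') ha) hb
  rw [mul_inv_cancel_left, e, right_eq_mul] at this
  exact (inv_mul_eq_one.1 ((h.f1_one (mul_mem (inv_mem ha') ha) hb this).resolve_right h1)).symm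

theorem f2 (hg : g ∈ U 2) (hv : v ∈ V 8) (hm : M 2 g m) : (m * v * m⁻¹)⁻¹ * ⁅g, v⁆ ∈ I 5 7 := by
  have hw : (m * v * m⁻¹)⁻¹ ∈ V 4 := inv_mem (h.rV (h.rf hm 12) hv)
  obtain ⟨x, hx, e⟩ := h.T hm 10 fun u hu => h.vc hv hu
  refine h.inter (i := 3) (l := 9) (mul_mem (h.vI hw) (h.cmU hg (h.vU hv))) ?_
  rw [e]
  exact mul_mem (h.cmU (h.vU hw) (inv_mem hx)) (h.vI (inv_mem hv))

theorem f2' (hg : g ∈ U 2) (hv : v ∈ V 8) : ∃ p ∈ V 4, ∃ w ∈ I 5 7, ⁅g, v⁆ = p * w := by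
  by_cases h1 : g = 1
  · exact ⟨1, one_mem _, 1, one_mem _, by simp [h1]⟩
  obtain ⟨m, hm⟩ := h.exM hg h1
  exact ⟨_, h.rV (h.rf hm 12) hv, _, h.f2 hg hv hm, by group⟩

theorem f2ne (hg : g ∈ U 2) (hv : v ∈ V 8) (h1 : v ≠ 1) (H : ⁅g, v⁆ ∈ I 5 7) : g = 1 := by
  by_contra h2
  obtain ⟨m, hm⟩ := h.exM hg h2
  exact h1 (oc_one (h.disj0 (inv_mem (h.vU (h.rV (k := 4) (h.rf hm 12) hv))) (oc_ml (h.f2 hg hv hm) H)))

omit h [Finite Γ] in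
/-- The components of the commutator of `b ∈ V 2` and `v ∈ V 8`. -/
structure R (U V : ℤ → Subgroup Γ) (b v p e q : Γ) : Prop where
  hb : b ∈ V 2
  hv : v ∈ V 8
  hp : p ∈ V 4
  he : e ∈ U 5
  hq : q ∈ V 6
  eq : ⁅b, v⁆ = p * e * q

theorem R_left (r : R U V b v p e q) (hm : M 2 b m) : p = m * v * m⁻¹ := by
  have := h.f2 (h.vU r.hb) r.hv hm
  rw [r.eq, mul_assoc p, ← mul_assoc] at this
  exact (inv_mul_eq_one.1 (h.disj0 (mul_mem (inv_mem (h.vU (h.rV (k := 4) (h.rf hm 12) r.hv))) (h.vU r.hp))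
    (oc_ml this (mul_mem (h.uI r.he) (h.vI r.hq))))).symm

theorem R_rv (r : R U V b v p e q) : R (fun l => U (10 - l)) (fun l => V (10 - l)) v b q⁻¹ e⁻¹ p⁻¹ :=
  ⟨r.hv, r.hb, inv_mem r.hq, inv_mem r.he, inv_mem r.hp, by rw [← commutatorElement_inv, r.eq]; group⟩

theorem R_right (r : R U V b v p e q) (hn : M 8 v n) : q⁻¹ = n * b * n⁻¹ := (h.rv 10).R_left (h.R_rv r) hn

theorem exR (hb : b ∈ V 2) (hv : v ∈ V 8) : ∃ p e q, R U V b v p e q := by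
  obtain ⟨p, hp, w, hw, e1⟩ := h.f2' (h.vU hb) hv
  obtain ⟨q, hq : q ∈ V 6, w', hw' : w' ∈ I 3 5, e2⟩ := (h.rv 10).f2' (h.vU hv) hb
  have e3 : p⁻¹ * ⁅b, v⁆ * q ∈ I 5 5 := by
    refine h.inter (i := 3) (l := 7) ?_ ?_
    · rw [← commutatorElement_inv, e2]
      simpa [mul_assoc] using mul_mem (h.vI (inv_mem hp)) (inv_mem hw')
    · rw [e1]
      simpa [mul_assoc] using mul_mem hw (h.vI hq)
  exact ⟨p, _, q⁻¹, hb, hv, hp, h.Iu e3, inv_mem hq, by group⟩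

theorem R_uq (r : R U V b v p e q) (r' : R U V b v p' e' q') : p = p' ∧ e = e' ∧ q = q' := by
  obtain ⟨k1, k2⟩ := h.uq (i := 4) (k := 5) (l := 6) (j := 6) (mul_mem (h.vI r.hp) (h.uI r.he))
    (mul_mem (h.vI r'.hp) (h.uI r'.he)) (h.vI r.hq) (h.vI r'.hq) (r.eq.symm.trans r'.eq)
  obtain ⟨k3, k4⟩ := h.uq (i := 4) (k := 4) (l := 5) (j := 5) (h.vI r.hp) (h.vI r'.hp) (h.uI r.he) (h.uI r'.he) k1
  exact ⟨k3, k4, k2⟩

theorem R_mem (r : R U V b v p e q) : p * e * q ∈ I 4 6 := mul_mem (mul_mem (h.vI r.hp) (h.uI r.he)) (h.vI r.hq)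

theorem R_mul (r : R U V b v p e q) (r' : R U V b' v p' e' q') : R U V (b' * b) v (p * p') (e * e') (q * q') := by
  refine ⟨mul_mem r'.hb r.hb, r.hv, mul_mem r.hp r'.hp, mul_mem r.he r'.he, mul_mem r.hq r'.hq, ?_⟩
  rw [oc_cl, r.eq, r'.eq, oc_fix (h.vcI r'.hb (h.R_mem r))]
  calc p * e * q * (p' * e' * q') = p * (e * q * p') * e' * q' := by group
    _ = p * p' * e * (q * e') * q' := by
      rw [← (h.vcI r'.hp (mul_mem (h.uI r.he (i := 5) (j := 6)) (h.vI r.hq))).eq]; group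
    _ = _ := by rw [(h.vc r.hq r'.he).eq]; group

theorem R_inv (r : R U V b v p e q) : R U V b⁻¹ v p⁻¹ e⁻¹ q⁻¹ := by
  obtain ⟨p', e', q', r'⟩ := h.exR (inv_mem r.hb) r.hv
  obtain ⟨k1, k2, k3⟩ := h.R_uq (h.R_mul r r') (p' := 1) (e' := 1) (q' := 1)
    ⟨mul_mem r'.hb r.hb, r.hv, one_mem _, one_mem _, one_mem _, by simp⟩
  rwa [eq_inv_of_mul_eq_one_right k1, eq_inv_of_mul_eq_one_right k2, eq_inv_of_mul_eq_one_right k3] at r'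

theorem R_inv' (r : R U V b v p e q) : R U V b v⁻¹ p⁻¹ e⁻¹ q⁻¹ := by
  have r' := (h.rv 10).R_inv (h.R_rv r)
  exact ⟨r.hb, inv_mem r.hv, inv_mem r.hp, inv_mem r.he, inv_mem r.hq, by
    rw [← commutatorElement_inv, r'.eq]; group⟩

theorem vsq2 (hb : b ∈ V 2) : b * b = 1 := by
  by_cases h1 : b = 1
  · simp [h1]
  obtain ⟨v, hv, h2⟩ := h.cen 8 (by decide)
  obtain ⟨m, hm⟩ := h.exM (h.vU hb) h1
  obtain ⟨n, hn⟩ := h.exM (h.vU hv) h2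
  have k2 : ∀ b ∈ V 2, n * n * b * (n * n)⁻¹ = b⁻¹ := fun b hb => by
    obtain ⟨p, e, q, r⟩ := h.exR hb hv
    have e1 := h.R_right r hn
    rw [h.R_right (h.R_inv' r) (h.Minv hn) |> (inv_inv q).symm.trans] at e1
    calc n * n * b * (n * n)⁻¹ = n * (n * b * n⁻¹) * n⁻¹ := by group
      _ = _ := by rw [← e1]; group
  obtain ⟨p, e, q, r⟩ := h.exR hb hv
  have hT : n * n ∈ fqT U := (h.rf hn 8).mul (h.rf hn 8)
  have k4 : n * n * p * (n * n)⁻¹ = p := by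
    obtain ⟨x, hx, y, hy, e1⟩ := h.dec hn 0
    have : Commute p n := e1 ▸ ((h.vc r.hp hx).mul_right (h.vv r.hp hv)).mul_right (h.vc r.hp hy)
    exact oc_fix (this.mul_right this).symm
  have k6 : n * n * q * (n * n)⁻¹ = q⁻¹ := by
    have := k2 _ (h.rV (h.rf hn 8).inv r.hq)
    calc n * n * q * (n * n)⁻¹ = n * (n * n * (n⁻¹ * q * n⁻¹⁻¹) * (n * n)⁻¹) * n⁻¹ := by group
      _ = _ := by rw [this]; group
  have r1 : R U V b⁻¹ (n * n * v * (n * n)⁻¹) p (n * n * e * (n * n)⁻¹) q⁻¹ :=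
    ⟨inv_mem hb, h.tV hT hv, r.hp, tU hT r.he, inv_mem r.hq, by
      rw [← k2 b hb, ← conjugate_commutatorElement, r.eq, ← k6]
      conv_rhs => rw [← k4]
      group⟩
  have r2 := h.R_inv r1
  rw [inv_inv] at r2
  have e2 : n * n * v * (n * n)⁻¹ = v⁻¹ := by
    have := h.R_left r2 hm
    rw [h.R_left r hm] at this
    calc _ = m⁻¹ * (m * (n * n * v * (n * n)⁻¹) * m⁻¹) * m := by group
      _ = _ := by rw [← this]; group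
  rw [e2] at r2
  have e3 := (h.R_uq r2 (h.R_inv' r)).2.2
  rw [h.R_right r hn] at e3
  calc b * b = n⁻¹ * (n * b * n⁻¹ * (n * b * n⁻¹)) * n := by group
    _ = 1 := by nth_rw 1 [← e3]; group

theorem vsq (hv : v ∈ V k) (e : k % 2 = 0 := by omega) : v * v = 1 :=
  (h.sh (k - 2) ⟨(k - 2) / 2, by omega⟩).vsq2 (h.mV hv)

theorem asq (ha : a ∈ U k) (e : k % 2 = 1 := by omega) : a * a = 1 := by
  have h' := h.sh (k - 1) ⟨(k - 1) / 2, by omega⟩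
  obtain ⟨b, hb, h1⟩ := h'.cen 6 (by decide)
  have ha' : a ∈ U (k - 1 + 1) := h.mU ha
  exact (h'.f1_one (mul_mem ha' ha') hb (by rw [h'.f1_mul ha' ha' hb, h'.vsq (h'.f1V ha' hb)])).resolve_right h1

theorem vinv (hv : v ∈ V k) (e : k % 2 = 0 := by omega) : v⁻¹ = v := inv_eq_of_mul_eq_one_left (h.vsq hv)

theorem ainv (ha : a ∈ U k) (e : k % 2 = 1 := by omega) : a⁻¹ = a := inv_eq_of_mul_eq_one_left (h.asq ha)

theorem acm0 (ha : a ∈ U k) (hb : b ∈ U k) (e : k % 2 = 1 := by omega) : Commute a b := by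
  change _ * _ = _ * _
  rw [← h.ainv (mul_mem ha hb), mul_inv_rev, h.ainv ha, h.ainv hb]

theorem exRf (c : ℤ) (e : c % 2 = 0 := by omega) : ∃ g, Rf U c g := by
  obtain ⟨a, ha, h1⟩ := h.exU (c / 2 - 4)
  obtain ⟨m, hm⟩ := h.exM ha h1
  exact ⟨m, h.rf hm c⟩

theorem cardU (k l : ℤ) (e : (k + l) % 2 = 0 := by omega) : Nat.card (U k) ≤ Nat.card (U l) := by
  obtain ⟨g, hg⟩ := h.exRf (k + l)
  exact oc_card_le (fun a => g * a * g⁻¹) (fun a ha => h.rU hg ha) fun a _ b _ e => by simpa using e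

theorem cardV (k l : ℤ) (e : (k + l) % 2 = 0 := by omega) : Nat.card (V k) ≤ Nat.card (V l) := by
  obtain ⟨g, hg⟩ := h.exRf (k + l)
  exact oc_card_le (fun a => g * a * g⁻¹) (fun a ha => h.rV hg ha) fun a _ b _ e => by simpa using e

theorem cardUV : Nat.card (U 1) ≤ Nat.card (V 4) := by
  obtain ⟨b, hb, h1⟩ := h.cen 6 (by decide)
  exact oc_card_le (fun a => ⁅a, b⁆) (fun a ha => h.f1V ha hb) fun a ha a' ha' => h.f1_inj ha ha' hb h1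

theorem a5c (ha : a ∈ U 5) (hw : w ∈ I 4 6) : Commute a w := h.cI hw fun l _ _ u hu => by
  obtain rfl | rfl | rfl : l = 4 ∨ l = 5 ∨ l = 6 := by omega
  exacts [(h.adj hu ha).symm, h.acm0 ha hu, h.adj ha hu]

theorem r1 (hg : g ∈ U 2) (hb : b ∈ V 2) (hv : v ∈ V 8) (hw : w ∈ I 4 6) (hc : c ∈ U 7) (e1 : ⁅g, v⁆ = w * c)
    (hp : p ∈ V 4) (he : e ∈ U 5) (hq : q ∈ V 6) (e2 : ⁅b, v⁆ = p * e * q) : ⁅g, e⁆ = ⁅b, c⁆ := by
  have hz : ⁅b, c⁆ ∈ V 4 := by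
    rw [← commutatorElement_inv]
    exact inv_mem ((h.rv 8).f1V hc hb)
  have k1 : g * ⁅b, v⁆ * g⁻¹ = ⁅b, c⁆ * (w * c * ⁅b, v⁆ * (w * c)⁻¹) := by
    rw [conjugate_commutatorElement, oc_fix (h.vc hb hg).symm, oc_cj g v, e1, oc_cr, oc_cr,
      oc_c1 (h.vcI hb hw), one_mul, oc_fix (h.vcI hz hw).symm]
  have k2 : g * (p * e * q) * g⁻¹ = p * (⁅g, e⁆ * e) * q := by
    calc _ = g * p * g⁻¹ * (g * e * g⁻¹) * (g * q * g⁻¹) := by group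
      _ = _ := by rw [oc_fix (h.vc hp hg).symm, oc_fix (h.vc hq hg).symm, oc_cj]
  have hwc : w * c ∈ I 4 7 := mul_mem (h.II hw) (h.uI hc)
  have k3 : w * c * (p * e * q) * (w * c)⁻¹ = p * (w * ⁅c, e⁆ * w⁻¹ * e) * q := by
    calc _ = w * c * p * (w * c)⁻¹ * (w * (c * e * c⁻¹) * w⁻¹) * (w * c * q * (w * c)⁻¹) := by group
      _ = p * (w * ⁅c, e⁆ * w⁻¹ * (w * e * w⁻¹)) * q := by
        rw [oc_fix (h.vcI hp hwc).symm, oc_fix (h.vcI hq hwc).symm, oc_cj c e]; group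
      _ = _ := by rw [oc_fix (h.a5c he hw).symm]
  rw [e2, k2, k3, ← mul_assoc, ← mul_assoc, ← mul_assoc, (h.vv hz hp).eq, mul_left_inj, ← mul_assoc, mul_left_inj,
    mul_assoc p, mul_right_inj] at k1
  have k4 : w * ⁅c, e⁆ * w⁻¹ = 1 := h.disj (i := 3) (k := 4) (l := 5) (j := 6)
    (oc_mr (k1 ▸ h.cmU hg he) (h.vI hz))
    (h.conjI hw (h.cm' (h.uI he (i := 5) (j := 5)) (h.uI hc (i := 7) (j := 7))))
  rw [k1, k4, mul_one]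

theorem f2c (hg : g ∈ U 2) (hv : v ∈ V 8) : ∃ w ∈ I 4 6, ∃ c ∈ U 7, ⁅g, v⁆ = w * c := by
  obtain ⟨p, hp, w, hw, e⟩ := h.f2' hg hv
  exact h.snoc (i := 4) (e ▸ mul_mem (h.vI hp) (h.II hw)) 6

theorem R_fun (hv : v ∈ V 8) : ∃ P E Q : Γ → Γ, ∀ b ∈ V 2, R U V b v (P b) (E b) (Q b) := by
  choose! P E Q H using fun b (hb : b ∈ V 2) => h.exR hb hv
  exact ⟨P, E, Q, H⟩

theorem R_surj (hv : v ∈ V 8) (h1 : v ≠ 1) (hp : p ∈ V 4) : ∃ b e q, R U V b v p e q := by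
  obtain ⟨P, E, Q, H⟩ := h.R_fun hv
  obtain ⟨b, hb, rfl⟩ := oc_surj P (fun b hb => (H b hb).hp) (fun b hb b' hb' e => by
    have r := h.R_mul (H b hb) (h.R_inv (H b' hb'))
    rw [e, mul_inv_cancel] at r
    exact (inv_mul_eq_one.1 (h.f2ne (h.vU r.hb) hv h1 (by
      rw [r.eq, one_mul]; exact mul_mem (h.uI r.he) (h.vI r.hq)))).symm) (h.cardV 4 2) hp
  exact ⟨b, _, _, H b hb⟩

theorem kc (hg : g ∈ U 2) (hv : v ∈ V 8) (h1 : v ≠ 1) (H : ⁅g, v⁆ ∈ I 4 6) : g ∈ V 2 := by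
  obtain ⟨p, hp, w, hw, e1⟩ := h.f2' hg hv
  obtain ⟨b, e, q, r⟩ := h.R_surj hv h1 (inv_mem hp)
  have k1 : Commute g e := commutatorElement_eq_one_iff_commute.1 (by
    simpa using h.r1 hg r.hb hv H (one_mem _) (mul_one _).symm r.hp r.he r.hq r.eq)
  have k2 : g * b = 1 := h.f2ne (mul_mem hg (h.vU r.hb)) hv h1 (by
    rw [oc_cl, r.eq, e1, oc_fix (((h.vc r.hp hg).symm.mul_right k1).mul_right (h.vc r.hq hg).symm), mul_assoc p⁻¹,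
      (h.vcI r.hp (mul_mem (h.uI r.he (i := 5) (j := 6)) (h.vI r.hq))).eq]
    simpa [mul_assoc] using mul_mem (mul_mem (h.uI r.he) (h.vI r.hq)) hw)
  rw [eq_inv_of_mul_eq_one_left k2]
  exact inv_mem r.hb

theorem exB : ∃ g ∈ U 2, g ∉ V 2 := by
  by_contra! H
  obtain ⟨d, hd, h1⟩ := h.exU 5
  exact h1 (h.n1 hd fun g hg => h.vc (H g hg) hd)

theorem kc' (hg : g ∈ U 2) (r : R U V b v p e q) (h1 : b ≠ 1) (h2 : v ≠ 1) (H : Commute g e) : g ∈ V 2 := by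
  obtain ⟨w, hw, c, hc, e1⟩ := h.f2c hg r.hv
  have k1 := h.r1 hg r.hb r.hv hw hc e1 r.hp r.he r.hq r.eq
  rw [oc_c1 H, eq_comm, ← commutatorElement_inv, inv_eq_one] at k1
  exact h.kc hg r.hv h2 (by rwa [e1, ((h.rv 8).f1_one hc r.hb k1).resolve_right h1, mul_one])

theorem R_one (r : R U V b v p 1 q) : b = 1 ∨ v = 1 := by
  by_contra! H
  obtain ⟨g, hg, h1⟩ := h.exB
  exact h1 (h.kc' hg r H.1 H.2 (Commute.one_right _))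

theorem R_inj (hv : v ∈ V 8) (h1 : v ≠ 1) {E P Q : Γ → Γ} (H : ∀ b ∈ V 2, R U V b v (P b) (E b) (Q b)) :
    ∀ b ∈ V 2, ∀ b' ∈ V 2, E b = E b' → b = b' := fun b hb b' hb' e => by
  have r := h.R_mul (H b hb) (h.R_inv (H b' hb'))
  rw [e, mul_inv_cancel] at r
  exact (inv_mul_eq_one.1 ((h.R_one r).resolve_right h1)).symm

theorem R_surj' (hv : v ∈ V 8) (h1 : v ≠ 1) (he : e ∈ U 5) : ∃ b p q, R U V b v p e q := by
  obtain ⟨P, E, Q, H⟩ := h.R_fun hv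
  obtain ⟨b, hb, rfl⟩ := oc_surj E (fun b hb => (H b hb).he) (h.R_inj hv h1 H)
    ((h.cardU 5 1).trans (h.cardUV.trans (h.cardV 4 2))) he
  exact ⟨b, _, _, H b hb⟩

theorem exR' (he : e ∈ U 5) : ∃ b v p q, v ≠ 1 ∧ R U V b v p e q := by
  obtain ⟨v, hv, h1⟩ := h.cen 8 (by decide)
  obtain ⟨b, p, q, r⟩ := h.R_surj' hv h1 he
  exact ⟨b, v, p, q, h1, r⟩

theorem f1_surj (hb : b ∈ V 6) (h1 : b ≠ 1) (hw : w ∈ V 4) : ∃ a ∈ U 1, ⁅a, b⁆ = w := by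
  obtain ⟨v, hv, h2⟩ := h.cen 8 (by decide)
  obtain ⟨P, E, Q, H⟩ := h.R_fun hv
  exact oc_surj (fun a => ⁅a, b⁆) (fun a ha => h.f1V ha hb) (fun a ha a' ha' => h.f1_inj ha ha' hb h1)
    ((h.cardV 4 2).trans ((oc_card_le E (fun b hb => (H b hb).he) (h.R_inj hv h2 H)).trans (h.cardU 5 1))) hw

theorem c28v (hb : b ∈ V 2) (hv : v ∈ V 8) : ∃ p ∈ V 4, ∃ e ∈ U 5, ∃ q ∈ V 6, ⁅b, v⁆ = p * e * q ∧
    (∀ m, M 2 b m → p = m * v * m⁻¹) ∧ (∀ n, M 8 v n → q = n * b * n⁻¹) ∧ (e = 1 → b = 1 ∨ v = 1) := by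
  obtain ⟨p, e, q, r⟩ := h.exR hb hv
  exact ⟨p, r.hp, e, r.he, q, r.hq, r.eq, fun _ => h.R_left r, fun _ hn => (h.vinv r.hq).symm.trans (h.R_right r hn),
    fun e1 => h.R_one (e1 ▸ r)⟩

theorem c25 (hg : g ∈ U 2) (ha : a ∈ U 5) : ⁅g, a⁆ ∈ V 4 := by
  obtain ⟨b, v, p, q, -, r⟩ := h.exR' ha
  obtain ⟨w, hw, c, hc, e1⟩ := h.f2c hg r.hv
  rw [h.r1 hg r.hb r.hv hw hc e1 r.hp r.he r.hq r.eq, ← commutatorElement_inv]
  exact inv_mem ((h.rv 8).f1V hc r.hb)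

theorem k25 (hg : g ∈ U 2) (ha : a ∈ U 5) (h1 : a ≠ 1) (hc : Commute g a) : g ∈ V 2 := by
  obtain ⟨b, v, p, q, h2, r⟩ := h.exR' ha
  refine h.kc' hg r ?_ h2 hc
  rintro rfl
  exact h1 (h.R_uq r ⟨r.hb, r.hv, one_mem _, one_mem _, one_mem _, by simp⟩).2.1

theorem c35 (ha : a ∈ U 3) (he : e ∈ U 5) : Commute a e := by
  obtain ⟨b, v, p, q, -, r⟩ := h.exR' he
  have hz : ⁅a, v⁆ ∈ V 6 := (h.sh 2).f1V ha r.hv
  have k1 : a * ⁅b, v⁆ * a⁻¹ = ⁅b, v⁆ := by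
    rw [conjugate_commutatorElement, oc_fix (h.vc r.hb ha).symm, oc_cj a v, oc_cr, oc_c1 (h.vv r.hb hz), one_mul,
      r.eq, oc_fix (h.vcI hz (h.R_mem r))]
  have k2 : Commute a (p * e * q) := r.eq ▸ mul_inv_eq_iff_eq_mul.1 k1
  simpa [mul_assoc] using ((h.vc r.hp ha).symm.inv_right.mul_right k2).mul_right (h.vc r.hq ha).symm.inv_right

theorem a5c' (ha : a ∈ U 5) (hw : w ∈ I 3 7) : Commute a w := h.cI hw fun l _ _ u hu => by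
  obtain rfl | rfl | rfl | rfl | rfl : l = 3 ∨ l = 4 ∨ l = 5 ∨ l = 6 ∨ l = 7 := by omega
  exacts [(h.c35 hu ha).symm, (h.adj hu ha).symm, h.acm0 ha hu, h.adj ha hu, (h.sh 2).c35 ha hu]

theorem c15V (ha : a ∈ U 1) (he : e ∈ U 5) : ⁅a, e⁆ ∈ V 4 := by
  by_cases h1 : a = 1
  · simp [h1]
  obtain ⟨m, hm⟩ := h.exM ha h1
  obtain ⟨b, v, p, q, -, r⟩ := h.exR' he
  obtain ⟨w, hw, c, hc, e1⟩ := h.snoc (h.m4 ha (h.vU r.hv) hm (i := 3) (j := 7)) 6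
  have hf : m * v * m⁻¹ ∈ V 2 := h.rV (h.rf hm 10) r.hv
  rw [inv_mul_eq_iff_eq_mul, ← mul_assoc] at e1
  generalize m * v * m⁻¹ = f at e1 hf
  have hz : ⁅b, c⁆ ∈ V 4 := by
    rw [← commutatorElement_inv]
    exact inv_mem ((h.rv 8).f1V hc r.hb)
  have hfw : f * w ∈ I 2 6 := mul_mem (h.vI hf) (h.II hw)
  have hfc : f * w * c ∈ I 2 7 := mul_mem (h.II hfw) (h.uI hc)
  have k0 : Commute (f * w * c) e := ((h.vc hf he).mul_left (h.a5c' he (h.II hw)).symm).mul_left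
    (h.a5c' he (h.uI hc)).symm
  have k1 : a * ⁅b, v⁆ * a⁻¹ = ⁅b, c⁆ * (p * e * q) := by
    rw [conjugate_commutatorElement, oc_fix (h.vc r.hb ha).symm, oc_cj a v, e1, oc_cr, oc_cr,
      oc_c1 (h.vcI r.hb hfw), one_mul, oc_fix (h.vcI hz hfw).symm, r.eq,
      oc_fix (((h.vcI r.hp hfc).symm.mul_right k0).mul_right (h.vcI r.hq hfc).symm)]
  have hs := h.f1V ha r.hq
  have k2 : a * (p * e * q) * a⁻¹ = p * (⁅a, e⁆ * ⁅a, q⁆ * e) * q := by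
    calc _ = a * p * a⁻¹ * (a * e * a⁻¹) * (a * q * a⁻¹) := by group
      _ = p * (⁅a, e⁆ * (e * ⁅a, q⁆)) * q := by rw [oc_fix (h.vc r.hp ha).symm, oc_cj a e, oc_cj a q]; group
      _ = _ := by rw [← (h.vc hs he).eq]; group
  rw [r.eq, k2, ← mul_assoc ⁅b, c⁆, ← mul_assoc ⁅b, c⁆, (h.vv hz r.hp).eq, mul_left_inj, ← mul_assoc, mul_left_inj,
    mul_right_inj] at k1
  exact oc_ml (k1 ▸ hz) hs

theorem c15 (ha : a ∈ U 1) (he : e ∈ U 5) : Commute a e := by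
  have k1 : ⁅a, e⁆ ∈ V 2 := by
    rw [← commutatorElement_inv]
    exact inv_mem ((h.rv 6).c15V he ha)
  exact commutatorElement_eq_one_iff_commute.1 (h.disj0 (h.vU k1) (h.vI (h.c15V ha he) (i := 4) (j := 4)))

theorem acm (ha : a ∈ U k) (hb : b ∈ U l) (e : k % 2 = 1 ∧ l % 2 = 1 ∧ k - 4 ≤ l ∧ l ≤ k + 4 := by omega) :
    Commute a b := by
  have k2 : ∀ k l a b, k % 2 = 1 → l = k + 2 → a ∈ U k → b ∈ U l → Commute a b := fun k l a b _ _ ha hb =>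
    (h.sh (k - 3) ⟨(k - 3) / 2, by omega⟩).c35 (h.mU ha) (h.mU hb)
  have k4 : ∀ k l a b, k % 2 = 1 → l = k + 4 → a ∈ U k → b ∈ U l → Commute a b := fun k l a b _ _ ha hb =>
    (h.sh (k - 1) ⟨(k - 1) / 2, by omega⟩).c15 (h.mU ha) (h.mU hb)
  rcases (by omega : l = k ∨ l = k + 2 ∨ l = k + 4 ∨ k = l + 2 ∨ k = l + 4) with H | H | H | H | H
  exacts [h.acm0 ha (H ▸ hb), k2 _ _ _ _ e.1 H ha hb, k4 _ _ _ _ e.1 H ha hb, (k2 _ _ _ _ e.2.1 H hb ha).symm,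
    (k4 _ _ _ _ e.2.1 H hb ha).symm]

theorem c28 (hg : g ∈ U 2) (hv : v ∈ V 8) :
    ∃ p ∈ V 4, ∃ e ∈ U 5, ∃ q ∈ V 6, ∃ c ∈ U 7, ⁅g, v⁆ = p * e * q * c := by
  obtain ⟨p, hp, w, hw, e1⟩ := h.f2' hg hv
  obtain ⟨e, he, w', hw', rfl⟩ := h.cons hw 6
  obtain ⟨q, hq, c, hc, rfl⟩ := h.two hw'
  refine ⟨p, hp, e, he, q, ?_, c, hc, by rw [e1]; group⟩
  obtain ⟨u, hu, h1⟩ := h.exU 9
  obtain ⟨a, ha, s, hs, e2⟩ := h.cons (h.cmU (inv_mem hg) hu (i' := 3) (j' := 8)) 4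
  have hz : ⁅a, v⁆ ∈ V 6 := (h.sh 2).f1V ha hv
  have hz1 : ⁅u, p⁆ ∈ V 6 := (h.rv 10).f1V hu hp
  have hz2 : ⁅q, u⁆ ∈ V 8 := (h.sh 4).c25 hq hu
  have k1 : u * ⁅g, v⁆ * u⁻¹ = ⁅a, v⁆ * ⁅g, v⁆ := by
    rw [conjugate_commutatorElement, oc_fix (h.vc hv hu).symm, oc_cj' u g, e2, oc_cl, oc_cl,
      oc_c1 (h.vcI hv hs).symm, mul_one, mul_inv_cancel, one_mul, oc_fix (h.vc hz hg).symm]
  have k2 : u * (p * (e * (q * c))) * u⁻¹ = ⁅u, p⁆ * ⁅q, u⁆⁻¹ * (p * (e * (q * c))) := by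
    calc _ = u * p * u⁻¹ * (u * e * u⁻¹) * (u * q * u⁻¹) * (u * c * u⁻¹) := by group
      _ = ⁅u, p⁆ * (p * e * ⁅q, u⁆⁻¹) * q * c := by
        rw [oc_fix (h.acm hu he), oc_fix (h.acm hu hc), oc_cj u p, oc_cj u q, commutatorElement_inv]; group
      _ = _ := by rw [← ((h.vv (inv_mem hz2) hp).mul_right (h.vc (inv_mem hz2) he)).eq]; group
  rw [e1, k2, mul_left_inj] at k1
  exact (h.sh 4).k25 hq hu h1 (commutatorElement_eq_one_iff_commute.1 (inv_eq_one.1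
    (h.disj0 (h.vU (oc_mr (k1 ▸ hz) hz1)) (h.vI (inv_mem hz2) (i := 8) (j := 8)))))

theorem c28c (hg : g ∈ U 2) (hv : v ∈ V 8) (hu : u ∈ U l) (hl : l = 3 ∨ l = 5 ∨ l = 6 := by omega) :
    Commute ⁅g, v⁆ u := by
  obtain ⟨p, hp, e, he, q, hq, c, hc, e1⟩ := h.c28 hg hv
  rw [e1]
  refine (((h.vc hp hu).mul_left ?_).mul_left (h.vc hq hu)).mul_left ?_
  · exact h.a5c' he (h.uI hu)
  · obtain rfl | rfl | rfl : l = 3 ∨ l = 5 ∨ l = 6 := hl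
    exacts [h.acm hc hu, h.acm hc hu, (h.adj hu hc).symm]

theorem r2 (hg : g ∈ U 2) (hg' : g' ∈ U 4) (hv : v ∈ V 8) (hw : w ∈ I 4 6) (hc : c ∈ U 7) (e1 : ⁅g, v⁆ = w * c) :
    ⁅⁅g, g'⁆, v⁆ = ⁅g', c⁆ := by
  obtain ⟨p, hp, e, he, q, hq, c', hc', e2⟩ := h.c28 hg hv
  obtain ⟨rfl, rfl⟩ := h.uq hw (mul_mem (mul_mem (h.vI hp) (h.uI he)) (h.vI hq)) (h.uI hc (i := 7) (j := 7))
    (h.uI hc') (e1.symm.trans e2)
  have ha : ⁅g, g'⁆ ∈ U 3 := h.Iu (h.cmU hg hg')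
  have hz : ⁅g', c⁆ ∈ V 6 := (h.sh 2).c25 hg' hc
  have k0 : Commute (p * e * q) g' := ((h.vc hp hg').mul_left (h.adj hg' he).symm).mul_left (h.vc hq hg')
  have k1 : v * ⁅g, g'⁆ * v⁻¹ = ⁅g, g'⁆ * ⁅g', c⁆⁻¹ := by
    rw [conjugate_commutatorElement, oc_fix (h.vc hv hg'), oc_cj v g, oc_cl, ← commutatorElement_inv g v,
      oc_fix (h.c28c hg hv ha).inv_left, e1, mul_inv_rev, oc_cl, oc_c1 k0.inv_left, h.ainv hc,
      commutatorElement_inv]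
    group
  rw [oc_cj', mul_right_inj, h.ainv ha, h.vinv hz] at k1
  exact k1

theorem k24 (hg' : g' ∈ U 4) (H : ∀ g ∈ U 2, Commute g g') : g' ∈ V 4 := by
  obtain ⟨g, hg, h1⟩ := h.exB
  obtain ⟨v, hv, h2⟩ := h.cen 8 (by decide)
  obtain ⟨w, hw, c, hc, e1⟩ := h.f2c hg hv
  have := h.r2 hg hg' hv hw hc e1
  rw [oc_c1 (H g hg), commutatorElement_one_left] at this
  refine (h.sh 2).k25 hg' hc ?_ (commutatorElement_eq_one_iff_commute.1 this.symm)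
  rintro rfl
  exact h1 (h.kc hg hv h2 (by rwa [e1, mul_one]))

theorem c14 (ha : a ∈ U 1) (hg : g ∈ U 4) : ⁅a, g⁆ ∈ V 2 := by
  rw [← commutatorElement_inv]
  exact inv_mem ((h.rv 6).c25 hg ha)

theorem c1I (ha : a ∈ U 1) (hw : w ∈ I 2 5) : ⁅a, w⁆ ∈ V 2 := by
  obtain ⟨s, hs, w', hw', rfl⟩ := h.split hw 3 4
  obtain ⟨g, hg, c, hc, rfl⟩ := h.two hw'
  obtain ⟨s2, h2, s3, h3, rfl⟩ := h.two hs
  rw [oc_cr, oc_cr a g, oc_c1 ((h.adj ha h2).mul_right (h.acm ha h3)), oc_c1 (h.acm ha hc), mul_one, mul_inv_cancel,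
    mul_one, one_mul, oc_fix (h.vcI (h.c14 ha hg) hs).symm]
  exact h.c14 ha hg

theorem c16 (ha : a ∈ U 1) (hg : g ∈ U 6) : ∃ p ∈ V 2, ∃ d ∈ U 3, ∃ q ∈ V 4, ⁅a, g⁆ = p * d * q := by
  obtain ⟨s, hs, w, hw, e1⟩ := h.split (h.cmU ha hg (i' := 2) (j' := 5)) 3 4
  obtain ⟨q, hq, c, hc, rfl⟩ := h.two hw
  obtain ⟨p, hp, d, hd, rfl⟩ := h.two hs
  have hp' : p ∈ V 2 := by
    obtain ⟨e, he, h1⟩ := h.exU 5
    have k1 : Commute e (p * d * (q * c)) := e1 ▸ fq_comm_comm (h.acm he ha) (h.adj he hg)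
    refine h.k25 hp he h1 (Commute.symm ?_)
    simpa [mul_assoc] using (k1.mul_right (h.a5c' he (h.II hw)).inv_right).mul_right (h.acm he hd).inv_right
  have key : ∀ u ∈ U 2, Commute u q ∧ Commute u c := fun u hu => by
    have k1 : ⁅a⁻¹, g⁻¹ * u * g⁻¹⁻¹⁆ ∈ V 2 := h.c1I (inv_mem ha) (h.conjI (i := 1) (j := 6) (h.uI (inv_mem hg)) (h.uI hu))
    have k2 : ⁅u, ⁅a, g⁆⁆ = a * (g * ⁅a⁻¹, g⁻¹ * u * g⁻¹⁻¹⁆⁻¹ * g⁻¹) * a⁻¹ := by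
      rw [commutatorElement_def a, mul_assoc, mul_assoc, oc_cr, oc_c1 (h.adj ha hu).symm]
      simp only [commutatorElement_def]; group
    have hz := h.c25 hu hc
    have hz' : ⁅u, q⁆ ∈ U 3 := h.Iu (h.cmU hu hq)
    rw [oc_fix (h.vc (inv_mem k1) hg).symm, oc_fix (h.vc (inv_mem k1) ha).symm, e1, oc_cr,
      oc_c1 ((h.vc hp' hu).symm.mul_right (h.adj hu hd)), one_mul, oc_cr, oc_fix (h.vc hz hq).symm,
      oc_fix (((h.vc hp' hz').mul_left (h.acm hd hz')).mul_right (h.vcI hz hs).symm)] at k2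
    have k3 := h.uq1 (h.uI hz' (i := 3) (j := 3)) (h.vI hz (i := 4) (j := 4)) (k2 ▸ h.disj0 (h.vU (inv_mem k1))
      (k := 3) (j := 4) (k2 ▸ mul_mem (h.uI hz') (h.vI hz)))
    exact ⟨commutatorElement_eq_one_iff_commute.1 k3.1, commutatorElement_eq_one_iff_commute.1 k3.2⟩
  exact ⟨p, hp', d, hd, q, h.k24 hq fun u hu => (key u hu).1, by rw [e1, h.n1 hc fun u hu => (key u hu).2, mul_one]⟩

theorem c26a (hg : g ∈ U 2) (hg' : g' ∈ U 6) : ∃ p ∈ V 4, ∃ e ∈ U 5, ⁅g, g'⁆ = p * e := by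
  obtain ⟨a, ha, w, hw, e1⟩ := h.cons (h.cmU hg hg' (i' := 3) (j' := 5)) 4
  obtain ⟨p, hp, e, he, rfl⟩ := h.two hw
  have hw' : a * (p * e) ∈ I 3 5 := mul_mem (h.uI ha) (h.II hw)
  have hp' : p ∈ V 4 := by
    obtain ⟨u, hu, h1⟩ := h.exU 1
    obtain ⟨p2, h2, d, hd, q, hq, e2⟩ := h.c16 hu hg'
    have hd' : Commute d (a * (p * e)) := (h.acm hd ha).mul_right ((h.adj hd hp).mul_right (h.acm hd he))
    have k1 : u * ⁅g, g'⁆ * u⁻¹ = ⁅g, g'⁆ := by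
      rw [conjugate_commutatorElement, oc_fix (h.adj hu hg), oc_cj u g', oc_cr, e2, e1,
        oc_c1 (((h.vc h2 hg).symm.mul_right (h.adj hg hd)).mul_right (h.vc hq hg).symm), one_mul,
        oc_fix (((h.vcI h2 hw').mul_left hd').mul_left (h.vcI hq hw'))]
    have k2 : Commute u (a * (p * e)) := e1 ▸ mul_inv_eq_iff_eq_mul.1 k1
    refine (h.rv 6).k25 hp hu h1 (Commute.symm ?_)
    simpa [mul_assoc] using ((h.acm hu ha).inv_right.mul_right k2).mul_right (h.acm hu he).inv_right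
  obtain ⟨v, hv, h1⟩ := h.cen 8 (by decide)
  have hc : ⁅g, v⁆ ∈ I 3 7 := h.cmU hg (h.vU hv)
  have k1 : v * ⁅g, g'⁆ * v⁻¹ = ⁅g, g'⁆ := by
    rw [conjugate_commutatorElement, oc_fix (h.vc hv hg'), oc_cj v g, oc_cl, ← commutatorElement_inv g v, e1,
      oc_fix ((h.c28c hg hv ha).mul_right ((h.vcI hp' hc).symm.mul_right (h.c28c hg hv he))).inv_left,
      oc_c1 (h.c28c hg hv hg').inv_left, mul_one]
  have k2 : Commute v (a * (p * e)) := e1 ▸ mul_inv_eq_iff_eq_mul.1 k1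
  have k3 : Commute v a := by simpa [mul_assoc] using k2.mul_right (h.vcI hv hw).inv_right
  exact ⟨p, hp', e, he, by rw [e1, ((h.sh 2).f1_one ha hv (oc_c1 k3.symm)).resolve_right h1, one_mul]⟩

theorem c26V (hg : g ∈ U 2) (hg' : g' ∈ U 6) : ⁅g, g'⁆ ∈ V 4 := by
  obtain ⟨p, hp, e, he, e1⟩ := h.c26a hg hg'
  obtain ⟨q, hq : q ∈ V 4, a, ha : a ∈ U 3, e2⟩ := (h.rv 8).c26a hg' hg
  have k1 : p * e ∈ I 3 4 := by
    rw [← e1, ← commutatorElement_inv, e2]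
    exact inv_mem (mul_mem (h.vI hq) (h.uI ha))
  rwa [e1, h.disj (oc_mr k1 (h.vI hp)) (h.uI he (i := 5) (j := 5)), mul_one]

theorem ncen (hv : v ∈ V 8) (hn : M 8 v n) (hx : x ∈ U 0) (hy : y ∈ U 0) (e : n = x * v * y) (hg : g ∈ U 4) :
    Commute x g ∧ Commute y g := by
  have hg' : n * g * n⁻¹ ∈ U 4 := h.rU (h.rf hn 8) hg
  have hb : ⁅y, g⁆ ∈ V 2 := (h.sh (-2)).c26V hy hg
  obtain ⟨p, d, q, r⟩ := h.exR (inv_mem hb) hv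
  have k1 : ⁅y, g⁆ * (p * d * q) * g = ⁅x⁻¹, n * g * n⁻¹⁆ * (n * g * n⁻¹) := by
    rw [← r.eq, ← oc_cj', ← oc_cj, e, mul_assoc _ v⁻¹, (h.vc hv hg).inv_left.eq]
    simp only [commutatorElement_def]; group
  have k2 : p * (d * q) ∈ I 1 4 := by
    rw [← mul_assoc]
    exact oc_mr (oc_ml (k1 ▸ mul_mem (h.cmU (inv_mem hx) hg') (h.uI hg')) (h.uI hg)) (h.vI hb)
  have k3 := h.uq1 (h.uI r.he (i := 5) (j := 5)) (h.vI r.hq (i := 6) (j := 6)) (h.disj (oc_mr k2 (h.vI r.hp))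
    (l := 5) (j := 6) (mul_mem (h.uI r.he) (h.vI r.hq)))
  have k4 : Commute y g := commutatorElement_eq_one_iff_commute.1
    (inv_eq_one.1 ((h.R_one (k3.1 ▸ r)).resolve_right (h.Mne hn)))
  refine ⟨commutatorElement_eq_one_iff_commute.1 (h.disj0 (h.vU ((h.sh (-2)).c26V hx hg : _ ∈ V 2))
    (k := 4) (j := 4) (h.uI (oc_ml ?_ hg))), k4⟩
  rwa [e, show x * v * y * g * (x * v * y)⁻¹ = x * (v * (y * g * y⁻¹) * v⁻¹) * x⁻¹ by group, oc_fix k4,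
    oc_fix (h.vc hv hg), oc_cj] at hg'

theorem ncen' (hv : v ∈ V 8) (hn : M 8 v n) (hg : g ∈ U 4) : Commute n g := by
  obtain ⟨x, hx, y, hy, e⟩ := h.dec hn 0
  obtain ⟨k1, k2⟩ := h.ncen hv hn hx hy e hg
  exact e ▸ (k1.mul_left (h.vc hv hg)).mul_left k2

theorem mcen (ha : a ∈ U 1) (hm : M 1 a m) (hc : c ∈ U 5) : Commute m c := by
  obtain ⟨x, hx, y, hy, e⟩ := h.dec hm 9
  exact e ▸ ((h.acm hx hc).mul_left (h.acm ha hc)).mul_left (h.acm hy hc)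

theorem c17a (ha : a ∈ U 1) (hc : c ∈ U 7) : ⁅a, c⁆ ∈ I 3 6 := by
  by_cases h1 : a = 1
  · simp [h1]
  obtain ⟨m, hm⟩ := h.exM ha h1
  have hw : (m * c * m⁻¹)⁻¹ ∈ U 3 := inv_mem (h.rU (h.rf hm 10) hc)
  obtain ⟨x, hx, e⟩ := h.T hm 9 fun u hu => h.acm hc hu
  refine h.inter (i := 2) (l := 8) (h.cmU ha hc) (oc_mr ?_ (h.uI hw))
  rw [e]
  exact mul_mem (h.cmU hw (inv_mem hx)) (h.uI (inv_mem hc))

theorem c17 (ha : a ∈ U 1) (hc : c ∈ U 7) (hm : M 1 a m) : ∃ d ∈ U 5, ⁅a, c⁆ = m * c * m⁻¹ * d := by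
  have hw : (m * c * m⁻¹)⁻¹ ∈ U 3 := inv_mem (h.rU (h.rf hm 10) hc)
  obtain ⟨x, hx, e⟩ := h.T hm 9 fun u hu => h.acm hc hu
  refine ⟨(m * c * m⁻¹)⁻¹ * ⁅a, c⁆, h.Iu (h.inter (i := 2) (l := 8) (mul_mem (h.uI hw) ?_) ?_), by group⟩
  · rw [← commutatorElement_inv]
    exact inv_mem ((h.rv 8).c17a hc ha)
  · rw [e]
    exact mul_mem ((h.sh 2).c17a hw (inv_mem hx)) (h.uI (inv_mem hc))

theorem tr6 (ha : a ∈ U 1) (ha' : a' ∈ U 1) (h1 : a ≠ 1) (h1' : a' ≠ 1) :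
    ∃ g ∈ fqT U, (∀ u ∈ U 6, Commute g u) ∧ g * a * g⁻¹ = a' := by
  obtain ⟨c, hc, h2⟩ := h.cen 6 (by decide)
  obtain ⟨v, hv, h3⟩ := h.cen 8 (by decide)
  have key : ∀ a ∈ U 1, a ≠ 1 → ∃ m, Rf U 12 m ∧ (∀ u ∈ U 6, Commute m u) ∧ ⁅a, c⁆ = m * v * m⁻¹ := fun a ha h1 => by
    obtain ⟨b, e, q, r⟩ := h.R_surj hv h3 (h.f1V ha hc)
    obtain ⟨m, hm⟩ := h.exM (h.vU r.hb) (by
      rintro rfl
      exact ((h.f1_one ha hc (h.R_uq r ⟨r.hb, r.hv, one_mem _, one_mem _, one_mem _, by simp⟩).1).resolve_left h1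
        |> h2))
    exact ⟨m, h.rf hm 12, fun u hu => (h.rv 10).ncen' r.hb hm hu, h.R_left r hm⟩
  obtain ⟨m, r, c1, e⟩ := key a ha h1
  obtain ⟨m', r', c1', e'⟩ := key a' ha' h1'
  have hT := r'.mul r.inv
  have hc' : ∀ u ∈ U 6, Commute (m' * m⁻¹) u := fun u hu => (c1' u hu).mul_left (c1 u hu).inv_left
  refine ⟨_, hT, hc', h.f1_inj (tU hT ha) ha' hc h2 ?_⟩
  rw [e', ← oc_fix (hc' c (h.vU hc)), ← conjugate_commutatorElement, e]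
  group

end Oc

end Cfsg.Agent.Bld
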