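import Mathlib
import Cfsg.Agent.FS.Oct1
import Cfsg.Agent.FS.OctA

/-! Finite Moufang octagons: the field, the square root of the Frobenius map, the torus. -/

set_option autoImplicit false
set_option linter.unusedSectionVars false

namespace Cfsg.Agent.Bld

open scoped commutatorElement

universe u

section

variable {Γ K : Type*} [Group Γ] [Field K] {A B : Subgroup Γ} {P Q R : K → Γ} {g m : Γ} {c c' : K}

/-- `g` acts on the parameter as the scalar `c`. -/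
def OcSc (g : Γ) (P : K → Γ) (c : K) : Prop := ∀ t, g * P t * g⁻¹ = P (c * t)

theorem OcSc.inv (h : OcSc g P c) (hc : c ≠ 0) : OcSc g⁻¹ P c⁻¹ := fun t => by
  rw [← mul_inv_cancel_left₀ hc t, ← h, mul_inv_cancel_left₀ hc]; group

theorem OcSc.conj (h : OcSc g P c) (e : ∀ t, m * P t * m⁻¹ = Q t) : OcSc (m * g * m⁻¹) Q c := fun t => by
  rw [← e, ← e, ← h]; group

theorem OcSc.tri (h : OcSc g R c) (hc : c ≠ 0) (hP : IsPar A P) (hQ : IsPar B Q) (hR : Function.Injective R)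
    (e : ∀ s t, ⁅P s, Q t⁆ = R (s * t)) (nA : ∀ a ∈ A, g * a * g⁻¹ ∈ A) (nB : ∀ a ∈ B, g * a * g⁻¹ ∈ B) :
    ∃ a b, a * b = c ∧ OcSc g P a ∧ OcSc g Q b := by
  choose φ hφ using fun t => (hP.mem _).1 (nA _ (hP.apply_mem t))
  choose ψ hψ using fun t => (hQ.mem _).1 (nB _ (hQ.apply_mem t))
  have k : ∀ s t, φ s * ψ t = c * (s * t) := fun s t => hR (by
    rw [← e, hφ, hψ, ← conjugate_commutatorElement, e, h])
  have k1 : φ 1 * ψ 1 = c := by simpa using k 1 1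
  have := mul_ne_zero_iff.1 (k1 ▸ hc)
  refine ⟨φ 1, ψ 1, k1, fun t => ?_, fun t => ?_⟩
  · rw [← hφ, mul_right_cancel₀ this.2 (show φ t * ψ 1 = φ 1 * t * ψ 1 by rw [k, ← k1]; ring)]
  · rw [← hψ, mul_left_cancel₀ this.1 (show φ 1 * ψ t = φ 1 * (ψ 1 * t) by rw [k, ← k1]; ring)]

theorem IsPar.oc_conj (h : IsPar A P) (h1 : ∀ a ∈ A, g * a * g⁻¹ ∈ B) (h2 : ∀ a ∈ B, g⁻¹ * a * g⁻¹⁻¹ ∈ A) :
    IsPar B fun t => g * P t * g⁻¹ :=
  ⟨fun a b => by rw [h.add]; group, fun a b e => h.inj (by simpa using e), fun b =>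
    ⟨fun hb => ((h.mem _).1 (h2 b hb)).imp fun a e => by rw [e]; group, fun ⟨a, e⟩ => e ▸ h1 _ (h.apply_mem a)⟩⟩

theorem IsPar.oc_smul (h : IsPar A P) (hc : c ≠ 0) : IsPar A fun t => P (c * t) :=
  ⟨fun a b => by rw [mul_add, h.add], fun a b e => mul_left_cancel₀ hc (h.inj e), fun b =>
    ⟨fun hb => by obtain ⟨a, e⟩ := (h.mem _).1 hb; exact ⟨c⁻¹ * a, by rw [mul_inv_cancel_left₀ hc, e]⟩,
      fun ⟨a, e⟩ => e ▸ h.apply_mem _⟩⟩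

theorem oc_inv_conj {a : Γ} (h : m * m = 1) : m * (m * a * m⁻¹) * m⁻¹ = a := by
  calc _ = m * m * a * (m * m)⁻¹ := by group
    _ = a := by rw [h]; group

theorem oc_surj_units [Finite K] (f : K → K) (h0 : ∀ a, a ≠ 0 → f a ≠ 0) (hm : ∀ a b, a ≠ 0 → b ≠ 0 → f a = f b → a = b)
    (hc : c ≠ 0) : ∃ a, a ≠ 0 ∧ f a = c := by
  obtain ⟨a, e⟩ := Finite.surjective_of_injective (f := fun a : {a : K // a ≠ 0} => (⟨f a, h0 a a.2⟩ : {a : K // a ≠ 0}))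
    (fun a b e => Subtype.ext (hm a b a.2 b.2 (congrArg Subtype.val e))) ⟨c, hc⟩
  exact ⟨a, a.2, congrArg Subtype.val e⟩

end

/-- Coordinates, before the square root of the Frobenius map is found. -/
structure OB0 {Γ K : Type*} [Group Γ] [Field K] (U V : ℤ → Subgroup Γ) (M : ℤ → Γ → Γ → Prop)
    (x1 x3 x5 x7 v2 v4 v6 v8 : K → Γ) (m n : Γ) : Prop where
  p1 : IsPar (U 1) x1
  p3 : IsPar (U 3) x3
  p5 : IsPar (U 5) x5
  p7 : IsPar (U 7) x7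
  p2 : IsPar (V 2) v2
  p4 : IsPar (V 4) v4
  p6 : IsPar (V 6) v6
  p8 : IsPar (V 8) v8
  Mm : M 1 (x1 1) m
  Mn : M 8 (v8 1) n
  mm : m * m = 1
  nn : n * n = 1
  m3 : ∀ t, m * x3 t * m⁻¹ = x7 t
  m5 : ∀ t, m * x5 t * m⁻¹ = x5 t
  m7 : ∀ t, m * x7 t * m⁻¹ = x3 t
  m2 : ∀ t, m * v2 t * m⁻¹ = v8 t
  m4 : ∀ t, m * v4 t * m⁻¹ = v6 t
  m6 : ∀ t, m * v6 t * m⁻¹ = v4 t
  m8 : ∀ t, m * v8 t * m⁻¹ = v2 t
  n1 : ∀ t, n * x1 t * n⁻¹ = x7 t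
  n3 : ∀ t, n * x3 t * n⁻¹ = x5 t
  n5 : ∀ t, n * x5 t * n⁻¹ = x3 t
  n7 : ∀ t, n * x7 t * n⁻¹ = x1 t
  n2 : ∀ t, n * v2 t * n⁻¹ = v6 t
  n4 : ∀ t, n * v4 t * n⁻¹ = v4 t
  n6 : ∀ t, n * v6 t * n⁻¹ = v2 t
  c16 : ∀ s t, ⁅x1 s, v6 t⁆ = v4 (s * t)

theorem Oc.Msq {Γ : Type*} [Group Γ] [Finite Γ] {U V : ℤ → Subgroup Γ} {I : ℤ → ℤ → Subgroup Γ}
    {M : ℤ → Γ → Γ → Prop} (h : Oc U V I M) {k : ℤ} {a m : Γ} (ha : a ∈ U k) (e : a⁻¹ = a) (hm : M k a m) :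
    m * m = 1 := mul_eq_one_iff_eq_inv.2 (h.Muniq ha hm (e ▸ h.Minv hm))

theorem Oc.exists_ob0 {Γ : Type u} [Group Γ] [Finite Γ] {U V : ℤ → Subgroup Γ} {I : ℤ → ℤ → Subgroup Γ}
    {M : ℤ → Γ → Γ → Prop} (h : Oc U V I M) : ∃ (K : Type u) (_ : Field K) (_ : Finite K) (_ : CharP K 2)
      (x1 x3 x5 x7 v2 v4 v6 v8 : K → Γ) (m n : Γ), OB0 U V M x1 x3 x5 x7 v2 v4 v6 v8 m n := by
  obtain ⟨e, he, e1⟩ := h.exU 1
  obtain ⟨ε, hε, ε1⟩ := h.cen 8 (by decide)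
  obtain ⟨m, hm⟩ := h.exM he e1
  obtain ⟨n, hn⟩ := h.exM (h.vU hε) ε1
  have mm := h.Msq he (h.ainv he) hm
  have nn := h.Msq (h.vU hε) (h.vinv hε) hn
  have rm := h.rf hm 10
  have rn := h.rf hn 8
  have hq : n * (m * ε * m⁻¹) * n⁻¹ ∈ V 6 := h.rV rn (h.rV (k := 2) rm hε)
  have q1 : n * (m * ε * m⁻¹) * n⁻¹ ≠ 1 := by simpa using ε1
  obtain ⟨K, _, x0, x1, x2, a0, a1, a2, hc, h01⟩ := exists_field_of_closure (P := U 1) (Q := V 6) (R := V 4)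
    (fun a b => Subtype.ext (h.vv a.2 b.2).eq) (fun a b => ⟨⁅(a : Γ), (b : Γ)⁆, h.f1V a.2 b.2⟩)
    (fun a a' b => Subtype.ext ((h.f1_mul a.2 a'.2 b.2).trans (h.vv (h.f1V a'.2 b.2) (h.f1V a.2 b.2)).eq))
    (fun a b b' => Subtype.ext ((oc_cr ..).trans (congrArg _ (oc_fix (h.vv b.2 (h.f1V a.2 b'.2))))))
    (fun a a1 => by
      obtain ⟨m, hm⟩ := h.exM a.2 fun e => a1 (Subtype.ext e)
      refine ⟨fun b b' e => Subtype.ext ?_, fun w => ⟨⟨_, h.rV (h.rf hm 10).inv w.2⟩, Subtype.ext ?_⟩⟩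
      · simpa [h.f1 a.2 b.2 hm, h.f1 a.2 b'.2 hm] using e
      · exact (h.f1 a.2 (h.rV (h.rf hm 10).inv w.2) hm).trans (by group))
    (fun b b1 => by
      have b1' : (b : Γ) ≠ 1 := fun e => b1 (Subtype.ext e)
      refine ⟨fun a a' e => Subtype.ext (h.f1_inj a.2 a'.2 b.2 b1' (congrArg Subtype.val e)), fun w => ?_⟩
      obtain ⟨a, ha, e⟩ := h.f1_surj b.2 b1' w.2
      exact ⟨⟨a, ha⟩, Subtype.ext e⟩)
    ⟨e, he⟩ (fun k => e1 (congrArg Subtype.val k)) ⟨_, hq⟩ (fun k => q1 (congrArg Subtype.val k))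
    (fun p p'' => by
      by_cases p1 : (p : Γ) = 1
      · exact ⟨1, fun q q' _ => Subtype.ext (by simp [p1])⟩
      obtain ⟨g, hg, gc, ge⟩ := h.tr6 he p.2 e1 p1
      refine ⟨⟨_, Oc.tU hg p''.2⟩, fun q q' k => Subtype.ext ?_⟩
      have k' : ⁅e, (q' : Γ)⁆ = ⁅(p'' : Γ), (q : Γ)⁆ := congrArg Subtype.val k
      change ⁅(p : Γ), (q' : Γ)⁆ = ⁅g * p'' * g⁻¹, (q : Γ)⁆
      rw [← ge, ← oc_fix (gc _ (h.vU q'.2)), ← oc_fix (gc _ (h.vU q.2)), ← conjugate_commutatorElement,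
        ← conjugate_commutatorElement, k'])
  have p1 := IsPar.of_equiv x0 a0
  have h1 : (x0 1 : Γ) = e := congrArg Subtype.val h01
  obtain ⟨c, hc0⟩ := ((IsPar.of_equiv x2 a2).mem _).1 hq
  have c0 : c ≠ 0 := by
    rintro rfl
    exact q1 (hc0.symm.trans (IsPar.of_equiv x2 a2).zero)
  have p6 := (IsPar.of_equiv x2 a2).oc_smul c0
  have p4 := (IsPar.of_equiv x1 a1).oc_smul c0
  have c16 : ∀ s t, ⁅(x0 s : Γ), (x2 (c * t) : Γ)⁆ = x1 (c * (s * t)) := fun s t =>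
    (congrArg Subtype.val (hc s (c * t))).trans (by rw [mul_left_comm])
  have m6 : ∀ t, m * (x2 (c * t) : Γ) * m⁻¹ = x1 (c * t) := fun t => by
    rw [← h.f1 he (x2 _).2 hm, ← h1, c16, one_mul]
  have p7 := p1.oc_conj (B := U 7) (fun a ha => h.rU rn ha) fun a ha => h.rU rn.inv ha
  have p3 := p7.oc_conj (B := U 3) (fun a ha => h.rU rm ha) fun a ha => h.rU rm.inv ha
  have p5 := p3.oc_conj (B := U 5) (fun a ha => h.rU rn ha) fun a ha => h.rU rn.inv ha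
  have p2 := p6.oc_conj (B := V 2) (fun a ha => h.rV rn ha) fun a ha => h.rV rn.inv ha
  have p8 := p2.oc_conj (B := V 8) (fun a ha => h.rV rm ha) fun a ha => h.rV rm.inv ha
  have ε8 : m * (n * (x2 (c * 1) : Γ) * n⁻¹) * m⁻¹ = ε := by
    rw [mul_one, show (x2 c : Γ) = _ from hc0, oc_inv_conj nn, oc_inv_conj mm]
  have : CharP K 2 := CharTwo.of_one_ne_zero_of_two_eq_zero one_ne_zero (p1.eq_one.1 (by
    rw [← one_add_one_eq_two, p1.add]; exact h.asq (x0 1).2))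
  exact ⟨K, _, Finite.of_equiv _ x0.symm, this, _, _, _, _, _, _, _, _, m, n, p1, p3, p5, p7, p2, p4, p6, p8,
    h1 ▸ hm, ε8 ▸ hn, mm, nn, fun _ => oc_inv_conj mm, fun _ => oc_fix (h.mcen he hm (p5.apply_mem _)),
    fun _ => rfl, fun _ => rfl, fun t => by rw [← m6, oc_inv_conj mm], m6, fun _ => oc_inv_conj mm, fun _ => rfl,
    fun _ => rfl, fun _ => oc_inv_conj nn, fun _ => oc_inv_conj nn, fun _ => oc_inv_conj nn,
    fun _ => oc_fix (h.ncen' hε hn (h.vU (p4.apply_mem _))), fun _ => rfl, c16⟩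

namespace OB0

variable {Γ K : Type*} [Group Γ] [Finite Γ] [Field K] [Finite K] [CharP K 2] {U V : ℤ → Subgroup Γ}
  {I : ℤ → ℤ → Subgroup Γ} {M : ℤ → Γ → Γ → Prop} {x1 x3 x5 x7 v2 v4 v6 v8 : K → Γ} {m n : Γ}
  (h : Oc U V I M) (c : OB0 U V M x1 x3 x5 x7 v2 v4 v6 v8 m n)
include h c

theorem c38 (s t : K) : ⁅x3 s, v8 t⁆ = v6 (s * t) := by
  rw [← c.m7, ← c.m2, ← c.m4, ← c.n1, ← c.n6, ← c.n4, ← conjugate_commutatorElement, ← conjugate_commutatorElement,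
    c.c16]

theorem hs {s : K} (hs : s ≠ 0) : ∃ g ∈ fqT U, ∃ r, r ≠ 0 ∧ (s = 1 → r = 1) ∧ OcSc g x1 (s ^ 2) ∧ OcSc g x3 r ∧
    OcSc g x5 1 ∧ OcSc g x7 r⁻¹ ∧ OcSc g v4 s ∧ OcSc g v6 s⁻¹ ∧ OcSc g v2 (s * r) ∧ OcSc g v8 (s * r)⁻¹ ∧
      ∀ t, ∃ d ∈ U 5, ⁅x1 s, x7 t⁆ = x3 (r * t) * d := by
  have ha := c.p1.apply_mem s
  obtain ⟨μ, hμ⟩ := h.exM ha (mt c.p1.eq_one.1 hs)
  have μμ := h.Msq ha (h.ainv ha) hμ
  have hT : μ * m ∈ fqT U := (h.rf hμ 10).mul (h.rf c.Mm 10)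
  have hi : m * (μ * m)⁻¹ * m⁻¹ = μ * m := by
    rw [mul_inv_rev, mul_inv_cancel_left, inv_eq_of_mul_eq_one_left μμ, inv_eq_of_mul_eq_one_left c.mm]
  have k : ∀ t, μ * v6 t * μ⁻¹ = v4 (s * t) := fun t => by rw [← h.f1 ha (c.p6.apply_mem t) hμ, c.c16]
  have s4 : OcSc (μ * m) v4 s := fun t => by rw [← k, ← c.m4]; group
  have s6 : OcSc (μ * m) v6 s⁻¹ := hi ▸ (s4.inv hs).conj c.m4
  obtain ⟨a, b, e1, s1, s6'⟩ := s4.tri hs c.p1 c.p6 c.p4.inj c.c16 (fun _ => Oc.tU hT) fun _ => h.tV hT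
  obtain rfl : b = s⁻¹ := by simpa using c.p6.inj ((s6' 1).symm.trans (s6 1))
  obtain rfl : a = s ^ 2 := by field_simp at e1; exact e1
  obtain ⟨r, b, e2, s3, s8⟩ := s6.tri (inv_ne_zero hs) c.p3 c.p8 c.p6.inj (c38 h c) (fun _ => Oc.tU hT) fun _ => h.tV hT
  have r0 := mul_ne_zero_iff.1 (e2 ▸ inv_ne_zero hs)
  obtain rfl : b = (s * r)⁻¹ := by have := r0.1; field_simp at e2 ⊢; rw [← e2]
  refine ⟨_, hT, r, r0.1, ?_, s1, s3, fun t => ?_, hi ▸ (s3.inv r0.1).conj c.m3, s4, s6,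
    inv_inv (s * r) ▸ hi ▸ (s8.inv r0.2).conj c.m8, s8, fun t => ?_⟩
  · rintro rfl
    have := s3 1
    rw [h.Muniq ha hμ c.Mm, c.mm] at this
    simpa using (c.p3.inj (this.symm.trans (by group))).trans rfl
  · rw [one_mul]
    exact oc_fix ((h.mcen ha hμ (c.p5.apply_mem t)).mul_left (h.mcen (c.p1.apply_mem 1) c.Mm (c.p5.apply_mem t)))
  · obtain ⟨d, hd, e⟩ := h.c17 ha (c.p7.apply_mem t) hμ
    exact ⟨d, hd, by rw [e, ← s3, ← c.m3]; group⟩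

theorem uq35 {a a' b b' : K} (e : x3 a * x5 b = x3 a' * x5 b') : a = a' ∧ b = b' := by
  obtain ⟨k1, k2⟩ := h.uq (i := 3) (k := 3) (l := 5) (j := 5) (h.uI (c.p3.apply_mem a)) (h.uI (c.p3.apply_mem a'))
    (h.uI (c.p5.apply_mem b)) (h.uI (c.p5.apply_mem b')) e
  exact ⟨c.p3.inj k1, c.p5.inj k2⟩

theorem cj17 {σ : K → K} (c17 : ∀ a b, ⁅x1 a, x7 b⁆ = x3 (σ a * b) * x5 (a * σ b)) {g : Γ} {c1 c3 c5 c7 : K}
    (s1 : OcSc g x1 c1) (s3 : OcSc g x3 c3) (s5 : OcSc g x5 c5) (s7 : OcSc g x7 c7) (a b : K) :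
    σ (c1 * a) * (c7 * b) = c3 * (σ a * b) ∧ c1 * a * σ (c7 * b) = c5 * (a * σ b) :=
  uq35 h c (by rw [← c17, ← s1, ← s7, ← s3, ← s5, ← conjugate_commutatorElement, c17]; group)

theorem exists_σ : ∃ σ : K →+* K, (∀ a, σ (σ a) = a ^ 2) ∧ (∀ a b, ⁅x1 a, x7 b⁆ = x3 (σ a * b) * x5 (a * σ b)) ∧
    ∀ s, s ≠ 0 → ∃ g ∈ fqT U, OcSc g x1 (s ^ 2) ∧ OcSc g x3 (σ s) ∧ OcSc g x5 1 ∧ OcSc g x7 (σ s)⁻¹ ∧ OcSc g v4 s ∧
      OcSc g v6 s⁻¹ ∧ OcSc g v2 (s * σ s) ∧ OcSc g v8 (s * σ s)⁻¹ := by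
  classical
  choose! g hg r r0 r1 s1 s3 s5 s7 s4 s6 s2 s8 k using fun s (h0 : s ≠ 0) => hs h c h0
  let σ : K → K := fun s => if s = 0 then 0 else r s
  have σ0 : σ 0 = 0 := if_pos rfl
  have σr : ∀ s, s ≠ 0 → σ s = r s := fun s hs => if_neg hs
  have σ1 : σ 1 = 1 := (σr 1 one_ne_zero).trans (r1 1 one_ne_zero rfl)
  have k1 : ∀ a b, ∃ d ∈ U 5, ⁅x1 a, x7 b⁆ = x3 (σ a * b) * d := fun a b => by
    by_cases ha : a = 0
    · exact ⟨1, one_mem _, by simp [ha, σ0, c.p1.zero, c.p3.zero]⟩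
    · exact σr a ha ▸ k a ha b
  have c17 : ∀ a b, ⁅x1 a, x7 b⁆ = x3 (σ a * b) * x5 (a * σ b) := fun a b => by
    obtain ⟨d, hd, e⟩ := k1 a b
    obtain ⟨d', hd', e'⟩ := k1 b a
    have hd3 : (n * d' * n⁻¹)⁻¹ ∈ U 3 := inv_mem (h.rU (h.rf c.Mn 8) hd')
    have e2 : ⁅x1 a, x7 b⁆ = (n * d' * n⁻¹)⁻¹ * x5 (a * σ b) := by
      rw [← h.ainv (c.p5.apply_mem _), ← c.n3, mul_comm a, ← c.n7 a, ← c.n1 b, ← conjugate_commutatorElement,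
        ← commutatorElement_inv, e']; group
    rw [e, (h.uq (i := 3) (k := 3) (l := 5) (j := 5) (h.uI (c.p3.apply_mem _)) (h.uI hd3) (h.uI hd)
      (h.uI (c.p5.apply_mem _)) (e.symm.trans e2)).2]
  have add : ∀ a b, σ (a + b) = σ a + σ b := fun a b => by
    have e := c17 (a + b) 1
    rw [c.p1.add, oc_cl, c17, c17, oc_fix ((h.acm (c.p1.apply_mem a) (c.p3.apply_mem _)).mul_right
      (h.acm (c.p1.apply_mem a) (c.p5.apply_mem _))), mul_assoc, ← mul_assoc (x5 _),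
      (h.acm (c.p5.apply_mem _) (c.p3.apply_mem _)).eq, mul_assoc, ← c.p5.add, ← mul_assoc, ← c.p3.add] at e
    simpa [add_comm] using (uq35 h c e).1.symm
  have cj := fun s hs => cj17 h c c17 (s1 s hs) (s3 s hs) (s5 s hs) (s7 s hs)
  have sq : ∀ s a, σ (s ^ 2 * a) = σ s ^ 2 * σ a := fun s a => by
    by_cases hs : s = 0
    · simp [hs, σ0]
    have := (cj s hs a 1).1
    have := r0 s hs
    rw [σr s hs]
    field_simp at *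
    assumption
  have mul : ∀ a b, σ (a * b) = σ a * σ b := fun a b => by
    obtain ⟨s, rfl⟩ := (frobeniusEquiv K 2).surjective a
    have := sq s 1
    rw [mul_one, σ1, mul_one] at this
    rw [coe_frobeniusEquiv, frobenius_def, sq, this]
  let τ : K →+* K := ⟨⟨⟨σ, σ1⟩, mul⟩, σ0, add⟩
  refine ⟨τ, fun s => ?_, c17, fun s hs => ⟨g s, hg s hs, s1 s hs, ?_⟩⟩
  · by_cases hs : s = 0
    · simp [hs]
    have e : s ^ 2 * 1 * τ ((r s)⁻¹ * 1) = 1 * (1 * τ 1) := (cj s hs 1 1).2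
    have e0 : τ (r s) ≠ 0 := (map_ne_zero τ).2 (r0 s hs)
    rw [show τ s = r s from σr s hs]
    simp only [mul_one, map_inv₀, map_one] at e
    field_simp at e
    exact e.symm
  · rw [show τ s = r s from σr s hs]
    exact ⟨s3 s hs, s5 s hs, s7 s hs, s4 s hs, s6 s hs, s2 s hs, s8 s hs⟩

theorem gt {σ : K →+* K} (c17 : ∀ a b, ⁅x1 a, x7 b⁆ = x3 (σ a * b) * x5 (a * σ b)) {t : K} {ν : Γ}
    (hν : M 8 (v8 t) ν) : ∃ γ, γ ≠ 0 ∧ OcSc (ν * n) x7 γ ∧ OcSc (ν * n) v6 γ ∧ OcSc (ν * n) v2 γ⁻¹ ∧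
      OcSc (ν * n) v8 (σ γ) ∧ OcSc (ν * n) x5 (σ γ * γ⁻¹) := by
  have hv := c.p8.apply_mem t
  have νν := h.Msq (h.vU hv) (h.vinv hv) hν
  have hT : ν * n ∈ fqT U := (h.rf hν 8).mul (h.rf c.Mn 8)
  have hi : n * (ν * n)⁻¹ * n⁻¹ = ν * n := by
    rw [mul_inv_rev, mul_inv_cancel_left, inv_eq_of_mul_eq_one_left νν, inv_eq_of_mul_eq_one_left c.nn]
  have s4 : OcSc (ν * n) v4 1 := fun s => by
    rw [one_mul]
    exact oc_fix ((h.ncen' hv hν (h.vU (c.p4.apply_mem s))).mul_left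
      (h.ncen' (c.p8.apply_mem 1) c.Mn (h.vU (c.p4.apply_mem s))))
  obtain ⟨a, γ, e1, s1, s6⟩ := s4.tri one_ne_zero c.p1 c.p6 c.p4.inj c.c16 (fun _ => Oc.tU hT) fun _ => h.tV hT
  have γ0 : γ ≠ 0 := right_ne_zero_of_mul_eq_one e1
  obtain rfl : a = γ⁻¹ := eq_inv_of_mul_eq_one_left e1
  obtain ⟨r, b, e2, s3, s8⟩ := s6.tri γ0 c.p3 c.p8 c.p6.inj (c38 h c) (fun _ => Oc.tU hT) fun _ => h.tV hT
  have r0 := mul_ne_zero_iff.1 (e2 ▸ γ0)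
  have s7 : OcSc (ν * n) x7 γ := inv_inv γ ▸ hi ▸ (s1.inv (inv_ne_zero γ0)).conj c.n1
  have s5 : OcSc (ν * n) x5 r⁻¹ := hi ▸ (s3.inv r0.1).conj c.n3
  have e3 := (cj17 h c c17 s1 s3 s5 s7 1 1).2
  simp only [mul_one, map_one] at e3
  have e4 : b = σ γ := by
    have := r0.1
    field_simp at e3
    exact mul_left_cancel₀ this (by rw [e2, mul_comm, e3])
  exact ⟨γ, γ0, s7, s6, hi ▸ (s6.inv γ0).conj c.n6, e4 ▸ s8, by rwa [mul_comm, e3]⟩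

end OB0

theorem Oc.exists_ob {Γ : Type u} [Group Γ] [Finite Γ] {U V : ℤ → Subgroup Γ} {I : ℤ → ℤ → Subgroup Γ}
    {M : ℤ → Γ → Γ → Prop} (h : Oc U V I M) :
    ∃ (K : Type u) (_ : Field K) (_ : Finite K) (_ : CharP K 2) (σ : K →+* K) (κ : K) (x v : ℤ → K → Γ) (m n : Γ),
      OB U V M σ κ x v m n := by
  obtain ⟨K, _, _, _, x1, x3, x5, x7, v2, v4, v6, v8, m, n, c⟩ := h.exists_ob0
  obtain ⟨σ, sq, c17, tor⟩ := c.exists_σ h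
  have σ0 : ∀ a, a ≠ 0 → σ a ≠ 0 := fun a => (map_ne_zero σ).2
  have uq : ∀ {p e q p' e' q'}, v4 p * x5 e * v6 q = v4 p' * x5 e' * v6 q' → p = p' ∧ e = e' ∧ q = q' := fun k => by
    obtain ⟨k1, k2⟩ := h.uq (i := 4) (k := 5) (l := 6) (j := 6) (mul_mem (h.vI (c.p4.apply_mem _)) (h.uI (c.p5.apply_mem _)))
      (mul_mem (h.vI (c.p4.apply_mem _)) (h.uI (c.p5.apply_mem _))) (h.vI (c.p6.apply_mem _)) (h.vI (c.p6.apply_mem _)) k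
    obtain ⟨k3, k4⟩ := h.uq (i := 4) (k := 4) (l := 5) (j := 5) (h.vI (c.p4.apply_mem _)) (h.vI (c.p4.apply_mem _))
      (h.uI (c.p5.apply_mem _)) (h.uI (c.p5.apply_mem _)) k1
    exact ⟨c.p4.inj k3, c.p5.inj k4, c.p6.inj k2⟩
  have ex : ∀ s t, ∃ p e q, ⁅v2 s, v8 t⁆ = v4 p * x5 e * v6 q ∧ (∀ ν, M 8 (v8 t) ν → v6 q = ν * v2 s * ν⁻¹) ∧
      (e = 0 → s = 0 ∨ t = 0) := fun s t => by
    obtain ⟨p, hp, e, he, q, hq, k1, -, k2, k3⟩ := h.c28v (c.p2.apply_mem s) (c.p8.apply_mem t)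
    obtain ⟨p, rfl⟩ := (c.p4.mem _).1 hp
    obtain ⟨e, rfl⟩ := (c.p5.mem _).1 he
    obtain ⟨q, rfl⟩ := (c.p6.mem _).1 hq
    exact ⟨p, e, q, k1, k2, fun k => by simpa only [c.p2.eq_one, c.p8.eq_one] using k3 (c.p5.eq_one.2 k)⟩
  choose P E Q k1 k2 k3 using ex
  have cj : ∀ {g c2 c4 c5 c6 c8}, OcSc g v2 c2 → OcSc g v4 c4 → OcSc g x5 c5 → OcSc g v6 c6 → OcSc g v8 c8 → ∀ s t,
      E (c2 * s) (c8 * t) = c5 * E s t ∧ Q (c2 * s) (c8 * t) = c6 * Q s t := fun {g c2 c4 c5 c6 c8} s2 s4 s5 s6 s8 s t =>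
    (uq (p' := c4 * P s t) (by
      rw [← k1, ← s2, ← s8, ← s4, ← s5, ← s6, ← conjugate_commutatorElement, k1]; group)).2
  have z : ∀ s t, s = 0 ∨ t = 0 → P s t = 0 ∧ E s t = 0 ∧ Q s t = 0 := fun s t k => uq (by
    rw [← k1, c.p4.zero, c.p5.zero, c.p6.zero]
    rcases k with rfl | rfl <;> simp [c.p2.zero, c.p8.zero])
  have hN : ∀ t, t ≠ 0 → ∃ r, r ≠ 0 ∧ (r * σ r)⁻¹ = t := fun t => oc_surj_units (fun r => (r * σ r)⁻¹)
    (fun r r0 => inv_ne_zero (mul_ne_zero r0 (σ0 r r0))) fun a b a0 _ e => by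
      have e1 : a * σ a = b * σ b := inv_injective e
      have e2 := congrArg σ e1
      rw [map_mul, map_mul, sq, sq] at e2
      exact mul_left_cancel₀ (mul_ne_zero a0 (σ0 a a0)) (by linear_combination e2 - b * e1)
  have cjh : ∀ t, t ≠ 0 → ∀ s u, E (t⁻¹ * s) (t * u) = E s u ∧ Q (t⁻¹ * s) (t * u) = t⁻¹ * σ t * Q s u :=
    fun t ht s u => by
      obtain ⟨r, r0, rfl⟩ := hN t ht
      obtain ⟨g, -, -, -, s5, -, s4, s6, s2, s8⟩ := tor r r0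
      have := cj s2 s4 s5 s6 s8 s u
      rw [inv_inv, this.1, this.2, map_inv₀, map_mul, sq]
      have := σ0 r r0
      exact ⟨one_mul _, by field_simp⟩
  have Q1 : ∀ s, Q s 1 = s := fun s => c.p6.inj ((k2 s 1 n c.Mn).trans (c.n2 s))
  have hQ : ∀ s t, Q s t = s * σ t := fun s t => by
    by_cases ht : t = 0
    · rw [(z s t (Or.inr ht)).2.2, ht, map_zero, mul_zero]
    have := (cjh t ht (t * s) 1).2
    rw [inv_mul_cancel_left₀ ht, mul_one, Q1] at this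
    rw [this]; field_simp
  have hP : ∀ s t, P s t = σ s * t := fun s t => by
    refine (uq (e := E s t) (q := Q s t) (e' := E t s) (q' := P t s) ?_).1
    have e : ⁅v2 s, v8 t⁆ = m * ⁅v2 t, v8 s⁆⁻¹ * m⁻¹ := by
      rw [commutatorElement_inv, conjugate_commutatorElement, c.m8, c.m2]
    rw [← k1, e, k1, hQ, mul_comm (σ s), mul_inv_rev, mul_inv_rev, h.vinv (c.p4.apply_mem _),
      h.vinv (c.p6.apply_mem _), h.ainv (c.p5.apply_mem _), ← c.m6 (t * σ s), ← c.m4 (P t s)]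
    conv_rhs => rw [← c.m5]
    group
  have gt : ∀ t ν, M 8 (v8 t) ν → OcSc (ν * n) x7 (σ t) ∧ OcSc (ν * n) v6 (σ t) ∧ OcSc (ν * n) v2 (σ t)⁻¹ ∧
      OcSc (ν * n) v8 (σ (σ t)) ∧ OcSc (ν * n) x5 (σ (σ t) * (σ t)⁻¹) := fun t ν hν => by
    obtain ⟨γ, -, s7, s6, s⟩ := c.gt h c17 hν
    obtain rfl : γ = σ t := by
      simpa [hQ] using c.p6.inj ((s6 1).symm.trans (((k2 1 t ν hν).trans (by rw [← c.n6]; group)).symm))
    exact ⟨s7, s6, s⟩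
  have E1 : ∀ s t, E s t = E (t * s) 1 := fun s t => by
    by_cases ht : t = 0
    · rw [(z s t (Or.inr ht)).2.1, (z _ 1 (Or.inl (by rw [ht, zero_mul]))).2.1]
    have := (cjh t ht (t * s) 1).1
    rwa [inv_mul_cancel_left₀ ht, mul_one] at this
  have hE : ∀ s, E s 1 = E 1 1 * s := fun s => by
    by_cases hs : s = 0
    · rw [(z s 1 (Or.inl hs)).2.1, hs, mul_zero]
    obtain ⟨t, ht, rfl⟩ := oc_surj_units (fun t => σ (σ t) * (σ t)⁻¹)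
      (fun r r0 => mul_ne_zero (σ0 _ (σ0 r r0)) (inv_ne_zero (σ0 r r0))) (fun a b a0 b0 e => by
        have ha := σ0 a a0
        have hb := σ0 b b0
        simp only [sq] at e
        have e2 := congrArg σ e
        simp only [map_mul, map_pow, map_inv₀, sq] at e2
        field_simp at e e2
        refine σ.injective (mul_left_cancel₀ (mul_ne_zero ha (pow_ne_zero 2 b0)) ?_)
        linear_combination e2 + σ b * e) hs
    obtain ⟨ν, hν⟩ := h.exM (h.vU (c.p8.apply_mem t)) (mt c.p8.eq_one.1 ht)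
    obtain ⟨-, s6, s2, s8, s5⟩ := gt t ν hν
    have s4 : OcSc (ν * n) v4 1 := fun s => by
      rw [one_mul]
      exact oc_fix ((h.ncen' (c.p8.apply_mem t) hν (h.vU (c.p4.apply_mem s))).mul_left
        (h.ncen' (c.p8.apply_mem 1) c.Mn (h.vU (c.p4.apply_mem s))))
    have := (cj s2 s4 s5 s6 s8 1 1).1
    rwa [E1, mul_one, mul_one, mul_comm _ (E 1 1)] at this
  refine ⟨K, _, inferInstance, inferInstance, σ, E 1 1,
    fun i => if i = 1 then x1 else if i = 3 then x3 else if i = 5 then x5 else x7,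
    fun i => if i = 2 then v2 else if i = 4 then v4 else if i = 6 then v6 else v8, m, n, sq, c.p1, c.p3, c.p5, c.p7,
    c.p2, c.p4, c.p6, c.p8, c.Mm, c.Mn, c.mm, c.nn, c.m3, c.m5, c.m7, c.m2, c.m4, c.m6, c.m8, c.n1, c.n3, c.n5, c.n7,
    c.n2, c.n4, c.n6, c.c16, c17, fun e => by simpa using k3 1 1 e, fun s t => (k1 s t).trans ?_,
    fun t ν _ hν s => Eq.trans ?_ ((gt t ν hν).1 s), fun r r0 => ?_⟩
  · rw [hP, hQ, E1, hE, mul_comm t, ← mul_assoc (E 1 1)]; rfl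
  · change ν * x1 s * ν⁻¹ = _
    rw [← c.n7]; group
  · obtain ⟨g, hg, s1, s3, s5, s7, s4, s6, -⟩ := tor r r0
    exact ⟨g, hg, s1, s3, fun t => (s5 t).trans (by rw [one_mul]; rfl), s7, s4, s6⟩

end Cfsg.Agent.Bld
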