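import Mathlib
import Cfsg.Agent.FS.Oct1

/-! Finite Moufang octagons: sections of the even root groups (definition). -/

set_option autoImplicit false

namespace Cfsg.Agent.Bld

open scoped commutatorElement

variable {Γ K : Type*} [Group Γ] [Field K]

/-- Sections `y i` of `U i → U i / V i` (`i = 2, 4, 6, 8`). -/
structure OY (U : ℤ → Subgroup Γ) (σ : K →+* K) (κ : K) (x v y : ℤ → K → Γ) (m n : Γ) : Prop where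
  mem4 : ∀ a, y 4 a ∈ U 4
  m4 : ∀ a, m * y 4 a * m⁻¹ = y 6 a
  n6 : ∀ a, n * y 6 a * n⁻¹ = y 2 a
  m2 : ∀ a, m * y 2 a * m⁻¹ = y 8 a
  dec4 : ∀ g ∈ U 4, ∃ a u, y 4 a * v 4 u = g
  add4 : ∀ a b, y 4 a * y 4 b = y 4 (a + b) * v 4 (a * σ b)
  c47 : ∀ a t, ⁅y 4 a, x 7 t⁆ = v 6 (a * t)
  c24 : ∀ a b, ⁅y 2 a, y 4 b⁆ = x 3 (κ * a * b)
  cf : ∀ t, ∃ d ∈ U 5, ⁅x 1 1, v 8 t⁆ = v 2 t * x 3 (σ t) * (y 4 t)⁻¹ * d * y 6 t * x 7 (σ t)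
  me : ∃ z ∈ U 9, m = x 1 1 * z * x 1 1 ∧ m = z * x 1 1 * z

end Cfsg.Agent.Bld
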