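import Mathlib
import Cfsg.Agent.FS.Oct2
import Cfsg.Agent.FS.OctA

/-! Finite Moufang octagons: sections of the even root groups. -/

set_option autoImplicit false
set_option linter.unusedSectionVars false

namespace Cfsg.Agent.Bld

open scoped commutatorElement

namespace OctC

variable {Γ K : Type*} [Group Γ] [Field K]

theorem pm {A : Subgroup Γ} {x : K → Γ} (p : IsPar A x) (t : K) : x t ∈ A := (p.mem _).2 ⟨t, rfl⟩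

theorem p0 {A : Subgroup Γ} {x : K → Γ} (p : IsPar A x) : x 0 = 1 := by simpa using p.add 0 0

theorem pi [CharP K 2] {A : Subgroup Γ} {x : K → Γ} (p : IsPar A x) (t : K) : (x t)⁻¹ = x t :=
  inv_eq_of_mul_eq_one_right (by rw [← p.add, CharTwo.add_self_eq_zero, p0 p])

theorem cjc (g a b : Γ) : ⁅g * a * g⁻¹, g * b * g⁻¹⁆ = g * ⁅a, b⁆ * g⁻¹ := (conjugate_commutatorElement a b g).symm

theorem cjm (a b : Γ) : a * b * a⁻¹ = ⁅b, a⁆⁻¹ * b := by simp only [commutatorElement_def]; group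

theorem cjm' (a b : Γ) : a * b * a⁻¹ = ⁅a, b⁆ * b := by simp only [commutatorElement_def]; group

theorem cml (a b c : Γ) : ⁅a * b, c⁆ = a * ⁅b, c⁆ * a⁻¹ * ⁅a, c⁆ := by simp only [commutatorElement_def]; group

theorem cin (a c : Γ) : ⁅a⁻¹, c⁆ = a⁻¹ * ⁅a, c⁆⁻¹ * a⁻¹⁻¹ := by simp only [commutatorElement_def]; group

theorem cj2 {g a : Γ} (h : g * g = 1) : g * (g * a * g⁻¹) * g⁻¹ = a := by
  rw [show g * (g * a * g⁻¹) * g⁻¹ = g * g * a * (g * g)⁻¹ by group, h]; group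

variable [Finite Γ] [CharP K 2] {U V : ℤ → Subgroup Γ} {I : ℤ → ℤ → Subgroup Γ} {M : ℤ → Γ → Γ → Prop}
  {σ : K →+* K} {κ : K} {x v : ℤ → K → Γ} {m n g g' : Γ} {β β' : K}
  (h : Oc U V I M) (c : OB U V M σ κ x v m n)
include c

theorem t2 (s t : K) : ⁅x 7 s, v 2 t⁆ = v 4 (s * t) := by rw [← c.n1, ← c.n6, cjc, c.c16, c.n4]

theorem t3 (s t : K) : ⁅x 3 s, v 8 t⁆ = v 6 (s * t) := by rw [← c.m7, ← c.m2, cjc, t2 c, c.m4]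

theorem b46 (H : ∀ t, ⁅g, x 7 t⁆ = v 6 (β * t)) (t : K) : ⁅m * g * m⁻¹, x 3 t⁆ = v 4 (β * t) := by
  rw [← c.m7, cjc, H, c.m6]

theorem b62 (H : ∀ t, ⁅g, x 3 t⁆ = v 4 (β * t)) (t : K) : ⁅n * g * n⁻¹, x 5 t⁆ = v 4 (β * t) := by
  rw [← c.n3, cjc, H, c.n4]

include h

theorem e2 (hg : g ∈ U 2) : ∃ β, (∀ t, ⁅g, x 5 t⁆ = v 4 (β * t)) ∧ ∃ w ∈ I 4 6, ⁅g, v 8 1⁆ = w * x 7 (κ * β) := by
  obtain ⟨p, hp, e, he, q, hq, d, hd, H⟩ := h.c28 hg (pm c.p8 1)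
  obtain ⟨C, rfl⟩ := (c.p7.mem _).1 hd
  have hw : p * e * q ∈ I 4 6 := mul_mem (mul_mem (h.vI hp) (h.uI he)) (h.vI hq)
  refine ⟨C / κ, fun t => ?_, _, hw, by rw [H, mul_div_cancel₀ _ c.κ0]⟩
  have := h.r1 hg (pm c.p2 (t / κ)) (pm c.p8 1) hw hd H (pm c.p4 _) (pm c.p5 _) (pm c.p6 _) (c.c28 _ _)
  rw [mul_one, mul_div_cancel₀ _ c.κ0, ← commutatorElement_inv (x 7 C), t2 c, pi c.p4] at this
  rw [this]
  congr 1
  ring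

theorem e4 (hg : g ∈ U 4) : ∃ β, ∀ t, ⁅g, x 7 t⁆ = v 6 (β * t) := by
  obtain ⟨β, H, -⟩ := e2 h c (h.rU (h.rf c.Mn 8) (h.rU (k := 6) (h.rf c.Mm 10) hg))
  refine ⟨β, fun t => ?_⟩
  have := H t
  rw [← c.n3, cjc, ← c.n4, mul_left_inj, mul_right_inj, ← c.m7, cjc, ← c.m6, mul_left_inj, mul_right_inj] at this
  exact this

theorem k4 (hg : g ∈ U 4) (H : ∀ t, ⁅g, x 7 t⁆ = v 6 (0 * t)) : g ∈ V 4 := by
  have h1 := h.k25 (h.rU (h.rf c.Mn 8) (h.rU (k := 6) (h.rf c.Mm 10) hg)) (pm c.p5 1)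
    (fun e => one_ne_zero (c.p5.inj (e.trans (p0 c.p5).symm)))
    (commutatorElement_eq_one_iff_commute.1 (by rw [b62 c (b46 c H), zero_mul, p0 c.p4]))
  have h2 := h.rV (k := 4) (h.rf c.Mm 10) (h.rV (k := 6) (h.rf c.Mn 8) h1)
  rwa [cj2 c.nn, cj2 c.mm] at h2

theorem b4i (hg : g ∈ U 4) (H : ∀ t, ⁅g, x 7 t⁆ = v 6 (β * t)) (t : K) : ⁅g⁻¹, x 7 t⁆ = v 6 (β * t) := by
  rw [cin, H, pi c.p6, (h.vc (pm c.p6 _) (inv_mem hg)).symm.mul_inv_cancel]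

theorem b4m (hg : g ∈ U 4) (H : ∀ t, ⁅g, x 7 t⁆ = v 6 (β * t)) (H' : ∀ t, ⁅g', x 7 t⁆ = v 6 (β' * t)) (t : K) :
    ⁅g * g', x 7 t⁆ = v 6 ((β' + β) * t) := by
  rw [cml, H, H', (h.vc (pm c.p6 _) hg).symm.mul_inv_cancel, add_mul, c.p6.add]

theorem c24 (hg : g ∈ U 2) (hg' : g' ∈ U 4) (H : ∀ t, ⁅g, x 5 t⁆ = v 4 (β * t))
    (H' : ∀ t, ⁅g', x 7 t⁆ = v 6 (β' * t)) : ⁅g, g'⁆ = x 3 (κ * β * β') := by
  obtain ⟨b, h1, w, hw, h2⟩ := e2 h c hg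
  obtain rfl : b = β := by simpa using c.p4.inj ((h1 1).symm.trans (H 1))
  obtain ⟨u, hu⟩ := (c.p3.mem _).1 (h.Iu (h.cmU hg hg' (i' := 3) (j' := 3)))
  have := h.r2 hg hg' (pm c.p8 1) hw (pm c.p7 _) h2
  rw [← hu, t3 c, H', mul_one] at this
  rw [← hu, c.p6.inj this, mul_comm]

theorem me : ∃ z ∈ U 9, m = x 1 1 * z * x 1 1 ∧ m = z * x 1 1 * z := by
  obtain ⟨z, hz, z', hz', e⟩ := h.dec c.Mm 9
  have mi : m⁻¹ = m := inv_eq_of_mul_eq_one_right c.mm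
  have zi : z⁻¹ = z := inv_eq_of_mul_eq_one_right (h.asq hz)
  have e' : m = z' * x 1 1 * z := by
    rw [← mi, e, mul_inv_rev, mul_inv_rev, zi, pi c.p1, inv_eq_of_mul_eq_one_right (h.asq hz'), mul_assoc]
  obtain rfl := h.Mleft (pm c.p1 1) c.Mm c.Mm hz hz' hz' hz e e'
  have M9 : M 9 z m := (h.eqM _ _ _).2 (h.poly.mu_left (pm c.p1 1) ((h.eqM _ _ _).1 c.Mm) hz hz e).1
  have h1 : m * z * m⁻¹ ∈ U 1 := h.rU (h.rf c.Mm 10) hz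
  have h2 : m = (m * z * m⁻¹)⁻¹ * z * x 1 1 := by
    rw [show (m * z * m⁻¹)⁻¹ * z * x 1 1 = m * z⁻¹ * m⁻¹ * (z * x 1 1 * z) * z⁻¹ by group, ← e, zi,
      inv_mul_cancel_right, mul_assoc, h.asq hz, mul_one]
  have h3 : m = x 1 1 * z * (m * z * m⁻¹) := by
    generalize m * z * m⁻¹ = w at h2
    rw [← mi, h2, mul_inv_rev, mul_inv_rev, inv_inv, zi, pi c.p1, mul_assoc]
  have h4 := h.Mleft hz M9 M9 (inv_mem h1) (pm c.p1 1) (pm c.p1 1) h1 h2 h3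
  exact ⟨z, hz, by rw [h4] at h2; exact h2, e⟩

theorem cf (t : K) : ∃ g ∈ U 4, ∃ d ∈ U 5,
    ⁅x 1 1, v 8 t⁆ = v 2 t * x 3 (σ t) * g⁻¹ * d * (m * g * m⁻¹) * x 7 (σ t) := by
  have v8 := h.vU (pm c.p8 t)
  have h1 := h.m4 (i := 3) (j := 7) (pm c.p1 1) v8 c.Mm
  rw [c.m8] at h1
  obtain ⟨f3, h3, _, k1, e3⟩ := h.cons h1 4
  obtain ⟨f4, h4, _, k2, rfl⟩ := h.cons k1 5
  obtain ⟨f5, h5, _, k3, rfl⟩ := h.cons k2 6
  obtain ⟨f6, h6, f7, h7, rfl⟩ := h.two k3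
  rw [inv_mul_eq_iff_eq_mul] at e3
  have h8 : ⁅x 1 1, v 8 t⁆ * x 7 (σ t) ∈ I 2 6 := by
    by_cases t0 : t = 0
    · rw [t0, map_zero, p0 c.p8, p0 c.p7]; simp
    obtain ⟨n', hn⟩ := h.exM v8 fun e => t0 (c.p8.inj (e.trans (p0 c.p8).symm))
    have := inv_mem ((h.rv 8).m4 (k := 0) (l := 7) (i := 2) (j := 6) v8 (pm c.p1 1) hn)
    rwa [c.mu8 t n' t0 hn, mul_inv_rev, inv_inv, commutatorElement_inv, mul_one] at this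
  obtain rfl : f7 = x 7 (σ t) := (h.uq (i := 2) (k := 6) (l := 7) (j := 7) (mul_mem (h.vI (pm c.p2 t)) (mul_mem (h.uI h3)
    (mul_mem (h.uI h4) (mul_mem (h.uI h5) (h.uI h6))))) h8 (h.uI h7) (h.uI (inv_mem (pm c.p7 _)))
    (by rw [e3]; group)).2.trans (pi c.p7 _)
  obtain ⟨z, hz, z1, -⟩ := me h c
  have W1 : m * (x 1 1 * v 8 t * (x 1 1)⁻¹) * m⁻¹ = x 1 1 * v 8 t * (x 1 1)⁻¹ := by
    have : m * x 1 1 = x 1 1 * z := by rw [z1, mul_assoc, h.asq (pm c.p1 1), mul_one]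
    rw [show m * (x 1 1 * v 8 t * (x 1 1)⁻¹) * m⁻¹ = m * x 1 1 * v 8 t * (m * x 1 1)⁻¹ by group, this,
      show x 1 1 * z * v 8 t * (x 1 1 * z)⁻¹ = x 1 1 * (z * v 8 t * z⁻¹) * (x 1 1)⁻¹ by group,
      (h.adj v8 hz).symm.mul_inv_cancel]
  have W2 : (x 1 1 * v 8 t * (x 1 1)⁻¹)⁻¹ = x 1 1 * v 8 t * (x 1 1)⁻¹ := by rw [conj_inv, pi c.p8]
  have W3 := (congrArg (fun g => m * g * m⁻¹) W2).trans W1
  rw [cjm' (x 1 1), e3, show ∀ a b c d e f g : Γ, m * (a * (b * (c * (d * (e * f)))) * g)⁻¹ * m⁻¹ =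
    m * g⁻¹ * m⁻¹ * (m * f⁻¹ * m⁻¹ * (m * e⁻¹ * m⁻¹ * (m * d⁻¹ * m⁻¹ * (m * c⁻¹ * m⁻¹ * (m * b⁻¹ * m⁻¹))))) *
      (m * a⁻¹ * m⁻¹) from fun _ _ _ _ _ _ _ => by group, pi c.p8, pi c.p7, pi c.p2, c.m8, c.m7, c.m2, mul_left_inj,
    mul_right_inj] at W3
  have r := h.rf c.Mm 10
  have a4 : m * f6⁻¹ * m⁻¹ ∈ U 4 := h.rU r (inv_mem h6)
  have a5 : m * f5⁻¹ * m⁻¹ ∈ U 5 := h.rU r (inv_mem h5)
  have a6 : m * f4⁻¹ * m⁻¹ ∈ U 6 := h.rU r (inv_mem h4)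
  have a7 : m * f3⁻¹ * m⁻¹ ∈ U 7 := h.rU r (inv_mem h3)
  obtain ⟨rfl, W5⟩ := h.uq (i := 3) (k := 3) (l := 4) (j := 7) (h.uI (pm c.p3 _)) (h.uI h3)
    (mul_mem (h.uI a4) (mul_mem (h.uI a5) (mul_mem (h.uI a6) (h.uI a7))))
    (mul_mem (h.uI h4) (mul_mem (h.uI h5) (mul_mem (h.uI h6) (h.uI h7)))) W3
  obtain ⟨-, W6⟩ := h.uq (i := 4) (k := 4) (l := 5) (j := 7) (h.uI a4) (h.uI h4)
    (mul_mem (h.uI a5) (mul_mem (h.uI a6) (h.uI a7))) (mul_mem (h.uI h5) (mul_mem (h.uI h6) (h.uI h7))) W5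
  obtain ⟨-, W7⟩ := h.uq (i := 5) (k := 5) (l := 6) (j := 7) (h.uI a5) (h.uI h5)
    (mul_mem (h.uI a6) (h.uI a7)) (mul_mem (h.uI h6) (h.uI h7)) W6
  obtain ⟨rfl, -⟩ := h.uq (i := 6) (k := 6) (l := 7) (j := 7) (h.uI a6) (h.uI h6) (h.uI a7) (h.uI h7) W7
  exact ⟨f4⁻¹, inv_mem h4, f5, h5, by rw [e3, inv_inv]; group⟩

omit h c in
theorem cj6 (g a b c d e f : Γ) : g * (a * b * c * d * e * f) * g⁻¹ =
    g * a * g⁻¹ * (g * b * g⁻¹) * (g * c * g⁻¹) * (g * d * g⁻¹) * (g * e * g⁻¹) * (g * f * g⁻¹) := by group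

theorem beta {d t : K} {w : Γ} (hg : g ∈ U 4) (hw : w ∈ U 5)
    (e : ⁅x 1 1, v 8 t⁆ = v 2 t * x 3 d * g⁻¹ * w * (m * g * m⁻¹) * x 7 d) (s : K) : ⁅g, x 7 s⁆ = v 6 (t * s) := by
  obtain ⟨β, H⟩ := e4 h c hg
  suffices β = t from this ▸ H s
  have x3 := pm c.p3
  have x5 := pm c.p5
  have x7 := pm c.p7
  have v2 := pm c.p2 t
  have gi := inv_mem hg
  have g6 : m * g * m⁻¹ ∈ U 6 := h.rU (h.rf c.Mm 10) hg
  have e1 : x 7 1 * x 1 1 * (x 7 1)⁻¹ = x 3 1 * (x 5 1 * x 1 1) := by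
    rw [cjm, c.c17, map_one, one_mul, mul_inv_rev, pi c.p3, pi c.p5, (h.acm (x5 1) (x3 1)).eq, mul_assoc]
  have e5 : x 5 1 * ⁅x 1 1, v 8 t⁆ * (x 5 1)⁻¹ = ⁅x 1 1, v 8 t⁆ := by
    rw [e, cj6, (h.vc v2 (x5 1)).symm.mul_inv_cancel, (h.acm (x5 1) (x3 d)).mul_inv_cancel,
      (h.adj gi (x5 1)).symm.mul_inv_cancel, (h.acm (x5 1) hw).mul_inv_cancel, (h.adj (x5 1) g6).mul_inv_cancel,
      (h.acm (x5 1) (x7 d)).mul_inv_cancel]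
  have e3 : x 3 1 * ⁅x 1 1, v 8 t⁆ * (x 3 1)⁻¹ = v 4 β * ⁅x 1 1, v 8 t⁆ := by
    rw [e, cj6, (h.vc v2 (x3 1)).symm.mul_inv_cancel, (h.acm (x3 1) (x3 d)).mul_inv_cancel,
      (h.adj (x3 1) gi).mul_inv_cancel, (h.acm (x3 1) hw).mul_inv_cancel, cjm _ (m * g * m⁻¹), b46 c H, mul_one,
      pi c.p4, (h.acm (x3 1) (x7 d)).mul_inv_cancel, ← mul_assoc _ (v 4 β), ← (h.vcI (pm c.p4 β) (i := 2) (j := 5)
        (mul_mem (mul_mem (mul_mem (h.vI v2) (h.uI (x3 d))) (h.uI gi)) (h.uI hw))).eq]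
    simp only [mul_assoc]
  have e7 : x 7 1 * ⁅x 1 1, v 8 t⁆ * (x 7 1)⁻¹ = v 4 t * ⁅x 1 1, v 8 t⁆ * v 6 β := by
    rw [e, cj6, cjm' _ (v 2 t), t2 c, one_mul, (h.acm (x7 1) (x3 d)).mul_inv_cancel, cjm _ g⁻¹, b4i h c hg H,
      mul_one, pi c.p6, (h.acm (x7 1) hw).mul_inv_cancel, (h.adj g6 (x7 1)).symm.mul_inv_cancel,
      (h.acm (x7 1) (x7 d)).mul_inv_cancel]
    have := (h.vcI (pm c.p6 β) (i := 4) (j := 7)
      (mul_mem (mul_mem (mul_mem (h.uI gi) (h.uI hw)) (h.uI g6)) (h.uI (x7 d)))).eq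
    simp only [mul_assoc] at this ⊢
    rw [this]
  rw [← cjc, e1, (h.vc (pm c.p8 t) (x7 1)).symm.mul_inv_cancel, cml, t3 c, one_mul, cml,
    (h.vc (pm c.p8 t) (x5 1)).symm.commutator_eq, mul_one, e5, e3] at e7
  have fI : ⁅x 1 1, v 8 t⁆ ∈ I 2 7 := h.cmU (pm c.p1 1) (h.vU (pm c.p8 t))
  rw [(h.vcI (pm c.p4 β) fI).eq, (h.vcI (pm c.p4 t) fI).eq, mul_assoc, mul_assoc, mul_right_inj] at e7
  exact (c.p6.inj (h.uq (i := 4) (k := 4) (l := 6) (j := 6) (h.vI (pm c.p4 _)) (h.vI (pm c.p4 _))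
    (h.vI (pm c.p6 _)) (h.vI (pm c.p6 _)) e7).2).symm

omit h c in
theorem coll {w u s p q r z1 z2 z3 : Γ} (k1 : Commute p w) (k2 : Commute q (w * u)) (k3 : Commute r (w * u * s)) :
    w * (p * u) * (q * s) * (r * z1 * z2 * z3) = p * q * r * (w * u * s * (z1 * z2 * z3)) :=
  calc _ = w * p * u * q * s * r * (z1 * z2 * z3) := by group
    _ = p * (w * u * q) * s * r * (z1 * z2 * z3) := by rw [← k1.eq]; group
    _ = p * q * (w * u * s * r) * (z1 * z2 * z3) := by rw [← k2.eq]; group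
    _ = _ := by rw [← k3.eq]; group

omit h c in
theorem coll2 {A B C D E F G a b c d e f g a' b' c' d' e' f' g' z q : Γ}
    (W : A * B * C * D * E * F * G = a * b * c * d * e * f * g * (a' * b' * c'⁻¹ * d' * e' * f' * g'))
    (j : b' * (a' * (d * e * f * g) * a'⁻¹) * b'⁻¹ = z * q) (ha : a'⁻¹ = a') (hb : b'⁻¹ = b') (k : Commute z c') :
    A * B * C * (D * E * F * G) = a * b * c * (a' * b' * c'⁻¹) * z * (c' * q * c'⁻¹ * (d' * e' * f' * g')) :=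
  calc _ = A * B * C * D * E * F * G := by group
    _ = a * b * c * d * e * f * g * (a'⁻¹ * b'⁻¹ * c'⁻¹ * d' * e' * f' * g') := by rw [W, ha, hb]
    _ = a * b * c * (a'⁻¹ * b'⁻¹) * (b' * (a' * (d * e * f * g) * a'⁻¹) * b'⁻¹) * (c'⁻¹ * (d' * e' * f' * g')) := by group
    _ = a * b * c * (a' * b' * c'⁻¹) * (c' * z) * (q * c'⁻¹ * (d' * e' * f' * g')) := by rw [j, ha, hb]; group
    _ = _ := by rw [← k.eq]; group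

omit h c in
theorem coll3 {a b c a' b' c' z : Γ} (k1 : Commute a' b) (k2 : Commute a' c) (k3 : Commute b' c) :
    a * b * c * (a' * b' * c') * z = a * a' * (b * b') * (c * c' * z) :=
  calc _ = a * b * (c * a') * b' * c' * z := by group
    _ = a * (b * a') * (c * b') * c' * z := by rw [← k2.eq]; group
    _ = _ := by rw [← k1.eq, ← k3.eq]; group

theorem add4 {a b : K} {w w' w'' g'' : Γ} (hg : g ∈ U 4) (hw : w ∈ U 5) (hg' : g' ∈ U 4) (hw' : w' ∈ U 5)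
    (hg'' : g'' ∈ U 4) (hw'' : w'' ∈ U 5)
    (e : ⁅x 1 1, v 8 b⁆ = v 2 b * x 3 (σ b) * g⁻¹ * w * (m * g * m⁻¹) * x 7 (σ b))
    (e' : ⁅x 1 1, v 8 a⁆ = v 2 a * x 3 (σ a) * g'⁻¹ * w' * (m * g' * m⁻¹) * x 7 (σ a))
    (e'' : ⁅x 1 1, v 8 (b + a)⁆ = v 2 (b + a) * x 3 (σ (b + a)) * g''⁻¹ * w'' * (m * g'' * m⁻¹) * x 7 (σ (b + a))) :
    g' * g = g'' * v 4 (a * σ b) := by
  have r := h.rf c.Mm 10
  have x3 := pm c.p3
  have x5 := pm c.p5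
  have x7 := pm c.p7
  have v2 := pm c.p2
  have v4 := pm c.p4
  have v6 := pm c.p6
  have v8 := pm c.p8
  have g6 : ∀ {g}, g ∈ U 4 → m * g * m⁻¹ ∈ U 6 := fun hg => h.rU r hg
  have hq : ∀ {g w}, g ∈ U 4 → w ∈ U 5 → ∀ s t, w * (m * g * m⁻¹) * x 7 s * v 8 t ∈ I 5 8 := fun hg hw s t =>
    mul_mem (mul_mem (mul_mem (h.uI hw) (h.uI (g6 hg))) (h.uI (x7 s))) (h.vI (v8 t))
  have hp : ∀ {g}, g ∈ U 4 → ∀ s t, v 2 s * x 3 t * g⁻¹ ∈ I 2 4 := fun hg s t =>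
    mul_mem (mul_mem (h.vI (v2 s)) (h.uI (x3 t))) (h.uI (inv_mem hg))
  have W : x 1 1 * v 8 (b + a) * (x 1 1)⁻¹ = x 1 1 * v 8 b * (x 1 1)⁻¹ * (x 1 1 * v 8 a * (x 1 1)⁻¹) := by
    rw [c.p8.add]; group
  rw [cjm', cjm', cjm', e, e', e''] at W
  have cj4 : ∀ g a b c d : Γ, g * (a * b * c * d) * g⁻¹ = g * a * g⁻¹ * (g * b * g⁻¹) * (g * c * g⁻¹) * (g * d * g⁻¹) :=
    fun _ _ _ _ _ => by group
  have cj2' : ∀ g a b : Γ, g * (a * b) * g⁻¹ = g * a * g⁻¹ * (g * b * g⁻¹) := fun _ _ _ => by group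
  have j1 : v 2 a * (w * (m * g * m⁻¹) * x 7 (σ b) * v 8 b) * (v 2 a)⁻¹ = w * (m * g * m⁻¹) * (v 4 (σ b * a) * x 7 (σ b)) *
      (v 4 (σ a * b) * x 5 (κ * a * b) * v 6 (a * σ b) * v 8 b) := by
    rw [cj4, (h.vc (v2 a) hw).mul_inv_cancel, (h.vc (v2 a) (g6 hg)).mul_inv_cancel, cjm _ (x 7 _), t2 c, pi c.p4,
      cjm' _ (v 8 b), c.c28]
  have j2 : x 3 (σ a) * (v 2 a * (w * (m * g * m⁻¹) * x 7 (σ b) * v 8 b) * (v 2 a)⁻¹) * (x 3 (σ a))⁻¹ =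
      w * (v 4 (b * σ a) * (m * g * m⁻¹)) * (v 4 (σ b * a) * x 7 (σ b)) *
      (v 4 (σ a * b) * x 5 (κ * a * b) * v 6 (a * σ b) * (v 6 (σ a * b) * v 8 b)) := by
    rw [j1, cj4, (h.acm (x3 _) hw).mul_inv_cancel, cjm _ (m * g * m⁻¹), b46 c (beta h c hg hw e), pi c.p4,
      cj2' _ (v 4 _), cj4, (h.vc (v4 _) (x3 _)).symm.mul_inv_cancel, (h.vc (v4 _) (x3 _)).symm.mul_inv_cancel,
      (h.acm (x3 _) (x7 _)).mul_inv_cancel, (h.acm (x3 _) (x5 _)).mul_inv_cancel,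
      (h.vc (v6 _) (x3 _)).symm.mul_inv_cancel, cjm' _ (v 8 b), t3 c]
  have i1 : w * (m * g * m⁻¹) ∈ I 5 8 := mul_mem (h.uI hw) (h.uI (g6 hg))
  have i2 := mul_mem i1 (h.uI (x7 (σ b)))
  have i3 := mul_mem i2 (mul_mem (mul_mem (h.uI (x5 (κ * a * b))) (h.vI (v6 (a * σ b))))
    (mul_mem (h.vI (v6 (σ a * b))) (h.vI (v8 b))))
  rw [coll (h.vc (v4 _) hw) (h.vcI (v4 _) i1) (h.vcI (v4 _) i2), ← c.p4.add, ← c.p4.add, mul_comm b,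
    add_right_comm, CharTwo.add_self_eq_zero, zero_add, mul_comm (σ b)] at j2
  have j4 := mul_mem (h.conjI (i := 4) (j := 8) (h.uI hg') i3) (hq hg' hw' (σ a) a)
  have W' := (h.uq (hp hg'' _ _) (mul_mem (mul_mem (hp hg b (σ b)) (hp hg' a (σ a))) (h.vI (v4 (a * σ b))))
    (hq hg'' hw'' _ _) j4 (coll2 W j2 (pi c.p2 a) (pi c.p3 _) (h.vc (v4 _) hg'))).1
  rw [map_add, c.p2.add, c.p3.add, coll3 (h.vc (v2 a) (x3 _)) (h.vc (v2 a) (inv_mem hg)) (h.adj (x3 _) (inv_mem hg)),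
    mul_right_inj, ← mul_inv_rev, inv_eq_iff_eq_inv, mul_inv_rev, inv_inv, pi c.p4] at W'
  rw [W', (h.vc (v4 _) (mul_mem hg' hg)).eq, mul_assoc _ (v 4 _), ← c.p4.add, CharTwo.add_self_eq_zero, p0 c.p4, mul_one]

end OctC

open OctC in
theorem OB.exists_oy {Γ K : Type*} [Group Γ] [Finite Γ] [Field K] [Finite K] [CharP K 2] {U V : ℤ → Subgroup Γ}
    {I : ℤ → ℤ → Subgroup Γ} {M : ℤ → Γ → Γ → Prop} {σ : K →+* K} {κ : K} {x v : ℤ → K → Γ} {m n : Γ}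
    (h : Oc U V I M) (c : OB U V M σ κ x v m n) : ∃ y : ℤ → K → Γ, OY U σ κ x v y m n := by
  choose g hg d hd e using cf h c
  have H := fun t => beta h c (hg t) (hd t) (e t)
  refine ⟨fun i t => if i = 4 then g t else if i = 6 then m * g t * m⁻¹ else if i = 2 then n * (m * g t * m⁻¹) * n⁻¹
    else m * (n * (m * g t * m⁻¹) * n⁻¹) * m⁻¹, hg, fun _ => rfl, fun _ => rfl, fun _ => rfl, fun u hu => ?_,
    fun a b => ?_, H, fun a b => ?_, fun t => ⟨d t, hd t, e t⟩, me h c⟩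
  · obtain ⟨β, Hu⟩ := e4 h c hu
    have := k4 h c (mul_mem (inv_mem (hg β)) hu) fun t => by
      rw [b4m h c (inv_mem (hg β)) (b4i h c (hg β) (H β)) Hu, CharTwo.add_self_eq_zero]
    obtain ⟨s, hs⟩ := (c.p4.mem _).1 this
    exact ⟨β, s, by rw [hs]; exact mul_inv_cancel_left _ _⟩
  · rw [add_comm a b]
    exact add4 h c (hg b) (hd b) (hg a) (hd a) (hg _) (hd _) (e b) (e a) (e _)
  · exact c24 h c (h.rU (h.rf c.Mn 8) (h.rU (k := 6) (h.rf c.Mm 10) (hg a))) (hg b) (b62 c (b46 c (H a))) (H b)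

end Cfsg.Agent.Bld
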