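import Mathlib
import Cfsg.Agent.FS.Oct2
import Cfsg.Agent.FS.OctA

/-! Finite Moufang octagons: the last relations. -/

set_option autoImplicit false
set_option linter.unusedSectionVars false

namespace Cfsg.Agent.Bld

open scoped commutatorElement

section

variable {Γ K : Type*} [Group Γ] [Finite Γ] [Field K] [Finite K] [CharP K 2] {U V : ℤ → Subgroup Γ}
  {I : ℤ → ℤ → Subgroup Γ} {M : ℤ → Γ → Γ → Prop} {σ : K →+* K} {κ : K} {x v : ℤ → K → Γ} {m n : Γ}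

/-- All the coordinates in one family. -/
structure OZ (U V : ℤ → Subgroup Γ) (I : ℤ → ℤ → Subgroup Γ) (M : ℤ → Γ → Γ → Prop) (σ : K →+* K) (κ : K)
    (x v : ℤ → K → Γ) (m n : Γ) : Prop where
  h : Oc U V I M
  c : OB U V M σ κ x v m n
  d : OY U σ κ x v x m n
  vo : ∀ i, i % 2 = 1 → ∀ u, v i u = 1

omit [Finite Γ] in
theorem oe_back {a b : Γ} (mm : m * m = 1) (e : m * a * m⁻¹ = b) : m * b * m⁻¹ = a := by
  rw [← e, show m * (m * a * m⁻¹) * m⁻¹ = m * m * a * (m * m)⁻¹ by group, mm]; simp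

omit [Finite Γ] in
theorem oe_cj {a b c a' b' c' g : Γ} (e : ⁅a, b⁆ = c) (ha : g * a * g⁻¹ = a') (hb : g * b * g⁻¹ = b')
    (hc : g * c * g⁻¹ = c') : ⁅a', b'⁆ = c' := by
  rw [← ha, ← hb, ← hc, ← e, conjugate_commutatorElement]

omit [Finite Γ] in
theorem oe_sw {a b c : Γ} (e : ⁅a, b⁆ = c) (h : Commute c b) (t : Γ) : a * (b * t) = b * (c * (a * t)) := by
  rw [← h.left_comm, ← e, commutatorElement_def]; group

omit [Finite Γ] in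
theorem oe_sw' {a b c : Γ} (e : ⁅b, a⁆ = c) (c2 : c * c = 1) (h : Commute c b) (t : Γ) :
    a * (b * t) = b * (c * (a * t)) :=
  oe_sw (by rw [← commutatorElement_inv, e, inv_eq_of_mul_eq_one_right c2]) h t

namespace OZ

variable (z : OZ U V I M σ κ x v m n) {i j : ℤ}
include z

theorem rm : Oc.Rf U 10 m := z.h.rf z.c.Mm 10

theorem rn : Oc.Rf U 8 n := z.h.rf z.c.Mn 8

theorem xU (a : K) (e : 1 ≤ i ∧ i ≤ 8 := by omega) : x i a ∈ U i := by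
  have h6 : x 6 a ∈ U 6 := z.d.m4 a ▸ z.h.rU z.rm (z.d.mem4 a)
  have h2 : x 2 a ∈ U 2 := z.d.n6 a ▸ z.h.rU z.rn h6
  obtain ⟨e, e'⟩ := e
  interval_cases i
  exacts [z.c.p1.apply_mem a, h2, z.c.p3.apply_mem a, z.d.mem4 a, z.c.p5.apply_mem a, h6, z.c.p7.apply_mem a,
    z.d.m2 a ▸ z.h.rU z.rm h2]

theorem vV (a : K) (e : 1 ≤ i ∧ i ≤ 8 := by omega) : v i a ∈ V i := by
  obtain ⟨e, e'⟩ := e
  interval_cases i
  exacts [z.vo 1 rfl a ▸ one_mem _, z.c.p2.apply_mem a, z.vo 3 rfl a ▸ one_mem _, z.c.p4.apply_mem a,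
    z.vo 5 rfl a ▸ one_mem _, z.c.p6.apply_mem a, z.vo 7 rfl a ▸ one_mem _, z.c.p8.apply_mem a]

theorem vx (a b : K) (e : 1 ≤ i ∧ i ≤ 8 ∧ 1 ≤ j ∧ j ≤ 8 ∧ i - 4 ≤ j ∧ j ≤ i + 4 := by omega) :
    Commute (v i a) (x j b) := z.h.vc (z.vV a) (z.xU b)

theorem xm (h1 : 2 ≤ i) (h2 : i ≤ 8) (t : K) : m * x i t * m⁻¹ = x (10 - i) t := by
  interval_cases i
  exacts [z.d.m2 t, z.c.m3 t, z.d.m4 t, z.c.m5 t, oe_back z.c.mm (z.d.m4 t), z.c.m7 t, oe_back z.c.mm (z.d.m2 t)]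

theorem n4 {g : Γ} (hg : g ∈ U 4) : n * g * n⁻¹ = g := by
  rw [(z.h.ncen' (z.vV 1) z.c.Mn hg).eq, mul_inv_cancel_right]

theorem xn (h1 : 1 ≤ i) (h2 : i ≤ 7) (t : K) : n * x i t * n⁻¹ = x (8 - i) t := by
  interval_cases i
  exacts [z.c.n1 t, oe_back z.c.nn (z.d.n6 t), z.c.n3 t, z.n4 (z.xU t), z.c.n5 t, z.d.n6 t, z.c.n7 t]

theorem add (h1 : 1 ≤ i) (h2 : i ≤ 8) (a b : K) : x i a * x i b = x i (a + b) * v i (a * σ b) := by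
  have k6 : x 6 a * x 6 b = x 6 (a + b) * v 6 (a * σ b) := by
    rw [← z.d.m4, ← z.d.m4, ← z.d.m4, ← z.c.m4, conj_mul, conj_mul, z.d.add4]
  have k2 : x 2 a * x 2 b = x 2 (a + b) * v 2 (a * σ b) := by
    rw [← z.d.n6, ← z.d.n6, ← z.d.n6, ← z.c.n6, conj_mul, conj_mul, k6]
  interval_cases i
  · rw [z.vo 1 rfl, mul_one, z.c.p1.add]
  · exact k2
  · rw [z.vo 3 rfl, mul_one, z.c.p3.add]
  · exact z.d.add4 a b
  · rw [z.vo 5 rfl, mul_one, z.c.p5.add]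
  · exact k6
  · rw [z.vo 7 rfl, mul_one, z.c.p7.add]
  · rw [← z.d.m2, ← z.d.m2, ← z.d.m2, ← z.c.m2, conj_mul, conj_mul, k2]

theorem vadd (h1 : 1 ≤ i) (h2 : i ≤ 8) (a b : K) : v i (a + b) = v i a * v i b := by
  interval_cases i
  exacts [by simp [z.vo 1 rfl], z.c.p2.add a b, by simp [z.vo 3 rfl], z.c.p4.add a b, by simp [z.vo 5 rfl],
    z.c.p6.add a b, by simp [z.vo 7 rfl], z.c.p8.add a b]

theorem v0 (h1 : 1 ≤ i) (h2 : i ≤ 8) : v i 0 = 1 := by simpa using z.vadd h1 h2 0 0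

theorem vs (a : K) (e : 1 ≤ i ∧ i ≤ 8 := by omega) : v i a * v i a = 1 := by
  rw [← z.vadd e.1 e.2, CharTwo.add_self_eq_zero, z.v0 e.1 e.2]

theorem x0 (h1 : 1 ≤ i) (h2 : i ≤ 8) : x i 0 = 1 := by simpa [z.v0 h1 h2] using z.add h1 h2 0 0

theorem xinv (a : K) (e : 1 ≤ i ∧ i ≤ 8 := by omega) : (x i a)⁻¹ = x i a * v i (a * σ a) := by
  rw [inv_eq_iff_mul_eq_one, ← mul_assoc, z.add e.1 e.2, CharTwo.add_self_eq_zero, z.x0 e.1 e.2, one_mul, z.vs _ e]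

theorem mem (h1 : 1 ≤ i) (h2 : i ≤ 8) (g : Γ) : g ∈ U i ↔ ∃ a u, x i a * v i u = g := by
  refine ⟨fun hg => ?_, fun ⟨a, u, e⟩ => e ▸ mul_mem (z.xU a) (z.h.vU (z.vV u))⟩
  have k6 : ∀ g ∈ U 6, ∃ a u, x 6 a * v 6 u = g := fun g hg =>
    let ⟨a, u, e⟩ := z.d.dec4 _ (z.h.rU z.rm hg)
    ⟨a, u, by rw [← z.d.m4, ← z.c.m4, conj_mul, e, oe_back z.c.mm rfl]⟩
  have k2 : ∀ g ∈ U 2, ∃ a u, x 2 a * v 2 u = g := fun g hg =>
    let ⟨a, u, e⟩ := k6 _ (z.h.rU z.rn hg)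
    ⟨a, u, by rw [← z.d.n6, ← z.c.n6, conj_mul, e, oe_back z.c.nn rfl]⟩
  have o : ∀ {i}, i % 2 = 1 → IsPar (U i) (x i) → g ∈ U i → ∃ a u, x i a * v i u = g := fun e p hg =>
    let ⟨a, k⟩ := (p.mem g).1 hg; ⟨a, 0, by rw [z.vo _ e, mul_one, k]⟩
  interval_cases i
  exacts [o rfl z.c.p1 hg, k2 g hg, o rfl z.c.p3 hg, z.d.dec4 g hg, o rfl z.c.p5 hg, k6 g hg, o rfl z.c.p7 hg,
    let ⟨a, u, e⟩ := k2 _ (z.h.rU z.rm hg)
    ⟨a, u, by rw [← z.d.m2, ← z.c.m2, conj_mul, e, oe_back z.c.mm rfl]⟩]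

theorem c41 (a t : K) : ⁅x 4 a, x 1 t⁆ = v 2 (a * t) := oe_cj (z.d.c47 a t) (z.n4 (z.xU a)) (z.c.n7 t) (z.c.n6 _)

theorem c63 (a t : K) : ⁅x 6 a, x 3 t⁆ = v 4 (a * t) := oe_cj (z.d.c47 a t) (z.d.m4 a) (z.c.m7 t) (z.c.m6 _)

theorem c25 (a t : K) : ⁅x 2 a, x 5 t⁆ = v 4 (a * t) := oe_cj (z.c63 a t) (z.d.n6 a) (z.c.n3 t) (z.c.n4 _)

theorem c85 (a t : K) : ⁅x 8 a, x 5 t⁆ = v 6 (a * t) := oe_cj (z.c25 a t) (z.d.m2 a) (z.c.m5 t) (z.c.m4 _)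

theorem c64 (a b : K) : ⁅x 6 a, x 4 b⁆ = x 5 (κ * a * b) :=
  oe_cj (z.d.c24 a b) (z.xn (i := 2) (by omega) (by omega) a) (z.n4 (z.xU b)) (z.c.n3 _)

theorem c72 (s t : K) : ⁅x 7 s, v 2 t⁆ = v 4 (s * t) := oe_cj (z.c.c16 s t) (z.c.n1 s) (z.c.n6 t) (z.c.n4 _)

theorem c38 (s t : K) : ⁅x 3 s, v 8 t⁆ = v 6 (s * t) := oe_cj (z.c72 s t) (z.c.m7 s) (z.c.m2 t) (z.c.m4 _)

theorem c14 (a b : K) : ⁅x 1 a, x 4 b⁆ = v 2 (a * b) := by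
  rw [← commutatorElement_inv, z.c41, inv_eq_of_mul_eq_one_right (z.vs _), mul_comm]

theorem inj (h1 : 1 ≤ i) (h2 : i ≤ 8) (a u : K) (e : x i a * v i u = 1) : a = 0 := by
  have k : ∀ {i j l}, x i a * v i u = 1 → ⁅x i a, x j 1⁆ = v l (a * 1) → Commute (v i u) (x j 1) →
      IsPar (V l) (v l) → a = 0 := fun e k1 k2 p => by
    rwa [eq_inv_of_mul_eq_one_left e, commutatorElement_eq_one_iff_commute.2 k2.inv_left, eq_comm, p.eq_one,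
      mul_one] at k1
  have o : ∀ {i}, i % 2 = 1 → IsPar (U i) (x i) → x i a * v i u = 1 → a = 0 := fun e p k =>
    p.eq_one.1 (by rwa [z.vo _ e, mul_one] at k)
  interval_cases i
  exacts [o rfl z.c.p1 e, k e (z.c25 a 1) (z.vx _ _) z.c.p4, o rfl z.c.p3 e, k e (z.d.c47 a 1) (z.vx _ _) z.c.p6,
    o rfl z.c.p5 e, k e (z.c63 a 1) (z.vx _ _) z.c.p4, o rfl z.c.p7 e, k e (z.c85 a 1) (z.vx _ _) z.c.p6]

/-! ### Collection -/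

theorem sVX (a b : K) (t : Γ) (e : 2 ≤ i ∧ i ≤ j ∧ j ≤ 8 ∧ j ≤ i + 4) : v j a * (x i b * t) = x i b * (v j a * t) :=
  (z.vx a b).left_comm t

theorem sXV (a b : K) (t : Γ) (e : 2 ≤ i ∧ i < j ∧ j ≤ 8 ∧ j ≤ i + 4) : x j a * (v i b * t) = v i b * (x j a * t) :=
  (z.vx b a).symm.left_comm t

theorem sVV (a b : K) (t : Γ) (e : 2 ≤ i ∧ i < j ∧ j ≤ 8 ∧ j ≤ i + 4) : v j a * (v i b * t) = v i b * v j a * t := by
  rw [← mul_assoc, (z.h.vv (z.vV a) (z.vV b)).eq]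

theorem sXX (a b : K) (t : Γ) (e : 2 ≤ i ∧ i < j ∧ j ≤ 8 ∧ (j = i + 1 ∨ i % 2 = 1 ∧ j % 2 = 1)) :
    x j a * (x i b * t) = x i b * x j a * t := by
  rw [mul_assoc]
  rcases e with ⟨e1, e2, e3, e4 | e4⟩
  exacts [(z.h.adj (z.xU b) (z.xU a) e4).symm.left_comm t, (z.h.acm (z.xU a) (z.xU b)).left_comm t]

theorem mV (a b : K) (t : Γ) (e : 1 ≤ i ∧ i ≤ 8) : v i a * (v i b * t) = v i (a + b) * t := by
  rw [z.vadd e.1 e.2, mul_assoc]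

theorem mX (a b : K) (t : Γ) (e : 2 ≤ i ∧ i ≤ 8) : x i a * (x i b * t) = x i (a + b) * (v i (a * σ b) * t) := by
  rw [← mul_assoc, z.add (by omega) e.2, mul_assoc]

theorem mO (a : K) (t : Γ) (e : i % 2 = 1) : v i a * t = t := by rw [z.vo i e, one_mul]

theorem s72 (a b : K) (t : Γ) : x 7 a * (v 2 b * t) = v 2 b * (v 4 (a * b) * (x 7 a * t)) :=
  oe_sw (z.c72 a b) (z.h.vv (z.vV _) (z.vV _)) t

theorem s63 (a b : K) (t : Γ) : x 6 a * (x 3 b * t) = x 3 b * (v 4 (a * b) * (x 6 a * t)) :=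
  oe_sw (z.c63 a b) (z.vx _ _) t

theorem s64 (a b : K) (t : Γ) : x 6 a * (x 4 b * t) = x 4 b * (x 5 (κ * a * b) * (x 6 a * t)) :=
  oe_sw (z.c64 a b) (z.h.adj (z.xU _) (z.xU _)).symm t

theorem s74 (a b : K) (t : Γ) : x 7 a * (x 4 b * t) = x 4 b * (v 6 (b * a) * (x 7 a * t)) :=
  oe_sw' (z.d.c47 b a) (z.vs _) (z.vx _ _) t

theorem s83 (a b : K) (t : Γ) : v 8 a * (x 3 b * t) = x 3 b * (v 6 (b * a) * (v 8 a * t)) :=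
  oe_sw' (z.c38 b a) (z.vs _) (z.vx _ _) t

theorem s82 (a b : K) (t : Γ) :
    v 8 a * (v 2 b * t) = v 2 b * (v 4 (σ b * a) * (x 5 (κ * b * a) * (v 6 (b * σ a) * (v 8 a * t)))) := by
  have := oe_sw' (z.c.c28 b a) (by
    refine mul_right_cancel (b := t) ?_
    simp (disch := omega) only [mul_assoc (G := Γ), z.sVX, z.sXV, z.sVV, z.mV, z.mX, z.mO, CharTwo.add_self_eq_zero, z.v0,
      z.x0, one_mul]) (((z.h.vv (z.vV _) (z.vV _)).mul_left (z.vx _ _).symm).mul_left (z.h.vv (z.vV _) (z.vV _))) t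
  simpa only [mul_assoc] using this

theorem nf {a2 a3 a4 b4 a5 a6 b6 a7 a8 : K} {t : Γ} (e : v 2 a2 * (x 3 a3 * (x 4 a4 * (v 4 b4 * (x 5 a5 *
    (x 6 a6 * (v 6 b6 * (x 7 a7 * (v 8 a8 * t)))))))) = t) :
    a4 = 0 ∧ b4 = 0 ∧ a5 = 0 ∧ a7 = 0 ∧ a8 = 0 := by
  have h := z.h
  replace e : v 2 a2 * x 3 a3 * (x 4 a4 * v 4 b4 * (x 5 a5 * (x 6 a6 * v 6 b6 * (x 7 a7 * v 8 a8)))) = 1 :=
    mul_right_cancel (b := t) (by simpa only [mul_assoc, one_mul] using e)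
  have k7 : x 7 a7 * v 8 a8 ∈ I 7 8 := mul_mem (h.uI (z.xU _)) (h.vI (z.vV _))
  have k6 : x 6 a6 * v 6 b6 * _ ∈ I 6 8 := mul_mem (mul_mem (h.uI (z.xU _)) (h.vI (z.vV _))) (h.II k7)
  have k5 : x 5 a5 * _ ∈ I 5 8 := mul_mem (h.uI (z.xU _)) (h.II k6)
  have k4 : x 4 a4 * v 4 b4 ∈ I 4 4 := mul_mem (h.uI (z.xU _)) (h.vI (z.vV _))
  obtain ⟨e4, e⟩ := h.uq1 k4 k5 (h.uq1 (i := 2) (k := 3) (l := 4) (j := 8)
    (mul_mem (h.vI (z.vV _)) (h.uI (z.xU _))) (mul_mem (h.II k4) (h.II k5)) e).2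
  obtain ⟨e5, e⟩ := h.uq1 (i := 5) (k := 5) (h.uI (z.xU _)) k6 e
  obtain ⟨e7, e8⟩ := h.uq1 (i := 7) (k := 7) (l := 8) (j := 8) (h.uI (z.xU _)) (h.vI (z.vV _))
    (h.uq1 (i := 6) (k := 6) (mul_mem (h.uI (z.xU _)) (h.vI (z.vV _))) k7 e).2
  obtain rfl := z.inj (by omega) (by omega) _ _ e4
  rw [z.x0 (by omega) (by omega), one_mul] at e4
  exact ⟨rfl, z.c.p4.eq_one.1 e4, z.c.p5.eq_one.1 e5, z.c.p7.eq_one.1 e7, z.c.p8.eq_one.1 e8⟩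

theorem ee : x 1 1 * x 1 1 = 1 := z.h.asq (z.xU 1)

theorem braid : m * x 1 1 * m = x 1 1 * m * x 1 1 := by
  obtain ⟨w, hw, e1, e2⟩ := z.d.me
  have ww := z.h.asq hw
  have e3 : x 1 1 * m * x 1 1 = w := by
    rw [e1, ← mul_assoc, ← mul_assoc, z.ee, one_mul, mul_assoc, z.ee, mul_one]
  rw [e3, eq_comm, ← mul_inv_eq_one, ← z.c.mm]
  calc _ = w * m⁻¹ * (x 1 1)⁻¹ * m⁻¹ := by group
    _ = _ := by
      rw [inv_eq_of_mul_eq_one_right z.c.mm, inv_eq_of_mul_eq_one_right z.ee]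
      congr 1
      nth_rewrite 1 [e2]
      rw [← mul_assoc, ← mul_assoc, ww, one_mul, e1]

theorem c28 (a : K) : m * (x 1 1 * x 8 a * (x 1 1)⁻¹) * m⁻¹ = x 1 1 * x 8 a * (x 1 1)⁻¹ := by
  obtain ⟨w, hw, e1, -⟩ := z.d.me
  have e3 : m * x 1 1 = x 1 1 * w := by rw [e1, mul_assoc, z.ee, mul_one]
  calc _ = m * x 1 1 * x 8 a * (m * x 1 1)⁻¹ := by group
    _ = _ := by rw [e3, mul_assoc (x 1 1), ← (z.h.adj (z.xU a) hw).eq]; group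

omit z [Finite Γ] in
theorem cj (a b : Γ) : a * b * a⁻¹ = ⁅a, b⁆ * b := by rw [commutatorElement_def]; group

omit z [Finite Γ] in
theorem cj6 (g a b c d e f : Γ) : g * (a * b * c⁻¹ * d * e * f) * g⁻¹ = g * a * g⁻¹ * (g * b * g⁻¹) *
    (g * c * g⁻¹)⁻¹ * (g * d * g⁻¹) * (g * e * g⁻¹) * (g * f * g⁻¹) := by group

theorem c16f (b : K) : ⁅x 1 1, x 6 b⁆ = v 2 b * x 3 (σ b) ∧
    ⁅x 1 1, v 8 b⁆ = v 2 b * x 3 (σ b) * (x 4 b)⁻¹ * x 5 (b ^ 2) * x 6 b * x 7 (σ b) := by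
  obtain ⟨p, hp, d, hd, q, hq, e⟩ := z.h.c16 (z.xU 1) (z.xU b)
  obtain ⟨s, rfl⟩ := (z.c.p2.mem p).1 hp
  obtain ⟨t, rfl⟩ := (z.c.p3.mem d).1 hd
  obtain ⟨u, rfl⟩ := (z.c.p4.mem q).1 hq
  obtain ⟨d, hd, f⟩ := z.d.cf s
  obtain ⟨r, rfl⟩ := (z.c.p5.mem d).1 hd
  have e1 : m * x 1 1 * m * x 6 b * (m * x 1 1 * m)⁻¹ = v 8 b * x 6 b := by
    calc _ = m * (x 1 1 * (m * x 6 b * m⁻¹) * (x 1 1)⁻¹) * m⁻¹ := by group
      _ = m * v 2 b * m⁻¹ * (m * x 4 b * m⁻¹) := by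
        rw [oe_back z.c.mm (z.d.m4 b), cj (x 1 1), z.c14, one_mul, conj_mul]
      _ = _ := by rw [z.c.m2, z.d.m4]
  have e2 : x 1 1 * m * x 1 1 * x 6 b * (x 1 1 * m * x 1 1)⁻¹ = ⁅x 1 1, v 8 s⁆ * v 8 s *
      (⁅x 1 1, x 7 t⁆ * x 7 t) * (⁅x 1 1, v 6 u⁆ * v 6 u) * (⁅x 1 1, x 4 b⁆ * x 4 b) := by
    calc _ = x 1 1 * (m * (x 1 1 * x 6 b * (x 1 1)⁻¹) * m⁻¹) * (x 1 1)⁻¹ := by group
      _ = x 1 1 * (m * v 2 s * m⁻¹ * (m * x 3 t * m⁻¹) * (m * v 4 u * m⁻¹) * (m * x 6 b * m⁻¹)) * (x 1 1)⁻¹ := by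
        rw [cj (x 1 1) (x 6 b), e, conj_mul, conj_mul, conj_mul]
      _ = _ := by
        rw [z.c.m2, z.c.m3, z.c.m4, oe_back z.c.mm (z.d.m4 b), ← cj, ← cj, ← cj, ← cj, conj_mul, conj_mul, conj_mul]
  rw [← z.braid, e1, f, z.c.c17, z.c.c16, z.c14, eq_comm, ← mul_inv_eq_one, mul_inv_rev, z.xinv, z.xinv,
    inv_eq_of_mul_eq_one_right (z.vs b)] at e2
  replace e2 := congrArg (· * m) e2
  simp (disch := omega) only [mul_assoc (G := Γ), z.sVX, z.sXV, z.sVV, z.sXX, z.mV, z.mX, z.mO, z.s72, z.s63, z.s64,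
    z.s74, z.s83, z.s82, one_mul, map_one] at e2
  obtain ⟨-, e4, e5, e7, e8⟩ := z.nf e2
  have t2 : (2 : K) = 0 := CharTwo.two_eq_zero
  obtain rfl : s = b := by linear_combination e8 - b * t2
  obtain rfl : t = σ s := by linear_combination e7 - σ s * t2
  obtain rfl : u = 0 := by linear_combination e4 - 3 * s * σ s * t2
  obtain rfl : r = s ^ 2 := by linear_combination e5 + z.c.sq s - (κ * s * s + σ (σ s)) * t2
  exact ⟨by rw [e, z.v0 (by omega) (by omega), mul_one], f⟩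

theorem κ1 : κ = 1 := by
  have e : x 1 1 * ⁅x 1 1, v 8 1⁆ * (x 1 1)⁻¹ * ⁅x 1 1, v 8 1⁆ = 1 := by
    calc _ = x 1 1 * x 1 1 * v 8 1 * (x 1 1)⁻¹ * (v 8 1)⁻¹ * v 8 1 * (x 1 1)⁻¹ * (v 8 1)⁻¹ := by
          simp only [commutatorElement_def]; group
      _ = _ := by rw [inv_eq_of_mul_eq_one_right z.ee, z.ee]; simp [mul_assoc, z.ee, ← mul_assoc (x 1 1)]
  rw [(z.c16f 1).2, cj6, (z.vx _ _).symm.mul_inv_cancel, (z.h.acm (z.xU _) (z.xU _)).mul_inv_cancel, cj _ (x 4 _),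
    (z.h.acm (z.xU _) (z.xU _)).mul_inv_cancel, cj _ (x 6 _), cj _ (x 7 _), z.c14, (z.c16f 1).1, z.c.c17,
    mul_inv_rev, inv_eq_of_mul_eq_one_right (z.vs _), z.xinv] at e
  replace e := (congrArg (· * (v 8 0 * m)) e).trans
    (show 1 * (v 8 0 * m) = m by rw [z.v0 (by omega) (by omega), one_mul, one_mul])
  simp (disch := omega) only [mul_assoc (G := Γ), z.sVX, z.sXV, z.sVV, z.sXX, z.mV, z.mX, z.mO, z.s72, z.s63, z.s64,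
    z.s74, one_mul, map_one, one_pow, mul_one] at e
  obtain ⟨-, -, e5, -⟩ := z.nf e
  linear_combination e5 - 2 * (CharTwo.two_eq_zero : (2 : K) = 0)

theorem nw : ∃ w ∈ U 0, n = w * v 8 1 * w⁻¹ ∧ (∀ s, (n * w * n⁻¹)⁻¹ * x 1 s * (n * w * n⁻¹) =
    n * (v 8 1 * x 1 s * (v 8 1)⁻¹) * n⁻¹) ∧ n * w * n⁻¹ = x 8 1 := by
  have h := z.h
  obtain ⟨w, hw, w', hw', e⟩ := h.dec z.c.Mn 0
  have e' : n = w'⁻¹ * v 8 1 * w⁻¹ := by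
    rw [← inv_eq_of_mul_eq_one_right z.c.nn, e, mul_inv_rev, mul_inv_rev, inv_eq_of_mul_eq_one_right (z.vs 1),
      mul_assoc]
  obtain rfl := h.Mleft (h.vU (z.vV 1)) z.c.Mn z.c.Mn hw hw' (inv_mem hw') (inv_mem hw) e e'
  rw [inv_inv] at e'
  have k : ∀ s, (n * w'⁻¹ * n⁻¹)⁻¹ * x 1 s * (n * w'⁻¹ * n⁻¹) = n * (v 8 1 * x 1 s * (v 8 1)⁻¹) * n⁻¹ := fun s => by
    have : v 8 1 = w' * n * w'⁻¹ := by rw [e]; group
    calc _ = n * (w' * (n * (w'⁻¹ * x 1 s * w') * n⁻¹) * w'⁻¹) * n⁻¹ := by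
          rw [(h.adj (inv_mem hw') (z.xU s)).eq, inv_mul_cancel_right, z.c.n1, ← z.c.n7]; group
      _ = _ := by rw [this]; group
  refine ⟨_, hw, by rw [inv_inv]; exact e, k, ?_⟩
  have hY : n * w'⁻¹ * n⁻¹ ∈ U 8 := h.rU z.rn hw
  generalize n * w'⁻¹ * n⁻¹ = Y at k hY
  have k1 := h.m4 (z.xU 1) (inv_mem hY) z.c.Mm (i := 3) (j := 7)
  have k2 : x 2 1 * ⁅x 1 1, Y⁻¹⁆ = (x 3 1)⁻¹ * x 4 1 * (x 5 1)⁻¹ * (v 6 1)⁻¹ * x 7 1 := by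
    calc _ = x 2 1 * x 1 1 * (Y⁻¹ * (x 1 1)⁻¹ * Y) := by rw [commutatorElement_def]; group
      _ = x 2 1 * x 1 1 * ((n * ⁅x 1 1, v 8 1⁆ * n⁻¹)⁻¹ * (n * x 1 1 * n⁻¹)) := by
        rw [inv_eq_of_mul_eq_one_right z.ee, k, commutatorElement_def]; group
      _ = _ := by
        rw [(z.c16f 1).2, map_one, one_pow, cj6, z.c.n1, z.c.n2, z.c.n3, z.n4 (z.xU 1), z.c.n5, z.d.n6, z.c.n7]
        group
  have k3 : m * Y * m⁻¹ * (x 2 1)⁻¹ = 1 := h.disj0 (k := 3) (j := 7)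
    (mul_mem (h.rU z.rm hY) (inv_mem (z.xU 1))) (by
      rw [show m * Y * m⁻¹ * (x 2 1)⁻¹ = (m * Y⁻¹ * m⁻¹)⁻¹ * ⁅x 1 1, Y⁻¹⁆ * (x 2 1 * ⁅x 1 1, Y⁻¹⁆)⁻¹ by group, k2]
      exact mul_mem k1 (inv_mem (mul_mem (mul_mem (mul_mem (mul_mem (inv_mem (h.uI (z.xU _))) (h.uI (z.xU _)))
        (inv_mem (h.uI (z.xU _)))) (inv_mem (h.vI (z.vV _)))) (h.uI (z.xU _)))))
  rw [← oe_back z.c.mm (mul_inv_eq_one.1 k3), z.d.m2]

theorem c16s (s b : K) : ⁅x 1 s, x 6 b⁆ ∈ I 2 3 := by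
  by_cases hs : s = 0
  · rw [hs, z.x0 (by omega) (by omega), commutatorElement_one_left]; exact one_mem _
  obtain ⟨g, hg, c, e⟩ := z.h.tr6 (z.xU 1) (z.xU s) (by simp [z.c.p1.eq_one]) (by simpa [z.c.p1.eq_one])
  rw [oe_cj rfl e (c _ (z.xU b)).mul_inv_cancel rfl, (z.c16f b).1]
  exact z.h.tI hg (mul_mem (z.h.vI (z.vV _)) (z.h.uI (z.xU _)))

theorem perm (h1 : 2 ≤ i) (h2 : i ≤ 8) (h3 : i % 2 = 0) :
    ∀ g ∈ fqT U, ∀ b, ∃ b', g * x i b * g⁻¹ = x i b' := by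
  have k6 : ∀ g ∈ fqT U, ∀ b, ∃ b', g * x 6 b * g⁻¹ = x 6 b' := fun g hg b => by
    obtain ⟨b', u, e⟩ := (z.mem (by omega) (by omega) _).1 (Oc.tU hg (z.xU b (i := 6)))
    obtain ⟨c, e1⟩ := (z.c.p1.mem _).1 (Oc.tU hg (z.xU 1))
    have c0 : c ≠ 0 := by
      rintro rfl
      rw [z.x0 (by omega) (by omega), eq_comm, conj_eq_one_iff, z.c.p1.eq_one] at e1
      exact one_ne_zero e1
    have k := z.h.tI hg (z.c16s 1 b)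
    rw [← oe_cj rfl e1.symm e.symm rfl, commutatorElement_mul_right_eq_mul_conj, z.c.c16, mul_assoc, mul_assoc,
      ← mul_assoc (x 6 b'), (z.vx _ _).symm.mul_inv_cancel, mul_mem_cancel_left (z.c16s c b')] at k
    have := z.c.p4.eq_one.1 (z.h.disj k (z.h.vI (z.vV _)) (l := 4) (j := 4))
    rw [(mul_eq_zero.1 this).resolve_left c0, z.v0 (by omega) (by omega), mul_one] at e
    exact ⟨b', e.symm⟩
  have t : ∀ {i j c r}, Oc.Rf U c r → (∀ t, r * x j t * r⁻¹ = x i t) →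
      (∀ g ∈ fqT U, ∀ b, ∃ b', g * x j b * g⁻¹ = x j b') → ∀ g ∈ fqT U, ∀ b, ∃ b', g * x i b * g⁻¹ = x i b' :=
    fun hr e k g hg b => (k _ (hr.inv.conj hg) b).imp fun b' e' => by rw [← e, ← e, ← e']; group
  have k2 := t z.rn z.d.n6 k6
  obtain rfl | rfl | rfl | rfl : i = 2 ∨ i = 4 ∨ i = 6 ∨ i = 8 := by omega
  exacts [k2, t z.rm (fun t => oe_back z.c.mm (z.d.m4 t)) k6, k6, t z.rm z.d.m2 k2]

theorem tor (r : K) (hr : r ≠ 0) :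
    ∃ g ∈ fqT U, ∀ i, 1 ≤ i → i ≤ 8 → ∀ t, g * x i t * g⁻¹ = x i (ocW σ r i * t) := by
  obtain ⟨g, hg, t1, t3, t5, t7, t4, t6⟩ := z.c.tor r hr
  have w : ∀ {i j l : ℤ} {c d : K}, 2 ≤ i → i ≤ 8 → i % 2 = 0 → (∀ a t, ⁅x i a, x j t⁆ = v l (a * t)) →
      IsPar (V l) (v l) → (∀ t, g * x j t * g⁻¹ = x j (c * t)) → (∀ t, g * v l t * g⁻¹ = v l (d * t)) → c ≠ 0 →
      ∀ t, g * x i t * g⁻¹ = x i (d / c * t) := fun h1 h2 h3 k p tj tl c0 t => by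
    obtain ⟨b, e⟩ := z.perm h1 h2 h3 g hg t
    have := oe_cj (k t 1) e (tj 1) (tl _)
    rw [k] at this
    rw [e]; congr 1
    field_simp
    linear_combination p.inj this
  have s0 : σ r ≠ 0 := (map_ne_zero σ).2 hr
  refine ⟨g, hg, fun i h1 h2 t => ?_⟩
  interval_cases i
  · exact t1 t
  · simpa [ocW] using w (by omega) (by omega) rfl z.c25 z.c.p4 (c := 1) (by simpa using t5) t4 one_ne_zero t
  · exact t3 t
  · simpa [ocW, div_eq_mul_inv, mul_comm] using w (by omega) (by omega) rfl z.d.c47 z.c.p6 t7 t6 (inv_ne_zero s0) t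
  · simpa [ocW] using t5 t
  · exact w (by omega) (by omega) rfl z.c63 z.c.p4 t3 t4 s0 t
  · exact t7 t
  · simpa [ocW] using w (by omega) (by omega) rfl z.c85 z.c.p6 (c := 1) (by simpa using t5) t6 one_ne_zero t

theorem c26 (a b : K) : Commute (x 2 a) (x 6 b) := by
  obtain ⟨w, hw, e, -, e'⟩ := z.nw
  have k : ∀ g ∈ U 4, Commute (x 8 1) g := fun g hg => by
    have := (z.h.ncen (z.vV 1) z.c.Mn hw (inv_mem hw) e hg).1.conj n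
    rwa [e', z.n4 hg] at this
  have k' : Commute (x 8 a) (x 4 b) := by
    by_cases ha : a = 0
    · rw [ha, z.x0 (by omega) (by omega)]; exact Commute.one_left _
    obtain ⟨g, hg, t⟩ := z.tor a⁻¹ (inv_ne_zero ha)
    have := (k _ (Oc.tU (inv_mem hg) (z.xU b))).conj g
    rwa [t 8 (by omega) (by omega), show g * (g⁻¹ * x 4 b * g⁻¹⁻¹) * g⁻¹ = x 4 b by group,
      show ocW σ a⁻¹ 8 * 1 = a by simp [ocW]] at this
  have := k'.conj m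
  rwa [oe_back z.c.mm (z.d.m2 a), z.d.m4] at this

theorem oc : OC U σ x v m n where
  xm _ := z.xm
  xn _ := z.xn
  add _ := z.add
  vadd _ := z.vadd
  xv _ _ _ a b := (z.vx b a).symm
  c12 a b := z.h.adj (z.xU a) (z.xU b)
  c13 a b := z.h.acm (z.xU a) (z.xU b)
  c15 a b := z.h.acm (z.xU a) (z.xU b)
  c26 := z.c26
  c24 a b := by rw [z.d.c24, z.κ1, one_mul]
  c14 := z.c14
  c16 b := (z.c16f b).1
  c17 := z.c.c17
  cf t := (z.c16f t).2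
  c18 s := by
    obtain ⟨w, -, -, k, e⟩ := z.nw
    rw [← e, k]
  c28 := z.c28
  tor r hr := let ⟨g, _, k⟩ := z.tor r hr; ⟨g, k⟩
  sq := z.c.sq
  mem _ := z.mem
  inj _ := z.inj
  vinj i h1 h2 h3 u e := by
    rw [Int.even_iff] at h3
    obtain rfl | rfl | rfl | rfl : i = 2 ∨ i = 4 ∨ i = 6 ∨ i = 8 := by omega
    exacts [z.c.p2.eq_one.1 e, z.c.p4.eq_one.1 e, z.c.p6.eq_one.1 e, z.c.p8.eq_one.1 e]
  vodd i _ _ h := z.vo i (Int.odd_iff.1 h)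

end OZ

end

theorem OY.exists_oc {Γ K : Type*} [Group Γ] [Finite Γ] [Field K] [Finite K] [CharP K 2] {U V : ℤ → Subgroup Γ}
    {I : ℤ → ℤ → Subgroup Γ} {M : ℤ → Γ → Γ → Prop} {σ : K →+* K} {κ : K} {x v y : ℤ → K → Γ} {m n : Γ}
    (h : Oc U V I M) (c : OB U V M σ κ x v m n) (d : OY U σ κ x v y m n) :
    ∃ x' v' : ℤ → K → Γ, OC U σ x' v' m n :=
  ⟨fun i => if i % 2 = 1 then x i else y i, fun i => if i % 2 = 1 then 1 else v i,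
    OZ.oc (κ := κ) ⟨h, { c with }, { d with }, fun i e u => by rw [if_pos e]; rfl⟩⟩

end Cfsg.Agent.Bld
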