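import Mathlib
import Cfsg.Agent.FS.OctD
import Cfsg.Agent.Bld.Poly
import Cfsg.Agent.Chev.Sz2Lin

/-! Finite Moufang octagons: parameters and uniqueness from coordinates. -/

set_option autoImplicit false
set_option linter.unusedSectionVars false

namespace Cfsg.Agent.Bld

open scoped commutatorElement

namespace OG

section Field

open Cfsg.Agent.Chev.Sz2

variable {K : Type*} [Field K] [Finite K] [CharP K 2] {σ : K →+* K}

theorem sq_aut_inj (hσ : ∀ a, σ (σ a) = a ^ 2) : Function.Injective fun g : K ≃+* K => g ^ 2 := by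
  let θ : K ≃+* K := RingEquiv.ofBijective σ (Finite.injective_iff_bijective.1 σ.injective)
  have h1 : θ ^ 2 = frob K := RingEquiv.ext fun a => hσ a
  refine Finite.injective_iff_surjective.2 fun g => ?_
  obtain ⟨i, hi⟩ := exists_pow g
  refine ⟨θ ^ i, ?_⟩
  rw [← pow_mul, mul_comm, pow_mul, h1]
  refine RingEquiv.ext fun a => ?_
  rw [hi]
  clear hi
  induction i with
  | zero => simp
  | succ i ih => rw [pow_succ 2, pow_mul, ← ih, pow_succ' (frob K)]; rfl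

theorem card_odd (hσ : ∀ a, σ (σ a) = a ^ 2) : ∃ k, Nat.card K = 2 ^ (2 * k + 1) := by
  have h : Odd (Nat.card (K ≃+* K)) := by
    by_contra h
    obtain ⟨g, hg⟩ := exists_prime_orderOf_dvd_card' (G := K ≃+* K) 2
      (even_iff_two_dvd.1 (Nat.not_odd_iff_even.1 h))
    have h1 : g = 1 := sq_aut_inj hσ (by
      beta_reduce
      rw [one_pow, ← hg, pow_orderOf_eq_one])
    rw [h1, orderOf_one] at hg
    omega
  obtain ⟨k, hk⟩ := h
  exact ⟨k, by rw [← two_pow_card_aut K, hk]⟩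

theorem sigma_unique {τ : K →+* K} (hσ : ∀ a, σ (σ a) = a ^ 2) (hτ : ∀ a, τ (τ a) = a ^ 2) (a : K) :
    σ a = τ a := by
  have := sq_aut_inj hσ
    (a₁ := RingEquiv.ofBijective σ (Finite.injective_iff_bijective.1 σ.injective))
    (a₂ := RingEquiv.ofBijective τ (Finite.injective_iff_bijective.1 τ.injective))
    (RingEquiv.ext fun a => (hσ a).trans (hτ a).symm)
  exact DFunLike.congr_fun this a

theorem exists_nrm (hσ : ∀ a, σ (σ a) = a ^ 2) (u : K) : ∃ c, c * σ c = u := by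
  refine Finite.surjective_of_injective (f := fun c => c * σ c) (fun a b h => ?_) u
  beta_reduce at h
  have h1 := congrArg σ h
  rw [map_mul, map_mul, hσ, hσ] at h1
  rcases eq_or_ne b 0 with rfl | hb
  · simpa using h
  have ha : a ≠ 0 := by rintro rfl; simp [hb] at h
  have h2 : a * (b * σ b) = b * (b * σ b) := by linear_combination h1 - a * h
  exact mul_right_cancel₀ (mul_ne_zero hb ((map_ne_zero σ).2 hb)) h2

theorem exists_sq' (u : K) : ∃ c : K, c ^ 2 = u := (frob K).surjective u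

end Field

variable {Γ K : Type*} [Group Γ] [Field K] [Finite K] [CharP K 2] {σ : K →+* K}
  {x v : ℤ → K → Γ} {m n g w h : Γ} {i j i' j' : ℤ}

/-- The subgroup generated by the letters `x l`, `i ≤ l ≤ j`. -/
def J (x : ℤ → K → Γ) (i j : ℤ) : Subgroup Γ :=
  Subgroup.closure {g | ∃ l a, i ≤ l ∧ l ≤ j ∧ x l a = g}

/-- The commutator relation on letters. -/
def P0 (x : ℤ → K → Γ) (i j : ℤ) : Prop := ∀ a b, ⁅x i a, x j b⁆ ∈ J x (i + 1) (j - 1)

theorem x_mem {l : ℤ} (h1 : i ≤ l) (h2 : l ≤ j) (a : K) : x l a ∈ J x i j :=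
  Subgroup.subset_closure ⟨l, a, h1, h2, rfl⟩

theorem J_mono (h1 : i' ≤ i) (h2 : j ≤ j') (hg : g ∈ J x i j) : g ∈ J x i' j' :=
  Subgroup.closure_mono (by
    rintro _ ⟨l, a, e1, e2, e⟩
    exact ⟨l, a, h1.trans e1, e2.trans h2, e⟩) hg

theorem conj_J (H : ∀ l a, i ≤ l → l ≤ j → h * x l a * h⁻¹ ∈ J x i' j') (hg : g ∈ J x i j) :
    h * g * h⁻¹ ∈ J x i' j' := by
  induction hg using Subgroup.closure_induction with
  | mem s hs => obtain ⟨l, a, e1, e2, rfl⟩ := hs; exact H l a e1 e2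
  | one => simp
  | mul a b _ _ iha ihb => rw [← conj_mul]; exact mul_mem iha ihb
  | inv a _ iha => rw [← conj_inv]; exact inv_mem iha

theorem P0.of_commute (H : ∀ a b, Commute (x i a) (x j b)) : P0 x i j := fun a b => by
  rw [(H a b).commutator_eq]; exact one_mem _

variable (c : OE σ x v m n)
include c

theorem v_zero (h1 : 1 ≤ i) (h2 : i ≤ 8) : v i 0 = 1 := by simpa using c.vadd i h1 h2 0 0

theorem x_zero (h1 : 1 ≤ i) (h2 : i ≤ 8) : x i 0 = 1 := by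
  simpa [v_zero c h1 h2] using c.add i h1 h2 0 0

theorem x_sq (h1 : 1 ≤ i) (h2 : i ≤ 8) (a : K) : x i a * x i a = v i (a * σ a) := by
  rw [c.add i h1 h2, CharTwo.add_self_eq_zero, x_zero c h1 h2, one_mul]

theorem xv_mul (h1 : 1 ≤ i) (h2 : i ≤ 8) (a u b t : K) :
    x i a * v i u * (x i b * v i t) = x i (a + b) * v i (a * σ b + (u + t)) := by
  rw [c.vadd i h1 h2, c.vadd i h1 h2, ← mul_assoc (x i (a + b)), ← c.add i h1 h2, mul_assoc,
    ← mul_assoc (v i u), ← (c.xv i h1 h2 b u).eq]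
  group

theorem J_m (h1 : 2 ≤ i) (h2 : j ≤ 8) (e1 : i' = 10 - j) (e2 : j' = 10 - i) (hg : g ∈ J x i j) :
    m * g * m⁻¹ ∈ J x i' j' :=
  conj_J (fun l a l1 l2 => by
    rw [c.xm l (by omega) (by omega)]; exact x_mem (by omega) (by omega) a) hg

theorem J_n (h1 : 1 ≤ i) (h2 : j ≤ 7) (e1 : i' = 8 - j) (e2 : j' = 8 - i) (hg : g ∈ J x i j) :
    n * g * n⁻¹ ∈ J x i' j' :=
  conj_J (fun l a l1 l2 => by
    rw [c.xn l (by omega) (by omega)]; exact x_mem (by omega) (by omega) a) hg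

theorem P0.mv (H : P0 x i j) (h1 : 2 ≤ i) (h : i ≤ j) (h2 : j ≤ 8) (e1 : i' = 10 - j)
    (e2 : j' = 10 - i) : P0 x i' j' := fun a b => by
  rw [e1, e2, ← c.xm j (by omega) h2, ← c.xm i h1 (by omega), ← conjugate_commutatorElement,
    ← commutatorElement_inv, ← conj_inv]
  exact inv_mem (J_m c (by omega) (by omega) (by ring) (by ring) (H b a))

theorem P0.nv (H : P0 x i j) (h1 : 1 ≤ i) (h : i ≤ j) (h2 : j ≤ 7) (e1 : i' = 8 - j)
    (e2 : j' = 8 - i) : P0 x i' j' := fun a b => by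
  rw [e1, e2, ← c.xn j (by omega) h2, ← c.xn i h1 (by omega), ← conjugate_commutatorElement,
    ← commutatorElement_inv, ← conj_inv]
  exact inv_mem (J_n c (by omega) (by omega) (by ring) (by ring) (H b a))

theorem exists_tor {r : K} (hr : r ≠ 0) : ∃ h : Γ,
    (∀ i, 1 ≤ i → i ≤ 8 → ∀ t, h * x i t * h⁻¹ = x i (ocW σ r i * t)) ∧
      ∀ i j, 1 ≤ i → j ≤ 8 → ∀ g ∈ J x i j, h * g * h⁻¹ ∈ J x i j :=
  let ⟨h, hh⟩ := c.tor r hr
  ⟨h, hh, fun _ _ h1 h2 _ hg => conj_J (fun l a l1 l2 => by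
    rw [hh l (by omega) (by omega)]; exact x_mem l1 l2 _) hg⟩

variable (hσ : ∀ a, σ (σ a) = a ^ 2)
include hσ

theorem v_mem {l : ℤ} (h1 : 1 ≤ l) (h2 : l ≤ 8) (l1 : i ≤ l) (l2 : l ≤ j) (u : K) :
    v l u ∈ J x i j := by
  obtain ⟨a, rfl⟩ := exists_nrm hσ u
  rw [← x_sq c h1 h2]
  exact mul_mem (x_mem l1 l2 a) (x_mem l1 l2 a)

theorem mem_E (h1 : 1 ≤ i) (h2 : i ≤ 8) : g ∈ J x i i ↔ ∃ a u, x i a * v i u = g := by
  refine ⟨fun hg => ?_, ?_⟩
  · induction hg using Subgroup.closure_induction with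
    | mem s hs =>
      obtain ⟨l, a, e1, e2, rfl⟩ := hs
      exact ⟨a, 0, by rw [v_zero c h1 h2, mul_one, le_antisymm e1 e2]⟩
    | one => exact ⟨0, 0, by rw [v_zero c h1 h2, x_zero c h1 h2, mul_one]⟩
    | mul a b _ _ iha ihb =>
      obtain ⟨a, u, rfl⟩ := iha
      obtain ⟨b, t, rfl⟩ := ihb
      exact ⟨_, _, (xv_mul c h1 h2 a u b t).symm⟩
    | inv a _ iha =>
      obtain ⟨a, u, rfl⟩ := iha
      refine ⟨a, u + a * σ a, eq_inv_of_mul_eq_one_right ?_⟩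
      rw [xv_mul c h1 h2, CharTwo.add_self_eq_zero, ← add_assoc u, CharTwo.add_self_eq_zero, zero_add,
        CharTwo.add_self_eq_zero, v_zero c h1 h2, x_zero c h1 h2, mul_one]
  · rintro ⟨a, u, rfl⟩
    exact mul_mem (x_mem le_rfl le_rfl a) (v_mem c hσ h1 h2 le_rfl le_rfl u)

theorem E_three (h1 : 1 ≤ i) (h2 : i ≤ 8) (hg : g ∈ J x i i) : ∃ a b, g = x i a * (x i b * x i b) := by
  obtain ⟨a, u, rfl⟩ := (mem_E c hσ h1 h2).1 hg
  obtain ⟨b, rfl⟩ := exists_nrm hσ u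
  exact ⟨a, b, by rw [x_sq c h1 h2]⟩

omit c hσ in
theorem norm_left (H : ∀ l, i < l → l < j → P0 x i l) (a : K) (hw : w ∈ J x (i + 1) (j - 1)) :
    x i a * w * (x i a)⁻¹ ∈ J x (i + 1) (j - 1) :=
  conj_J (fun l b l1 l2 => by
    rw [show x i a * x l b * (x i a)⁻¹ = ⁅x i a, x l b⁆ * x l b by
      rw [commutatorElement_def]; group]
    exact mul_mem (J_mono le_rfl (by omega) (H l (by omega) (by omega) a b)) (x_mem l1 l2 b)) hw

omit c hσ in
theorem norm_right (H : ∀ l, i < l → l < j → P0 x l j) (a : K) (hw : w ∈ J x (i + 1) (j - 1)) :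
    x j a * w * (x j a)⁻¹ ∈ J x (i + 1) (j - 1) :=
  conj_J (fun l b l1 l2 => by
    rw [show x j a * x l b * (x j a)⁻¹ = ⁅x l b, x j a⁆⁻¹ * x l b by
      rw [commutatorElement_def]; group]
    exact mul_mem (inv_mem (J_mono (by omega) le_rfl (H l (by omega) (by omega) b a)))
      (x_mem l1 l2 b)) hw

theorem lemA (hx : ∀ s, x 1 s * x 1 s = 1) {a : K} (ha : a ≠ 0) :
    ∃ w ∈ J x 3 7, ⁅x 1 1, (x 8 a)⁻¹⁆ = (x 2 a)⁻¹ * w := by
  have sa : σ a ≠ 0 := (map_ne_zero σ).2 ha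
  obtain ⟨h, hh, hJ⟩ := exists_tor c ha
  have e1 : h * x 1 1 * h⁻¹ = x 1 (a ^ 2) := by rw [hh 1 (by omega) (by omega)]; simp [ocW]
  have e8 : h * x 8 a * h⁻¹ = x 8 1 := by rw [hh 8 (by omega) (by omega)]; simp [ocW, ha]
  have ev : h * v 8 (a * σ a) * h⁻¹ = v 8 1 := by
    rw [← x_sq c (by omega) (by omega), ← conj_mul, e8, x_sq c (by omega) (by omega)]; simp
  have e6 : h * x 6 (a * σ a) * h⁻¹ = x 6 (a ^ 2) := by
    rw [hh 6 (by omega) (by omega)]; congr 1; simp [ocW]; field_simp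
  have e7 : h * x 7 (σ (a * σ a)) * h⁻¹ = x 7 (a ^ 2) := by
    rw [hh 7 (by omega) (by omega)]; congr 1; simp [ocW, hσ, sa]
  obtain ⟨g, hg, k1⟩ : ∃ g ∈ J x 2 5, ⁅x 1 (a ^ 2), v 8 1⁆ = g * x 6 (a ^ 2) * x 7 (a ^ 2) := by
    refine ⟨_, hJ 2 5 (by omega) (by omega) _ (mul_mem (mul_mem (mul_mem
      (v_mem c hσ (l := 2) (by omega) (by omega) (by omega) (by omega) (a * σ a))
      (x_mem (l := 3) (by omega) (by omega) (σ (a * σ a))))
      (inv_mem (x_mem (l := 4) (by omega) (by omega) (a * σ a))))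
      (x_mem (l := 5) (by omega) (by omega) ((a * σ a) ^ 2))), ?_⟩
    rw [← e1, ← ev, ← conjugate_commutatorElement, c.cf, ← e6, ← e7]
    group
  have n7 : n * x 7 (a ^ 2) * n⁻¹ = x 1 (a ^ 2) := c.xn 7 (by omega) (by omega) _
  have n6 : n * x 6 (a ^ 2) * n⁻¹ = x 2 (a ^ 2) := c.xn 6 (by omega) (by omega) _
  have n1 : n * x 1 (a ^ 2) * n⁻¹ = x 7 (a ^ 2) := c.xn 1 (by omega) (by omega) _
  have k2 : ⁅x 1 (a ^ 2), (x 8 1)⁻¹⁆ = (x 2 (a ^ 2))⁻¹ * ((n * g * n⁻¹)⁻¹ * x 7 (a ^ 2)) := by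
    have k3 : v 8 1 * x 1 (a ^ 2) * (v 8 1)⁻¹ = ⁅x 1 (a ^ 2), v 8 1⁆⁻¹ * x 1 (a ^ 2) := by
      rw [commutatorElement_def]; group
    rw [commutatorElement_def, inv_eq_of_mul_eq_one_right (hx _), inv_inv, mul_assoc (x 1 _),
      mul_assoc (x 1 _), c.c18, k3, k1, ← n6, ← n1]
    nth_rw 1 [← n7]
    rw [← n1]
    group
  obtain ⟨h', hh', hJ'⟩ := exists_tor c (inv_ne_zero ha)
  have f1 : h' * x 1 (a ^ 2) * h'⁻¹ = x 1 1 := by rw [hh' 1 (by omega) (by omega)]; simp [ocW, ha]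
  have f8 : h' * x 8 1 * h'⁻¹ = x 8 a := by rw [hh' 8 (by omega) (by omega)]; simp [ocW]
  have f2 : h' * x 2 (a ^ 2) * h'⁻¹ = x 2 a := by
    rw [hh' 2 (by omega) (by omega)]; congr 1; simp [ocW]; field_simp
  refine ⟨_, hJ' 3 7 (by omega) (by omega) _ (mul_mem (inv_mem (J_mono le_rfl (by omega)
    (J_n c (i' := 3) (j' := 6) (by omega) (by omega) (by omega) (by omega) hg)))
    (x_mem (l := 7) (by omega) (by omega) (a ^ 2))), ?_⟩
  rw [← f1, ← f8, ← f2, conj_inv, ← conjugate_commutatorElement, k2]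
  group

theorem all0 (hx : ∀ s, x 1 s * x 1 s = 1) (h1 : 1 ≤ i) (h : i < j) (h2 : j ≤ 8) : P0 x i j := by
  have p12 : P0 x 1 2 := .of_commute c.c12
  have p67 : P0 x 6 7 := p12.nv c (by omega) (by omega) (by omega) (by omega) (by omega)
  have p34 : P0 x 3 4 := p67.mv c (by omega) (by omega) (by omega) (by omega) (by omega)
  have p45 : P0 x 4 5 := p34.nv c (by omega) (by omega) (by omega) (by omega) (by omega)
  have p56 : P0 x 5 6 := p45.mv c (by omega) (by omega) (by omega) (by omega) (by omega)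
  have p23 : P0 x 2 3 := p56.nv c (by omega) (by omega) (by omega) (by omega) (by omega)
  have p78 : P0 x 7 8 := p23.mv c (by omega) (by omega) (by omega) (by omega) (by omega)
  have p13 : P0 x 1 3 := .of_commute c.c13
  have p57 : P0 x 5 7 := p13.nv c (by omega) (by omega) (by omega) (by omega) (by omega)
  have p35 : P0 x 3 5 := p57.mv c (by omega) (by omega) (by omega) (by omega) (by omega)
  have p24 : P0 x 2 4 := fun a b => by rw [c.c24]; exact x_mem (by omega) (by omega) _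
  have p46 : P0 x 4 6 := p24.nv c (by omega) (by omega) (by omega) (by omega) (by omega)
  have p68 : P0 x 6 8 := p24.mv c (by omega) (by omega) (by omega) (by omega) (by omega)
  have p14 : P0 x 1 4 := fun a b => by
    rw [c.c14]; exact v_mem c hσ (by omega) (by omega) (by omega) (by omega) _
  have p47 : P0 x 4 7 := p14.nv c (by omega) (by omega) (by omega) (by omega) (by omega)
  have p36 : P0 x 3 6 := p47.mv c (by omega) (by omega) (by omega) (by omega) (by omega)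
  have p25 : P0 x 2 5 := p36.nv c (by omega) (by omega) (by omega) (by omega) (by omega)
  have p58 : P0 x 5 8 := p25.mv c (by omega) (by omega) (by omega) (by omega) (by omega)
  have p15 : P0 x 1 5 := .of_commute c.c15
  have p37 : P0 x 3 7 := p15.nv c (by omega) (by omega) (by omega) (by omega) (by omega)
  have p26 : P0 x 2 6 := .of_commute c.c26
  have p48 : P0 x 4 8 := p26.mv c (by omega) (by omega) (by omega) (by omega) (by omega)
  have p16 : P0 x 1 6 := fun a b => by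
    obtain ⟨r, rfl⟩ := exists_sq' a
    rcases eq_or_ne r 0 with rfl | hr
    · simp [x_zero c]
    have sr : σ r ≠ 0 := (map_ne_zero σ).2 hr
    obtain ⟨h, hh, hJ⟩ := exists_tor c hr
    have e1 : h * x 1 1 * h⁻¹ = x 1 (r ^ 2) := by rw [hh 1 (by omega) (by omega)]; simp [ocW]
    have e6 : h * x 6 (b * σ r / r) * h⁻¹ = x 6 b := by
      rw [hh 6 (by omega) (by omega)]; congr 1; simp [ocW]; field_simp
    rw [← e1, ← e6, ← conjugate_commutatorElement, c.c16]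
    exact hJ _ _ (by omega) (by omega) _ (mul_mem
      (v_mem c hσ (by omega) (by omega) (by omega) (by omega) _) (x_mem (by omega) (by omega) _))
  have p27 : P0 x 2 7 := p16.nv c (by omega) (by omega) (by omega) (by omega) (by omega)
  have p38 : P0 x 3 8 := p27.mv c (by omega) (by omega) (by omega) (by omega) (by omega)
  have p17 : P0 x 1 7 := fun a b => by
    rw [c.c17]; exact mul_mem (x_mem (by omega) (by omega) _) (x_mem (by omega) (by omega) _)
  have q28 : ∀ a, a ≠ 0 → ⁅x 2 a, x 8 a⁆ ∈ J x (2 + 1) (8 - 1) := fun a ha => by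
    obtain ⟨w, hw, e⟩ := lemA c hσ hx ha
    have m2 : m * x 2 a * m⁻¹ = x 8 a := c.xm 2 (by omega) (by omega) _
    have m8 : m * x 8 a * m⁻¹ = x 2 a := c.xm 8 (by omega) (by omega) _
    have e1 : x 1 1 * x 8 a * (x 1 1)⁻¹ = x 8 a * w⁻¹ * x 2 a := by
      rw [show x 8 a * w⁻¹ * x 2 a = x 8 a * ((x 2 a)⁻¹ * w)⁻¹ by group, ← e, commutatorElement_def]
      group
    have e2 := c.c28 a
    rw [e1, ← conj_mul, ← conj_mul, m2, m8] at e2
    have hw' := J_m c (i' := 3) (j' := 7) (by omega) (by omega) (by omega) (by omega) (inv_mem hw)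
    generalize m * w⁻¹ * m⁻¹ = w' at e2 hw'
    have e3 : ⁅x 2 a, x 8 a⁆ = x 2 a * w'⁻¹ * (x 2 a)⁻¹ * (x 8 a * w⁻¹ * (x 8 a)⁻¹) := by
      calc _ = x 2 a * w'⁻¹ * (x 2 a)⁻¹ * (x 2 a * w' * x 8 a) * ((x 2 a)⁻¹ * (x 8 a)⁻¹) := by
            rw [commutatorElement_def]; group
        _ = _ := by rw [e2]; group
    rw [e3]
    refine mul_mem (norm_left (fun l l1 l2 => ?_) a (inv_mem hw'))
      (norm_right (fun l l1 l2 => ?_) a (inv_mem hw))
    all_goals interval_cases l <;> assumption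
  have p28 : P0 x 2 8 := fun a b => by
    rcases eq_or_ne a 0 with rfl | ha
    · simp [x_zero c]
    rcases eq_or_ne b 0 with rfl | hb
    · simp [x_zero c]
    obtain ⟨r, hr⟩ := exists_sq' (a / b)
    have r0 : r ≠ 0 := by rintro rfl; simp [eq_comm, ha, hb] at hr
    obtain ⟨h, hh, hJ⟩ := exists_tor c r0
    have e2 : h * x 2 (a / r) * h⁻¹ = x 2 a := by
      rw [hh 2 (by omega) (by omega)]; congr 1; simp [ocW]; field_simp
    have e8 : h * x 8 (a / r) * h⁻¹ = x 8 b := by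
      rw [hh 8 (by omega) (by omega)]; congr 1; simp [ocW]; field_simp at hr ⊢; exact hr.symm
    rw [← e2, ← e8, ← conjugate_commutatorElement]
    exact hJ _ _ (by omega) (by omega) _ (q28 _ (div_ne_zero ha r0))
  have p18 : P0 x 1 8 := fun s b => by
    obtain ⟨r, rfl⟩ := exists_sq' s
    rcases eq_or_ne r 0 with rfl | hr
    · simp [x_zero c]
    rcases eq_or_ne b 0 with rfl | hb
    · simp [x_zero c]
    obtain ⟨h, hh, hJ⟩ := exists_tor c hr
    obtain ⟨w, hw, e⟩ := lemA c hσ hx (mul_ne_zero hr hb)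
    have e1 : h * x 1 1 * h⁻¹ = x 1 (r ^ 2) := by rw [hh 1 (by omega) (by omega)]; simp [ocW]
    have e8 : h * x 8 (r * b) * h⁻¹ = x 8 b := by rw [hh 8 (by omega) (by omega)]; simp [ocW, hr]
    have k : ⁅x 1 (r ^ 2), (x 8 b)⁻¹⁆ ∈ J x (1 + 1) (8 - 1) := by
      rw [← e1, ← e8, conj_inv, ← conjugate_commutatorElement, e]
      exact hJ _ _ (by omega) (by omega) _ (mul_mem (inv_mem (x_mem (by omega) (by omega) _))
        (J_mono (by omega) (by omega) hw))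
    rw [show ⁅x 1 (r ^ 2), x 8 b⁆ = x 8 b * ⁅x 1 (r ^ 2), (x 8 b)⁻¹⁆⁻¹ * (x 8 b)⁻¹ by
      simp only [commutatorElement_def]; group]
    refine norm_right (fun l l1 l2 => ?_) b (inv_mem k)
    interval_cases l <;> assumption
  have h3 : i < 8 := by omega
  interval_cases i <;> interval_cases j <;> assumption

theorem all (hx : ∀ s, x 1 s * x 1 s = 1) (h1 : 1 ≤ i) (h : i < j) (h2 : j ≤ 8) (hg : g ∈ J x i i)
    (hw : w ∈ J x j j) : ⁅g, w⁆ ∈ J x (i + 1) (j - 1) := by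
  have l : ∀ {a b t : Γ}, ⁅a * b, t⁆ = a * ⁅b, t⁆ * a⁻¹ * ⁅a, t⁆ := by
    intros; simp only [commutatorElement_def]; group
  have r : ∀ {a b t : Γ}, ⁅t, a * b⁆ = ⁅t, a⁆ * (a * ⁅t, b⁆ * a⁻¹) := by
    intros; simp only [commutatorElement_def]; group
  have nl := fun a w (hw : w ∈ J x (i + 1) (j - 1)) =>
    norm_left (fun l l1 l2 => all0 c hσ hx h1 l1 (by omega)) a hw
  have nr := fun a w (hw : w ∈ J x (i + 1) (j - 1)) =>
    norm_right (fun l l1 l2 => all0 c hσ hx (by omega) l2 h2) a hw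
  have p := all0 c hσ hx h1 h h2
  have k : ∀ a, ⁅x i a, w⁆ ∈ J x (i + 1) (j - 1) := fun a => by
    obtain ⟨s, t, rfl⟩ := E_three c hσ (by omega) h2 hw
    rw [r, r]
    exact mul_mem (p _ _) (nr _ _ (mul_mem (p _ _) (nr _ _ (p _ _))))
  obtain ⟨s, t, rfl⟩ := E_three c hσ h1 (by omega) hg
  rw [l, l]
  exact mul_mem (nl _ _ (mul_mem (nl _ _ (k _)) (k _))) (k _)

theorem comm_UP (hx : ∀ s, x 1 s * x 1 s = 1) (r : ℕ) : ∀ k : ℤ, 0 ≤ k → k + r + 1 < 8 →
    ∀ g ∈ J x (8 - k) (8 - k), ∀ w ∈ J x (8 - (k + r + 1)) (8 - (k + r + 1)),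
      ⁅g, w⁆ ∈ UP (fun k => J x (8 - k) (8 - k)) (k + 1) r := by
  induction r using Nat.strong_induction_on with
  | _ r ih =>
    intro k h0 h1 g hg w hw
    obtain ⟨H, hH⟩ := exists_subgroup_UP (fun k => J x (8 - k) (8 - k)) (k + 1) r
      fun l s l1 l2 => ih s (by omega) l (by omega) (by omega)
    have le : J x (8 - (k + r + 1) + 1) (8 - k - 1) ≤ H := by
      refine (Subgroup.closure_le _).2 ?_
      rintro _ ⟨l, a, l1, l2, rfl⟩
      rw [hH]
      exact mem_UP_of_mem _ (s := (7 - k - l).toNat) (by omega) _ _ (x_mem (by omega) (by omega) a)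
    rw [← hH, ← commutatorElement_inv]
    exact inv_mem (le (all c hσ hx (by omega) (by omega) (by omega) hw hg))

end OG

open OG

variable {Γ Γ' K K' : Type*} [Group Γ] [Group Γ'] [Field K] [Field K'] [Finite K] [Finite K'] [CharP K 2]
  [CharP K' 2] {U : ℤ → Subgroup Γ} {U' : ℤ → Subgroup Γ'} {σ : K →+* K} {σ' : K' →+* K'}
  {x v : ℤ → K → Γ} {x' v' : ℤ → K' → Γ'} {m n : Γ} {m' n' : Γ'}

theorem OC.xv_inj (c : OC U σ x v m n) {i : ℤ} (h1 : 1 ≤ i) (h2 : i ≤ 8) {a u b t : K}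
    (e : x i a * v i u = x i b * v i t) : a = b ∧ v i u = v i t := by
  have k : x i a * v i (u + a * σ a) * (x i a * v i u) = 1 := by
    rw [xv_mul c.toOE h1 h2, show a * σ a + (u + a * σ a + u) = (a * σ a + a * σ a) + (u + u) by ring,
      CharTwo.add_self_eq_zero, CharTwo.add_self_eq_zero, CharTwo.add_self_eq_zero, add_zero,
      v_zero c.toOE h1 h2, x_zero c.toOE h1 h2, mul_one]
  rw [e, xv_mul c.toOE h1 h2] at k
  obtain rfl : a = b := CharTwo.add_eq_zero.1 (c.inj i h1 h2 _ _ k)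
  exact ⟨rfl, mul_left_cancel e⟩

theorem OC.card_one (c : OC (fun l => U (8 - l)) σ x v m n) : Nat.card (U 1) = Nat.card K := by
  have hm : ∀ g, g ∈ U 1 ↔ ∃ a, x 7 a = g := fun g => by
    simpa [c.vodd 7 (by omega) (by omega) (by decide)] using c.mem 7 (by omega) (by omega) g
  refine (Nat.card_congr (Equiv.ofBijective (fun a => (⟨x 7 a, (hm _).2 ⟨a, rfl⟩⟩ : U 1))
    ⟨fun a b e => ?_, fun ⟨g, hg⟩ => ?_⟩)).symm
  · exact (c.xv_inj (i := 7) (u := 0) (t := 0) (by omega) (by omega)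
      (congrArg (· * _) (congrArg Subtype.val e))).1
  · obtain ⟨a, rfl⟩ := (hm g).1 hg
    exact ⟨a, rfl⟩

theorem OC.par (c : OC (fun l => U (8 - l)) σ x v m n) :
    ∃ k, Nat.card (U 1) = 2 ^ (2 * k + 1) ∧ Nat.card (U 0) = Nat.card (U 1) ^ 2 := by
  obtain ⟨k, hk⟩ := card_odd c.sq
  refine ⟨k, c.card_one.trans hk, ?_⟩
  have hm : ∀ g, g ∈ U 0 ↔ ∃ a u, x 8 a * v 8 u = g := fun g => by
    simpa using c.mem 8 (by omega) (by omega) g
  rw [c.card_one, pow_two, ← Nat.card_prod]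
  refine (Nat.card_congr (Equiv.ofBijective
    (fun a : K × K => (⟨x 8 a.1 * v 8 a.2, (hm _).2 ⟨_, _, rfl⟩⟩ : U 0))
    ⟨fun a b e => ?_, fun ⟨g, hg⟩ => ?_⟩)).symm
  · obtain ⟨e1, e2⟩ := c.xv_inj (i := 8) (by omega) (by omega) (congrArg Subtype.val e)
    refine Prod.ext e1 (CharTwo.add_eq_zero.1 (c.vinj 8 (by omega) (by omega) (by decide) _ ?_))
    rw [c.vadd 8 (by omega) (by omega), e2, ← c.vadd 8 (by omega) (by omega), CharTwo.add_self_eq_zero,
      v_zero c.toOE (by omega) (by omega)]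
  · obtain ⟨a, u, rfl⟩ := (hm g).1 hg
    exact ⟨(a, u), rfl⟩

theorem OC.pull (c : OC U' σ' x' v' m' n') (φ : K ≃+* K') (hφ : ∀ a, φ (σ a) = σ' (φ a)) :
    OC U' σ (fun i a => x' i (φ a)) (fun i a => v' i (φ a)) m' n' where
  xm := fun i h1 h2 t => c.xm i h1 h2 _
  xn := fun i h1 h2 t => c.xn i h1 h2 _
  add := fun i h1 h2 a b => by simp only [map_add, map_mul, hφ, c.add i h1 h2]
  vadd := fun i h1 h2 a b => by simp only [map_add, c.vadd i h1 h2]
  xv := fun i h1 h2 a b => c.xv i h1 h2 _ _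
  c12 := fun a b => c.c12 _ _
  c13 := fun a b => c.c13 _ _
  c15 := fun a b => c.c15 _ _
  c26 := fun a b => c.c26 _ _
  c24 := fun a b => by simp only [map_mul, c.c24]
  c14 := fun a b => by simp only [map_mul, c.c14]
  c16 := fun b => by simp only [map_one, hφ, c.c16]
  c17 := fun a b => by simp only [map_mul, hφ, c.c17]
  cf := fun t => by simp only [map_one, map_pow, hφ, c.cf]
  c18 := fun s => by simp only [map_one, c.c18]
  c28 := fun a => by simp only [map_one, c.c28]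
  tor := fun r hr => by
    obtain ⟨h, hh⟩ := c.tor (φ r) ((map_ne_zero φ).2 hr)
    refine ⟨h, fun i h1 h2 t => ?_⟩
    rw [hh i h1 h2, map_mul]
    congr 2
    unfold ocW
    split_ifs <;> simp [hφ]
  sq := fun a => φ.injective (by rw [hφ, hφ, c.sq, map_pow])
  mem := fun i h1 h2 g => by
    rw [c.mem i h1 h2]
    exact ⟨fun ⟨a, u, e⟩ => ⟨φ.symm a, φ.symm u, by simpa using e⟩, fun ⟨a, u, e⟩ => ⟨_, _, e⟩⟩
  inj := fun i h1 h2 a u e => (map_eq_zero φ).1 (c.inj i h1 h2 _ _ e)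
  vinj := fun i h1 h2 h3 u e => (map_eq_zero φ).1 (c.vinj i h1 h2 h3 _ e)
  vodd := fun i h1 h2 h3 u => c.vodd i h1 h2 h3 _

theorem OE.prod {y w : ℤ → K → Γ'} (c : OE σ x v m n) (c' : OE σ y w m' n') :
    OE σ (fun i a => (x i a, y i a)) (fun i a => (v i a, w i a)) (m, m') (n, n') where
  xm := fun i h1 h2 t => Prod.ext (c.xm i h1 h2 t) (c'.xm i h1 h2 t)
  xn := fun i h1 h2 t => Prod.ext (c.xn i h1 h2 t) (c'.xn i h1 h2 t)
  add := fun i h1 h2 a b => Prod.ext (c.add i h1 h2 a b) (c'.add i h1 h2 a b)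
  vadd := fun i h1 h2 a b => Prod.ext (c.vadd i h1 h2 a b) (c'.vadd i h1 h2 a b)
  xv := fun i h1 h2 a b => Prod.ext (c.xv i h1 h2 a b).eq (c'.xv i h1 h2 a b).eq
  c12 := fun a b => Prod.ext (c.c12 a b).eq (c'.c12 a b).eq
  c13 := fun a b => Prod.ext (c.c13 a b).eq (c'.c13 a b).eq
  c15 := fun a b => Prod.ext (c.c15 a b).eq (c'.c15 a b).eq
  c26 := fun a b => Prod.ext (c.c26 a b).eq (c'.c26 a b).eq
  c24 := fun a b => Prod.ext (c.c24 a b) (c'.c24 a b)
  c14 := fun a b => Prod.ext (c.c14 a b) (c'.c14 a b)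
  c16 := fun b => Prod.ext (c.c16 b) (c'.c16 b)
  c17 := fun a b => Prod.ext (c.c17 a b) (c'.c17 a b)
  cf := fun t => Prod.ext (c.cf t) (c'.cf t)
  c18 := fun s => Prod.ext (c.c18 s) (c'.c18 s)
  c28 := fun a => Prod.ext (c.c28 a) (c'.c28 a)
  tor := fun r hr => by
    obtain ⟨h, hh⟩ := c.tor r hr
    obtain ⟨h', hh'⟩ := c'.tor r hr
    exact ⟨(h, h'), fun i h1 h2 t => Prod.ext (hh i h1 h2 t) (hh' i h1 h2 t)⟩

theorem OC.x1_sq (c : OC U σ x v m n) (s : K) : x 1 s * x 1 s = 1 := by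
  rw [x_sq c.toOE le_rfl (by omega), c.vodd 1 le_rfl (by omega) (by decide)]

theorem OC.one_of {y w : ℤ → K → Γ'} (c : OC U σ x v m n) (c' : OC U' σ y w m' n') {i : ℤ}
    (h1 : 1 ≤ i) (h2 : i ≤ 8) {a u : K} (e : x i a * v i u = 1) : y i a * w i u = 1 := by
  obtain rfl := c.inj i h1 h2 a u e
  rw [x_zero c.toOE h1 h2, one_mul] at e
  rw [x_zero c'.toOE h1 h2, one_mul]
  rcases Int.even_or_odd i with h | h
  · rw [c.vinj i h1 h2 h u e, v_zero c'.toOE h1 h2]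
  · exact c'.vodd i h1 h2 h u

theorem OC.graph_same {y w : ℤ → K → Γ'} (c : OC (fun l => U (8 - l)) σ x v m n)
    (c' : OC (fun l => U' (8 - l)) σ y w m' n') : ∃ D, Graph 8 U U' D := by
  have e := c.toOE.prod c'.toOE
  refine ⟨fun k => J (fun i a => (x i a, y i a)) (8 - k) (8 - k), fun k h0 h1 => ?_,
    fun k r h0 h1 => comm_UP e c.sq (fun s => Prod.ext (c.x1_sq s) (c'.x1_sq s)) r k h0 h1⟩
  have i1 : 1 ≤ 8 - k := by omega
  have i2 : 8 - k ≤ 8 := by omega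
  have hm : ∀ g, g ∈ U k ↔ ∃ a u, x (8 - k) a * v (8 - k) u = g := fun g => by
    simpa using c.mem _ i1 i2 g
  have hm' : ∀ g, g ∈ U' k ↔ ∃ a u, y (8 - k) a * w (8 - k) u = g := fun g => by
    simpa using c'.mem _ i1 i2 g
  refine ⟨fun g hg => ?_, fun g hg => ?_, fun g hg => ?_, fun g hg => ?_⟩
  · obtain ⟨a, u, rfl⟩ := (mem_E e c.sq i1 i2).1 hg
    exact ⟨(hm _).2 ⟨a, u, rfl⟩, (hm' _).2 ⟨a, u, rfl⟩⟩
  · obtain ⟨a, u, rfl⟩ := (hm g).1 hg
    exact ⟨_, (mem_E e c.sq i1 i2).2 ⟨a, u, rfl⟩⟩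
  · obtain ⟨a, u, rfl⟩ := (hm' g).1 hg
    exact ⟨_, (mem_E e c.sq i1 i2).2 ⟨a, u, rfl⟩⟩
  · obtain ⟨a, u, rfl⟩ := (mem_E e c.sq i1 i2).1 hg
    exact ⟨c.one_of c' i1 i2, c'.one_of c i1 i2⟩

theorem OC.graph (c : OC (fun l => U (8 - l)) σ x v m n) (c' : OC (fun l => U' (8 - l)) σ' x' v' m' n')
    (h1 : Nat.card (U 1) = Nat.card (U' 1)) : ∃ D, Graph 8 U U' D := by
  rw [c.card_one, c'.card_one] at h1
  let _ := Fintype.ofFinite K
  let _ := Fintype.ofFinite K'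
  let φ : K ≃+* K' := FiniteField.ringEquivOfCardEq (by
    rwa [← Nat.card_eq_fintype_card, ← Nat.card_eq_fintype_card])
  refine c.graph_same (c'.pull φ fun a => ?_)
  have := sigma_unique (τ := (φ.symm : K' →+* K).comp (σ'.comp (φ : K →+* K'))) c.sq
    (fun a => by simp [c'.sq]) a
  rw [this]
  simp

end Cfsg.Agent.Bld
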