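import Mathlib
import Cfsg.Agent.FS.OctB
import Cfsg.Agent.FS.OctC
import Cfsg.Agent.FS.OctE
import Cfsg.Agent.FS.OctG

/-! Finite Moufang octagons with a central elation: parameters and uniqueness. -/

set_option autoImplicit false

namespace Cfsg.Agent.Bld

universe u

theorem IsPoly.exists_oct {Γ : Type u} [Group Γ] [Finite Γ] {U : ℤ → Subgroup Γ} (h : IsPoly 8 U) (hc : Cen 4 U 0) :
    ∃ (K : Type u) (_ : Field K) (_ : Finite K) (_ : CharP K 2) (σ : K →+* K) (x v : ℤ → K → Γ) (m n : Γ),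
      OC (fun l => U (8 - l)) σ x v m n := by
  obtain ⟨V, I, M, o⟩ := h.exists_oc hc
  obtain ⟨K, _, _, _, σ, κ, x, v, m, n, c⟩ := (o.rv 8).exists_ob
  obtain ⟨y, d⟩ := c.exists_oy (o.rv 8)
  obtain ⟨x', v', e⟩ := d.exists_oc (o.rv 8) c
  exact ⟨K, _, inferInstance, inferInstance, σ, x', v', m, n, e⟩

variable {Γ Γ' : Type*} [Group Γ] [Group Γ'] [Finite Γ] [Finite Γ'] {U : ℤ → Subgroup Γ}
  {U' : ℤ → Subgroup Γ'} {p p' : ℕ}

set_option linter.unusedVariables false in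
theorem oct_par (hp : p.Prime) (h : IsPoly 8 U) (hP : PG p U) (hc : Cen 4 U 0) :
    ∃ m, Nat.card (U 1) = 2 ^ (2 * m + 1) ∧ Nat.card (U 0) = Nat.card (U 1) ^ 2 := by
  obtain ⟨K, _, _, _, σ, x, v, m, n, c⟩ := h.exists_oct hc
  exact c.par

set_option linter.unusedVariables false in
theorem oct_graph (hp : p.Prime) (hp' : p'.Prime) (h : IsPoly 8 U) (h' : IsPoly 8 U') (hP : PG p U)
    (hP' : PG p' U') (hc : Cen 4 U 0) (hc' : Cen 4 U' 0) (h1 : Nat.card (U 1) = Nat.card (U' 1)) :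
    ∃ D, Graph 8 U U' D := by
  obtain ⟨K, _, _, _, σ, x, v, m, n, c⟩ := h.exists_oct hc
  obtain ⟨K', _, _, _, σ', x', v', m', n', c'⟩ := h'.exists_oct hc'
  exact c.graph c' h1

end Cfsg.Agent.Bld
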