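import Mathlib
import Cfsg.Agent.FS.Jordan
import Cfsg.Agent.FS.Quad0

/-! Finite Moufang quadrangles: the field. -/

set_option autoImplicit false

namespace Cfsg.Agent.Bld

open scoped commutatorElement

universe u

/-- Preliminary coordinates. -/
structure QB {Γ : Type*} [Group Γ] (U : ℤ → Subgroup Γ) (N : Subgroup Γ) {K : Type*} [Field K] (x0 x2 : K → Γ)
    (n e : Γ) (act : K → Γ → Γ) (Q : Γ → K → K) : Prop where
  p0 : IsPar (U 0) x0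
  p2 : IsPar (U 2) x2
  mu : IsMu U 4 0 (x0 1) n
  act_mem : ∀ t, ∀ u ∈ U 3, act t u ∈ U 3
  act_mul : ∀ t, ∀ u ∈ U 3, ∀ v ∈ U 3, act t (u * v) = act t u * act t v
  act_one : ∀ u ∈ U 3, act 1 u = u
  act_zero : ∀ u ∈ U 3, act 0 u = 1
  c03 : ∀ a, ∀ u ∈ U 3, ⁅x0 a, u⁆ = n * act a u * n⁻¹ * x2 (Q u a)
  sm : ∀ u ∈ U 3, FqSM (Q u)
  ne : ∀ u ∈ U 3, u ≠ 1 → Q u 1 ≠ 0
  Qe : ∀ a, Q e a = a
  aa : ∀ s t, ∀ u ∈ U 3, ∃ z ∈ N, act s (act t u) = z * act (s * t) u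
  tor : ∀ t, t ≠ 0 → ∃ g ∈ fqT U, (∀ u ∈ U 3, g * u * g⁻¹ = act t u) ∧ (∀ a, g * x0 (t ^ 2 * a) * g⁻¹ = x0 a) ∧
    (∀ v ∈ U 3, ∃ z ∈ N, g * (n * act t v * n⁻¹) * g⁻¹ = n * (z * v) * n⁻¹) ∧
    (Cm (U 0) (U 2) → ∀ c ∈ U 2, g * c * g⁻¹ = c)

theorem fq_theta {Γ : Type u} [Group Γ] [Finite Γ] (T D N : Subgroup Γ) (hT : ∀ g ∈ T, ∀ u ∈ D, g * u * g⁻¹ ∈ D)
    (N1 : ∀ u ∈ D, ∀ v ∈ D, ⁅u, v⁆ ∈ N) (N2 : ∀ g ∈ T, ∀ z ∈ N, g * z * g⁻¹ ∈ N) (N4 : ∃ u ∈ D, u ∉ N) :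
    ∃ (M : Type u) (_ : AddCommGroup M) (_ : Finite M) (_ : Nontrivial M) (r : Γ → M) (θ : Γ → AddMonoid.End M),
      (∀ u ∈ D, ∀ v ∈ D, r (u * v) = r u + r v) ∧ (∀ u ∈ D, r u = 0 ↔ u ∈ N) ∧ (∀ x, ∃ u ∈ D, r u = x) ∧
      ∀ g ∈ T, ∀ u ∈ D, θ g (r u) = r (g * u * g⁻¹) := by
  classical
  let N' : Subgroup D := N.subgroupOf D
  have hc : commutator D ≤ N' := (Subgroup.commutator_le).2 fun u _ v _ => N1 u u.2 v v.2
  have : N'.Normal := Subgroup.Normal.of_commutator_le _ hc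
  have hcomm := Subgroup.Normal.quotient_commutative_iff_commutator_le.2 hc
  letI : CommGroup (D ⧸ N') := { (inferInstance : Group (D ⧸ N')) with mul_comm := hcomm.is_comm.comm }
  let f : T → D →* D := fun g => MonoidHom.mk' (fun u => ⟨g * u * (g : Γ)⁻¹, hT g g.2 u u.2⟩)
    fun u v => Subtype.ext (conj_mul).symm
  let r : Γ → Additive (D ⧸ N') := fun u => if h : u ∈ D then Additive.ofMul (QuotientGroup.mk ⟨u, h⟩) else 0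
  have hr : ∀ u (h : u ∈ D), r u = Additive.ofMul (QuotientGroup.mk ⟨u, h⟩) := fun u h => dif_pos h
  have r0 : ∀ u ∈ D, r u = 0 ↔ u ∈ N := fun u hu => by
    rw [hr u hu, ofMul_eq_zero, QuotientGroup.eq_one_iff]; rfl
  obtain ⟨u0, h0, h1⟩ := N4
  refine ⟨Additive (D ⧸ N'), inferInstance, inferInstance, ⟨r u0, 0, mt (r0 u0 h0).1 h1⟩, r,
    fun g => if h : g ∈ T then MonoidHom.toAdditive (QuotientGroup.map N' N' (f ⟨g, h⟩) fun z hz => N2 g h z hz) else 0,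
    fun u hu v hv => by rw [hr u hu, hr v hv, hr _ (mul_mem hu hv)]; rfl, r0, fun x => ?_, fun g hg u hu => ?_⟩
  · obtain ⟨u, hu⟩ := QuotientGroup.mk_surjective x.toMul
    exact ⟨u, u.2, by rw [hr u u.2]; exact congrArg Additive.ofMul hu⟩
  · rw [hr u hu, hr _ (hT g hg u hu)]
    exact (DFunLike.congr_fun (dif_pos hg) _).trans rfl

theorem IsPoly.exists_qb {Γ : Type u} [Group Γ] [Finite Γ] {U : ℤ → Subgroup Γ} (h : IsPoly 4 U) (N : Subgroup Γ)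
    (N1 : ∀ u ∈ U 3, ∀ v ∈ U 3, ⁅u, v⁆ ∈ N) (N2 : ∀ g ∈ fqT U, ∀ z ∈ N, g * z * g⁻¹ ∈ N)
    (N3 : ∀ a ∈ U 4, ∀ c ∈ U 2, ⁅a, c⁆ ∈ N) (N4 : ∃ u ∈ U 3, u ∉ N) {e : Γ} (he : e ∈ U 3) (e1 : e ≠ 1) :
    ∃ (K : Type u) (_ : Field K) (_ : Finite K) (x0 x2 : K → Γ) (n : Γ) (act : K → Γ → Γ) (Q : Γ → K → K),
      QB U N x0 x2 n e act Q := by
  classical
  obtain ⟨M, _, _, _, r, θ, radd, r0, rs, hθ⟩ := fq_theta (fqT U) (U 3) N (fun g hg u hu => (hg 3 u).1 hu) N1 N2 N4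
  have : Finite (AddMonoid.End M) := DFunLike.finite _
  have ext : ∀ f g : AddMonoid.End M, (∀ u ∈ U 3, f (r u) = g (r u)) → f = g := fun f g k =>
    AddMonoidHom.ext fun x => by obtain ⟨u, hu, rfl⟩ := rs x; exact k u hu
  have : Nontrivial (AddMonoid.End M) := ⟨1, 0, fun k => by
    obtain ⟨x, hx⟩ := _root_.exists_ne (0 : M)
    exact hx (DFunLike.congr_fun k x)⟩
  have θm : ∀ g ∈ fqT U, ∀ g' ∈ fqT U, θ (g * g') = θ g * θ g' := fun g hg g' hg' => ext _ _ fun u hu => by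
    rw [hθ _ (mul_mem hg hg') u hu, AddMonoid.End.coe_mul, Function.comp_apply, hθ _ hg' u hu, hθ _ hg _ ((hg' 3 u).1 hu)]
    congr 1; group
  have θ1 : θ 1 = 1 := ext _ _ fun u hu => by rw [hθ _ (one_mem _) u hu]; simp
  have θi : ∀ g ∈ fqT U, θ g * θ g⁻¹ = 1 := fun g hg => by rw [← θm g hg _ (inv_mem hg), mul_inv_cancel, θ1]
  have θu : ∀ g ∈ fqT U, IsUnit (θ g) := fun g hg => IsUnit.of_mul_eq_one _ (θi g hg)
  have req : ∀ u ∈ U 3, ∀ v ∈ U 3, r u = r v → ∃ z ∈ N, u = z * v := fun u hu v hv k =>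
    ⟨u * v⁻¹, (r0 _ (mul_mem hu (inv_mem hv))).1 (add_right_cancel (b := r v) (by
      rw [← radd _ (mul_mem hu (inv_mem hv)) _ hv, inv_mul_cancel_right, zero_add, k])), by group⟩
  have r1 : r 1 = 0 := (r0 1 (one_mem _)).2 (one_mem _)
  choose! μ hμ using h.mu 0
  obtain ⟨a0, ha0, a1⟩ := h.exists_ne 0
  obtain ⟨n, hn'⟩ : ∃ n, n = μ a0 := ⟨_, rfl⟩
  have hn : IsMu U 4 0 a0 n := hn' ▸ hμ a0 ha0 a1
  choose! β hβ γ hγ dec using fun a (ha : a ∈ U 0) u (hu : u ∈ U 3) => h.fq_dec ha hu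
  have β1 : ∀ u ∈ U 3, β 1 u = 1 ∧ γ 1 u = 1 := fun u hu => h.q2_uniq (hβ 1 (one_mem _) u hu) (hγ 1 (one_mem _) u hu)
    (one_mem _) (one_mem _) (by rw [← dec 1 (one_mem _) u hu]; simp)
  have βμ : ∀ a ∈ U 0, a ≠ 1 → ∀ u ∈ U 3, β a u = μ a * u * (μ a)⁻¹ := fun a ha k u hu =>
    h.m4_four_left ha hu (hμ a ha k) (hβ a ha u hu) (hγ a ha u hu) (dec a ha u hu).symm
  have am : ∀ a ∈ U 0, ∀ u ∈ U 3, n⁻¹ * β a u * n ∈ U 3 := fun a ha u hu => hn.conj_mem' (by norm_num) (hβ a ha u hu)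
  have sT : ∀ a ∈ U 0, a ≠ 1 → n⁻¹ * μ a ∈ fqT U := fun a ha k => hn.inv.fq_mul (hμ a ha k)
  obtain ⟨T, T0, T1⟩ : ∃ T : Γ → AddMonoid.End M, T 1 = 0 ∧ ∀ a, a ≠ 1 → T a = θ (n⁻¹ * μ a) :=
    ⟨fun a => if a = 1 then 0 else θ (n⁻¹ * μ a), if_pos rfl, fun a k => if_neg k⟩
  have Tr : ∀ a ∈ U 0, ∀ u ∈ U 3, T a (r u) = r (n⁻¹ * β a u * n) := fun a ha u hu => by
    by_cases k : a = 1
    · rw [k, T0, (β1 u hu).1]; simp [r1]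
    · rw [T1 a k, hθ _ (sT a ha k) u hu, βμ a ha k u hu]; congr 1; group
  have Tadd : ∀ a ∈ U 0, ∀ b ∈ U 0, T (a * b) = T a + T b := fun a ha b hb => ext _ _ fun u hu => by
    have k := (h.fq_e1 ha (hβ a ha u hu) (hβ b hb u hu) (hβ _ (mul_mem ha hb) u hu) (hγ a ha u hu) (hγ b hb u hu)
      (hγ _ (mul_mem ha hb) u hu) (dec a ha u hu) (dec b hb u hu) (dec _ (mul_mem ha hb) u hu)).1
    have z : n⁻¹ * ⁅a, γ b u⁆ * n ∈ N := by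
      have := N3 _ (hn.conj_mem' (l' := 4) (by norm_num) ha) _ (hn.conj_mem' (l' := 2) (by norm_num) (hγ b hb u hu))
      convert this using 1
      simp only [commutatorElement_def]; group
    have z3 : n⁻¹ * ⁅a, γ b u⁆ * n ∈ U 3 := hn.conj_mem' (by norm_num) (h.q2_two 0 ha (hγ b hb u hu))
    rw [Tr _ (mul_mem ha hb) u hu, show (T a + T b) (r u) = T a (r u) + T b (r u) from rfl, Tr a ha u hu, Tr b hb u hu, k,
      show n⁻¹ * (β b u * ⁅a, γ b u⁆ * β a u) * n = n⁻¹ * β b u * n * (n⁻¹ * ⁅a, γ b u⁆ * n) * (n⁻¹ * β a u * n) by group,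
      radd _ (mul_mem (am b hb u hu) z3) _ (am a ha u hu), radd _ (am b hb u hu) _ z3, (r0 _ z3).2 z, add_zero, add_comm]
  have Tu : ∀ a ∈ U 0, a ≠ 1 → IsUnit (T a) := fun a ha k => T1 a k ▸ θu _ (sT a ha k)
  have Ta0 : T a0 = 1 := by rw [T1 a0 a1, ← hn', inv_mul_cancel, θ1]
  have Tc : ∀ g ∈ fqT U, ∀ a ∈ U 0, T (g * a * g⁻¹) = θ (n⁻¹ * g * n) * T a * θ g⁻¹ := fun g hg a ha => by
    by_cases k : a = 1
    · simp [k, T0]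
    have k' : g * a * g⁻¹ ≠ 1 := mt conj_eq_one_iff.1 k
    rw [T1 _ k', T1 a k, h.mu_unique (Or.inr rfl) ((hg 0 a).1 ha) k' (hμ _ ((hg 0 a).1 ha) k') ((hμ a ha k).conj hg),
      ← θm _ (hn.fq_conj hg) _ (sT a ha k), ← θm _ (mul_mem (hn.fq_conj hg) (sT a ha k)) _ (inv_mem hg)]
    congr 1; group
  have Ti : ∀ a ∈ U 0, a ≠ 1 → θ (n⁻¹ * (μ a)⁻¹) = -T a := fun a ha k => by
    have k' : a⁻¹ ≠ 1 := mt inv_eq_one.1 k
    rw [← h.mu_unique (Or.inr rfl) (inv_mem ha) k' (hμ _ (inv_mem ha) k') (hμ a ha k).inv, ← T1 _ k']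
    exact eq_neg_of_add_eq_zero_left (by rw [← Tadd _ (inv_mem ha) _ ha, inv_mul_cancel, T0])
  have nn : θ (n * n) = -1 := by
    have k := θi _ (hn.fq_mul hn)
    rw [mul_inv_rev, show θ (n⁻¹ * n⁻¹) = -1 by rw [← Ta0, ← Ti a0 ha0 a1, ← hn'], mul_neg_one] at k
    exact neg_eq_iff_eq_neg.1 k
  have gT : ∀ t ∈ U 0, t ≠ 1 → θ (n⁻¹ * (n⁻¹ * μ t)⁻¹ * n) = T t := fun t ht k => by
    rw [show n⁻¹ * (n⁻¹ * μ t)⁻¹ * n = n⁻¹ * (μ t)⁻¹ * (n * n) by group,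
      θm _ (hn.inv.fq_mul (hμ t ht k).inv) _ (hn.fq_mul hn), Ti t ht k, nn]; simp
  have cl : ∀ t ∈ U 0, t ≠ 1 → ∀ a ∈ U 0, T ((n⁻¹ * μ t)⁻¹ * a * (n⁻¹ * μ t)⁻¹⁻¹) = T t * T a * T t := fun t ht k a ha => by
    rw [Tc _ (inv_mem (sT t ht k)) a ha, gT t ht k, inv_inv, T1 t k]
  obtain ⟨K, _, _, x0, xadd, xinj, xmem, x1, xmul⟩ := fq_field (U 0) T Tadd Tu ha0 Ta0 fun t ht a ha => by
    by_cases k : t = 1
    · exact ⟨1, one_mem _, by simp [k, T0]⟩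
    · exact ⟨_, (inv_mem (sT t ht k) 0 a).1 ha, cl t ht k a ha⟩
  have p0 : IsPar (U 0) x0 := ⟨xadd, xinj, xmem⟩
  have xm := p0.apply_mem
  have Tinj : ∀ s t, T (x0 s) = T (x0 t) → s = t := fun s t k => by
    by_contra ne
    refine (Tu _ (xm (s - t)) (mt p0.eq_one.1 (sub_ne_zero.2 ne))).ne_zero (add_right_cancel (b := T (x0 t)) ?_)
    rw [← Tadd _ (xm _) _ (xm _), ← xadd, sub_add_cancel, zero_add, k]
  choose! ρ hρ using fun g (hg : g ∈ fqT U) a => (xmem _).1 ((hg 0 (x0 a)).1 (xm a))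
  have ρsm : ∀ g ∈ fqT U, FqSM (ρ g) := fun g hg a b => Tinj _ _ (by
    have k : ∀ a, T (x0 (ρ g a)) = θ (n⁻¹ * g * n) * T (x0 a) * θ g⁻¹ := fun a => by rw [hρ g hg, Tc g hg _ (xm a)]
    have k1 : T (x0 (ρ g 1)) = θ (n⁻¹ * g * n) * θ g⁻¹ := by rw [k, x1, Ta0, mul_one]
    rw [xmul, xmul, k1, k a, k b, k (a * b), xmul]
    refine fq_sm (θu _ (hn.fq_conj hg)) (θu _ (inv_mem hg)) ?_
    rw [← k, ← k1, ← xmul, ← xmul, mul_comm])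
  obtain ⟨m, hm⟩ := h.mu 3 e he e1
  have m02 : ∀ b, b ∈ U 0 ↔ m * b * m⁻¹ ∈ U 2 := fun b => (hm.2 0 b).trans (h.per_mem (by norm_num))
  obtain ⟨x2, hx2⟩ : ∃ x2 : K → Γ, ∀ a, x2 a = m * x0 (-a) * m⁻¹ := ⟨_, fun _ => rfl⟩
  have p2 : IsPar (U 2) x2 := by
    refine ⟨fun a b => by rw [hx2, hx2, hx2, neg_add, p0.add, conj_mul], fun a b k => ?_, fun b => ⟨fun hb => ?_, ?_⟩⟩
    · rw [hx2, hx2] at k
      exact neg_injective (p0.inj (mul_left_cancel (mul_right_cancel k)))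
    · obtain ⟨a, ha⟩ := (p0.mem (m⁻¹ * b * m)).1 ((m02 _).2 (by simpa [mul_assoc] using hb))
      exact ⟨-a, by rw [hx2, neg_neg, ha]; group⟩
    · rintro ⟨a, rfl⟩
      rw [hx2]; exact (m02 _).1 (xm _)
  choose! Q hQ using fun u (hu : u ∈ U 3) a => (p2.mem _).1 (hγ _ (xm a) u hu)
  have Qρ : ∀ u ∈ U 3, ∀ m', IsMu U 4 3 u m' → ∀ a, Q u a = ρ (m⁻¹ * m') a := fun u hu m' hm' a => p2.inj (by
    rw [hQ u hu, h.m4_four_right (k := 0) (xm a) hu hm' (hβ _ (xm a) u hu) (hγ _ (xm a) u hu) (dec _ (xm a) u hu).symm,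
      hx2, p0.neg, hρ _ (hm.inv.fq_mul hm')]
    group)
  have ac : ∀ t, t ≠ 0 → ∀ u ∈ U 3, n⁻¹ * μ (x0 t) * u * (n⁻¹ * μ (x0 t))⁻¹ = n⁻¹ * β (x0 t) u * n := fun t ht u hu => by
    rw [βμ _ (xm t) (mt p0.eq_one.1 ht) u hu]; group
  refine ⟨K, inferInstance, inferInstance, x0, x2, n, fun t u => n⁻¹ * β (x0 t) u * n, Q, p0, p2, x1 ▸ hn,
    fun t u hu => am _ (xm t) u hu, fun t u hu v hv => ?_, fun u hu => ?_, fun u hu => ?_, fun a u hu => ?_,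
    fun u hu => ?_, fun u hu k => ?_, fun a => ?_, fun s t u hu => ?_, fun t ht => ?_⟩
  · rw [(h.fq_e2 hu (hβ _ (xm t) u hu) (hβ _ (xm t) v hv) (hβ _ (xm t) _ (mul_mem hu hv)) (hγ _ (xm t) u hu)
      (hγ _ (xm t) v hv) (hγ _ (xm t) _ (mul_mem hu hv)) (dec _ (xm t) u hu) (dec _ (xm t) v hv)
      (dec _ (xm t) _ (mul_mem hu hv))).1]
    group
  · rw [x1, βμ a0 ha0 a1 u hu, ← hn']; group
  · rw [p0.zero, (β1 u hu).1]; group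
  · rw [hQ u hu, dec _ (xm a) u hu]; group
  · by_cases k : u = 1
    · have : ∀ a, Q u a = 0 := fun a => p2.eq_one.1 (by
        rw [hQ u hu]
        exact (h.q2_uniq (hβ _ (xm a) u hu) (hγ _ (xm a) u hu) (one_mem _) (one_mem _)
          (by rw [← dec _ (xm a) u hu, k]; simp)).2)
      intro a b; simp [this]
    · obtain ⟨m', hm'⟩ := h.mu 3 u hu k
      rw [funext (Qρ u hu m' hm')]
      exact ρsm _ (hm.inv.fq_mul hm')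
  · obtain ⟨m', hm'⟩ := h.mu 3 u hu k
    rw [Qρ u hu m' hm', Ne, ← p0.eq_one, hρ _ (hm.inv.fq_mul hm'), conj_eq_one_iff, x1]
    exact a1
  · rw [Qρ e he m hm]
    exact xinj (by rw [hρ _ (hm.inv.fq_mul hm)]; group)
  · refine req _ (am _ (xm s) _ (am _ (xm t) u hu)) _ (am _ (xm _) u hu) ?_
    rw [← Tr _ (xm s) _ (am _ (xm t) u hu), ← Tr _ (xm t) u hu, ← Tr _ (xm _) u hu, xmul]; rfl
  · have k : x0 t ≠ 1 := mt p0.eq_one.1 ht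
    have hg := sT _ (xm t) k
    refine ⟨_, hg, ac t ht, fun a => ?_, fun v hv => ?_, fun hc c hc' => ?_⟩
    · have : ρ (n⁻¹ * μ (x0 t))⁻¹ a = t ^ 2 * a := Tinj _ _ (by
        rw [hρ _ (inv_mem hg), cl _ (xm t) k _ (xm a), ← xmul, ← xmul]; congr 2; ring)
      rw [← this, hρ _ (inv_mem hg)]; group
    · have g' := hn.fq_conj hg
      obtain ⟨z, hz, e'⟩ := req _ ((g' 3 _).1 (am _ (xm t) v hv)) v hv (by
        rw [← hθ _ g' _ (am _ (xm t) v hv), ← Tr _ (xm t) v hv, ← gT _ (xm t) k,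
          show n⁻¹ * (n⁻¹ * μ (x0 t))⁻¹ * n = (n⁻¹ * (n⁻¹ * μ (x0 t)) * n)⁻¹ by simp [mul_assoc]]
        exact DFunLike.congr_fun (θi _ g') (r v))
      exact ⟨z, hz, by rw [← e']; group⟩
    · have c4 : ∀ x ∈ U (0 + (4 : ℕ)), ∀ c ∈ U 2, Commute x c := fun x hx c hc' =>
        Commute.of_map (f := MulAut.conj n) (MulAut.conj n).injective
          (hc _ (hn.conj_mem (by norm_num) hx) _ (hn.conj_mem (by norm_num) hc'))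
      have cμ : ∀ a ∈ U 0, ∀ m, IsMu U 4 0 a m → Commute m c := fun a ha m ⟨⟨x, hx, y, hy, e⟩, _⟩ =>
        e ▸ ((c4 x hx c hc').mul_left (hc a ha c hc')).mul_left (c4 y hy c hc')
      rw [((cμ a0 ha0 n hn).inv_left.mul_left (cμ _ (xm t) _ (hμ _ (xm t) k))).eq, mul_inv_cancel_right]

end Cfsg.Agent.Bld
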