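import Mathlib
import Cfsg.Agent.FS.Quad1
import Cfsg.Agent.Bld.Quad1
import Cfsg.Agent.Bld.Quad2

/-! Finite Moufang quadrangles: coordinates, parameters, uniqueness. -/

set_option autoImplicit false

namespace Cfsg.Agent.Bld

open scoped commutatorElement

universe u

namespace QB

variable {Γ : Type*} [Group Γ] {U : ℤ → Subgroup Γ} {N : Subgroup Γ} {K : Type*} [Field K] {x0 x2 : K → Γ} {n e : Γ}
  {act : K → Γ → Γ} {Q : Γ → K → K} (h : IsPoly 4 U) (c : QB U N x0 x2 n e act Q) {u v : Γ}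
include c

theorem ph (hu : u ∈ U 3) : n * u * n⁻¹ ∈ U 1 := c.mu.conj_mem (by norm_num) hu

theorem act_un (t : K) : act t 1 = 1 := by simpa using c.act_mul t 1 (one_mem _) 1 (one_mem _)

include h

theorem e1 (s t : K) (hu : u ∈ U 3) : act (s + t) u = act t u * (n⁻¹ * ⁅x0 s, x2 (Q u t)⁆ * n) * act s u ∧
    Q u (s + t) = Q u s + Q u t := by
  obtain ⟨k1, k2⟩ := h.fq_e1 (c.p0.apply_mem s) (c.ph (c.act_mem s u hu)) (c.ph (c.act_mem t u hu))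
    (c.ph (c.act_mem (s + t) u hu)) (c.p2.apply_mem _) (c.p2.apply_mem _) (c.p2.apply_mem _) (c.c03 s u hu) (c.c03 t u hu)
    (c.p0.add s t ▸ c.c03 (s + t) u hu)
  refine ⟨?_, c.p2.inj (by rw [k2, add_comm (Q u s), c.p2.add])⟩
  rw [show act (s + t) u = n⁻¹ * (n * act (s + t) u * n⁻¹) * n by group, k1]; group

theorem e2 (a : K) (hu : u ∈ U 3) (hv : v ∈ U 3) :
    ⁅n * act a v * n⁻¹, u⁆ = x2 (-(Q (u * v) a - Q u a - Q v a)) := by
  have k := (h.fq_e2 hu (c.ph (c.act_mem a u hu)) (c.ph (c.act_mem a v hv)) (c.ph (c.act_mem a _ (mul_mem hu hv)))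
    (c.p2.apply_mem _) (c.p2.apply_mem _) (c.p2.apply_mem _) (c.c03 a u hu) (c.c03 a v hv) (c.c03 a _ (mul_mem hu hv))).2
  rw [show -(Q (u * v) a - Q u a - Q v a) = Q v a + -Q (u * v) a + Q u a by ring, c.p2.add, c.p2.add, c.p2.neg, k,
    ← commutatorElement_inv u]
  group

theorem Q_one (a : K) : Q 1 a = 0 := by
  have := c.e2 h a (one_mem _) (one_mem _)
  rw [commutatorElement_one_right, one_mul, eq_comm, c.p2.eq_one] at this
  linear_combination this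

theorem tor2 {g : Γ} (hg : g ∈ fqT U) {t : K} (h3 : ∀ u ∈ U 3, g * u * g⁻¹ = act t u)
    (h0 : ∀ a, g * x0 (t ^ 2 * a) * g⁻¹ = x0 a) (hu : u ∈ U 3) (a : K) :
    g * x2 (Q u (t ^ 2 * a)) * g⁻¹ = x2 (Q (act t u) a) := by
  have k := q1_conj g (x0 (t ^ 2 * a)) u
  rw [h0, h3 u hu, c.c03 _ u hu, c.c03 _ _ (c.act_mem t u hu), ← conj_mul] at k
  exact (h.q2_uniq ((hg 1 _).1 (c.ph (c.act_mem _ u hu))) ((hg 2 _).1 (c.p2.apply_mem _))
    (c.ph (c.act_mem _ _ (c.act_mem t u hu))) (c.p2.apply_mem _) k).2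

theorem π_act (he : e ∈ U 3) (lin : ∀ u ∈ U 3, ∀ a, Q u a = Q u 1 * a) (t : K) (hu : u ∈ U 3) :
    Q (act t u) 1 = Q (act t e) 1 * Q u 1 := by
  rcases eq_or_ne t 0 with rfl | ht
  · rw [c.act_zero u hu, c.act_zero e he, c.Q_one h, zero_mul]
  obtain ⟨g, hg, h3, h0, -⟩ := c.tor t ht
  have k := c.tor2 h hg h3 h0 hu 1
  rw [lin u hu, show Q u 1 * (t ^ 2 * 1) = t ^ 2 * Q u 1 by ring, ← c.Qe (t ^ 2 * Q u 1), c.tor2 h hg h3 h0 he,
    lin _ (c.act_mem t e he)] at k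
  exact (c.p2.inj k).symm

theorem mk_qc (he : e ∈ U 3) (lin : ∀ u ∈ U 3, ∀ a, Q u a = Q u 1 * a) (σ : K ≃+* K)
    (aa : ∀ s t, ∀ u ∈ U 3, act s (act t u) = act (s * t) u) (c02 : ∀ a b, ⁅x0 a, x2 b⁆ = ⁅x0 1, x2 (σ a * b)⁆)
    (c02' : ∀ t a b, act t (n⁻¹ * ⁅x0 a, x2 b⁆ * n) = n⁻¹ * ⁅x0 (t * a), x2 (t * b)⁆ * n)
    (one : Cm (U 0) (U 2) → ∀ t, Q (act t e) 1 = t ^ 2)
    (two : ¬ Cm (U 0) (U 2) → (∀ a, σ (σ a) = a) ∧ ∃ a, ⁅x0 1, x2 a⁆ = n * e * n⁻¹) :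
    QC U x0 x2 n e act (fun u => Q u 1) σ := by
  refine ⟨c.p0, c.p2, fun u => c.mu.2 3 u, c.act_mem, c.act_mul, aa, c.act_one, fun a u hu => by rw [c.c03 a u hu, lin u hu],
    fun t b u hu v hv k => ?_, c02, c02', c.ne, fun t u hu => c.π_act h he lin t hu, he, c.Qe 1, one, two⟩
  have k1 := c.e2 h 1 hu hv
  rw [c.act_one v hv, k] at k1
  rw [c.e2 h t hu hv, c.p2.inj k1, lin _ (mul_mem hu hv), lin u hu, lin v hv]
  congr 1; ring

end QB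

variable {Γ : Type u} [Group Γ] [Finite Γ] {U : ℤ → Subgroup Γ}

/-- The quadrangle has coordinates. -/
def HasQC (U : ℤ → Subgroup Γ) : Prop :=
  ∃ (K : Type u) (_ : Field K) (_ : Finite K) (x0 x2 : K → Γ) (n e : Γ) (act : K → Γ → Γ) (π : Γ → K) (σ : K ≃+* K),
    QC U x0 x2 n e act π σ

theorem IsPoly.qc_one (h : IsPoly 4 U) (hc : Cm (U 0) (U 2)) : HasQC U := by
  obtain ⟨e, he, e1⟩ := h.exists_ne 3
  obtain ⟨a0, ha0, a1⟩ := h.exists_ne 0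
  obtain ⟨m, hm⟩ := h.mu 0 a0 ha0 a1
  obtain ⟨K, _, _, x0, x2, n, act, Q, c⟩ := h.exists_qb ⊥ (fun u hu v hv => (h.fq_abel3 hc hu hv).commutator_eq)
    (fun g _ z hz => by rw [Subgroup.mem_bot.1 hz]; simp)
    (fun a ha b hb => (Commute.of_map (f := MulAut.conj m) (MulAut.conj m).injective
      (hc _ (hm.conj_mem (by norm_num) ha) _ (hm.conj_mem (by norm_num) hb))).commutator_eq) ⟨e, he, e1⟩ he e1
  have aa : ∀ s t, ∀ u ∈ U 3, act s (act t u) = act (s * t) u := fun s t u hu => by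
    obtain ⟨z, hz, k⟩ := c.aa s t u hu
    rw [k, Subgroup.mem_bot.1 hz, one_mul]
  have Qa : ∀ t, ∀ u ∈ U 3, ∀ a, Q (act t u) a = Q u (t ^ 2 * a) := fun t u hu a => by
    rcases eq_or_ne t 0 with rfl | ht
    · have := (c.e1 h 0 0 hu).2
      rw [c.act_zero u hu, c.Q_one h, zero_pow two_ne_zero, zero_mul]
      rw [add_zero] at this
      linear_combination this
    obtain ⟨g, hg, h3, h0, -, h2⟩ := c.tor t ht
    exact (c.p2.inj ((h2 hc _ (c.p2.apply_mem _)).symm.trans (c.tor2 h hg h3 h0 hu a))).symm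
  have lin : ∀ u ∈ U 3, ∀ a, Q u a = Q u 1 * a := fun v hv a => by
    rcases eq_or_ne v 1 with rfl | k
    · rw [c.Q_one h, c.Q_one h, zero_mul]
    refine (c.sm v hv).four (c.sm _ (mul_mem he hv)) (fun a b => (c.e1 h a b hv).2) (c.ne v hv k) (fun t => ?_) a
    refine ⟨_, c.sm _ (mul_mem he (c.act_mem t v hv)), fun a => ?_⟩
    have k1 := c.e2 h a he (c.act_mem t v hv)
    rw [aa _ _ v hv, mul_comm a, c.e2 h _ he hv, c.Qe, c.Qe, Qa t v hv] at k1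
    linear_combination c.p2.inj k1
  have z : ∀ a b, ⁅x0 a, x2 b⁆ = 1 := fun a b => (hc _ (c.p0.apply_mem a) _ (c.p2.apply_mem b)).commutator_eq
  exact ⟨K, _, inferInstance, x0, x2, n, e, act, _, RingEquiv.refl K, c.mk_qc h he lin _ aa (fun a b => by rw [z, z])
    (fun t a b => by simp [z, c.act_un]) (fun _ t => by rw [Qa t e he, c.Qe, mul_one]) (absurd hc)⟩

theorem IsPoly.qc_wide (h : IsPoly 4 U) {e : Γ} (he : e ∈ U 3) (e1 : e ≠ 1) (ec : ∀ b ∈ U 1, Commute e b)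
    (hn : ¬ Cm (U 1) (U 3)) : HasQC U := by
  obtain ⟨Z, hZ⟩ : ∃ Z : Subgroup Γ, ∀ z, z ∈ Z ↔ z ∈ U 3 ∧ ∀ b ∈ U 1, Commute z b :=
    ⟨U 3 ⊓ Subgroup.centralizer (U 1), fun z => and_congr_right fun _ =>
      ⟨fun k b hb => (k b hb).symm, fun k b hb => (k b hb).symm⟩⟩
  have eZ := (hZ e).2 ⟨he, ec⟩
  have N2 : ∀ g ∈ fqT U, ∀ z ∈ Z, g * z * g⁻¹ ∈ Z := fun g hg z hz => (hZ _).2 ⟨(hg 3 z).1 ((hZ z).1 hz).1, fun b hb => by
    simpa [mul_assoc] using (((hZ z).1 hz).2 _ ((inv_mem hg 1 b).1 hb)).map (MulAut.conj g)⟩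
  have N3 : ∀ a ∈ U 4, ∀ c ∈ U 2, ⁅a, c⁆ ∈ Z := fun a ha c hc => by
    have h3 : ⁅c, a⁆ ∈ U 3 := h.q2_two 2 hc ha
    refine commutatorElement_inv c a ▸ inv_mem ((hZ _).2 ⟨h3, fun b hb => ?_⟩)
    obtain ⟨x, hx, y, hy, k⟩ := h.comm2 (by omega) rfl rfl rfl hb ha
    have k1 : Commute c (x * y) := (h.fq_abel2 he e1 ec hc hx).mul_right (h.q2_adj 2 hc hy)
    have k2 : Commute ⁅c, a⁆ (x * y) := (h.q2_adj 2 hx h3).symm.mul_right
      (fq_comm_comm (h.q2_adj 2 hc hy).symm (h.q2_adj 3 hy ha)).symm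
    have : b * ⁅c, a⁆ * b⁻¹ = ⁅c, a⁆ := by
      calc _ = (b * c * b⁻¹) * ⁅b, a⁆ * a * (b * c * b⁻¹)⁻¹ * (⁅b, a⁆ * a)⁻¹ := by simp only [commutatorElement_def]; group
        _ = x * y * ⁅c, a⁆ * (x * y)⁻¹ := by
          rw [(h.q2_adj 1 hb hc).eq, mul_inv_cancel_right, ← k, k1.eq]; simp only [commutatorElement_def]; group
        _ = _ := by rw [← k2.eq, mul_inv_cancel_right]
    exact (mul_inv_eq_iff_eq_mul.1 this).symm
  obtain ⟨b0, hb0, u0, hu0, ne0⟩ : ∃ b ∈ U 1, ∃ u ∈ U 3, ¬ Commute b u := by simpa [Cm] using hn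
  obtain ⟨K, _, _, x0, x2, n, act, Q, c⟩ := h.exists_qb Z (fun u hu v hv => (hZ _).2
    ⟨mul_mem (mul_mem (mul_mem hu hv) (inv_mem hu)) (inv_mem hv), fun b hb => h.fq_der hb hu hv⟩) N2 N3
    ⟨u0, hu0, fun k => ne0 (((hZ _).1 k).2 b0 hb0).symm⟩ he e1
  have Z3 : ∀ z ∈ Z, z ∈ U 3 := fun z hz => ((hZ z).1 hz).1
  have Qz : ∀ z ∈ Z, ∀ u ∈ U 3, ∀ a, Q (z * u) a = Q z a + Q u a := fun z hz u hu a => by
    have k := c.e2 h a (Z3 z hz) hu
    rw [(((hZ z).1 hz).2 _ (c.ph (c.act_mem a u hu))).symm.commutator_eq, eq_comm, c.p2.eq_one] at k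
    linear_combination -k
  have lin : ∀ u ∈ U 3, ∀ a, Q u a = Q u 1 * a := fun u hu =>
    (c.sm u hu).lin (c.sm _ (mul_mem he hu)) fun a => by rw [Qz e eZ u hu, c.Qe]
  have zi : ∀ z ∈ Z, ∀ z' ∈ Z, Q z 1 = Q z' 1 → z = z' := fun z hz z' hz' k => by
    by_contra ne
    have h3 := mul_mem (inv_mem (Z3 z hz)) (Z3 z' hz')
    have := Qz z hz _ h3 1
    rw [mul_inv_cancel_left] at this
    exact c.ne _ h3 (mt inv_mul_eq_one.1 ne) (by linear_combination -this - k)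
  have aZ : ∀ t, ∀ z ∈ Z, act t z ∈ Z := fun t z hz => by
    rcases eq_or_ne t 0 with rfl | ht
    · rw [c.act_zero z (Z3 z hz)]; exact one_mem _
    obtain ⟨g, hg, h3, -⟩ := c.tor t ht
    exact h3 z (Z3 z hz) ▸ N2 g hg z hz
  have ζZ : ∀ a b, n⁻¹ * ⁅x0 a, x2 b⁆ * n ∈ Z := fun a b => by
    have := N3 _ (c.mu.conj_mem' (l' := 4) (by norm_num) (c.p0.apply_mem a)) _
      (c.mu.conj_mem' (l' := 2) (by norm_num) (c.p2.apply_mem b))
    convert this using 1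
    simp only [commutatorElement_def]; group
  choose! F hF using fun b (hb : b ∈ U 1) u (hu : u ∈ U 3) => (c.p2.mem _).1 (h.q2_two 1 hb hu)
  have Fm : ∀ b ∈ U 1, ∀ u ∈ U 3, ∀ v ∈ U 3, F b (u * v) = F b u + F b v := fun b hb u hu v hv => c.p2.inj (by
    rw [c.p2.add, hF b hb _ (mul_mem hu hv), hF b hb u hu, hF b hb v hv,
      show ⁅b, u * v⁆ = ⁅b, u⁆ * (u * ⁅b, v⁆ * u⁻¹) by simp only [commutatorElement_def]; group,
      ← (h.q2_adj 2 (h.q2_two 1 hb hv) hu).eq, mul_inv_cancel_right])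
  have Fz : ∀ b ∈ U 1, ∀ z ∈ Z, F b z = 0 := fun b hb z hz => c.p2.eq_one.1 (by
    rw [hF b hb z (Z3 z hz), (((hZ z).1 hz).2 b hb).symm.commutator_eq])
  have F0 : F b0 u0 ≠ 0 := fun k => ne0 (commutatorElement_eq_one_iff_commute.1 (by rw [← hF b0 hb0 u0 hu0, k, c.p2.zero]))
  obtain ⟨v0, hv0, rfl⟩ : ∃ v ∈ U 3, b0 = n * v * n⁻¹ := ⟨n⁻¹ * b0 * n, c.mu.conj_mem' (by norm_num) hb0, by group⟩
  have Ft : ∀ t, t ≠ 0 → ∀ u ∈ U 3, t * F (n * v0 * n⁻¹) (act t u) = Q (act t e) 1 * F (n * v0 * n⁻¹) u := fun t ht u hu => by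
    obtain ⟨g, hg, h3, h0, h1, -⟩ := c.tor t ht
    obtain ⟨z, hz, k1⟩ := h1 v0 hv0
    have k2 := c.e2 h 1 hu hv0
    rw [c.act_one v0 hv0, ← hF _ hb0 u hu] at k2
    have k3 := q1_conj g (n * act t v0 * n⁻¹) u
    have k4 : Commute (n * z * n⁻¹) (act t u) := by
      simpa [mul_assoc] using (((hZ z).1 hz).2 _ (c.mu.conj_mem' (l' := 1) (by norm_num) (c.act_mem t u hu))).map
        (MulAut.conj n)
    rw [k1, h3 u hu, c.e2 h t hu hv0, lin _ (mul_mem hu hv0), lin u hu, lin v0 hv0,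
      show -(Q (u * v0) 1 * t - Q u 1 * t - Q v0 1 * t) = Q e (t ^ 2 * (F (n * v0 * n⁻¹) u / t)) by
        rw [c.Qe, c.p2.inj k2]; field_simp, c.tor2 h hg h3 h0 he, lin _ (c.act_mem t e he),
      show ⁅n * (z * v0) * n⁻¹, act t u⁆ = n * z * n⁻¹ * ⁅n * v0 * n⁻¹, act t u⁆ * (n * z * n⁻¹)⁻¹ * ⁅n * z * n⁻¹, act t u⁆ by
        simp only [commutatorElement_def]; group, k4.commutator_eq,
      (h.q2_adj 1 (c.ph (Z3 z hz)) (h.q2_two 1 hb0 (c.act_mem t u hu))).eq, mul_inv_cancel_right, mul_one,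
      ← hF _ hb0 _ (c.act_mem t u hu)] at k3
    rw [← c.p2.inj k3]; field_simp
  obtain ⟨s, hs⟩ : ∃ s : K → K, ∀ t, s t = F (n * v0 * n⁻¹) (act t u0) / F (n * v0 * n⁻¹) u0 := ⟨_, fun _ => rfl⟩
  have ω : ∀ t, Q (act t e) 1 = t * s t := fun t => by
    rcases eq_or_ne t 0 with rfl | ht
    · rw [c.act_zero e he, c.Q_one h, zero_mul]
    · rw [hs, ← mul_div_assoc, Ft t ht u0 hu0, mul_div_cancel_right₀ _ F0]
  have Fs : ∀ t, ∀ u ∈ U 3, F (n * v0 * n⁻¹) (act t u) = s t * F (n * v0 * n⁻¹) u := fun t u hu => by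
    rcases eq_or_ne t 0 with rfl | ht
    · rw [hs, c.act_zero u hu, c.act_zero u0 hu0, Fz _ hb0 1 (one_mem _), zero_div, zero_mul]
    · exact mul_left_cancel₀ ht (by rw [Ft t ht u hu, ω, mul_assoc])
  let f : K →+* K := RingHom.mk' ⟨⟨s, by rw [hs, c.act_one u0 hu0, div_self F0]⟩, fun a b => mul_right_cancel₀ F0 (by
      obtain ⟨z, hz, k⟩ := c.aa a b u0 hu0
      have := Fs a _ (c.act_mem b u0 hu0)
      rw [k, Fm _ hb0 z (Z3 z hz) _ (c.act_mem _ u0 hu0), Fz _ hb0 z hz, zero_add, Fs _ u0 hu0, Fs _ u0 hu0] at this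
      change s (a * b) * _ = s a * s b * _
      linear_combination this)⟩ fun a b => mul_right_cancel₀ F0 (by
      have := Fs (a + b) u0 hu0
      rw [(c.e1 h a b hu0).1, Fm _ hb0 _ (mul_mem (c.act_mem b u0 hu0) (Z3 _ (ζZ _ _))) _ (c.act_mem a u0 hu0),
        Fm _ hb0 _ (c.act_mem b u0 hu0) _ (Z3 _ (ζZ _ _)), Fz _ hb0 _ (ζZ _ _), Fs a u0 hu0, Fs b u0 hu0] at this
      change s (a + b) * _ = (s a + s b) * _
      linear_combination -this)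
  let σ : K ≃+* K := RingEquiv.ofBijective f (Finite.injective_iff_bijective.1 f.injective)
  replace ω : ∀ t, Q (act t e) 1 = t * σ t := ω
  have πa : ∀ t, ∀ u ∈ U 3, Q (act t u) 1 = t * σ t * Q u 1 := fun t u hu => by rw [c.π_act h he lin t hu, ω]
  have G' : ∀ z ∈ Z, ∀ a b, Q (n⁻¹ * ⁅x0 a, x2 (Q z 1 * b)⁆ * n) 1 = (a * σ b + b * σ a) * Q z 1 := fun z hz a b => by
    have := πa (a + b) z (Z3 z hz)
    rw [(c.e1 h a b (Z3 z hz)).1, Qz _ (mul_mem (aZ b z hz) (ζZ _ _)) _ (Z3 _ (aZ a z hz)), Qz _ (aZ b z hz) _ (Z3 _ (ζZ _ _)),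
      πa a z (Z3 z hz), πa b z (Z3 z hz), lin z (Z3 z hz) b, map_add] at this
    linear_combination this
  have G : ∀ a b, Q (n⁻¹ * ⁅x0 a, x2 b⁆ * n) 1 = a * σ b + b * σ a := fun a b => by
    simpa only [c.Qe, one_mul, mul_one] using G' e eZ a b
  have σσ : ∀ b, σ (σ b) = b := fun b => by
    have := G' _ (ζZ 1 b) 1 1
    simp only [G, map_one, mul_one, one_mul, map_add] at this
    linear_combination this
  refine ⟨K, _, inferInstance, x0, x2, n, e, act, _, σ, c.mk_qc h he lin σ (fun a b u hu => ?_) (fun a b => ?_)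
    (fun t a b => zi _ (aZ _ _ (ζZ _ _)) _ (ζZ _ _) ?_) (fun hc t => ?_) fun hc => ⟨σσ, ?_⟩⟩
  · obtain ⟨z, hz, k⟩ := c.aa a b u hu
    have := πa a _ (c.act_mem b u hu)
    rw [k, Qz z hz _ (c.act_mem _ u hu), πa _ u hu, πa _ u hu, map_mul] at this
    rw [k, zi z hz 1 (one_mem _) (by rw [c.Q_one h]; linear_combination this), one_mul]
  · exact mul_left_cancel (mul_right_cancel (zi _ (ζZ a b) _ (ζZ 1 (σ a * b)) (by rw [G, G, map_mul, σσ, map_one]; ring)))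
  · rw [πa _ _ (Z3 _ (ζZ _ _)), G, G, map_mul, map_mul]; ring
  · have k : ∀ b, 0 = σ b + b := fun b => by
      simpa [(hc _ (c.p0.apply_mem 1) _ (c.p2.apply_mem b)).commutator_eq, c.Q_one h] using G 1 b
    have k1 := k 1
    rw [map_one] at k1
    rw [ω]; linear_combination -t * k t + t ^ 2 * k1
  · obtain ⟨_, ha, _, hb, k⟩ : ∃ a ∈ U 0, ∃ b ∈ U 2, ¬ Commute a b := by simpa [Cm] using hc
    obtain ⟨a, rfl⟩ := (c.p0.mem _).1 ha
    obtain ⟨b, rfl⟩ := (c.p2.mem _).1 hb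
    have r0 : a * σ b + b * σ a ≠ 0 := G a b ▸ c.ne _ (Z3 _ (ζZ a b)) fun z =>
      k (commutatorElement_eq_one_iff_commute.1 (by simpa [mul_assoc] using congrArg (fun x => n * x * n⁻¹) z))
    refine ⟨b * σ a / (a * σ b + b * σ a), ?_⟩
    rw [← zi _ (ζZ 1 (b * σ a / (a * σ b + b * σ a))) e eZ (by
      rw [G, c.Qe, map_div₀, map_add, map_mul, map_mul, σσ, σσ, map_one, show σ a * b + σ b * a = a * σ b + b * σ a by ring]
      rw [one_mul, mul_one, ← add_div, div_eq_one_iff_eq r0]; ring)]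
    group

theorem IsPoly.quad_qc (h : IsPoly 4 U) : HasQC U ∨ HasQC (fun l => U (3 - l)) := by
  by_cases h1 : Cm (U 0) (U 2)
  · exact Or.inl (h.qc_one h1)
  by_cases h2 : Cm (U 1) (U 3)
  · exact Or.inr ((h.rev4 3).qc_one fun a ha b hb => (h2 b hb a ha).symm)
  rcases h.fq_exists with ⟨z, hz, z1, zc⟩ | ⟨z, hz, z1, zc⟩
  · exact Or.inl (h.qc_wide hz z1 zc h2)
  · exact Or.inr ((h.rev4 3).qc_wide hz z1 zc fun k => h1 fun a ha b hb => (k b hb a ha).symm)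

theorem fq_cm_rev {Γ : Type*} [Group Γ] {A B : Subgroup Γ} : Cm A B ↔ Cm B A :=
  ⟨fun k a ha b hb => (k b hb a ha).symm, fun k a ha b hb => (k b hb a ha).symm⟩

theorem HasQC.qpar (h : IsPoly 4 U) (c : HasQC U) :
    QPar (Nat.card (U 0)) (Nat.card (U 3)) (Cm (U 0) (U 2)) (Cm (U 1) (U 3)) := by
  obtain ⟨K, _, _, x0, x2, n, e, act, π, σ, c⟩ := c
  exact c.qpar h

/-- The parameters of a finite Moufang quadrangle. -/
theorem IsPoly.quad_par (h : IsPoly 4 U) :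
    QPar (Nat.card (U 0)) (Nat.card (U 3)) (Cm (U 0) (U 2)) (Cm (U 1) (U 3)) ∨
      QPar (Nat.card (U 3)) (Nat.card (U 0)) (Cm (U 1) (U 3)) (Cm (U 0) (U 2)) := by
  refine h.quad_qc.imp (HasQC.qpar h) fun c => ?_
  have := c.qpar (h.rev4 3)
  rw [fq_cm_rev (A := U 1), fq_cm_rev (A := U 0)]
  exact this

variable {Γ' : Type*} [Group Γ'] [Finite Γ'] {U' : ℤ → Subgroup Γ'}

theorem HasQC.graph (h : IsPoly 4 U) (h' : IsPoly 4 U') (c : HasQC U) (c' : HasQC U')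
    (h0 : Nat.card (U 0) = Nat.card (U' 0)) (h3 : Nat.card (U 3) = Nat.card (U' 3))
    (hk : Cm (U 0) (U 2) ↔ Cm (U' 0) (U' 2)) : ∃ D, Graph 4 U U' D := by
  obtain ⟨K, _, _, x0, x2, n, e, act, π, σ, c⟩ := c
  obtain ⟨K', _, _, x0', x2', n', e', act', π', σ', c'⟩ := c'
  exact c.graph h h' c' h0 h3 hk

omit [Finite Γ] [Finite Γ'] in
theorem Graph.of_rev4 {D : ℤ → Subgroup (Γ × Γ')} (g : Graph 4 (fun l => U (3 - l)) (fun l => U' (3 - l)) D) :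
    Graph 4 U U' (fun l => D (3 - l)) := by
  refine ⟨fun k k0 k1 => by simpa using g.gr (3 - k) (by omega) (by omega), fun k r k0 k1 x hx y hy => ?_⟩
  have := g.comm (3 - (k + r + 1)) r (by omega) (by omega) y hy x (mem_U_congr (by ring) hx)
  rw [← commutatorElement_inv]
  obtain rfl | rfl | rfl : r = 0 ∨ r = 1 ∨ r = 2 := by omega
  · exact inv_eq_one.2 this
  · exact mem_UP_one.2 (inv_mem (mem_U_congr (by push_cast; ring) (mem_UP_one.1 this)))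
  · obtain ⟨a, ha, b, hb, k⟩ := mem_UP_two.1 this
    exact mem_UP_two.2 ⟨b⁻¹, inv_mem (mem_U_congr (by push_cast; ring) hb), a⁻¹,
      inv_mem (mem_U_congr (by push_cast; ring) ha), by rw [← k, mul_inv_rev]⟩

theorem fq_qpar_ne {q t : ℕ} {A A' B B' : Prop} (h : QPar q t A A') (h' : QPar t q B B') (a : ¬ A) (a' : ¬ A')
    (b : ¬ B) (b' : ¬ B') : False := by
  obtain ⟨-, ⟨k, -⟩ | ⟨-, -, -, k⟩ | ⟨-, r, hr, rfl, k⟩⟩ := h
  · exact a k
  · exact a' k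
  obtain ⟨-, ⟨k', -⟩ | ⟨-, -, -, k'⟩ | ⟨-, s, hs, rfl, k'⟩⟩ := h'
  · exact b k'
  · exact b' k'
  have r2 := hr.two_le
  have inj : ∀ i j : ℕ, r ^ i = r ^ j → i = j := fun i j e => Nat.pow_right_injective r2 e
  rcases k with k | k <;> rcases k' with k' | k'
  · exact absurd (inj 4 1 (by rw [pow_one, show r ^ 4 = (r ^ 2) ^ 2 by ring, k', k])) (by norm_num)
  · exact absurd (inj 4 3 (by rw [show r ^ 4 = (r ^ 2) ^ 2 by ring, k', ← k]; ring)) (by norm_num)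
  · exact absurd (inj 4 3 (by rw [← k, ← k']; ring)) (by norm_num)
  · exact absurd (inj 4 9 (by rw [show r ^ 4 = (r ^ 2) ^ 2 by ring, k', show r ^ 9 = (r ^ 3) ^ 3 by ring, ← k]; ring))
      (by norm_num)

/-- A finite Moufang quadrangle is determined by its parameters and its kind. -/
theorem IsPoly.quad_graph (h : IsPoly 4 U) (h' : IsPoly 4 U') (h0 : Nat.card (U 0) = Nat.card (U' 0))
    (h3 : Nat.card (U 3) = Nat.card (U' 3)) (k0 : Cm (U 0) (U 2) ↔ Cm (U' 0) (U' 2))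
    (k1 : Cm (U 1) (U 3) ↔ Cm (U' 1) (U' 3)) : ∃ D, Graph 4 U U' D := by
  have rv : HasQC (fun l => U (3 - l)) → HasQC (fun l => U' (3 - l)) → ∃ D, Graph 4 U U' D := fun c c' => by
    obtain ⟨D, g⟩ := c.graph (h.rev4 3) (h'.rev4 3) c' h3 h0 (fq_cm_rev.trans (k1.trans fq_cm_rev))
    exact ⟨_, g.of_rev4⟩
  by_cases h1 : Cm (U 0) (U 2)
  · exact (h.qc_one h1).graph h h' (h'.qc_one (k0.1 h1)) h0 h3 k0
  by_cases h2 : Cm (U 1) (U 3)
  · exact rv ((h.rev4 3).qc_one (fq_cm_rev.1 h2)) ((h'.rev4 3).qc_one (fq_cm_rev.1 (k1.1 h2)))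
  rcases h.quad_qc with c | c <;> rcases h'.quad_qc with c' | c'
  · exact c.graph h h' c' h0 h3 k0
  · exact (fq_qpar_ne (c.qpar h) (h0 ▸ h3 ▸ c'.qpar (h'.rev4 3)) h1 h2 (mt (k1.2 ∘ fq_cm_rev.1) h2)
      (mt (k0.2 ∘ fq_cm_rev.1) h1)).elim
  · exact (fq_qpar_ne (c'.qpar h') (h0 ▸ h3 ▸ c.qpar (h.rev4 3)) (mt k0.2 h1) (mt k1.2 h2) (mt fq_cm_rev.1 h2)
      (mt fq_cm_rev.1 h1)).elim
  · exact rv c c'

end Cfsg.Agent.Bld
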